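/-
S3860 (real classes of the same 2-part): interface.  Proofs: `notes/RL.md`.
-/
import Cfsg.Agent.H17.GS10

set_option autoImplicit false
set_option linter.unusedVariables false

namespace H9.RL
open Cfsg Subgroup H19 H17.GS
open scoped commutatorElement

universe u
section defs
variable {G : Type u} [Group G]

/-- `x` is real -/
def Re (x : G) : Prop := ∃ g : G, g * x * g⁻¹ = x⁻¹

/-- the reduced situation: `O(G) = 1`, `|G|₂ = 2^(a+b)`, `|C(x)|₂ = 2^b` for non-central real `x` -/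
structure St (G : Type u) [Group G] (a b : ℕ) : Prop where
  hy : ∀ x : G, Re x → x ∉ center G → ∀ P : Subgroup G, Syl 2 P C[x] → #P = 2 ^ b
  oo : O((⊤ : Subgroup G)) = ⊥
  sy : ∀ S : Subgroup G, Syl 2 S ⊤ → #S = 2 ^ (a + b)

/-- `t` inverts the element `x ≠ 1` of odd order -/
structure Ox (x t : G) : Prop where
  ne : x ≠ 1
  odd : Odd (orderOf x)
  inv : t * x * t⁻¹ = x⁻¹

/-- the set `𝓡`: non-central real elements with central square -/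
structure Rr (r : G) : Prop where
  re : Re r
  nc : r ∉ center G
  sq : r * r ∈ center G

/-- `L` is the normal component -/
structure Cf (a b : ℕ) (L : Subgroup G) : Prop extends St G a b where
  qs : IsQuasisimple L
  nm : L.Normal
  pz : H19.PG 2 Z(L)
  zi : ∀ z ∈ C(L), z * z = 1 → z ∈ center G

/-- `φ` is the projection `G → G / Z(L)` -/
structure Bar {B : Type u} [Group B] (L : Subgroup G) (φ : G →* B) : Prop where
  ker : ∀ x, φ x = 1 ↔ x ∈ Z(L)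
  sur : Function.Surjective φ
  sim : Sim (L.map φ)

/-- a class `K` of involutions with coloured commuting pairs (`K` in `G / Z(G)`, `c` = commutator of lifts) -/
structure Geo {H A : Type u} [Group H] [Group A] (K : Set H) (c : H → H → A) : Prop where
  inv : ∀ s ∈ K, s * s = 1
  J : ∀ s ∈ K, ∀ g, g * s * g⁻¹ ∈ K
  tr : ∀ s ∈ K, ∀ t ∈ K, ∃ g, g * s * g⁻¹ = t
  odd : Odd K.ncard
  cJ : ∀ s ∈ K, ∀ t ∈ K, Commute s t → ∀ g, c (g * s * g⁻¹) (g * t * g⁻¹) = c s t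
  cs : ∀ s ∈ K, ∀ t ∈ K, Commute s t → c s t = c t s
  cm : ∀ f ∈ K, ∀ x y, Commute x f → Commute y f → c (x * y) f = c x f * c y f
  c2 : ∀ f ∈ K, ∀ x, Commute x f → c x f * c x f = 1
  g2 : ∀ s ∈ K, ∀ t ∈ K, Commute s t ∨ Odd (orderOf (s * t))
  i1 : ∀ s ∈ K, ∀ t ∈ K, ¬ Commute s t → ∀ f ∈ K, Commute s f → Commute t f → c s f = c t f
  i2 : ∀ s ∈ K, ∀ t ∈ K, ¬ Commute s t → ∀ f ∈ K, ∀ g ∈ K, f ≠ g → Commute f g → Commute s f → Commute t f →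
    Commute s g → Commute t g → c s f ≠ c s g
  i3 : ∀ s ∈ K, ∀ g ∈ K, s ≠ g → Commute s g → ∀ t ∈ K, Commute t (s * g) → Commute t s
  i4 : ∀ s ∈ K, ∀ g ∈ K, ∀ f ∈ K, ∀ t ∈ K, s ≠ g → Commute s g → Commute s f → Commute g f → Commute t f →
    ¬ Commute t s → c s g = c t f → ∃ m, Odd m ∧ (s * g * t) ^ m = f

/-- the line of `u` -/
def Ln {H : Type u} [Group H] (K : Set H) (u : H) : Set H := {p | p ∈ K ∧ Commute p u}

/-- lines are cliques -/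
def LL {H : Type u} [Group H] (K : Set H) : Prop := ∀ s ∈ K, ∀ g ∈ K, s ≠ g → Commute s g →
  ∀ p ∈ Ln K (s * g), ∀ q ∈ Ln K (s * g), Commute p q
/-- `s * g` normalizes only one line -/
def LU {H : Type u} [Group H] (K : Set H) : Prop := ∀ s ∈ K, ∀ g ∈ K, s ≠ g → Commute s g →
  ∀ s' ∈ K, ∀ g' ∈ K, s' ≠ g' → Commute s' g' →
  (∀ p ∈ Ln K (s' * g'), s * g * p * (s * g)⁻¹ ∈ Ln K (s' * g')) → Ln K (s' * g') = Ln K (s * g)

/-- the class of `s` in `G / Z(G)` -/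
def Kh (s : G) : Set (G ⧸ center G) := {y | ∃ g : G, y = ((g * s * g⁻¹ : G) : G ⧸ center G)}
/-- the colouring -/
noncomputable def cc (x y : G ⧸ center G) : G := ⁅x.out, y.out⁆

/-- the case `a = 1`; `S = Q ⊔ zpowers u`, `c = u * u` -/
structure On (b : ℕ) (L Q : Subgroup G) (x u v : G) : Prop extends Cf 1 b L where
  xL : x ∈ L
  uL : u ∈ L
  vL : v ∈ L
  ox : Ox x u
  sq : Syl 2 Q C[x]
  nq : u ∈ N(Q)
  uq : u * u ∈ Q
  ss : Syl 2 (Q ⊔ zpowers u) ⊤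
  vq : v ∈ Q
  vz : ∀ q ∈ Q, q * v = v * q
  vv : v * v = u * u
  c1 : u * u ≠ 1
  cz : u * u ∈ center G
  uv : u * v * u⁻¹ = v⁻¹
  au : ∀ g, g * u * g⁻¹ * u⁻¹ ∈ center G → g * u * g⁻¹ = u ∨ g * u * g⁻¹ = u⁻¹

/-- the structure of `S` for `a = 1` -/
structure Ob (Q : Subgroup G) (x u : G) : Prop where
  nd : ∀ d ∈ Q, d * u = u * d → ∀ m ∈ C[x], m * d * m⁻¹ = d⁻¹ → d ∈ center G
  iz : ∀ q ∈ Q, u * q * u⁻¹ = q⁻¹ → ∀ r ∈ Q, r * q = q * r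
  om : ∀ r ∈ Q, r⁻¹ * (u * r * u⁻¹) * (r⁻¹ * (u * r * u⁻¹)) = 1 → u * r * u⁻¹ = r ∨ u * r * u⁻¹ = r * (u * u)
  kk : ∀ d ∈ Q, d * u = u * d → ∀ r ∈ Q ⊔ zpowers u, r * r = u * u → d * r * d⁻¹ ≠ r⁻¹

end defs

def MAIN : Prop := ∀ (G : Type u) [Group G] [Finite G] (a b : ℕ), St G a b →
  ∃ S : Subgroup G, Syl 2 S ⊤ ∧ S.Normal
def RED : Prop := MAIN.{u} → ∀ (G : Type u) [Group G] [Finite G] (a : ℕ),
  (∀ x : G, IsConj x x⁻¹ → x ∉ center G → ((centralizer ({x} : Set G)).index).factorization 2 = a) →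
  ∃ N K : Subgroup G, N.Normal ∧ K.Normal ∧ N ≤ K ∧ Odd (Nat.card N) ∧ Odd K.index ∧ ∃ j : ℕ, N.relIndex K = 2 ^ j
def S1 : Prop := ∀ {G : Type u} [Group G] [Finite G], (∀ x t : G, ¬ Ox x t) → ∃ S : Subgroup G, Syl 2 S ⊤ ∧ S.Normal
def CON : Prop := ∀ {G : Type u} [Group G] [Finite G] {a b : ℕ} {x t : G}, St G a b → Ox x t →
  ∃ L : Subgroup G, Comp L ⊤
def F1 : Prop := ∀ {G : Type u} [Group G] [Finite G] {a b : ℕ} {x t t' v : G}, St G a b → Ox x t → Ox x t' →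
  PiE {2} v → v ∈ C[x] → t * v * t⁻¹ = v⁻¹ → t' * v * t'⁻¹ = v → v ∈ center G
def LB : Prop := ∀ {G : Type u} [Group G] [Finite G] {L : Subgroup G} {u : G}, IsQuasisimple L → H19.PG 2 Z(L) →
  u ∈ L → u ∉ C(L) → u * u ∈ C(L) → ∃ x ∈ L, Ox x u
def LZ : Prop := ∀ {G : Type u} [Group G] [Finite G] {L T : Subgroup G} {d : G}, IsQuasisimple L → H19.PG 2 Z(L) →
  Syl 2 T L → d ∈ T → d ∉ C(L) → ∃ l ∈ L, l * d * l⁻¹ ∈ T ∧ d⁻¹ * (l * d * l⁻¹) ∉ C(L)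
def UC : Prop := ∀ {G : Type u} [Group G] [Finite G] {a b : ℕ} {L : Subgroup G}, St G a b → Comp L ⊤ →
  Cf a b L ∧ ∃ u ∈ L, Rr u ∧ u ∉ C(L)
def R2 : Prop := ∀ {G : Type u} [Group G] [Finite G] {a b : ℕ} {S : Subgroup G} {r : G}, St G a b → Rr r →
  Syl 2 S ⊤ → Syl 2 (S ⊓ C[r]) C[r] → ∀ s ∈ S, s * r * s⁻¹ * r⁻¹ ∈ center G
def R1 : Prop := ∀ {G : Type u} [Group G] [Finite G] {a b : ℕ} {v : G}, St G a b → 2 ≤ a → Re v → PiE {2} v →
  v * v ∈ center G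
def F4 : Prop := ∀ {G : Type u} [Group G] [Finite G] {a b : ℕ} {x t v : G}, St G a b → 2 ≤ a → Ox x t →
  PiE {2} v → v ∈ C[x] → t * v * t⁻¹ = v⁻¹ → v ∈ center G
def GI : Prop := ∀ {G : Type u} [Group G] [Finite G] {a b : ℕ} {s : G}, St G a b → 2 ≤ a → Rr s →
  Geo (Kh s) (cc (G := G))
def GE1 : Prop := ∀ {H A : Type u} [Group H] [Finite H] [Group A] {K : Set H} {c : H → H → A}, Geo K c → LL K
def GE2 : Prop := ∀ {H A : Type u} [Group H] [Finite H] [Group A] {K : Set H} {c : H → H → A}, Geo K c → LL K → LU K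
def HOL : Prop := ∀ {G B : Type u} [Group G] [Finite G] [Group B] [Finite B] {a b : ℕ} {L : Subgroup G}
  {φ : G →* B} {s : G}, Cf a b L → Bar L φ → 2 ≤ a → s ∈ L → Rr s → s ∉ C(L) → Geo (Kh s) (cc (G := G)) →
  LL (Kh s) → LU (Kh s) → ∃ Y, SE Y (L.map φ)
def BN1 : Prop := ∀ {G B : Type u} [Group G] [Finite G] [Group B] [Finite B] {a b : ℕ} {L T : Subgroup G}
  {φ : G →* B} {s : G} {Y : Subgroup B}, Cf a b L → Bar L φ → 2 ≤ a → s ∈ L → Rr s → s ∉ C(L) →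
  Geo (Kh s) (cc (G := G)) → SE Y (L.map φ) → Syl 2 T L → #T ≤ 2 ^ a * #Z(L)
def BN2 : Prop := ∀ {G B : Type u} [Group G] [Finite G] [Group B] [Finite B] {a b : ℕ} {L : Subgroup G}
  {φ : G →* B} {s : G} {Y : Subgroup B}, Cf a b L → Bar L φ → 2 ≤ a → s ∈ L → Rr s → s ∉ C(L) →
  SE Y (L.map φ) → (∀ T, Syl 2 T L → #T ≤ 2 ^ a * #Z(L)) → False
def A0 : Prop := ∀ {G : Type u} [Group G] [Finite G] {b : ℕ} {x t : G}, St G 0 b → ¬ Ox x t
def A1 : Prop := ∀ {G : Type u} [Group G] [Finite G] {b : ℕ} {L : Subgroup G} {u : G}, Cf 1 b L → u ∈ L → Rr u →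
  u ∉ C(L) → ∃ Q x u v, On b L Q x u v
def A2 : Prop := ∀ {G : Type u} [Group G] [Finite G] {b : ℕ} {L Q : Subgroup G} {x u v : G}, On b L Q x u v →
  Ob Q x u
def A3 : Prop := ∀ {G : Type u} [Group G] [Finite G] {b : ℕ} {L Q : Subgroup G} {x u v : G}, On b L Q x u v →
  Ob Q x u → ∀ d ∈ Q, d ∈ L → d * u = u * d → d ∈ C(L)
def A4 : Prop := ∀ {G B : Type u} [Group G] [Finite G] [Group B] [Finite B] {b : ℕ} {L Q : Subgroup G}
  {φ : G →* B} {x u v : G}, On b L Q x u v → Bar L φ → Ob Q x u → (∀ d ∈ Q, d ∈ L → d * u = u * d → d ∈ C(L)) →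
  ∃ (T : Sylow 2 (L.map φ)) (n : ℕ), 2 ≤ n ∧ Nonempty ((T : Subgroup (L.map φ)) ≃* DihedralGroup n)
/-- Gorenstein-Walter: a real element of odd order with a centralizer of odd order -/
def GW : Prop := ∀ {X : Type u} [Group X] [Finite X] [IsSimpleGroup X], ¬ IsMulCommutative X →
  ∀ (T : Sylow 2 X) (n : ℕ), 2 ≤ n → Nonempty ((T : Subgroup X) ≃* DihedralGroup n) →
  ∃ x t : X, Ox x t ∧ ∀ y : X, y * y = 1 → y * x = x * y → y = 1
def A5 : Prop := ∀ {G B : Type u} [Group G] [Finite G] [Group B] [Finite B] {b : ℕ} {L Q : Subgroup G}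
  {φ : G →* B} {x u v : G}, On b L Q x u v → Bar L φ → ∀ y ∈ L.map φ, ∀ t ∈ L.map φ, Ox y t →
  ∃ z ∈ L.map φ, z * z = 1 ∧ z * y = y * z ∧ z ≠ 1
def BAR : Prop := ∀ {G : Type u} [Group G] [Finite G] {a b : ℕ} {L : Subgroup G}, Cf a b L →
  ∃ (B : Type u) (_ : Group B) (_ : Finite B) (φ : G →* B), Bar L φ

/-- glue -/
theorem main_of (s1 : S1.{u}) (con : CON.{u}) (uc : UC.{u}) (gi : GI.{u}) (ge1 : GE1.{u}) (ge2 : GE2.{u})
    (hol : HOL.{u}) (bn1 : BN1.{u}) (bn2 : BN2.{u}) (a0 : A0.{u}) (a1 : A1.{u}) (a2 : A2.{u}) (a3 : A3.{u})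
    (a4 : A4.{u}) (gw : GW.{u}) (a5 : A5.{u}) (bar : BAR.{u}) : MAIN.{u} := fun G _ _ a b h => by
  refine s1 fun x t o => ?_
  obtain ⟨L, hL⟩ := con h o
  obtain ⟨c, s, sL, r, sC⟩ := uc h hL
  obtain ⟨B, _, _, φ, hφ⟩ := bar c
  rcases a with _ | _ | a
  · exact a0 h o
  · obtain ⟨Q, x, u, v, k⟩ := a1 c sL r sC
    obtain ⟨T, n, hn, e⟩ := a4 k hφ (a2 k) (a3 k (a2 k))
    have := hφ.sim.simple
    obtain ⟨y, t, o, f⟩ := gw hφ.sim.nab T n hn e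
    obtain ⟨z, z1, z2, z3, z4⟩ := a5 k hφ y y.2 t t.2
      ⟨fun e => o.ne (Subtype.ext e), by rw [orderOf_coe]; exact o.odd, congrArg Subtype.val o.inv⟩
    exact z4 (congrArg Subtype.val (f ⟨z, z1⟩ (Subtype.ext z2) (Subtype.ext z3)))
  · have g := gi h (by omega) r
    obtain ⟨Y, hY⟩ := hol c hφ (by omega) sL r sC g (ge1 g) (ge2 g (ge1 g))
    exact bn2 c hφ (by omega) sL r sC hY fun T hT => bn1 c hφ (by omega) sL r sC g hY hT

end H9.RL
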