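import Cfsg.Agent.H17.FV0

/-! S5720, chunk `BL`: Jordan blocks of `e` against the weight spaces. -/

set_option autoImplicit false
set_option linter.unusedSectionVars false

open Module H17.FV

namespace H9.FV

universe v w

theorem rn {K M : Type*} [Field K] [AddCommGroup M] [Module K M] [FiniteDimensional K M]
    (f : End K M) (S : Submodule K M) :
    finrank K S = finrank K (S.map f) + finrank K ↥(LinearMap.ker f ⊓ S) := by
  have h := LinearMap.finrank_range_add_finrank_ker (f.domRestrict S)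
  rw [LinearMap.range_domRestrict, LinearMap.ker_domRestrict] at h
  rw [← h, ← Submodule.finrank_map_subtype_eq S, Submodule.map_comap_subtype, inf_comm]

section
variable {K A M : Type*} [Field K] [Ring A] [Algebra K A] [AddCommGroup M] [Module K M] [Module A M]
  [IsScalarTower K A M] {p : ℕ} [Fact p.Prime] [CharP K p] {D : Dat K A p}

theorem memV (ef : D.EF) {j : ℕ} {m : M} :
    m ∈ LinearMap.range (act K M (D.π j)) ↔ D.π j • m = m := by
  constructor
  · rintro ⟨x, rfl⟩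
    show D.π j • D.π j • x = D.π j • x
    rw [← mul_smul, ef.ππ]
  · exact fun h => ⟨m, h⟩

theorem eV (ef : D.EF) {j : ℕ} {m : M} (h : D.π j • m = m) (k : ℕ) :
    D.π (j + 2 * k) • D.e ^ k • m = D.e ^ k • m := by
  induction k with
  | zero => simpa using h
  | succ k ih =>
    rw [pow_succ', mul_smul, mul_add, mul_one, ← add_assoc, ← mul_smul, ← ef.eπ, mul_smul, ih]

theorem rmul (x y : A) : LinearMap.range (act K M (x * y)) =
    (LinearMap.range (act K M y)).map (act K M x) := by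
  rw [← LinearMap.range_comp]
  exact congrArg LinearMap.range (map_mul (Algebra.lsmul K K M) x y)
end

theorem bl (ch : CH.{v, w}) : BL.{v, w} := by
  intro K A M _ _ _ _ _ _ _ _ p _ _ D ν hp hν ef
  have hc := ch K A M p D ν hp hν ef 0
  obtain ⟨d, hd⟩ : ∃ d, p = 2 * (d + 1) + 1 := by
    obtain ⟨k, hk⟩ := (Fact.out : p.Prime).odd_of_ne_two (by omega)
    exact ⟨k - 1, by omega⟩
  have e1 : (p - 1) / 2 = d + 1 := by omega
  rw [e1] at hc
  show 2 * rk K M _ + 2 * rk K M (D.e ^ ((p - 1) / 2) * D.π 3) + _ ≤ _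
  rw [e1]
  have per : ∀ j k, j = k + (p - 1) → D.π j = D.π k := fun j k h =>
    ef.per j k (by rw [h]; exact (Nat.modEq_iff_dvd' (Nat.le_add_right _ _)).2 (by simp) |>.symm)
  have pw : ∀ (a b : ℕ) (m : M), D.e ^ a • D.e ^ b • m = D.e ^ (a + b) • m := fun a b m => by
    rw [← mul_smul, ← pow_add]
  have z : ∀ (a : ℕ) (m : M), a = p → D.e ^ a • m = 0 := fun a m h => by rw [h, ef.ep, zero_smul]
  have hA : ∀ j, ∀ m ∈ LinearMap.range (act K M (D.e * D.π j)),
      ∃ x : M, m = D.e ^ 1 • x ∧ D.π (j + 2 * 1) • m = m := by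
    rintro j _ ⟨x, rfl⟩
    have a : act K M (D.e * D.π j) x = D.e ^ 1 • D.π j • x := by rw [pow_one, ← mul_smul]; rfl
    exact ⟨_, a, a ▸ eV ef ((memV (K := K) ef).1 ⟨x, rfl⟩) 1⟩
  set V3 := LinearMap.range (act K M (D.π 3)) with hV3
  set K1 := LinearMap.ker (act K M (D.e ^ (2 * d + 1))) ⊓ V3 with hK1
  have r1 := rn (act K M (D.e ^ (d + 1))) (LinearMap.range (act K M (D.e * D.π (p - 2))))
  have r2 := rn (act K M (D.e ^ (d + 1))) (LinearMap.range (act K M (D.e * D.π (p - 3))))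
  have r3 := rn (act K M (D.e ^ d)) K1
  have r4 := rn (act K M (D.e ^ (d + 1))) K1
  have r5 := rn (act K M (D.e ^ (d + 1))) V3
  have l1 : LinearMap.ker (act K M (D.e ^ (d + 1))) ⊓ LinearMap.range (act K M (D.e * D.π (p - 2))) ≤
      LinearMap.ker (act K M (D.e ^ (d + 1))) ⊓ LinearMap.range (act K M (D.π (0 + 1))) :=
    inf_le_inf_left _ fun m hm => by
      obtain ⟨x, -, h⟩ := hA _ m hm
      rw [per _ (0 + 1) (by omega)] at h
      exact (memV ef).2 h
  have l2 : (LinearMap.range (act K M (D.e * D.π (p - 2)))).map (act K M (D.e ^ (d + 1))) ≤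
      K1.map (act K M (D.e ^ d)) := by
    rintro _ ⟨m, hm, rfl⟩
    obtain ⟨x, hx, h⟩ := hA _ m hm
    rw [per _ 1 (by omega)] at h
    refine ⟨D.e ^ 1 • m, ⟨?_, (memV ef).2 (eV ef h 1)⟩, pw _ _ _⟩
    show D.e ^ (2 * d + 1) • D.e ^ 1 • m = 0
    rw [hx, pw, pw]
    exact z _ _ (by omega)
  have l3 : K1.map (act K M (D.e ^ (d + 1))) ≤ LinearMap.ker (act K M (D.e ^ d)) ⊓ K1 := by
    rintro _ ⟨m, ⟨h1, h2⟩, rfl⟩
    have h1' : D.e ^ (2 * d + 1) • m = 0 := h1
    have h3 := eV ef ((memV ef).1 h2) (d + 1)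
    rw [per _ 3 (by omega)] at h3
    refine ⟨?_, ?_, (memV ef).2 h3⟩
    · show D.e ^ d • D.e ^ (d + 1) • m = 0
      rw [pw, ← h1']; congr 2; omega
    · show D.e ^ (2 * d + 1) • D.e ^ (d + 1) • m = 0
      rw [pw, add_comm, ← pw, h1', smul_zero]
  have l4 : LinearMap.ker (act K M (D.e ^ (d + 1))) ⊓ K1 ≤
      LinearMap.ker (act K M (D.e ^ (d + 1))) ⊓ V3 := inf_le_inf_left _ inf_le_right
  have l5 : LinearMap.range (act K M (D.e * D.π (p - 3))) ≤ LinearMap.range (act K M (D.π 0)) :=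
    fun m hm => by
      obtain ⟨x, -, h⟩ := hA _ m hm
      rw [per _ 0 (by omega)] at h
      exact (memV ef).2 h
  have l6 : (LinearMap.range (act K M (D.e * D.π (p - 3)))).map (act K M (D.e ^ (d + 1))) ≤
      LinearMap.ker (act K M (D.e ^ (d + 1))) ⊓ LinearMap.range (act K M (D.π 0)) := by
    rintro _ ⟨m, hm, rfl⟩
    obtain ⟨x, hx, -⟩ := hA _ m hm
    have h3 := eV ef ((memV ef).1 (l5 hm)) (d + 1)
    rw [per _ 0 (by omega)] at h3
    refine ⟨?_, (memV ef).2 h3⟩
    show D.e ^ (d + 1) • D.e ^ (d + 1) • m = 0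
    rw [hx, pw, pw]
    exact z _ _ (by omega)
  have m1 := Submodule.finrank_mono l1
  have m2 := Submodule.finrank_mono l2
  have m3 := Submodule.finrank_mono l3
  have m4 := Submodule.finrank_mono l4
  have m5 := Submodule.finrank_mono (inf_le_inf_left (LinearMap.ker (act K M (D.e ^ (d + 1)))) l5)
  have m6 := Submodule.finrank_mono l6
  have q : rk K M (D.e ^ (d + 1) * D.π 3) = finrank K (V3.map (act K M (D.e ^ (d + 1)))) := by
    rw [rk, rmul]
  rw [q]
  unfold rk
  rw [← hV3]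
  omega

end H9.FV
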