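import Cfsg.Agent.H0.RU1

/-! S2196: chunks `FIX`, `CEN` (elements of primitive prime order in unitary groups). -/

set_option autoImplicit false
set_option linter.unusedSectionVars false
set_option linter.unusedVariables false

open Module MulAction H13.R3 H12 H0.RU
open H11 (hermT frob)

namespace H9.RU

universe u

variable {F : Type u} [Field F] [Fintype F] {q : ℕ} {hF : Fintype.card F = q ^ 2}
  {V : Type u} [AddCommGroup V] [Module F V] [Fintype V] {C : CForm (hermT hF) V}
  {G : Type u} [Group G] [Fintype G] [DistribMulAction G V] [SMulCommClass G F V]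

theorem pw_mem {S : Set V} {g : G} (h : ∀ s ∈ S, g • s ∈ S) (i : ℕ) : ∀ s ∈ S, g ^ i • s ∈ S := by
  induction i with
  | zero => simp
  | succ i ih => exact fun s hs => by rw [pow_succ', mul_smul]; exact h _ (ih s hs)

theorem pw_fix {g : G} {v : V} (h : g • v = v) (i : ℕ) : g ^ i • v = v :=
  pw_mem (S := {v}) (by rintro _ rfl; exact h) i v rfl

/-- fixed point free action of an `r`-element -/
theorem fpf {r k : ℕ} (hr : r.Prime) {g : G} (hg : g ^ r ^ k = 1) {S : Set V} (h : ∀ s ∈ S, g • s ∈ S)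
    (n : ∀ s ∈ S, g • s ≠ s) : r ∣ S.ncard := by
  classical
  have := Fact.mk hr
  let f : Function.End S := fun s => ⟨g • s.1, h _ s.2⟩
  have e : ∀ i (s : S), ((f ^ i) s).1 = g ^ i • s.1 := fun i => by
    induction i with
    | zero => exact fun s => by rw [pow_zero, pow_zero, one_smul]; rfl
    | succ i ih => exact fun s => by rw [pow_succ', pow_succ', mul_smul, ← ih]; rfl
  have := Equiv.Perm.card_fixedPoints_modEq (f := f) (p := r) (n := k)
    (funext fun s => Subtype.ext (by rw [e, hg, one_smul]; rfl))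
  rw [(Fintype.card_eq_zero_iff (α := f.fixedPoints)).2 ⟨fun s => n _ s.1.2 (congrArg Subtype.val s.2)⟩] at this
  rwa [← Nat.card_coe_set_eq, Nat.card_eq_fintype_card, ← Nat.modEq_zero_iff_dvd]

theorem rne {r e : ℕ} (hF : Fintype.card F = q ^ 2) (h : Od q r e) (he : 1 ≤ e) : (r : F) ≠ 0 := fun z => by
  obtain ⟨p, k, hp, _, hk, rfl⟩ := ex_char hF
  rw [CharP.cast_eq_zero_iff F p, Nat.prime_dvd_prime_iff_eq hp h.1] at z
  exact h.not_dvd he (z ▸ dvd_pow_self p hk.ne')

/-- the fixed space -/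
def fx (F V : Type u) [Field F] [AddCommGroup V] [Module F V] [DistribMulAction G V] [SMulCommClass G F V] (g : G) :
    Submodule F V where
  carrier := {v | g • v = v}
  zero_mem' := smul_zero g
  add_mem' {a b} ha hb := by simp only [Set.mem_ofPred_eq, smul_add] at *; rw [ha, hb]
  smul_mem' c {a} ha := by simp only [Set.mem_ofPred_eq, gsc] at *; rw [ha]

theorem mem_fx {g : G} {v : V} : v ∈ fx F V g ↔ g • v = v := Iff.rfl

theorem sum_fix {g : G} {m : ℕ} (hg : g ^ m = 1) (u : V) :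
    g • ∑ i ∈ Finset.range m, g ^ i • u = ∑ i ∈ Finset.range m, g ^ i • u := by
  have := Finset.sum_range_succ' (fun i => g ^ i • u) m
  rw [Finset.sum_range_succ, hg, pow_zero, add_left_inj] at this
  rw [Finset.smul_sum, this]
  simp only [pow_succ', mul_smul]

theorem fix : FIX C G := by
  intro un r e od e3 g k hg
  have hr := od.1
  have r0 : ((r ^ k : ℕ) : F) ≠ 0 := by rw [Nat.cast_pow]; exact pow_ne_zero _ (rne hF od (by omega))
  have a1 : ∀ U : Submodule F V, (∀ u ∈ U, g • u ∈ U) → (∀ u ∈ U, g • u = u → u = 0) →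
      e ∣ 2 * finrank F U ∧ (C.NondegOn U → e ∣ finrank F U) := fun U hU n => by
    constructor
    · have := fpf hr hg (S := {u | u ∈ U ∧ u ≠ 0}) (fun s hs => ⟨hU _ hs.1, fun z => hs.2 (gsz.1 z)⟩)
        fun s hs z => hs.2 (n _ hs.1 z)
      rw [ncard_ne0, hF, ← pow_mul, ← Int.natCast_dvd_natCast, Nat.cast_sub (Nat.one_le_pow _ _ (by have := un.q3; omega))]
        at this
      rw [← od.dvd_aa, aa_even (even_two_mul _)]
      exact_mod_cast this
    · intro nd
      rcases Nat.eq_zero_or_pos (finrank F U) with z | z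
      · simp [z]
      have := fpf hr hg (S := {u | u ∈ U ∧ C.B u u = 1}) (fun s hs => ⟨hU _ hs.1, by rw [un.iso, hs.2]⟩)
        fun s hs z => by simpa [n _ hs.1 z] using hs.2
      rw [← Int.natCast_dvd_natCast, ncard_ne_on nd z (map_one _) one_ne_zero] at this
      rw [← od.dvd_aa]
      refine ((Nat.prime_iff_prime_int.1 hr).dvd_or_dvd this).resolve_left fun z => od.not_dvd (by omega) ?_
      exact_mod_cast (Nat.prime_iff_prime_int.1 hr).dvd_of_dvd_pow z
  have a2 : ∀ U : Submodule F V, (∀ u ∈ U, g • u ∈ U) →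
      ∀ u ∈ U, ∃ w ∈ U, g • w = w ∧ ∀ z, g • z = z → C.B z (u - w) = 0 := fun U hU u hu => by
    refine ⟨((r ^ k : ℕ) : F)⁻¹ • ∑ i ∈ Finset.range (r ^ k), g ^ i • u,
      U.smul_mem _ (U.sum_mem fun i _ => pw_mem (S := U) hU i u hu), by rw [gsc, sum_fix hg], fun z hz => ?_⟩
    have : ∀ i, C.B z (g ^ i • u) = C.B z u := fun i => by rw [← un.iso (g ^ i) z u, pw_fix hz]
    simp only [map_sub, map_smul, map_sum, this, Finset.sum_const, Finset.card_range, smul_eq_mul, nsmul_eq_mul]
    rw [inv_mul_cancel_left₀ r0, sub_self]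
  refine ⟨fun v c h => ?_, fun U hU => ⟨a1 U hU, a2 U hU, fun nd W hW => ?_⟩⟩
  · by_cases v0 : v = 0
    · simp [v0]
    have e1 : ∀ i, g ^ i • v = c ^ i • v := fun i => by
      induction i with
      | zero => simp
      | succ i ih => rw [pow_succ', mul_smul, ih, gsc, h, smul_smul, pow_succ]
    have e2 : c ^ r ^ k = 1 := by
      have := e1 (r ^ k)
      rw [hg, one_smul] at this
      exact smul_left_injective F v0 (this.symm.trans (one_smul F v).symm)
    have c0 : c ≠ 0 := by rintro rfl; simp [hr.ne_zero] at e2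
    have e3' := FiniteField.pow_card_sub_one_eq_one c c0
    have cp : (r ^ k).Coprime (Fintype.card F - 1) := Nat.Coprime.pow_left _ ((Nat.Prime.coprime_iff_not_dvd hr).2 fun z =>
      od.not_dvd_sq e3 (by
        rw [hF, ← Int.natCast_dvd_natCast, Nat.cast_sub (Nat.one_le_pow _ _ (by have := un.q3; omega))] at z
        exact_mod_cast z))
    have z : c ^ (r ^ k).gcd (Fintype.card F - 1) = 1 := pow_gcd_eq_one.2 ⟨e2, e3'⟩
    rw [cp, pow_one] at z
    rw [h, z, one_smul]
  have nW : C.NondegOn W := fun w hw h => nd w ((hW w).1 hw).1 fun u hu => by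
    obtain ⟨w', h1, h2, h3⟩ := a2 U hU u hu
    have := h3 w ((hW w).1 hw).2
    rwa [map_sub, h w' ((hW _).2 ⟨h1, h2⟩), sub_zero] at this
  have dc : ∀ u ∈ U, ∃ w ∈ W, u - w ∈ U ⊓ C.perp W := fun u hu => by
    obtain ⟨w', h1, h2, h3⟩ := a2 U hU u hu
    exact ⟨w', (hW _).2 ⟨h1, h2⟩, U.sub_mem hu h1, C.mem_perp.2 fun z hz => h3 z ((hW z).1 hz).2⟩
  refine ⟨nW, ?_⟩
  obtain ⟨m, hm⟩ := (a1 (U ⊓ C.perp W) (fun u hu => ⟨hU u hu.1, C.mem_perp.2 fun z hz => by
      rw [← ((hW z).1 hz).2, un.iso]; exact C.mem_perp.1 hu.2 z hz⟩)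
    fun u hu z => nW u ((hW u).2 ⟨hu.1, z⟩) (C.mem_perp'.1 hu.2)).2 fun x hx h => nd x hx.1 fun u hu => by
      obtain ⟨w, h1, h2⟩ := dc u hu
      have := h _ h2
      rwa [map_sub, C.mem_perp'.1 hx.2 w h1, sub_zero] at this
  refine ⟨m, ?_⟩
  have := Submodule.finrank_sup_add_finrank_inf_eq W (U ⊓ C.perp W)
  rw [show W ⊔ U ⊓ C.perp W = U from le_antisymm (sup_le (fun w hw => ((hW w).1 hw).1) inf_le_left) fun u hu => by
      obtain ⟨w, h1, h2⟩ := dc u hu
      exact Submodule.mem_sup.2 ⟨w, h1, _, h2, by simp⟩,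
    show W ⊓ (U ⊓ C.perp W) = ⊥ from eq_bot_iff.2 fun w hw => nW w hw.1 (C.mem_perp'.1 hw.2.2), finrank_bot] at this
  omega

/-- half-dimensional totally isotropic subspaces of `W^⊥` are maximal -/
theorem half (nd : C.Nondeg) {W U : Submodule F V} (nW : C.NondegOn W) (h1 : U ≤ C.perp W) (h2 : U ≤ C.perp U)
    (h3 : 2 * finrank F U + finrank F W = finrank F V) : C.perp U ⊓ C.perp W = U := by
  refine (Submodule.eq_of_le_of_finrank_eq (le_inf h2 h1) ?_).symm
  have a := Submodule.finrank_sup_add_finrank_inf_eq (C.perp U) (C.perp W)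
  rw [← nd.perp_inf, show U ⊓ W = ⊥ from eq_bot_iff.2 fun w hw => nW w hw.2 (C.mem_perp'.1 (h1 hw.1)), C.perp_bot,
    finrank_top] at a
  have b := nd.finrank_add_finrank_perp U
  have c := nd.finrank_add_finrank_perp W
  omega

theorem cen : CEN C G := by
  intro un r e y W ⟨od, e3, ord, fi, dim, nW⟩
  have hr := od.1
  have nd := un.nd
  have yr : y ^ r ^ 1 = 1 := by rw [pow_one, ← ord, pow_orderOf_eq_one]
  have fx := (fix un r e od e3 y 1 yr).2
  have dZ : finrank F (C.perp W) = e := by have := nd.finrank_add_finrank_perp W; omega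
  have z0 : ∀ u ∈ C.perp W, y • u = u → u = 0 := fun u hu h => nW u ((fi u).1 h) (C.mem_perp'.1 hu)
  have d2 : ∀ X ≤ C.perp W, (∀ v ∈ X, y • v ∈ X) → X = ⊥ ∨ X = C.perp W ∨ 2 * finrank F X = e := fun X h1 h2 => by
    obtain ⟨m, hm⟩ := ((fx X h2).1 fun u hu => z0 u (h1 hu)).1
    have := Submodule.finrank_mono h1
    obtain rfl | rfl | rfl : m = 0 ∨ m = 1 ∨ m = 2 := by
      have : m ≤ 2 := by nlinarith
      omega
    · exact .inl (Submodule.finrank_eq_zero.1 (by omega))
    · exact .inr (.inr (by omega))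
    · exact .inr (.inl (Submodule.eq_of_le_of_finrank_eq h1 (by omega)))
  have pi : ∀ (c : G) (X : Submodule F V), (∀ v ∈ X, c • v ∈ X) → ∀ v ∈ C.perp X, c • v ∈ C.perp X := fun c X h v hv =>
    C.mem_perp.2 fun x hx => by
      rw [← smul_inv_smul c x, un.iso]
      exact C.mem_perp.1 hv _ (((mem_St_of h).out _).1 (by simpa))
  have inv : ∀ X ≤ C.perp W, (∀ v ∈ X, y • v ∈ X) → X = ⊥ ∨ X = C.perp W ∨ (X ≤ C.perp X ∧ 2 * finrank F X = e) :=
    fun X h1 h2 => by
    refine (d2 X h1 h2).imp_right (Or.imp_right fun h => ⟨?_, h⟩)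
    have i : ∀ v ∈ X ⊓ C.perp X, y • v ∈ X ⊓ C.perp X := fun v hv => ⟨h2 v hv.1, pi y X h2 v hv.2⟩
    have := Submodule.finrank_mono (inf_le_left : X ⊓ C.perp X ≤ X)
    rcases d2 _ (inf_le_left.trans h1) i with k | k | k
    · have := Nat.le_of_dvd (by omega) (((fx X h2).1 fun u hu => z0 u (h1 hu)).2 (C.nondegOn_iff.2 (disjoint_iff.2 k)))
      omega
    · rw [k] at this; omega
    · exact inf_eq_left.1 (Submodule.eq_of_le_of_finrank_eq inf_le_left (by omega))
  have cW : ∀ c : G, Commute c y → ∀ v ∈ C.perp W, c • v ∈ C.perp W := fun c h => pi c W fun v hv =>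
    (fi _).1 (by rw [← mul_smul, ← h.eq, mul_smul, (fi v).2 hv])
  have yW := cW y (Commute.refl y)
  have cy : ∀ c : G, Commute c y → ∀ v : V, y • c • v = c • y • v := fun c h v => by rw [← mul_smul, ← h.eq, mul_smul]
  -- every invariant subspace is invariant under the centralizer
  have ci : ∀ X ≤ C.perp W, (∀ v ∈ X, y • v ∈ X) → ∀ c : G, Commute c y → ∀ v ∈ X, c • v ∈ X := fun X h1 h2 c hc v hv => by
    rcases inv X h1 h2 with rfl | rfl | ⟨h3, h4⟩
    · simpa [gsz] using hv
    · exact cW c hc v hv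
    have key : ∀ (l : F), ∀ u ∈ X, l * C.B u (c • v) + frob hF l * C.B (c • u) v = 0 := fun l u hu => by
      let f : V →ₗ[F] V := LinearMap.id + l • (lin F V c).toLinearMap
      have hf : ∀ x, f x = x + l • c • x := fun x => rfl
      have := Submodule.finrank_map_le f X
      have t : X.map f ≤ C.perp (X.map f) := by
        rcases inv (X.map f) (by
          rintro _ ⟨x, hx, rfl⟩; exact add_mem (h1 hx) (Submodule.smul_mem _ _ (cW c hc x (h1 hx)))) (by
          rintro _ ⟨x, hx, rfl⟩; exact ⟨_, h2 x hx, by rw [hf, hf, smul_add, gsc, cy c hc]⟩) with k | k | k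
        · simp [k]
        · rw [k] at this; omega
        · exact k.1
      have := C.mem_perp.1 (t ⟨v, hv, rfl⟩) _ ⟨u, hu, rfl⟩
      rw [hf, hf, C.B_add_left, Bl] at this
      simp only [map_add, map_smul, smul_eq_mul, un.iso, C.mem_perp.1 (h3 hv) u hu] at this
      linear_combination this
    rw [← half nd nW h1 h3 (by omega)]
    refine ⟨C.mem_perp.2 fun u hu => ?_, cW c hc v (h1 hv)⟩
    obtain ⟨l, hl⟩ := ex_nf (hF := hF)
    have k1 := key 1 u hu
    rw [map_one] at k1
    exact (mul_eq_zero.1 (by linear_combination frob hF l * k1 - key l u hu)).resolve_left (sub_ne_zero.2 hl)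
  obtain ⟨U, h1, h2, h0, ir⟩ : ∃ U ≤ C.perp W, (∀ v ∈ U, y • v ∈ U) ∧ U ≠ ⊥ ∧
      ∀ X ≤ U, (∀ v ∈ X, y • v ∈ X) → X = ⊥ ∨ X = U := by
    by_cases k : ∃ U ≤ C.perp W, (∀ v ∈ U, y • v ∈ U) ∧ 2 * finrank F U = e
    · obtain ⟨U, h1, h2, h3⟩ := k
      refine ⟨U, h1, h2, by rintro rfl; rw [finrank_bot] at h3; omega, fun X k1 k2 => (d2 X (k1.trans h1) k2).imp_right ?_⟩
      have := Submodule.finrank_mono k1
      rintro (k | k)
      · rw [k] at this; omega
      · exact Submodule.eq_of_le_of_finrank_eq k1 (by omega)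
    · refine ⟨_, le_rfl, yW, by intro z; rw [z, finrank_bot] at dZ; omega, fun X k1 k2 => (d2 X k1 k2).imp_right ?_⟩
      exact fun h => h.resolve_right fun h => k ⟨X, k1, k2, h⟩
  have sc : ∀ c : G, Commute c y → ∀ l : F, l * frob hF l = 1 → ∀ u ∈ U, u ≠ 0 → c • u = l • u →
      ∀ z ∈ C.perp W, c • z = l • z := fun c hc l hl u hu u0 h z hz => by
    have kU : ∀ x ∈ U, c • x = l • x := by
      rcases ir (U ⊓ LinearMap.ker ((lin F V c).toLinearMap - l • LinearMap.id)) inf_le_left (fun v hv => ⟨h2 v hv.1, by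
        have : c • v - l • v = 0 := hv.2
        show c • y • v - l • y • v = 0
        rw [← cy c hc, ← gsc, ← smul_sub, this, smul_zero]⟩) with k | k
      · exact absurd (k.le ⟨hu, sub_eq_zero.2 h⟩) u0
      · exact fun x hx => sub_eq_zero.1 (k.ge hx).2
    rcases inv U h1 h2 with k | rfl | ⟨h3, h4⟩
    · exact absurd k h0
    · exact kU z hz
    have ss : Module.End.IsSemisimple (lin F V y).toLinearMap := by
      refine Module.End.isSemisimple_of_squarefree_aeval_eq_zero
        (Polynomial.X_pow_sub_one_separable_iff.2 (rne hF od (by omega))).squarefree ?_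
      have : ∀ i, (lin F V y).toLinearMap ^ i = (lin F V (y ^ i)).toLinearMap := fun i => by
        induction i with
        | zero => ext; simp
        | succ i ih => ext; simp [pow_succ, ih, mul_smul]
      ext v
      simp [this, show y ^ r = 1 from pow_one r ▸ yr]
    obtain ⟨Q, q1, q2⟩ := Module.End.isSemisimple_iff.1 ss U h2
    obtain ⟨a, ha, b, hb, rfl⟩ := Submodule.mem_sup.1 (q2.sup_eq_top.ge (Submodule.mem_top (x := z)))
    have b1 : b ∈ Q ⊓ C.perp W := ⟨hb, by simpa using sub_mem hz (h1 ha)⟩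
    have b2 := ci (Q ⊓ C.perp W) inf_le_right (fun v hv => ⟨q1 hv.1, yW v hv.2⟩) c hc b b1
    have b3 : c • b - l • b ∈ U := by
      rw [← half nd nW h1 h3 (by omega)]
      refine ⟨C.mem_perp.2 fun x hx => ?_, sub_mem b2.2 (Submodule.smul_mem _ _ b1.2)⟩
      have := un.iso c x b
      rw [kU x hx, Bl] at this
      rw [map_sub, C.B_smul_right, ← this]
      linear_combination -C.B x (c • b) * hl
    rw [smul_add, smul_add, kU a ha, sub_eq_zero.1 (q2.disjoint.le_bot ⟨b3, sub_mem b2.1 (Q.smul_mem _ hb)⟩)]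
  refine ⟨inv, ⟨U, h1, h0, fun c hc => ⟨ci U h1 h2 c hc, sc c hc, fun c' hc' u hu => ?_⟩⟩, fun c hc cr cw => ?_⟩
  · by_cases u0 : u = 0
    · simp [u0]
    let A := Algebra.adjoin F {(lin F V y).toLinearMap}
    have cA : ∀ c : G, Commute c y → ∀ a ∈ A, ∀ v, c • a v = a (c • v) := fun c hc a ha v =>
      LinearMap.congr_fun (Algebra.commute_of_mem_adjoin_singleton_of_commute (a := (lin F V c).toLinearMap) ha
        (LinearMap.ext fun v => (cy c hc v).symm)).eq v
    have aU : ∀ a ∈ A, ∀ v ∈ U, a v ∈ U := fun a ha => by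
      induction ha using Algebra.adjoin_induction with
      | mem x hx => exact hx ▸ h2
      | algebraMap r => exact fun v hv => U.smul_mem r hv
      | add x y _ _ hx hy => exact fun v hv => add_mem (hx v hv) (hy v hv)
      | mul x y _ _ hx hy => exact fun v hv => hx _ (hy v hv)
    rcases ir (A.toSubmodule.map (LinearMap.applyₗ u)) (by rintro _ ⟨a, ha, rfl⟩; exact aU a ha u hu) (by
      rintro _ ⟨a, ha, rfl⟩
      exact ⟨_, A.mul_mem (Algebra.self_mem_adjoin_singleton F _) ha, rfl⟩) with k | k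
    · exact absurd (k.le ⟨1, one_mem A, rfl⟩) u0
    obtain ⟨a, ha, (e1 : a u = _)⟩ := k.ge (ci U h1 h2 c hc u hu)
    obtain ⟨b, hb, (e2 : b u = _)⟩ := k.ge (ci U h1 h2 c' hc' u hu)
    rw [← e2, cA c hc b hb, ← e1, cA c' hc' a ha, ← e2]
    exact LinearMap.congr_fun (Algebra.commute_of_mem_adjoin_singleton_of_commute (a := b) ha
      (Algebra.commute_of_mem_adjoin_self hb).symm).eq u
  by_contra n
  rw [ord] at cr
  obtain ⟨u, hu, u0⟩ := (Submodule.ne_bot_iff U).1 h0
  have nr : ∀ g : G, Commute g y → g ^ r = 1 → (∀ v ∈ U, g • v = v → v = 0) → ∀ v ∈ U,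
      ∑ j ∈ Finset.range r, g ^ j • v = 0 := fun g hg h k v hv =>
    k _ (U.sum_mem fun j _ => pw_mem (S := U) (ci U h1 h2 g hg) j v hv) (sum_fix h v)
  have s1 : ∀ i, ∑ j ∈ Finset.range r, (c * y ^ i) ^ j • u = 0 := fun i => by
    have cm : Commute (c * y ^ i) y := hc.mul_left ((Commute.refl y).pow_left i)
    refine nr _ cm (by rw [(hc.pow_right i).mul_pow, cr, ← pow_mul, mul_comm i, pow_mul, ← pow_one r, yr, one_pow, mul_one])
      (fun v hv h => by_contra fun v0 => n ?_) u hu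
    have : c * y ^ i = 1 := un.fa _ fun x => by
      obtain ⟨a, ha, b, hb, rfl⟩ := Submodule.mem_sup.1 ((nd.isCompl_perp nW).sup_eq_top.ge (Submodule.mem_top (x := x)))
      rw [smul_add, sc _ cm 1 (by simp) v hv v0 (by simpa using h) b hb, one_smul, mul_smul, pw_fix ((fi a).2 ha), cw a ha]
    rw [eq_inv_of_mul_eq_one_left this]
    exact inv_mem (Subgroup.npow_mem_zpowers y i)
  have s2 := Finset.sum_comm (s := Finset.range r) (t := Finset.range r) (f := fun i j => (c * y ^ i) ^ j • u)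
  rw [Finset.sum_eq_zero fun i _ => s1 i, Finset.sum_eq_single 0 (fun j hj j0 => by
    have : ∑ i ∈ Finset.range r, (y ^ j) ^ i • u = 0 := by
      refine nr _ ((Commute.refl y).pow_left j) (by rw [← pow_mul, mul_comm, pow_mul, ← pow_one r, yr, one_pow])
        (fun v hv h => z0 v (h1 hv) ?_) u hu
      obtain ⟨m, hm⟩ := exists_pow_eq_self_of_coprime (x := y) (n := j) (by
        rw [ord]; exact ((Nat.coprime_of_lt_prime j0 (Finset.mem_range.1 hj) hr)).symm)
      rw [← hm]; exact pw_fix h m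
    simp only [fun i => (hc.pow_right i).mul_pow j, ← pow_mul, mul_comm _ j, mul_smul]
    simp only [pow_mul, ← Finset.smul_sum, this, smul_zero]) (by simp [hr.pos])] at s2
  simp only [pow_zero, one_smul, Finset.sum_const, Finset.card_range, ← Nat.cast_smul_eq_nsmul F] at s2
  exact u0 ((smul_eq_zero.1 s2.symm).resolve_left (rne hF od (by omega)))

end H9.RU
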