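/-
Standard components of linear type in characteristic two, chunk `TH`, part 1: matrices and conjugation.
-/
import Cfsg.Agent.H28.SB2

set_option autoImplicit false
set_option linter.unusedSectionVars false

namespace H9.LN
open Cfsg Subgroup H19 H28.SA H28.SF H28.CY H22 Matrix SemidirectProduct
export H28.SA (tr)
universe u v

section
variable {G : Type*} [Group G] {g h a b A B D X Y y : G}
/-- conjugation -/
def J (g : G) : G →* G := (MulAut.conj g).toMonoidHom
theorem J_a (g a : G) : J g a = g * a * g⁻¹ := rfl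
theorem J_mul (g h a : G) : J (g * h) a = J g (J h a) := by simp only [J_a]; group
theorem J_one (a : G) : J 1 a = a := by simp only [J_a]; group
theorem J_com : J g a = a ↔ Commute g a := mul_inv_eq_iff_eq_mul
theorem J_inv (e : J g a = b) : J g⁻¹ b = a := by rw [← e, ← J_mul, inv_mul_cancel, J_one]
theorem J_J (g a b : G) : J g (J a b) = J (J g a) (J g b) := by simp only [J_a]; group
/-- commutators -/
def nn (x y : G) : G := x * y * x⁻¹ * y⁻¹
theorem nn_a (x y : G) : nn x y = J x y * y⁻¹ := rfl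
theorem J_nn (g x y : G) : J g (nn x y) = nn (J g x) (J g y) := by simp only [nn, map_mul, map_inv]
theorem nn_J (x y a : G) : J (nn x y) a = J x (J y (J x⁻¹ (J y⁻¹ a))) := by simp only [nn, J_mul]
theorem nn_mul (x x' y : G) : nn (x * x') y = J x (nn x' y) * nn x y := by simp only [nn, J_a]; group
theorem nn_mul' (x y y' : G) : nn x (y * y') = nn x y * J y (nn x y') := by simp only [nn, J_a]; group
theorem nn_inv (x y : G) : (nn x y)⁻¹ = nn y x := by simp only [nn]; group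
theorem nn_one : nn a b = 1 ↔ Commute a b := mul_inv_eq_one.trans J_com
theorem nn_eq (e : nn a b = D) : J a b = D * b := by rw [← e, nn_a, inv_mul_cancel_right]
theorem nn_il (e : X * X = 1) : J X (nn X y) = (nn X y)⁻¹ := by
  have := nn_mul X X y
  rw [e] at this
  exact eq_inv_of_mul_eq_one_left (this.symm.trans (by simp [nn]))
theorem nn_ir (e : y * y = 1) : J y (nn X y) = (nn X y)⁻¹ := by
  have := nn_mul' X y y
  rw [e] at this
  exact eq_inv_of_mul_eq_one_right (this.symm.trans (by simp [nn]))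
theorem nn_com (h1 : Commute g A) (h2 : Commute g B) : Commute g (nn A B) :=
  ((h1.mul_right h2).mul_right h1.inv_right).mul_right h2.inv_right
theorem fix1 (hA : J g A = A) (hB : J g B = D * B) (c1 : Commute D A) (c2 : Commute D B) : Commute g (nn A B) := by
  rw [← J_com, J_nn, hA, hB, nn_mul', J_com.2 (nn_com c1 c2), nn_a, J_com.2 c1.symm, mul_inv_cancel, one_mul]
theorem fix2 (hA : J g A = D * A) (hB : J g B = B) (c1 : Commute D A) (c2 : Commute D B) : Commute g (nn A B) := by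
  rw [← J_com, J_nn, hA, hB, nn_mul, J_com.2 (nn_com c1 c2), nn_a D, J_com.2 c2, mul_inv_cancel, mul_one]
theorem inv3 (yy : y * y = 1) (c : Commute X Y) (h1 : J X (nn Y y) = nn Y y * A)
    (h2 : J Y (nn X y) = nn X y * B) (a1 : Commute y A) (a2 : Commute A (nn X y)) (b1 : Commute B (nn X y)) : A = B⁻¹ := by
  have e1 := nn_mul X Y y
  have e2 := nn_mul Y X y
  have e3 := congrArg (J y) e1
  rw [nn_ir yy, h1, map_mul, map_mul, nn_ir yy, nn_ir yy, J_com.2 a1, c.eq, e2, h2, mul_assoc _ A, a2.inv_right.eq,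
    _root_.mul_inv_rev, _root_.mul_inv_rev, mul_right_inj, b1.inv_inv.eq, mul_right_inj] at e3
  exact e3.symm
end

variable {m : ℕ} {F : Type v} [Field F] [Finite F] [CharP F 2] {G : Type u} [Group G] [Finite G] {π : SL m F →* G}
  {a b c d i j p z : Fin m} {r u v : F} {w : Fin m → F} {s s' : SL m F} {k : GL (Fin m) F} {g h t x y : G}

theorem exi {n : ℕ} (hm : n < m) (l : List (Fin m)) (h : l.length ≤ n) : ∃ c, c ∉ l := by
  by_contra e
  have := Finset.card_le_card (show Finset.univ ⊆ l.toFinset from fun c _ => List.mem_toFinset.2 (not_not.1 (not_exists.1 e c)))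
  have := l.toFinset_card_le
  rw [Finset.card_univ, Fintype.card_fin] at *
  omega
theorem cjS (e : ι s * tv a b u * (ι s)⁻¹ = tv c d v) : s * xs a b u * s⁻¹ = xs c d v :=
  ι_inj (by rwa [map_mul, map_mul, map_inv])
theorem cjG (e : s * xs a b u * s⁻¹ = xs c d v) : ι s * tv a b u * (ι s)⁻¹ = tv c d v := by
  rw [← ι_xs, ← ι_xs, ← e, map_mul, map_mul, map_inv]
theorem xs_inj (h : a ≠ b) (h' : c ≠ d) (e : xs a b u = xs c d v) : (if a = c ∧ b = d then u else 0) = v := by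
  simpa [xs_coe h, xs_coe h', single_apply] using congrArg (·.1 c d) e
theorem row_comm (h : i ≠ j) : Commute (xs i b u) (xs i j v) := by
  by_cases e : b = i
  exacts [by rw [e, xs_self]; exact .one_left _, xs_comm h e]
theorem col_comm (h : i ≠ j) : Commute (xs a j u) (xs i j v) := by
  by_cases e : a = j
  exacts [by rw [e, xs_self]; exact .one_left _, xs_comm e h.symm]
/-- permutation matrices -/
def pmx (F : Type v) [Field F] [CharP F 2] (σ : Equiv.Perm (Fin m)) : SL m F := ⟨σ⁻¹.permMatrix F, by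
  rw [det_permutation]
  rcases Int.units_eq_one_or (Equiv.Perm.sign σ⁻¹) with e | e <;> rw [e] <;> simp [CharTwo.neg_eq]⟩
theorem pmx_xs (σ : Equiv.Perm (Fin m)) (h : a ≠ b) : pmx F σ * xs a b u * (pmx F σ)⁻¹ = xs (σ a) (σ b) u :=
  mul_inv_eq_iff_eq_mul.2 (sl_ext fun p q => by
    change (σ⁻¹.permMatrix F * (xs a b u).1) p q = ((xs (σ a) (σ b) u).1 * σ⁻¹.permMatrix F) p q
    rw [PEquiv.toMatrix_toPEquiv_mul, PEquiv.mul_toMatrix_toPEquiv, xs_coe h, xs_coe (σ.injective.ne h)]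
    simp [one_apply, single_apply, Equiv.Perm.inv_def, Equiv.symm_apply_eq, Equiv.eq_symm_apply])
theorem perm3 (h1 : i ≠ j) (h2 : j ≠ p) (h3 : i ≠ p) (k1 : a ≠ b) (k2 : b ≠ c) (k3 : a ≠ c) :
    ∃ σ : Equiv.Perm (Fin m), σ i = a ∧ σ j = b ∧ σ p = c := by
  obtain ⟨σ, e⟩ := Equiv.Perm.exists_extending_pair ![i, j, p] ![a, b, c]
    (fun x y => by fin_cases x <;> fin_cases y <;> simp [*, eq_comm]) (fun x y => by fin_cases x <;> fin_cases y <;> simp [*, eq_comm])
  exact ⟨σ, e 0, e 1, e 2⟩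
/-- the torus -/
noncomputable def hS (a b : Fin m) (x : Fˣ) : SL m F := (exists_toGL (det_hh (a := a) (b := b) x)).choose
theorem ι_hS (x : Fˣ) : ι (hS a b x) = hh a b x := (exists_toGL (det_hh (a := a) (b := b) x)).choose_spec
theorem conj_xs (hm : 3 ≤ m) (h : i ≠ j) (h' : a ≠ b) (hu : u ≠ 0) (hv : v ≠ 0) : ∃ s, s * xs i j u * s⁻¹ = xs a b v := by
  obtain ⟨p, p1, p2⟩ := ex3 hm i j
  obtain ⟨c, c1, c2⟩ := ex3 hm a b
  obtain ⟨σ, rfl, rfl, rfl⟩ := perm3 h p2.symm p1.symm h' c2.symm c1.symm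
  refine ⟨hS (σ i) (σ p) (Units.mk0 (v / u) (div_ne_zero hv hu)) * pmx F σ, ?_⟩
  rw [← J_a, J_mul, J_a (pmx F σ), pmx_xs σ h]
  refine cjS ?_
  rw [ι_hS, hh_tv1 c1.symm h'.symm c2.symm, Units.val_mk0, div_mul_cancel₀ _ hu]
theorem lin (h : i ≠ j) (h' : a ≠ b) (e : s * xs i j u * s⁻¹ = xs a b v) (r : F) :
    s * xs i j (r * u) * s⁻¹ = xs a b (r * v) := cjS (Units.ext (Matrix.ext fun p q => by
  rw [cj_ent h, mul_assoc, cj_eq h h' (cjG e), tv_coe h', Matrix.add_apply, one_apply, single_apply, mul_ite, mul_zero]))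
theorem cv_cj' (h : w j = 0) (e : ∀ q, k.1 b q = if j = q then u else 0) :
    k * ι (cv j w) * k⁻¹ = ι (cv b (u⁻¹ • k.1 *ᵥ w)) := by
  have u0 : u ≠ 0 := by
    rintro rfl
    have := congrFun (congrFun k.mul_inv b) b
    simp [mul_apply, e] at this
  refine mul_inv_eq_iff_eq_mul.2 (Units.ext (Matrix.ext fun p q => ?_))
  rw [Units.val_mul, Units.val_mul, ι_val, ι_val, mul_cv _ h, cv_mul, e, Pi.smul_apply, smul_eq_mul]
  have : (k.1 *ᵥ w) b = 0 := by simp [mulVec, dotProduct, e, h]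
  grind
theorem colT (h : i ≠ j) (h' : a ≠ b) (hv : v ≠ 0) (e : s * xs i j u * s⁻¹ = xs a b v) (c : Fin m) (r : F) :
    ∃ w, xs c b r = s * cv j w * s⁻¹ := by
  by_cases n : c = b
  · exact ⟨0, by rw [n, xs_self, cv_zero, mul_one, mul_inv_cancel]⟩
  have k := cj_eq h h' (cjG e) a
  have e1 := cv_cj' (k := (ι s)⁻¹) (b := j) (j := b) (w := Pi.single c r) (u := ((ι s)⁻¹).1 j b)
    (Pi.single_eq_of_ne' n _) fun q => by have := k q; have := k b; grind
  refine ⟨_, ι_inj (by rw [map_mul, map_mul, map_inv, ← e1, cv_single]; group)⟩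
theorem tr_tr : tr (tr s) = s := sl_ext fun a b => by rw [tr_val, ← map_inv, tr_val, inv_inv]
/-- the twist by the inverse transpose -/
noncomputable abbrev tw (π : SL m F →* G) : SL m F →* G := π.comp tr.toMonoidHom
theorem tw_xs : tw π (xs a b u) = π (xs b a u) := congrArg π tr_xs
theorem tw_tr : tw π (tr s) = π s := congrArg π tr_tr
theorem tr_cj (e : s * xs i j u * s⁻¹ = xs a b v) : tr s * xs j i u * (tr s)⁻¹ = xs b a v := by
  rw [← tr_xs, ← tr_xs (a := a), ← e, map_mul, map_mul, map_inv]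
theorem cc_tw : CC1 (tw π) i y ↔ CR1 π i y := by simp only [CC1, CR1, tw_xs]
theorem cr_tw : CR1 (tw π) i y ↔ CC1 π i y := by simp only [CC1, CR1, tw_xs]
theorem ccJ (h : i ≠ j) (h' : a ≠ b) (hv : v ≠ 0) (e : s * xs i j u * s⁻¹ = xs a b v) (k : CC1 π j y) :
    CC1 π b (J (π s) y) := fun c r => by
  obtain ⟨w, e1⟩ := colT h h' hv e c r
  rw [e1, map_mul, map_mul, map_inv]
  exact Commute.conj k.cv _
theorem crJ (h : i ≠ j) (h' : a ≠ b) (hv : v ≠ 0) (e : s * xs i j u * s⁻¹ = xs a b v) (k : CR1 π i y) :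
    CR1 π a (J (π s) y) := cc_tw.1 (tw_tr (π := π) (s := s) ▸ ccJ h.symm h'.symm hv (tr_cj e) (cc_tw.2 k))
theorem J_π (e : s * xs i j u * s⁻¹ = xs a b v) : J (π s) (π (xs i j u)) = π (xs a b v) := by
  rw [J_a, ← e, map_mul, map_mul, map_inv]
theorem xsq : π (xs a b u) * π (xs a b u) = 1 := by rw [← map_mul, xs_sq, map_one]
theorem xinv : (π (xs a b u))⁻¹ = π (xs a b u) := inv_eq_of_mul_eq_one_right xsq
theorem xadd : π (xs a b (u + v)) = π (xs a b u) * π (xs a b v) := by rw [xs_add, map_mul]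
theorem xz : π (xs a b 0) = 1 := by rw [xs_zero, map_one]
theorem x_eq (M : Md π) (h : a ≠ b) (h' : c ≠ d) (e : π (xs a b u) = π (xs c d v)) : (if a = c ∧ b = d then u else 0) = v :=
  xs_inj h h' (M.inj2 e xs_two xs_two)
theorem x_inj (M : Md π) (h : a ≠ b) (e : π (xs a b u) = π (xs a b v)) : u = v := by simpa using x_eq M h h e
theorem sch (h1 : i ≠ j) (h2 : j ≠ a) (h3 : i ≠ a) : J (xs i j u) (xs j a v) = xs i a (u * v) * xs j a v := by
  rw [← xs_chain h1 h2 h3, J_a, inv_mul_cancel_right]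
theorem xch (h1 : i ≠ j) (h2 : j ≠ a) (h3 : i ≠ a) : J (π (xs i j u)) (π (xs j a v)) = π (xs i a (u * v)) * π (xs j a v) := by
  rw [← map_mul, ← sch h1 h2 h3, J_a, J_a, map_mul, map_mul, map_inv]
theorem alt (S : Sd π t) : (∃ ν : F, ν ≠ 0 ∧ ν ≠ 1) ∨ (∀ u : F, u = 0 ∨ u = 1) ∧ 5 ≤ m := by
  by_cases e : ∃ ν : F, ν ≠ 0 ∧ ν ≠ 1
  · exact .inl e
  refine .inr ⟨fun u => by_contra fun k => e ⟨u, not_or.1 k⟩, by_contra fun k => ?_⟩
  obtain ⟨x, hx⟩ := ex_nu (S.hq (by omega))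
  exact e ⟨x, x.ne_zero, hx⟩
theorem hua (e : F → F → F) (a1 : ∀ c c' d, e (c + c') d = e c d + e c' d) (a2 : ∀ c d d', e c (d + d') = e c d + e c d')
    (tor : ∀ A, A ≠ 0 → ∀ c d, e (A * c) (d * A) = A * e c d * A) (c d : F) : e c d = e 1 1 * (c * d) := by
  have z1 : ∀ d, e 0 d = 0 := fun d => by simpa using a1 0 0 d
  have z2 : ∀ c, e c 0 = 0 := fun c => by simpa using a2 c 0 0
  have k : ∀ u, u ≠ 0 → e 1 u = u * e u⁻¹ 1 * u := fun u hu => by rw [← tor u hu, mul_inv_cancel₀ hu, one_mul]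
  have k1 : ∀ d, e 1 d = e 1 1 * d := fun d => by
    obtain ⟨u, rfl⟩ := isSquare_of_charTwo' d
    by_cases h0 : u = 0
    · simp [h0, z2]
    by_cases h1 : 1 + u = 0
    · rw [show u = 1 by grind]; simp
    have h2 := k _ (mul_ne_zero h0 h1)
    rw [show (u * (1 + u))⁻¹ = u⁻¹ + (1 + u)⁻¹ by field_simp; grind, a1, mul_add u, mul_one, a2] at h2
    have h3 := k u h0
    have h4 := k _ h1
    rw [a2] at h4
    grind
  by_cases h0 : c = 0
  · simp [h0, z1]
  have := tor c h0 1 (d / c)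
  rw [mul_one, div_mul_cancel₀ _ h0, k1 (d / c)] at this
  rw [this]; field_simp

end H9.LN
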