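/-
Standard components of linear type in characteristic two, chunk `TH`, part 2: involutions doubling a root element.
-/
import Cfsg.Agent.H9.LN1

set_option autoImplicit false
set_option linter.unusedSectionVars false

namespace H9.LN
open Cfsg Subgroup H19 H28.SA H28.SF H28.CY H22 Matrix SemidirectProduct
universe u v
variable {m : ℕ} {F : Type v} [Field F] [Finite F] [CharP F 2] {G : Type u} [Group G] [Finite G] {π : SL m F →* G}
  {a b c d i j p z : Fin m} {e r u v : F} {w : Fin m → F} {s s' : SL m F} {g h k o t x y y' : G}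

/-- the elements of odd order centralizing `L` and `t` -/
def OO (π : SL m F →* G) (t o : G) : Prop := o ∈ C(π.range) ∧ o * t = t * o ∧ PiE {2}ᶜ o
/-- `y` centralizes them -/
def CO (π : SL m F →* G) (t y : G) : Prop := ∀ o, OO π t o → Commute o y
/-- `2`-elements doubling a root element -/
def PP (π : SL m F →* G) (t : G) (i j : Fin m) (u : F) (y : G) : Prop := Bz π t i j u y ∧ CO π t y ∧ PiE {2} y
/-- involutions doubling a root element -/
def II (π : SL m F →* G) (t : G) (i j : Fin m) (u : F) (y : G) : Prop := Bz π t i j u y ∧ CO π t y ∧ y * y = 1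

theorem CO.mul (h : CO π t x) (h' : CO π t y) : CO π t (x * y) := fun o k => (h o k).mul_right (h' o k)
theorem CO.inv (h : CO π t x) : CO π t x⁻¹ := fun o k => (h o k).inv_right
theorem co_π : CO π t (π s) := fun _ k => (mem_K.1 k.1 s).symm
theorem co_t : CO π t t := fun _ k => k.2.1
theorem CO.J (h : CO π t y) : CO π t (J (π s) y) := (co_π.mul h).mul co_π.inv
theorem CO.nn (h : CO π t x) (h' : CO π t y) : CO π t (nn x y) := ((h.mul h').mul h.inv).mul h'.inv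
theorem II.pp (h : II π t i j u y) : PP π t i j u y := ⟨h.1, h.2.1, two_of_sq h.2.2⟩
theorem bx (h : Bz π t i j u y) : Commute y (π (xs i j v)) := (h.1 j v).symm
theorem bt (h : Bz π t i j u y) : J y t = t * π (xs i j u) := h.2.2
theorem bmul (h : Bz π t i j u y) (h' : Bz π t i j v y') : Bz π t i j (u + v) (y * y') :=
  ⟨fun b r => Commute.mul_right (h.1 b r) (h'.1 b r), fun b r => Commute.mul_right (h.2.1 b r) (h'.2.1 b r), by
    rw [← J_a, J_mul, bt h', map_mul, bt h, J_com.2 (bx h), xadd, mul_assoc]⟩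
theorem binv (h : Bz π t i j u y) : Bz π t i j u y⁻¹ :=
  ⟨fun b r => Commute.inv_right (h.1 b r), fun b r => Commute.inv_right (h.2.1 b r), by
    have := J_inv (bt h)
    rw [map_mul, J_com.2 (bx h).inv_left] at this
    rw [← J_a, eq_mul_inv_of_mul_eq this, xinv]⟩
theorem bmul0 (h : Bz π t i j u y) (h' : Bz π t i j 0 y') : Bz π t i j u (y * y') := add_zero u ▸ bmul h h'
theorem bmul2 (h : Bz π t i j u y) (h' : Bz π t i j u y') : Bz π t i j 0 (y * y') := CharTwo.add_self_eq_zero u ▸ bmul h h'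
theorem bK (hk : k ∈ C(π.range)) (e : k * t = t * k) : Bz π t i j 0 k :=
  ⟨fun _ _ => mem_K.1 hk _, fun _ _ => mem_K.1 hk _, by rw [xz, mul_one, e, mul_inv_cancel_right]⟩
theorem bH (h : Bz π t i j 0 y) : y ∈ C[t] := mem_cent1.2 (J_com.1 ((bt h).trans (by rw [xz, mul_one])))
theorem bpow (h : Bz π t i j u y) (n : ℕ) : Bz π t i j u (y ^ (2 * n + 1)) := by
  induction n with
  | zero => simpa using h
  | succ n ih => rw [mul_add, add_right_comm, pow_add, mul_one, pow_two]; exact bmul0 ih (bmul2 h h)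
theorem odd_part (h1 : PiE {2} x) (h2 : PiE {2}ᶜ o) (c : Commute x o) (h : PiE {2}ᶜ (x * o)) : x = 1 :=
  h1.e_eq_one (mul_inv_cancel_right x o ▸ h.e_mul h2.e_inv (c.mul_left (Commute.refl o)).inv_right)
theorem kl (h1 : PiE {2} x) (h2 : PiE {2}ᶜ o) (c : Commute x o) (c' : Commute g o) (h : J g (x * o) = (x * o)⁻¹) : o = 1 := by
  obtain ⟨n, e⟩ := pow_of_two h1
  have := congrArg (· ^ 2 ^ n) h
  simp only [← map_pow, inv_pow, c.mul_pow, e, one_mul] at this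
  rw [J_com.2 (c'.pow_right _), eq_inv_iff_mul_eq_one, ← pow_two, ← pow_mul, ← pow_succ] at this
  exact (two_of_pow this).e_eq_one h2

section
variable (S : S2 π t)
include S
theorem Jt : J (π s) t = t := J_com.2 (S.tπ s)
theorem bJ (h : i ≠ j) (h' : a ≠ b) (hv : v ≠ 0) (e : s * xs i j u * s⁻¹ = xs a b v) (k : Bz π t i j u y) :
    Bz π t a b v (J (π s) y) := ⟨crJ h h' hv e k.1, ccJ h h' hv e k.2.1, by
  rw [← J_a, ← J_π e, ← Jt S (s := s), ← map_mul, ← bt k, ← J_J]⟩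
theorem ppJ (h : i ≠ j) (h' : a ≠ b) (hv : v ≠ 0) (e : s * xs i j u * s⁻¹ = xs a b v) (k : PP π t i j u y) :
    PP π t a b v (J (π s) y) := ⟨bJ S h h' hv e k.1, k.2.1.J, k.2.2.e_conj _⟩
theorem iiJ (h : i ≠ j) (h' : a ≠ b) (hv : v ≠ 0) (e : s * xs i j u * s⁻¹ = xs a b v) (k : II π t i j u y) :
    II π t a b v (J (π s) y) := ⟨bJ S h h' hv e k.1, k.2.1.J, cj_sq k.2.2 _⟩
theorem bX (h : i ≠ j) : Bz π t i j 0 (π (xs i j e)) :=
  ⟨fun _ _ => (row_comm h).map π, fun _ _ => (col_comm h).map π, by rw [xz, mul_one]; exact Jt S⟩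
theorem dec (hk : k ∈ C(π.range)) (e : k * t = t * k) : ∃ o, OO π t o ∧ (k = o ∨ k = t * o) :=
  let ⟨o, h1, h2, h3, h4⟩ := S.dec hk e; ⟨o, ⟨h1, h2, h3⟩, h4⟩
theorem b0 (h : i ≠ j) (k : Bz π t i j 0 y) : ∃ e, ∃ k ∈ C(π.range), k * t = t * k ∧ y = π (xs i j e) * k := by
  obtain ⟨e, x, hx, rfl⟩ := S.CQ h (S.ct (bH k)) k.2.1 k.1
  exact ⟨e, x, hx, mem_cent1.1 ((mul_mem_cancel_left (S.πH _)).1 (bH k)), rfl⟩
theorem nO (h : i ≠ j) (k : Bz π t i j u y) (ho : OO π t o) : OO π t (J y o) := by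
  obtain ⟨e, x, hx, h1, h2⟩ := b0 S h (bmul2 (bmul0 k (bK ho.1 ho.2.1)) (binv k))
  obtain ⟨o', h3, h4⟩ := dec S hx h1
  have c := (mem_K.1 h3.1 (xs i j e))
  have := ho.2.2.e_conj y
  rw [J_a, h2] at *
  rcases h4 with rfl | rfl
  · rwa [odd_part (two_of_sq xsq) h3.2.2 c this, one_mul]
  · rw [← mul_assoc] at this ⊢
    rwa [odd_part ((two_of_sq xsq).e_mul (two_of_sq S.tt) (S.tπ _)) h3.2.2 (Commute.mul_left c h3.2.1.symm) this, one_mul]
theorem co_nn (h : i ≠ j) (k : Bz π t i j u y) : CO π t (nn (π s) y) := fun o ho => by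
  have e := nO S h (binv k) ho
  rw [Commute.symm_iff, ← J_com, nn_J, ← map_inv, J_com.2 (co_π _ e).symm, ← J_mul y, mul_inv_cancel, J_one,
    J_com.2 (co_π _ ho).symm]
theorem pt (k : PP π t i j u y) : y * t * (y * t) = y * y * π (xs i j u) := by
  have := bt (binv k.1)
  rw [J_a, inv_inv] at this
  rw [show y * t * (y * t) = y * y * (y⁻¹ * t * y) * t by group, this, ← S.tπ, mul_assoc, mul_assoc, mul_assoc, S.tt, mul_one,
    mul_assoc]
theorem ppt (k : PP π t i j u y) : PP π t i j u (y * t) := ⟨bmul0 k.1 (bK S.tc rfl), k.2.1.mul co_t, two_of_sq_two (by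
  rw [pt S k]; exact (k.2.2.e_mul k.2.2 rfl).e_mul (two_of_sq xsq) ((bx k.1).mul_left (bx k.1)))⟩
theorem ppx (h : i ≠ j) (k : PP π t i j u y) : PP π t i j u (y * π (xs i j e)) :=
  ⟨bmul0 k.1 (bX S h), k.2.1.mul co_π, k.2.2.e_mul (two_of_sq xsq) (bx k.1)⟩
theorem ii1 : II π t i j 0 1 := ⟨bK (one_mem _) (by simp), fun _ _ => .one_right _, mul_one 1⟩
theorem pp_eq (h : i ≠ j) (k : PP π t i j u y) (k' : PP π t i j u y') :
    ∃ e, y' = y * π (xs i j e) ∨ y' = y * π (xs i j e) * t := by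
  obtain ⟨e, x, hx, h1, h2⟩ := b0 S h (bmul2 (binv k.1) k'.1)
  obtain ⟨o, h3, h4⟩ := dec S hx h1
  rw [inv_mul_eq_iff_eq_mul, ← mul_assoc] at h2
  have p := ppx S (e := e) h k
  refine ⟨e, h4.imp ?_ ?_⟩ <;> rintro rfl
  · rw [h2, odd_eq_one p.2.2 h3.2.2 (p.2.1 _ h3).symm (h2 ▸ k'.2.2), mul_one]
  · rw [← mul_assoc] at h2
    rw [h2, odd_eq_one (ppt S p).2.2 h3.2.2 ((ppt S p).2.1 _ h3).symm (h2 ▸ k'.2.2), mul_one]
theorem pp_sq (h : i ≠ j) (hu : u ≠ 0) (k : PP π t i j u y) : ∃ e, y * y = π (xs i j e) := by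
  obtain ⟨e, h1 | h1⟩ := pp_eq S h (ii1 S).pp ⟨bmul2 k.1 k.1, k.2.1.mul k.2.1, k.2.2.e_mul k.2.2 rfl⟩
  · exact ⟨e, by rwa [one_mul] at h1⟩
  have := congrArg (J y) h1
  rw [J_com.2 ((Commute.refl y).mul_right (.refl y)), h1, one_mul, map_mul, J_com.2 (bx k.1), bt k.1, mul_right_inj,
    left_eq_mul] at this
  exact (hu (S.x_one h this)).elim
theorem pp_sq' (h : i ≠ j) (k : PP π t i j u y) (k' : PP π t i j u y') :
    y' * y' = y * y ∨ y' * y' = y * y * π (xs i j u) := by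
  obtain ⟨e, h1⟩ := pp_eq S h k k'
  have : y * π (xs i j e) * (y * π (xs i j e)) = y * y := by rw [(bx k.1).symm.mul_mul_mul_comm, xsq, mul_one]
  refine h1.imp ?_ ?_ <;> rintro rfl
  exacts [this, by rw [pt S (ppx S h k), this]]
theorem ii_eq (h : i ≠ j) (hu : u ≠ 0) (k : II π t i j u y) (k' : II π t i j u y') : ∃ e, y' = y * π (xs i j e) := by
  obtain ⟨e, h1 | h1⟩ := pp_eq S h k.pp k'.pp
  · exact ⟨e, h1⟩
  have := k'.2.2
  rw [h1, pt S (ppx S h k.pp), (bx k.1).symm.mul_mul_mul_comm, xsq, k.2.2, mul_one, one_mul] at this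
  exact (hu (S.x_one h this)).elim

theorem n1 (h3 : i ≠ a) (k : Bz π t j a u y) : CC1 π a (nn (π (xs i j r)) y) := fun b v =>
  Commute.mul_right (ccJ h3 h3 one_ne_zero (mul_inv_eq_iff_eq_mul.2 (row_comm h3)) k.2.1 b v) (Commute.inv_right (k.2.1 b v))
theorem n2 (h1 : i ≠ j) (h2 : j ≠ a) (h3 : i ≠ a) (k : Bz π t j a u y) :
    J (nn (π (xs i j r)) y) t = t * π (xs i a (r * u)) := by
  rw [nn_J, bt (binv k), xinv, map_mul, Jt S, xch h1 h2 h3, map_mul (J y), map_mul (J y), bt k, J_com.2 (bx k),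
    J_com.2 (Commute.symm (k.2.1 _ _)), ((col_comm h2).map π).eq, ← mul_assoc, mul_assoc t, xsq, mul_one, map_mul, Jt S,
    J_com.2 ((row_comm h3).map π)]
theorem n3 (h1 : i ≠ j) (h2 : j ≠ a) (h3 : i ≠ a) (k : Bz π t j a u y) (k' : Bz π t i a (r * u) y') :
    ∃ w, w a = 0 ∧ ∃ k ∈ C(π.range), k * t = t * k ∧ nn (π (xs i j r)) y = y' * π (cv a w) * k := by
  have hH : y'⁻¹ * nn (π (xs i j r)) y ∈ C[t] := mem_cent1.2 (J_com.1 (by rw [J_mul, n2 S h1 h2 h3 k, J_inv (bt k')]))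
  obtain ⟨w, w0, x, hx, e⟩ := S.CV (S.ct hH) fun b v => Commute.mul_right (Commute.inv_right (k'.2.1 b v)) (n1 S h3 k b v)
  exact ⟨w, w0, x, hx, mem_cent1.1 ((mul_mem_cancel_left (S.πH _)).1 (e ▸ hH)), by rw [mul_assoc, ← e, mul_inv_cancel_left]⟩
theorem exP (h : a ≠ b) (k : Bz π t a b 1 y) (h' : i ≠ j) (hu : u ≠ 0) : ∃ y, PP π t i j u y := by
  obtain ⟨c, c1, c2⟩ := ex3 S.hm a b
  obtain ⟨s, e⟩ := conj_xs S.hm h c2 one_ne_zero (mul_ne_zero (one_ne_zero' F) one_ne_zero)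
  have k' := bJ S h c2 (mul_ne_zero one_ne_zero one_ne_zero) e k
  obtain ⟨w, -, x, hx, e1, e2⟩ := n3 S c1 h c2 k k'
  have o : CO π t (J (π s) y * x) := by
    rw [mul_assoc, mem_K.1 hx, ← mul_assoc, ← mul_inv_eq_iff_eq_mul] at e2
    exact e2 ▸ (co_nn S h k).mul co_π.inv
  have q := bmul0 k' (bK hx e1)
  generalize J (π s) y * x = y at o q
  obtain ⟨n, _, ⟨l, rfl⟩, e3⟩ := Nat.exists_eq_two_pow_mul_odd (orderOf_pos y).ne'
  obtain ⟨s, e⟩ := conj_xs S.hm c2 h' (mul_ne_zero (one_ne_zero' F) one_ne_zero) hu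
  exact ⟨_, ppJ S c2 h' hu e ⟨bpow q l, fun o' ho => (o o' ho).pow_right _,
    two_of_pow (j := n) (by rw [← pow_mul, mul_comm, ← e3, pow_orderOf_eq_one])⟩⟩
theorem n4 (h1 : i ≠ j) (h2 : j ≠ a) (h3 : i ≠ a) (k : Bz π t j a u y) (k' : PP π t i a (r * u) y') :
    ∃ w, w a = 0 ∧ (nn (π (xs i j r)) y = y' * π (cv a w) ∨ nn (π (xs i j r)) y = y' * t * π (cv a w)) := by
  obtain ⟨w, w0, x, hx, e1, e2⟩ := n3 S h1 h2 h3 k k'.1
  obtain ⟨o, ho, e3⟩ := dec S hx e1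
  have q : ∀ y', PP π t i a (r * u) y' → nn (π (xs i j r)) y = y' * π (cv a w) * o → nn (π (xs i j r)) y = y' * π (cv a w) :=
    fun y' k' e => by
      rw [e, kl (k'.2.2.e_mul (two_of_sq (by rw [← map_mul, cv_sq, map_one])) k'.1.2.1.cv.symm) ho.2.2
        ((k'.2.1.mul co_π) o ho).symm (co_π o ho).symm (e ▸ nn_il xsq), mul_one]
  refine ⟨w, w0, e3.imp (fun e => q _ k' (by rw [e2, e])) fun e => q _ (ppt S k') ?_⟩
  rw [e2, e, mul_assoc y' t, ← S.tπ, mul_assoc, mul_assoc, mul_assoc]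
theorem n5 (h2 : p ≠ a) (h3 : j ≠ a) (h1 : p ≠ j) (c : Commute (π (xs p j r)) y) :
    J (π (xs p j r)) (y * π (cv a w)) = y * π (cv a w) * π (xs p a (r * w j)) := by
  rw [map_mul, J_com.2 c, J_a, ← map_inv, ← map_mul, ← map_mul, xs_cv h2 h3 h1, map_mul, mul_assoc]
theorem n6 (e : J (π (xs i j r)) (nn (π (xs i j r)) y) = nn (π (xs i j r)) y * π (xs i a v)) :
    nn (π (xs i j r)) y * nn (π (xs i j r)) y = π (xs i a v) := by
  rw [nn_il xsq, inv_eq_iff_mul_eq_one, ← mul_assoc, mul_eq_one_iff_eq_inv, xinv] at e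
  exact e

theorem exI (h : a ≠ b) (k : Bz π t a b 1 y) : ∃ y, II π t a b 1 y := by
  obtain ⟨y, k⟩ := exP S h k h one_ne_zero
  obtain ⟨l, e⟩ := pp_sq S h one_ne_zero k
  suffices l = 0 ∨ l = 1 by
    rcases this with rfl | rfl
    exacts [⟨y, k.1, k.2.1, e.trans xz⟩, ⟨_, (ppt S k).1, (ppt S k).2.1, by rw [pt S k, e, xsq]⟩]
  rcases alt S.toSd with ⟨ν, ν0, ν1⟩ | q
  swap
  · exact q.1 l
  obtain ⟨c, c1, c2⟩ := ex3 S.hm a b
  have q : ∀ r, r ≠ 0 → ∃ η, (η = l ∨ η = l + 1) ∧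
      J (π (xs c a 1)) (nn (π (xs c a r)) y) = nn (π (xs c a r)) y * π (xs c b η) := fun r hr => by
    obtain ⟨s, e1⟩ := conj_xs S.hm h c2 one_ne_zero (mul_ne_zero hr one_ne_zero)
    have k' := ppJ S h c2 (mul_ne_zero hr one_ne_zero) e1 k
    have e2 : J (π s) y * J (π s) y = π (xs c b (l * (r * 1))) := by rw [← map_mul, e, ← J_π (lin h c2 e1 l), mul_one]
    obtain ⟨w, y', k'', e3⟩ : ∃ w y', PP π t c b (r * 1) y' ∧ nn (π (xs c a r)) y = y' * π (cv b w) :=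
      let ⟨w, _, e3⟩ := n4 S c1 h c2 k.1 k'; e3.elim (⟨w, _, k', ·⟩) (⟨w, _, ppt S k', ·⟩)
    have e4 := fun v => n5 S (w := w) (r := v) c2 h c1 (k''.1.1 a v)
    have e5 := n6 S (e3 ▸ e4 r)
    rw [e3, (Commute.mul_mul_mul_comm k''.1.2.1.cv), ← map_mul, cv_sq, map_one, mul_one] at e5
    refine ⟨w a, ?_, by rw [e3, e4, one_mul]⟩
    rcases pp_sq' S c2 k' k'' with e6 | e6 <;> rw [e5, e2] at e6
    · have := x_inj S.toMd c2 e6; grind
    · have := x_inj S.toMd c2 (e6.trans xadd.symm); grind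
  obtain ⟨η1, a1, b1⟩ := q 1 one_ne_zero
  obtain ⟨η2, a2, b2⟩ := q ν ν0
  obtain ⟨η3, a3, b3⟩ := q (1 + ν) (by grind)
  have c3 := fun r v => n1 S (r := r) c2 k.1 c v
  have e7 : nn (π (xs c a (1 + ν))) y = nn (π (xs c a ν)) y * π (xs c b η2) * nn (π (xs c a 1)) y := by rw [xadd, nn_mul, b2]
  rw [e7, map_mul, map_mul, b1, b2, J_com.2 ((row_comm c2).map π), mul_assoc _ _ (π (xs c b η3)), mul_assoc (_ * _),
    mul_right_inj, ← mul_assoc, c3, mul_assoc, mul_right_inj, ← xadd] at b3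
  have := x_inj S.toMd c2 b3
  grind
end

end H9.LN
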