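/-
Standard components of linear type in characteristic two, chunk `TH`, part 3: the equivariant family of involutions.
-/
import Cfsg.Agent.H9.LN2

set_option autoImplicit false
set_option linter.unusedSectionVars false

namespace H9.LN
open Cfsg Subgroup H19 H28.SA H28.SF H28.CY H22 Matrix SemidirectProduct
universe u v
variable {m : ℕ} {F : Type v} [Field F] [Finite F] [CharP F 2] {G : Type u} [Group G] [Finite G] {π : SL m F →* G}
  {a b c d i j p z : Fin m} {e r u v : F} {w : Fin m → F} {s s' : SL m F} {g h k o t x y y' : G}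
  {θ : Fin m → Fin m → F → G}

/-- an equivariant family of involutions -/
structure Fam (π : SL m F →* G) (t : G) (θ : Fin m → Fin m → F → G) : Prop where
  I : ∀ i j u, i ≠ j → II π t i j u (θ i j u)
  z0 : ∀ i j, θ i j 0 = 1
  eqv : ∀ i j u a b v l, i ≠ j → a ≠ b → l * xs i j u * l⁻¹ = xs a b v → π l * θ i j u * (π l)⁻¹ = θ a b v

theorem zne (hm : 3 ≤ m) (hz : (z : ℕ) = 0) : z ≠ z.rev := by have := z.val_rev; omega

theorem cenb (S : S2 π t) (hz : (z : ℕ) = 0) (hb : II π t z z.rev 1 y) (e : s * xs z z.rev 1 * s⁻¹ = xs z z.rev 1) :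
    J (π s) y = y := by
  have n := zne S.hm hz
  let C := C[xs z z.rev (1 : F)]
  have t0 : ∀ s ∈ C, s * xs z z.rev 1 * s⁻¹ = xs z z.rev 1 := fun s hs => mul_inv_eq_iff_eq_mul.2 (mem_cent1.1 hs)
  have t1 : ∀ s ∈ C, ∃ e, J (π s) y = y * π (xs z z.rev e) := fun s hs =>
    ii_eq S n one_ne_zero hb (iiJ S n n one_ne_zero (t0 s hs) hb)
  have t2 : ∀ s ∈ C, ∀ e, J (π s) (π (xs z z.rev e)) = π (xs z z.rev e) := fun s hs e => by
    simpa using J_π (π := π) (lin n n (t0 s hs) e)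
  let D := C ⊓ C[y].comap π
  have t3 : ∀ s ∈ C, s * s ∈ D := fun s hs => by
    obtain ⟨e, h1⟩ := t1 s hs
    exact ⟨mul_mem hs hs, mem_cent1.2 (J_com.1 (by rw [map_mul, J_mul, h1, map_mul, h1, t2 s hs, mul_assoc, xsq, mul_one]))⟩
  have t4 : ∀ s ∈ C, ∀ s' ∈ C, s * s' * s⁻¹ * s'⁻¹ ∈ D := fun s hs s' hs' => by
    obtain ⟨e, h1⟩ := t1 _ (inv_mem hs)
    obtain ⟨e', h2⟩ := t1 _ (inv_mem hs')
    refine ⟨C.mul_mem (C.mul_mem (C.mul_mem hs hs') (C.inv_mem hs)) (C.inv_mem hs'), mem_cent1.2 (J_com.1 ?_)⟩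
    have : J (π (s⁻¹ * s'⁻¹)) y = J (π (s'⁻¹ * s⁻¹)) y := by
      rw [map_mul, map_mul, J_mul, J_mul, h1, h2, map_mul, map_mul, h1, h2, t2 _ (inv_mem hs), t2 _ (inv_mem hs'), mul_assoc,
        mul_assoc, ← xadd, ← xadd, add_comm]
    rw [mul_assoc, map_mul, J_mul, this, ← J_mul, ← map_mul, ← _root_.mul_inv_rev, mul_inv_cancel, map_one, J_one]
  have c1 : ∀ a c u, a ≠ z.rev → c ≠ z → xs a c u ∈ C := fun a c u h1 h2 => mem_cent1.2 (xs_comm h1 h2)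
  have mid : ∀ a c u, a ≠ c → a ≠ z → a ≠ z.rev → c ≠ z → c ≠ z.rev → xs a c u ∈ D := fun a c u h h1 h2 h3 h4 => by
    rcases alt S.toSd with ⟨ν, ν0, ν1⟩ | q
    · have n' : ν * ν + 1 ≠ 0 := fun e => ν1 (by grind)
      have := t4 (hS a c (Units.mk0 ν ν0)) (mem_cent1.2 (mul_inv_eq_iff_eq_mul.1 (cjS (by
        simp [ι_hS, hh, dg_tv, h1.symm, h2.symm, h3.symm, h4.symm])))) _ (c1 a c (u / (ν * ν + 1)) h2 h3)
      rwa [cjS (ι_hS (a := a) (b := c) (Units.mk0 ν ν0) ▸ hh_tv3 h _), xs_inv2, ← xs_add, Units.val_mk0,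
        show ν * (u / (ν * ν + 1)) * ν + u / (ν * ν + 1) = u / (ν * ν + 1) * (ν * ν + 1) by ring, div_mul_cancel₀ _ n'] at this
    · obtain ⟨d, hd⟩ := exi (n := 4) q.2 [z, z.rev, a, c] le_rfl
      simp only [List.mem_cons, List.not_mem_nil, or_false, not_or] at hd
      have := t4 _ (c1 a d u h2 hd.1) _ (c1 d c 1 hd.2.1 h3)
      rwa [xs_chain (Ne.symm hd.2.2.1) hd.2.2.2 h, mul_one] at this
  have hU : Lv m F 1 ≤ D.map ι := Lv_gen le_rfl fun a b u l => ⟨xs a b u, by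
    have := z.val_rev
    have h1 : a ≠ z.rev := by omega
    have h2 : b ≠ z := by omega
    by_cases e1 : a = z
    · exact ⟨c1 a b u h1 h2, mem_cent1.2 (e1 ▸ hb.1.1 b u)⟩
    by_cases e2 : b = z.rev
    · exact ⟨c1 a b u h1 h2, mem_cent1.2 (e2 ▸ hb.1.2.1 a u)⟩
    exact mid a b u (by omega) e1 h1 h2 e2, rfl⟩
  have hs : s ∈ C := mem_cent1.2 (mul_inv_eq_iff_eq_mul.1 e)
  obtain ⟨g, o, rfl, -, g2, o2, hg, ho⟩ := parts s
  replace hg := zpowers_le.2 hs hg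
  replace ho := zpowers_le.2 hs ho
  obtain ⟨_, ⟨l, hl, rfl⟩, k⟩ := (syl_Lv.of_le (hU.trans (map_mono inf_le_left)) le_top).scj_le
    (zpowers_le.2 (mem_map_of_mem ι hg)) (piG_zpowers.2 (ι_two.2 g2))
  have k1 := hU (k (H19.conj_mem_cj.2 (mem_zpowers _)))
  rw [← map_inv, ← map_mul, ← map_mul, mem_map_iff_mem ι_inj] at k1
  have k2 := mul_mem (t4 _ (inv_mem hl) _ k1.1) k1
  rw [show l⁻¹ * (l * g * l⁻¹) * l⁻¹⁻¹ * (l * g * l⁻¹)⁻¹ * (l * g * l⁻¹) = g by group] at k2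
  exact J_com.2 (mem_cent1.1 (mul_mem k2 (mem_of_odd o2 (t3 o ho))).2)

theorem exF (S : S2 π t) (hz : (z : ℕ) = 0) (hb : II π t z z.rev 1 y) : ∃ θ, Fam π t θ := by
  classical
  have n := zne S.hm hz
  let θ : Fin m → Fin m → F → G := fun i j u =>
    if h : ∃ s, s * xs z z.rev 1 * s⁻¹ = xs i j u then J (π h.choose) y else 1
  have key : ∀ s i j u, s * xs z z.rev 1 * s⁻¹ = xs i j u → θ i j u = J (π s) y := fun s i j u e => by
    have h : ∃ s, s * xs z z.rev 1 * s⁻¹ = xs i j u := ⟨s, e⟩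
    have := cenb S hz hb (s := s⁻¹ * h.choose) (by rw [← J_a, J_mul, J_a h.choose, h.choose_spec, ← e]; exact J_inv rfl)
    refine (dif_pos h).trans ?_
    conv_rhs => rw [← this, ← J_mul, ← map_mul, mul_inv_cancel_left]
  have z0 : ∀ i j, θ i j 0 = 1 := fun i j => dif_neg fun ⟨s, e⟩ =>
    one_ne_zero (xs_eq_one n (by rwa [xs_zero, conj_eq_one_iff] at e))
  refine ⟨θ, fun i j u h => ?_, z0, fun i j u a b v l h h' e => ?_⟩
  · by_cases hu : u = 0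
    · rw [hu, z0]; exact ii1 S
    obtain ⟨s, e⟩ := conj_xs S.hm n h one_ne_zero hu
    exact key s i j u e ▸ iiJ S n h hu e hb
  · by_cases hu : u = 0
    · rw [hu, xs_zero, mul_one, mul_inv_cancel] at e
      rw [hu, xs_eq_one h' e.symm, z0, z0, mul_one, mul_inv_cancel]
    obtain ⟨s, e'⟩ := conj_xs S.hm n h one_ne_zero hu
    rw [key s i j u e', key (l * s) a b v (by rw [← J_a, J_mul, J_a s, e', J_a, e]), map_mul, J_mul, J_a (π l)]

theorem ii_tw (k : II π t i j u y) : II (tw π) t j i u y :=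
  ⟨⟨cr_tw.2 k.1.2.1, cc_tw.2 k.1.1, tw_xs (π := π) ▸ k.1.2.2⟩, fun o ho => k.2.1 o ⟨range_tw (π := π) tr ▸ ho.1, ho.2⟩, k.2.2⟩
theorem Fam.tw (Φ : Fam π t θ) : Fam (tw π) t fun i j u => θ j i u :=
  ⟨fun i j u h => ii_tw (Φ.I j i u h.symm), fun i j => Φ.z0 j i, fun i j u a b v _ h h' e =>
    Φ.eqv j i u b a v _ h.symm h'.symm (tr_cj e)⟩

theorem Fam.nor (Φ : Fam π t θ) (S : S2 π t) (hz : (z : ℕ) = 0) (hh : h ∈ C[t]) (n' : i ≠ j) :
    h * θ i j u * h⁻¹ ∈ π.range ⊔ closure {y | ∃ a b v, a ≠ b ∧ y = θ a b v} := by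
  have n := zne S.hm hz
  have hm := S.hm
  by_cases hu : u = 0
  · rw [hu, Φ.z0, mul_one, mul_inv_cancel]; exact one_mem _
  obtain ⟨s, e⟩ := conj_xs S.hm n n' one_ne_zero hu
  obtain ⟨k, o, A⟩ := S.act (S.ct hh)
  obtain ⟨p, p1, p2⟩ := ex3 S.hm z z.rev
  obtain ⟨l, e1⟩ := exists_toGL (g := k * (dg (Pi.mulSingle p (GeneralLinearGroup.det k)))⁻¹)
    (by simp [det_dg])
  have A' : Act π ((π l)⁻¹ * h) (inl (dg (Pi.mulSingle p (GeneralLinearGroup.det k))) * δ m o) := by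
    convert (act_π l).inv.mul A using 1
    rw [sl, MonoidHom.comp_apply, e1, ← mul_assoc, ← map_inv, ← map_mul]
    simp
  have hH := mul_mem (inv_mem (S.πH l)) hh
  have b := Φ.I z z.rev 1 n
  have cq : θ z z.rev 1 ∈ C(pm π (LB m F 1 1)) := mem_cent.2 (by
    rintro _ ⟨s, hs, rfl⟩
    exact mem_cent1.1 (Q_ind hm hz (H := C[θ z z.rev 1].comap π) (fun a u _ => mem_cent1.2 (b.1.2.1 a u))
      (fun a u _ => mem_cent1.2 (b.1.1 a u)) hs))
  have cq' := mem_cent.1 (conj_mem_of_norm (norm_le_norm_cent _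
    (A'.pm fun x hx => LB_cj (dg_LB _) (ac_LB (by omega) o hx))) cq)
  have fx : J ((π l)⁻¹ * h) (π (xs z z.rev 1)) = π (xs z z.rev 1) :=
    A'.cj (by rw [ι_xs, ac_z z (.inr rfl), dg_tv]; simp [p1.symm, p2.symm])
  generalize hg : (π l)⁻¹ * h = g at *
  have b' : II π t z z.rev 1 (J g (θ z z.rev 1)) := by
    refine ⟨⟨fun c u => cq' _ (pm_mem ((mem_Q hm hz).2 ?_)), fun c u => cq' _ (pm_mem ((mem_Q hm hz).2 ?_)), ?_⟩,
      fun o ho => ?_, cj_sq b.2.2 _⟩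
    · by_cases e : c = z.rev
      exacts [⟨0, Pi.single z u, rfl, by rw [e, cv_single, rv, cv_zero, map_one, mul_one]⟩,
        ⟨Pi.single c u, 0, Pi.single_eq_of_ne' e _, by rw [cv_zero, one_mul, rv_single]⟩]
    · exact ⟨0, Pi.single c u, rfl, by rw [cv_single, rv, cv_zero, map_one, mul_one]⟩
    · rw [← J_a, ← fx, ← J_com.2 (mem_cent1.1 hH), ← map_mul, ← bt b.1, ← J_J]
    · have := (b.2.1 (J g⁻¹ o) ⟨conj_mem_of_norm (norm_le_norm_cent _ (inv_mem (S.ct hH))) ho.1,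
        mem_cent1.1 (mul_mem (mul_mem (inv_mem hH) (mem_cent1.2 ho.2.1)) (inv_mem (inv_mem hH))), ho.2.2.e_conj _⟩).map (J g)
      rwa [← J_mul, mul_inv_cancel, J_one] at this
  obtain ⟨c, e2⟩ := ii_eq S n one_ne_zero b b'
  have mL : ∀ s, π s ∈ π.range ⊔ closure {y | ∃ a b v, a ≠ b ∧ y = θ a b v} := fun s => mem_sup_left ⟨s, rfl⟩
  obtain ⟨s', e3⟩ := conj_mem_of_norm (S.ct hh) ⟨s, rfl⟩
  rw [← Φ.eqv _ _ _ _ _ _ s n n' e, ← J_a, ← J_a, J_J, J_a h (π s), ← e3, ← mul_inv_cancel_left (π l) h, hg, J_mul, e2, J_a, J_a]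
  exact mul_mem (mul_mem (mL _) (mul_mem (mul_mem (mL _) (mul_mem (mem_sup_right (subset_closure ⟨_, _, _, n, rfl⟩)) (mL _)))
    (inv_mem (mL _)))) (inv_mem (mL _))

end H9.LN
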