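/-
Standard components of linear type in characteristic two, chunk `TH`, part 4: the commutator relations.
-/
import Cfsg.Agent.H9.LN3

set_option autoImplicit false
set_option linter.unusedSectionVars false

namespace H9.LN
open Cfsg Subgroup H19 H28.SA H28.SF H28.CY H22 Matrix SemidirectProduct
universe u v
variable {m : ℕ} {F : Type v} [Field F] [Finite F] [CharP F 2] {G : Type u} [Group G] [Finite G] {π : SL m F →* G}
  {a b c d i j p z : Fin m} {e r u v : F} {w : Fin m → F} {s s' : SL m F} {g h k o t x y y' : G}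
  {θ : Fin m → Fin m → F → G}

theorem kill (S : S2 π t) (h0 : s * s = 1) (hk : k ∈ C(π.range)) (kt : k * t = t * k) (c : Commute g (π s)) (o : CO π t g)
    (e : J g t = t * π (xs a b u)) (i : J g (π s * k) = (π s * k)⁻¹) : k = 1 ∨ π (xs a b u) = 1 := by
  rw [map_mul, J_com.2 c, _root_.mul_inv_rev, ← map_inv, inv_eq_of_mul_eq_one_right h0, ← mem_K.1 (inv_mem hk),
    mul_right_inj] at i
  obtain ⟨q, hq, rfl | rfl⟩ := dec S hk kt
  · rw [J_com.2 (o _ hq).symm, eq_inv_iff_mul_eq_one] at i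
    exact .inl ((two_of_sq i).e_eq_one hq.2.2)
  · rw [map_mul, J_com.2 (o _ hq).symm, e] at i
    exact .inr ((two_of_sq xsq).e_eq_one (S.zodd.elt ⟨⟨_, rfl⟩, (mul_mem_cancel_left S.tc).1
      ((mul_mem_cancel_right hq.1).1 (i ▸ inv_mem hk))⟩))

namespace Fam
variable (Φ : Fam π t θ)
include Φ
theorem B (h : i ≠ j) (u : F) : Bz π t i j u (θ i j u) := (Φ.I i j u h).1
theorem co (h : i ≠ j) (u : F) : CO π t (θ i j u) := (Φ.I i j u h).2.1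
theorem sq (h : i ≠ j) (u : F) : θ i j u * θ i j u = 1 := (Φ.I i j u h).2.2
theorem inv (h : i ≠ j) (u : F) : (θ i j u)⁻¹ = θ i j u := inv_eq_of_mul_eq_one_right (Φ.sq h u)
theorem fix (h : i ≠ j) (e : Commute s (xs i j u)) : Commute (π s) (θ i j u) :=
  J_com.1 (Φ.eqv i j u i j u s h h (mul_inv_eq_iff_eq_mul.2 e))
theorem fx (h : i ≠ j) (h1 : a ≠ j) (h2 : b ≠ i) : Commute (π (xs a b v)) (θ i j u) := Φ.fix h (xs_comm h1 h2)
variable (S : S2 π t)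
include S

theorem n7 (h1 : i ≠ j) (h2 : j ≠ a) (h3 : i ≠ a) (hr : r * u ≠ 0) : ∃ w, w a = 0 ∧
    (∀ p v, p ≠ a → p ≠ j → J (π (xs p j v)) (nn (π (xs i j r)) (θ j a u)) = nn (π (xs i j r)) (θ j a u) * π (xs p a (v * w j))) ∧
    ((w j = 0 ∧ nn (π (xs i j r)) (θ j a u) = θ i a (r * u) * π (cv a w)) ∨ w j = u) := by
  obtain ⟨w, w0, e⟩ := n4 S h1 h2 h3 (Φ.B h2 u) (Φ.I i a (r * u) h3).pp
  have k : ∀ p v, p ≠ a → p ≠ j →
      J (π (xs p j v)) (nn (π (xs i j r)) (θ j a u)) = nn (π (xs i j r)) (θ j a u) * π (xs p a (v * w j)) := fun p v p1 p2 => by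
    have := Φ.fx (v := v) (u := r * u) h3 p1 h1.symm
    rcases e with e | e <;> rw [e]
    exacts [n5 S p1 h2 p2 this, n5 S p1 h2 p2 (this.mul_right (S.tπ _))]
  have q := n6 S (k i r h3 h1)
  have c := (Φ.B h3 (r * u)).2.1.cv (w := w)
  refine ⟨w, w0, k, e.imp (fun e => ⟨?_, e⟩) fun e => ?_⟩
  · rw [e, Commute.mul_mul_mul_comm c, ← map_mul, cv_sq, map_one, Φ.sq h3, mul_one] at q
    exact (mul_eq_zero.1 (S.x_one h3 q.symm)).resolve_left (left_ne_zero_of_mul hr)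
  · rw [e, (Commute.mul_right c (S.tπ _)).mul_mul_mul_comm, ← map_mul, cv_sq, map_one, mul_one, pt S (Φ.I i a _ h3).pp,
      Φ.sq h3, one_mul] at q
    exact (mul_left_cancel₀ (left_ne_zero_of_mul hr) (x_inj S.toMd h3 q)).symm
theorem n8 (h1 : i ≠ j) (h2 : j ≠ a) (h3 : i ≠ a) (hr : r * u ≠ 0) :
    ∃ e, nn (π (xs i j r)) (θ j a u) = θ i a (r * u) * π (xs i a e) := by
  obtain ⟨w, w0, k, ⟨e1, e2⟩ | e⟩ := Φ.n7 S h1 h2 h3 hr
  · refine ⟨w i, e2.trans (congrArg (_ * π ·) ((cv_ext.2 fun p hp => ?_).trans cv_single))⟩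
    by_cases p1 : p = i
    · rw [p1, Pi.single_eq_same]
    rw [Pi.single_eq_of_ne p1]
    by_cases p2 : p = j
    · rw [p2, e1]
    have := J_com.2 (nn_com ((row_comm (b := p) (u := 1) (v := r) h1).map π) (Φ.fx (u := u) h2 h3 p2))
    rw [e2, n5 S h3 hp (Ne.symm p1) ((Φ.B h3 _).1 _ _), mul_eq_left] at this
    simpa using S.x_one h3 this
  exfalso
  have q : ∀ p v, p ≠ j → p ≠ a → v * u ≠ 0 → ∃ η, (η = 0 ∨ η = u) ∧ π (xs i a (r * η)) = π (xs p a (v * u)) :=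
    fun p v p1 p2 hv => by
      obtain ⟨w', -, k', e'⟩ := Φ.n7 S p1 h2 p2 hv
      exact ⟨w' j, e'.imp (·.1) id, (inv3 (Φ.sq h2 u) ((col_comm p1).map π) (k' i r h3 h1) (e ▸ k p v p2 p1)
        (Commute.symm ((Φ.B h2 u).2.1 _ _)) (n1 S h3 (Φ.B h2 u) _ _) (n1 S h3 (Φ.B h2 u) _ _)).trans xinv⟩
  rcases alt S.toSd with ⟨ν, ν0, ν1⟩ | q'
  · obtain ⟨η, e1, e2⟩ := q i (ν * r) h1 h3 (mul_assoc ν r u ▸ mul_ne_zero ν0 hr)
    have := x_inj S.toMd h3 e2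
    grind
  · obtain ⟨p, hp⟩ := exi (n := 4) q'.2 [i, j, a] (by simp)
    simp only [List.mem_cons, List.not_mem_nil, or_false, not_or] at hp
    obtain ⟨η, -, e2⟩ := q p r hp.2.1 hp.2.2 hr
    exact hr ((x_eq S.toMd h3 hp.2.2 e2).symm.trans (if_neg fun e => hp.1 e.1.symm))
theorem cc (h1 : i ≠ j) (h2 : j ≠ a) (h3 : i ≠ a) : Commute (θ j a u) (θ i a v) := by
  by_cases hu : u = 0
  · rw [hu, Φ.z0]; exact .one_left _
  by_cases hv : v = 0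
  · rw [hv, Φ.z0]; exact .one_right _
  obtain ⟨r, rfl⟩ : ∃ r, v = r * u := ⟨v / u, (div_mul_cancel₀ _ hu).symm⟩
  obtain ⟨e, k⟩ := Φ.n8 S h1 h2 h3 hv
  have := nn_ir (X := π (xs i j r)) (Φ.sq h2 u)
  rw [k, map_mul, J_com.2 (Commute.symm ((Φ.B h2 u).2.1 _ _)), _root_.mul_inv_rev, xinv, Φ.inv h3, ← (bx (Φ.B h3 _)).eq,
    mul_left_inj] at this
  exact J_com.1 this
theorem col (h1 : i ≠ j) (h2 : j ≠ a) (h3 : i ≠ a) : nn (π (xs i j r)) (θ j a u) = θ i a (r * u) := by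
  by_cases hr : r * u = 0
  · rw [hr, Φ.z0]
    rcases mul_eq_zero.1 hr with rfl | rfl
    exacts [by simp [xs_zero, nn], by simp [Φ.z0, nn]]
  have r0 := left_ne_zero_of_mul hr
  have ru : r⁻¹ * (r * u) = u := inv_mul_cancel_left₀ r0 u
  obtain ⟨e, k⟩ := Φ.n8 S h1 h2 h3 hr
  obtain ⟨e', k'⟩ := Φ.n8 S (r := r⁻¹) h1.symm h3 h2 (ru.symm ▸ right_ne_zero_of_mul hr)
  have q := Φ.eqv j a u i a (r * u) (xs j i r⁻¹ * xs i j r) h2 h3 (by
    rw [← J_a, J_mul, sch h1 h2 h3, map_mul, sch h1.symm h3 h2, J_com.2 (row_comm h2), ru, (col_comm h3).eq, mul_assoc, xs_sq,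
      mul_one])
  have c1 : ∀ p v, Commute (π (xs p a v)) (θ i a (r * u)) := (Φ.B h3 _).2.1
  have c2 : ∀ p v, Commute (π (xs p a v)) (θ j a u) := (Φ.B h2 _).2.1
  rw [← J_a, map_mul, J_mul, nn_eq k, map_mul, map_mul, nn_eq k', xch h1.symm h3 h2, J_com.2 ((Φ.B h2 u).1 _ _), ru,
    mul_assoc _ (θ i a _), ← ((c1 _ _).mul_left (c1 _ _)).eq, mul_assoc (θ j a u),
    ← ((c2 _ _).mul_left (((c2 _ _).mul_left (c2 _ _)).mul_left (Φ.cc S h1 h2 h3).symm)).eq, mul_assoc _ (θ j a u), Φ.sq h2,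
    mul_one, ← mul_assoc, mul_eq_right, ← mul_assoc, ← xadd, mul_eq_one_iff_eq_inv, xinv] at q
  rw [k, ← x_eq S.toMd h2 h3 q, if_neg fun e => h1 e.1.symm, xz, mul_one]
theorem add (h : i ≠ a) : θ i a (u + v) = θ i a u * θ i a v := by
  obtain ⟨j, j1, j2⟩ := ex3 S.hm i a
  have k := fun r => Φ.col S (r := r) (u := 1) j1.symm j2 h
  simp only [mul_one] at k
  rw [add_comm, ← k, xadd, nn_mul, k, k, J_com.2 ((Φ.B h u).1 _ _)]
theorem ccol (h2 : j ≠ a) (h3 : i ≠ a) : Commute (θ j a u) (θ i a v) := by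
  by_cases h1 : i = j
  · rw [h1, Commute, SemiconjBy, ← Φ.add S h2, ← Φ.add S h2, add_comm]
  · exact Φ.cc S h1 h2 h3
theorem crow (h2 : a ≠ j) (h3 : a ≠ i) : Commute (θ a j u) (θ a i v) := Φ.tw.ccol (S.tw tr) h2.symm h3.symm
theorem row (h1 : i ≠ j) (h2 : j ≠ a) (h3 : i ≠ a) : nn (π (xs j a v)) (θ i j u) = θ i a (v * u) :=
  tw_xs (π := π) ▸ Φ.tw.col (S.tw tr) h2.symm h1.symm h3.symm
theorem col' (h1 : i ≠ j) (h2 : j ≠ a) (h3 : i ≠ a) : nn (θ j a u) (π (xs i j r)) = θ i a (r * u) := by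
  rw [← nn_inv, Φ.col S h1 h2 h3, Φ.inv h3]
theorem row' (h1 : i ≠ j) (h2 : j ≠ a) (h3 : i ≠ a) : nn (θ i j u) (π (xs j a v)) = θ i a (u * v) := by
  rw [← nn_inv, Φ.row S h1 h2 h3, Φ.inv h3, mul_comm]

theorem dis (h : i ≠ j) (h' : a ≠ b) (h1 : i ≠ b) (h2 : j ≠ a) (h3 : i ≠ a) (h4 : j ≠ b) : Commute (θ i j u) (θ a b v) := by
  have c1 := J_com.2 (Φ.fx (u := u) (v := v) h h2.symm h1.symm).symm
  have c2 := J_com.2 (Φ.fx (u := v) (v := u) h' h1 h2).symm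
  have c3 : Commute (π (xs a b v)) (π (xs i j u)) := Commute.map (xs_comm h2.symm h1.symm) π
  obtain ⟨e, k, hk, kt, q⟩ := b0 S h (y := nn (θ i j u) (θ a b v)) ⟨fun p w => by
    by_cases e : p = a
    · subst p; exact fix1 (J_com.2 ((Φ.B h u).1 _ _)) (nn_eq (Φ.col S h3 h' h1)) (Φ.crow S h1 h) (Φ.ccol S h1 h')
    · exact nn_com ((Φ.B h u).1 _ _) (Φ.fx h' h1 e), fun p w => by
    by_cases e : p = b
    · subst p; exact fix1 (J_com.2 ((Φ.B h u).2.1 _ _)) (nn_eq (Φ.row S h' h4.symm h2.symm)) (Φ.ccol S h2.symm h) (Φ.crow S h2.symm h')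
    · exact nn_com ((Φ.B h u).2.1 _ _) (Φ.fx h' e h2), by
    rw [← J_a, nn_J, Φ.inv h, Φ.inv h', bt (Φ.B h' v), map_mul, bt (Φ.B h u), c1, map_mul (J (θ a b v)), map_mul (J (θ a b v)),
      bt (Φ.B h' v), c2, J_com.2 (bx (Φ.B h' v)), mul_assoc t, mul_assoc t, c3.eq, mul_assoc, xsq, mul_one, map_mul, bt (Φ.B h u),
      J_com.2 (bx (Φ.B h u)), mul_assoc, xsq, xz]⟩
  have := J_com.2 (fix2 (nn_eq (Φ.col S (r := 1) (u := u) h3.symm h h2.symm)) (J_com.2 ((Φ.B h' v).1 i 1))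
    (Φ.ccol S h2.symm h) (Φ.crow S h2.symm h'))
  rw [q, map_mul, xch h3.symm h h2.symm, J_com.2 (mem_K.1 hk _), mul_left_inj, mul_eq_right, one_mul] at this
  rcases kill S xs_sq hk kt (bx (Φ.B h u)) (Φ.co h u) (bt (Φ.B h u)) (q ▸ nn_il (Φ.sq h u)) with rfl | e1
  · rw [S.x_one h2.symm this, xz, mul_one] at q
    exact nn_one.1 q
  · rw [S.x_one h e1, Φ.z0]; exact .one_left _

theorem ch0 (h1 : i ≠ j) (h2 : j ≠ a) (h3 : i ≠ a) (u v : F) :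
    ∃ e, nn (θ i j u) (θ j a v) = θ i a (u * v) * π (xs i a e) := by
  have c1 := fun w => Φ.crow S (u := w) (v := u) h3 h1
  have c2 := fun w => Φ.ccol S (u := w) (v := v) h3 h2
  have x := xch (π := π) (u := u) (v := v) h1 h2 h3
  rw [J_a, xinv, ← mul_inv_eq_iff_eq_mul, xinv, mul_assoc, mul_assoc, ← eq_inv_mul_iff_mul_eq, xinv] at x
  obtain ⟨e, k, hk, kt, q⟩ := b0 S h3 (bmul2 (y := nn (θ i j u) (θ j a v)) ⟨fun p w => by
    by_cases e : p = j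
    · subst p; exact fix1 (J_com.2 ((Φ.B h1 u).1 _ _)) (nn_eq (Φ.col S h1 h2 h3)) (c1 _) (c2 _)
    · exact nn_com ((Φ.B h1 u).1 _ _) (Φ.fx h2 h3 e), fun p w => by
    by_cases e : p = j
    · subst p; exact fix2 (nn_eq (Φ.row S h1 h2 h3)) (J_com.2 ((Φ.B h2 v).2.1 _ _)) (c1 _) (c2 _)
    · exact nn_com (Φ.fx h1 e h3.symm) ((Φ.B h2 v).2.1 _ _), by
    rw [← J_a, nn_J, Φ.inv h1, Φ.inv h2, bt (Φ.B h2 v), map_mul, bt (Φ.B h1 u), nn_eq (Φ.row' S h1 h2 h3), map_mul (J (θ j a v)),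
      map_mul (J (θ j a v)), map_mul (J (θ j a v)), bt (Φ.B h2 v), nn_eq (Φ.col' S h1 h2 h3), J_com.2 (c2 _).symm,
      J_com.2 (bx (Φ.B h2 v)), ← (Φ.B h3 _).1,
      mul_assoc, mul_assoc, mul_assoc, ← mul_assoc (θ i a _), Φ.sq h3, one_mul, x, map_mul, map_mul, bt (Φ.B h1 u),
      J_com.2 (bx (Φ.B h1 u)), J_com.2 (Commute.symm ((Φ.B h1 u).1 _ _)), mul_assoc, ← mul_assoc (π _), xsq, one_mul]⟩
    (Φ.B h3 (u * v)))
  rcases kill S xs_sq hk kt (Commute.symm ((Φ.B h1 u).1 _ _)) (Φ.co h1 u) (bt (Φ.B h1 u)) (by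
    rw [← q, map_mul, nn_il (Φ.sq h1 u), J_com.2 (c1 _).symm, _root_.mul_inv_rev, Φ.inv h3,
      (nn_com (c1 _) (c2 _)).inv_right.eq]) with rfl | e1
  · exact ⟨e, by rw [(bx (Φ.B h3 _)).eq, ← Φ.inv h3, eq_mul_inv_iff_mul_eq, q, mul_one]⟩
  · exact ⟨0, by rw [S.x_one h1 e1, zero_mul, Φ.z0, Φ.z0, xz, mul_one]; exact nn_one.2 (.one_left _)⟩
theorem ch1 (h1 : i ≠ j) (h2 : j ≠ a) (h3 : i ≠ a) :
    ∃ α, ∀ u v, nn (θ i j u) (θ j a v) = θ i a (u * v) * π (xs i a (α * (u * v))) := by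
  choose e he using Φ.ch0 S h1 h2 h3
  have k : ∀ u v u' v', θ i a u * π (xs i a v) * (θ i a u' * π (xs i a v')) = θ i a (u + u') * π (xs i a (v + v')) :=
    fun u v u' v' => by rw [(bx (Φ.B h3 _)).symm.mul_mul_mul_comm, xadd, Φ.add S h3]
  refine ⟨e 1 1, fun u v => (he u v).trans (congrArg (fun w => _ * π (xs i a w))
    (hua e (fun c c' d => ?_) (fun c d d' => ?_) (fun A A0 c d => ?_) u v))⟩
  · have := he (c + c') d
    rw [Φ.add S h1, nn_mul, he, he, J_com.2 ((Φ.crow S h1 h3).mul_right (Commute.symm ((Φ.B h1 c).1 _ _))), k, ← add_mul,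
      add_comm c', mul_right_inj] at this
    rw [← x_inj S.toMd h3 this, add_comm]
  · have := he c (d + d')
    rw [Φ.add S h2, nn_mul', he, he, J_com.2 ((Φ.ccol S h2 h3).mul_right (Commute.symm ((Φ.B h2 d).2.1 _ _))), k, ← mul_add,
      mul_right_inj] at this
    exact (x_inj S.toMd h3 this).symm
  · have t1 := fun u => cjS (ι_hS (a := i) (b := a) (Units.mk0 A A0) ▸ hh_tv1 (u := u) h3 h1.symm h2 _)
    have t2 := fun u => cjS (ι_hS (a := i) (b := a) (Units.mk0 A A0) ▸ hh_tv2 (u := u) h3 h1.symm h2 _)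
    have t3 := fun u => cjS (ι_hS (a := i) (b := a) (Units.mk0 A A0) ▸ hh_tv3 (u := u) h3 _)
    have := congrArg (J (π (hS i a (Units.mk0 A A0)))) (he c d)
    rw [J_nn, map_mul, J_π (t3 _), J_a, J_a, J_a, Φ.eqv _ _ _ _ _ _ _ h1 h1 (t1 _), Φ.eqv _ _ _ _ _ _ _ h2 h2 (t2 _),
      Φ.eqv _ _ _ _ _ _ _ h3 h3 (t3 _), he, Units.val_mk0, show A * c * (d * A) = A * (c * d) * A by ring, mul_right_inj] at this
    exact x_inj S.toMd h3 this
end Fam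

theorem th : TH.{u, v} := fun m F _ _ _ G _ _ π t z y S hz hy => by
  have n := zne S.hm hz
  obtain ⟨b, hb⟩ := exI S n hy
  obtain ⟨θ, Φ⟩ := exF S hz hb
  obtain ⟨p, p1, p2⟩ := ex3 S.hm z z.rev
  obtain ⟨α, e⟩ := Φ.ch1 S p1.symm p2 n
  refine ⟨θ, α, fun i j u v h => Φ.add S h, fun i j u h => bt (Φ.B h u), Φ.eqv, fun i j a b u v h h' h1 h2 => ?_,
    fun i j a u v h1 h2 h3 => Φ.col S h1 h2 h3, fun i j a u v h1 h2 h3 => Φ.row' S h1 h2 h3, fun i j a u v h1 h2 h3 => ?_,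
    fun h hh i j u => Φ.nor S hz hh⟩
  · by_cases h3 : i = a
    · exact h3 ▸ Φ.crow S h h1
    by_cases h4 : j = b
    exacts [h4 ▸ Φ.ccol S h h2.symm, Φ.dis S h h' h1 h2 h3 h4]
  · obtain ⟨σ, rfl, rfl, rfl⟩ := perm3 p1.symm p2 n h1 h2 h3
    have := congrArg (J (π (pmx F σ))) (e u v)
    rwa [J_nn, map_mul, J_π (pmx_xs σ n), J_a, J_a, J_a, Φ.eqv _ _ _ _ _ _ _ p1.symm h1 (pmx_xs σ p1.symm),
      Φ.eqv _ _ _ _ _ _ _ p2 h2 (pmx_xs σ p2), Φ.eqv _ _ _ _ _ _ _ n h3 (pmx_xs σ n)] at this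

end H9.LN
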