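import Mathlib
import Cfsg.Agent.S4201

/-! Class numbers of permutation groups: chains of pointwise stabilizers. -/

set_option autoImplicit false
open MulAction
open scoped Pointwise

namespace H9.Lp
universe u

/-- class number -/
noncomputable abbrev kk (G : Type*) [Group G] : ℕ := Nat.card (ConjClasses G)

theorem kk_congr {G H : Type*} [Group G] [Group H] (e : G ≃* H) : kk G = kk H := by
  refine Nat.card_congr ⟨ConjClasses.map e.toMonoidHom, ConjClasses.map e.symm.toMonoidHom, ?_, ?_⟩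
  · intro c
    obtain ⟨x, rfl⟩ := ConjClasses.mk_surjective c
    show ConjClasses.mk (e.symm (e x)) = _
    rw [e.symm_apply_apply]
  · intro c
    obtain ⟨x, rfl⟩ := ConjClasses.mk_surjective c
    show ConjClasses.mk (e (e.symm x)) = _
    rw [e.apply_symm_apply]

theorem kk_bot {G : Type*} [Group G] : kk (⊥ : Subgroup G) = 1 := by
  have : Subsingleton (ConjClasses (⊥ : Subgroup G)) := ⟨fun a b => by
    obtain ⟨x, rfl⟩ := ConjClasses.mk_surjective a
    obtain ⟨y, rfl⟩ := ConjClasses.mk_surjective b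
    rw [Subsingleton.elim x y]⟩
  exact Nat.card_of_subsingleton (ConjClasses.mk 1)

/-- induction hypothesis -/
def IH (n : ℕ) : Prop :=
  ∀ (G X : Type u) [Group G] [Finite X] (φ : G →* Equiv.Perm X), Function.Injective φ →
    Nat.card X < n → 0 < Nat.card X → 2 * kk G ≤ 2 ^ Nat.card X

variable {G Y : Type u} [Group G] [Finite G] [MulAction G Y] {n : ℕ}

/-- invariant set -/
def Inv (K : Subgroup G) (A : Set Y) : Prop := ∀ g ∈ K, ∀ y ∈ A, g • y ∈ A

/-- transitive on a set -/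
def Tr (K : Subgroup G) (A : Set Y) : Prop := ∀ x ∈ A, ∀ y ∈ A, ∃ g ∈ K, g • x = y

omit [Finite G] in
theorem Inv.mono {K L : Subgroup G} {A : Set Y} (h : Inv K A) (hl : L ≤ K) : Inv L A :=
  fun g hg => h g (hl hg)

omit [Finite G] in
theorem Inv.diff {K : Subgroup G} {A B : Set Y} (h : Inv K A) (h' : Inv K B) : Inv K (A \ B) :=
  fun g hg y hy => ⟨h g hg y hy.1, fun e => hy.2 (by simpa using h' _ (K.inv_mem hg) _ e)⟩

theorem step (ih : IH.{u} n) {K : Subgroup G} {A : Set Y} (hf : A.Finite) (hA : Inv K A)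
    (h0 : A.Nonempty) (hn : A.ncard < n) :
    2 * kk K ≤ 2 ^ A.ncard * kk (K ⊓ fixingSubgroup G A : Subgroup G) := by
  have := hf.to_subtype
  let S : SubMulAction K Y := ⟨A, fun c x hx => hA c c.2 x hx⟩
  have : Finite S := hf.to_subtype
  let φ : K →* Equiv.Perm S := MulAction.toPermHom K S
  have c : Nat.card S = A.ncard := rfl
  have h1 := ih (K ⧸ φ.ker) S (QuotientGroup.kerLift φ) (QuotientGroup.kerLift_injective φ)
    (c ▸ hn) (c ▸ (Set.ncard_pos hf).2 h0)
  have h2 := Cfsg.Agent.S4201.result φ.ker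
  have e : φ.ker = (K ⊓ fixingSubgroup G A).subgroupOf K := by
    ext g
    simp only [MonoidHom.mem_ker, Subgroup.mem_subgroupOf, Subgroup.mem_inf, g.2, true_and,
      mem_fixingSubgroup_iff]
    constructor
    · intro h y hy
      exact congrArg Subtype.val (Equiv.congr_fun h ⟨y, hy⟩)
    · intro h
      ext ⟨y, hy⟩
      exact h y hy
  have h3 : kk φ.ker = kk (K ⊓ fixingSubgroup G A : Subgroup G) := by
    rw [e]; exact kk_congr (Subgroup.subgroupOfEquivOfLe inf_le_left)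
  rw [c] at h1
  calc 2 * kk K ≤ 2 * (kk φ.ker * kk (K ⧸ φ.ker)) := Nat.mul_le_mul_left _ h2
    _ = kk φ.ker * (2 * kk (K ⧸ φ.ker)) := by ring
    _ ≤ kk φ.ker * 2 ^ A.ncard := Nat.mul_le_mul_left _ h1
    _ = _ := by rw [h3, mul_comm]

theorem step0 (ih : IH.{u} n) {K : Subgroup G} {A : Set Y} (hf : A.Finite) (hA : Inv K A)
    (h0 : A.Nonempty) (hn : A.ncard < n) (hb : K ⊓ fixingSubgroup G A = ⊥) :
    2 * kk K ≤ 2 ^ A.ncard := by
  have := step ih hf hA h0 hn
  rwa [hb, kk_bot, mul_one] at this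

theorem parts (ih : IH.{u} n) [Finite Y] {b : ℕ} (hb : b < n) (hb0 : 0 < b) (F : Set (Set Y)) :
    ∀ K : Subgroup G, (∀ A ∈ F, Inv K A ∧ A.ncard = b) →
      2 ^ F.ncard * kk K ≤ 2 ^ (b * F.ncard) * kk (K ⊓ fixingSubgroup G (⋃₀ F) : Subgroup G) := by
  induction F, F.toFinite using Set.Finite.induction_on with
  | empty =>
    intro K _
    have : K ⊓ fixingSubgroup G (⋃₀ (∅ : Set (Set Y))) = K := by
      ext g; simp [mem_fixingSubgroup_iff]
    rw [this]; simp
  | @insert A F hA hF ih' =>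
    intro K h
    obtain ⟨h1, h2⟩ := h A (Set.mem_insert _ _)
    have s := step ih A.toFinite h1 ((Set.ncard_pos A.toFinite).1 (by omega)) (by omega)
    have t := ih' (K ⊓ fixingSubgroup G A) fun B hB =>
      ⟨(h B (Set.mem_insert_of_mem _ hB)).1.mono inf_le_left, (h B (Set.mem_insert_of_mem _ hB)).2⟩
    have e : K ⊓ fixingSubgroup G A ⊓ fixingSubgroup G (⋃₀ F) =
        K ⊓ fixingSubgroup G (⋃₀ insert A F) := by
      rw [Set.sUnion_insert, fixingSubgroup_union, inf_assoc]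
    rw [e] at t
    rw [Set.ncard_insert_of_notMem hA hF, h2] at *
    calc 2 ^ (F.ncard + 1) * kk K = 2 ^ F.ncard * (2 * kk K) := by ring
      _ ≤ 2 ^ F.ncard * (2 ^ b * kk (K ⊓ fixingSubgroup G A : Subgroup G)) :=
        Nat.mul_le_mul_left _ s
      _ = 2 ^ b * (2 ^ F.ncard * kk (K ⊓ fixingSubgroup G A : Subgroup G)) := by ring
      _ ≤ 2 ^ b * (2 ^ (b * F.ncard) * _) := Nat.mul_le_mul_left _ t
      _ = _ := by ring

/-- `R` is a Jordan set of `K` acting on `A` -/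
def Jor (K : Subgroup G) (A R : Set Y) : Prop :=
  ∀ x ∈ R, ∀ y ∈ R, ∃ g ∈ K, (∀ z ∈ A, z ∉ R → g • z = z) ∧ g • x = y

omit [Finite G] in
theorem half {K : Subgroup G} {A : Set Y} (hf : A.Finite) (hA : Inv K A) (ht : ¬ Tr K A) :
    ∃ P ⊆ A, Inv K P ∧ P.Nonempty ∧ 2 * P.ncard ≤ A.ncard := by
  simp only [Tr, not_forall] at ht
  obtain ⟨x, hx, y, hy, h⟩ := ht
  let O : Set Y := {z | ∃ g ∈ K, g • x = z}
  have o1 : O ⊆ A := by rintro _ ⟨g, hg, rfl⟩; exact hA g hg x hx
  have o2 : Inv K O := by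
    rintro g hg _ ⟨g', hg', rfl⟩; exact ⟨g * g', K.mul_mem hg hg', mul_smul _ _ _⟩
  have c := Set.ncard_sdiff_add_ncard_of_subset o1 hf
  by_cases hc : 2 * O.ncard ≤ A.ncard
  · exact ⟨O, o1, o2, ⟨x, 1, K.one_mem, one_smul _ _⟩, hc⟩
  · exact ⟨A \ O, Set.sdiff_subset, hA.diff o2, ⟨y, hy, h⟩, by omega⟩

theorem jlem (ih : IH.{u} n) {c : ℕ} (hc : 1 ≤ c) (m : ℕ) : ∀ (K : Subgroup G) (A : Set Y),
    A.ncard = m → A.Finite → Inv K A → A.Nonempty → m < n → K ⊓ fixingSubgroup G A = ⊥ →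
    (∀ R ⊆ A, c < R.ncard → ¬ Jor K A R) → 2 * m * kk K ≤ c * 2 ^ m := by
  induction m using Nat.strong_induction_on with
  | _ m ih' =>
  intro K A hm hf hA h0 hn hb hJ
  by_cases hmc : m ≤ c
  · have := step0 ih hf hA h0 (hm ▸ hn) hb
    rw [hm] at this
    calc 2 * m * kk K = m * (2 * kk K) := by ring
      _ ≤ c * 2 ^ m := Nat.mul_le_mul hmc this
  have ht : ¬ Tr K A := fun t => hJ A le_rfl (by omega) fun x hx y hy => by
    obtain ⟨g, hg, e⟩ := t x hx y hy
    exact ⟨g, hg, fun z hz hz' => absurd hz hz', e⟩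
  obtain ⟨P, p1, p2, p3, p4⟩ := half hf hA ht
  have pf := hf.subset p1
  have p0 := (Set.ncard_pos pf).2 p3
  have cc := Set.ncard_sdiff_add_ncard_of_subset p1 hf
  have s := step ih pf p2 p3 (by omega)
  have t := ih' (A \ P).ncard (by omega) (K ⊓ fixingSubgroup G P) (A \ P) rfl
    (hf.subset Set.sdiff_subset) ((hA.diff p2).mono inf_le_left)
    ((Set.ncard_pos (hf.subset Set.sdiff_subset)).1 (by omega)) (by omega)
    (by rw [inf_assoc, ← fixingSubgroup_union, Set.union_sdiff_cancel p1, hb])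
    fun R hR hcR j => hJ R (hR.trans Set.sdiff_subset) hcR fun x hx y hy => by
      obtain ⟨g, hg, e1, e2⟩ := j x hx y hy
      refine ⟨g, hg.1, fun z hz hz' => ?_, e2⟩
      by_cases hp : z ∈ P
      · exact (mem_fixingSubgroup_iff G).1 hg.2 z hp
      · exact e1 z ⟨hz, hp⟩ hz'
  set a := P.ncard
  set r := (A \ P).ncard
  have hmr : m = r + a := by omega
  calc 2 * m * kk K = m * (2 * kk K) := by ring
    _ ≤ (2 * r) * (2 ^ a * kk (K ⊓ fixingSubgroup G P : Subgroup G)) :=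
      Nat.mul_le_mul (by omega) s
    _ = 2 ^ a * (2 * r * kk (K ⊓ fixingSubgroup G P : Subgroup G)) := by ring
    _ ≤ 2 ^ a * (c * 2 ^ r) := Nat.mul_le_mul_left _ t
    _ = _ := by rw [hmr]; ring

end H9.Lp
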