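import Cfsg.Agent.H9.Lp1

/-! Counting commuting pairs along a cycle. -/

set_option autoImplicit false
set_option linter.unusedSectionVars false
open MulAction
open scoped Pointwise

namespace H9.Lp
universe u
variable {G : Type u} [Group G] [Finite G]

/-- number of commuting pairs in `S × X` -/
noncomputable def cp (S X : Set G) : ℕ :=
  {p : G × G | p.1 ∈ S ∧ p.2 ∈ X ∧ p.1 * p.2 = p.2 * p.1}.ncard

omit [Finite G] in
theorem cp_comm (S X : Set G) : cp S X = cp X S := by
  unfold cp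
  refine Set.ncard_congr (fun p _ => p.swap) (fun p h => ⟨h.2.1, h.1, h.2.2.symm⟩)
    (fun p q _ _ h => Prod.swap_injective h) fun p h => ⟨p.swap, ⟨h.2.1, h.1, h.2.2.symm⟩, rfl⟩

omit [Finite G] in
theorem cp_self (K : Subgroup G) : cp (K : Set G) K = kk K * Nat.card K := by
  rw [← card_comm_eq_card_conjClasses_mul_card]
  unfold cp
  rw [← Nat.card_coe_set_eq]
  exact Nat.card_congr ⟨fun p => ⟨(⟨p.1.1, p.2.1⟩, ⟨p.1.2, p.2.2.1⟩), Subtype.ext p.2.2.2⟩,
    fun p => ⟨(p.1.1, p.1.2), p.1.1.2, p.1.2.2, congrArg Subtype.val p.2⟩, fun _ => rfl, fun _ => rfl⟩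

theorem cp_agree (S X K : Set G) (h : ∀ x ∈ X, ∀ y ∈ X, x⁻¹ * y ∈ K) : cp S X ≤ cp S K := by
  classical
  have : ∀ g : G, ∃ x : G, (∃ y ∈ X, g * y = y * g) → x ∈ X ∧ g * x = x * g := fun g => by
    by_cases e : ∃ y ∈ X, g * y = y * g
    · obtain ⟨y, hy⟩ := e; exact ⟨y, fun _ => hy⟩
    · exact ⟨1, fun h => absurd h e⟩
  choose f hf using this
  refine Set.ncard_le_ncard_of_injOn (fun p => (p.1, (f p.1)⁻¹ * p.2)) ?_ ?_ (Set.toFinite _)
  · rintro ⟨g, x⟩ ⟨h1, h2, h3⟩
    obtain ⟨a, b⟩ := hf g ⟨x, h2, h3⟩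
    refine ⟨h1, h _ a _ h2, ?_⟩
    exact ((show Commute g (f g) from b).inv_right.mul_right (show Commute g x from h3)).eq
  · rintro ⟨g, x⟩ - ⟨g', x'⟩ - e
    simp only [Prod.mk.injEq] at e
    obtain ⟨rfl, e⟩ := e
    rw [mul_left_cancel e]

theorem cp_union (S X Z : Set G) : cp S X ≤ cp S (X ∩ Z) + cp S (X \ Z) := by
  unfold cp
  refine le_trans (Set.ncard_le_ncard ?_ (Set.toFinite _)) (Set.ncard_union_le _ _)
  rintro p ⟨h1, h2, h3⟩
  by_cases h : p.2 ∈ Z
  · exact Or.inl ⟨h1, ⟨h2, h⟩, h3⟩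
  · exact Or.inr ⟨h1, ⟨h2, h⟩, h3⟩

theorem cp_mono (S : Set G) {X Z : Set G} (h : X ⊆ Z) : cp S X ≤ cp S Z :=
  Set.ncard_le_ncard (fun _ hp => ⟨hp.1, h hp.2.1, hp.2.2⟩) (Set.toFinite _)

theorem cp_fib {β : Type*} (S : Set G) (f : G → β) {r M : ℕ} (V : Set β) (hV : V.Finite) :
    ∀ X : Set G, (∀ x ∈ X, f x ∈ V) → (∀ v ∈ V, r * cp S {x | x ∈ X ∧ f x = v} ≤ M) →
      r * cp S X ≤ V.ncard * M := by
  induction V, hV using Set.Finite.induction_on with
  | empty =>
    intro X h _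
    have : X = ∅ := Set.eq_empty_of_forall_notMem h
    simp [this, cp]
  | @insert v V hv hV ih =>
    intro X h h'
    have a := cp_union S X {x | f x = v}
    have b := h' v (Set.mem_insert _ _)
    have c := ih (X \ {x | f x = v}) (fun x hx => (h x hx.1).resolve_left hx.2) fun w hw => by
      refine le_trans (Nat.mul_le_mul_left _ ?_) (h' w (Set.mem_insert_of_mem _ hw))
      exact Set.ncard_le_ncard (fun p hp => ⟨hp.1, ⟨hp.2.1.1.1, hp.2.1.2⟩, hp.2.2⟩) (Set.toFinite _)
    rw [Set.ncard_insert_of_notMem hv hV]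
    calc r * cp S X ≤ r * (cp S (X ∩ {x | f x = v}) + cp S (X \ {x | f x = v})) :=
          Nat.mul_le_mul_left _ a
      _ ≤ M + V.ncard * M := by rw [mul_add]; exact add_le_add b c
      _ = _ := by ring

variable {Ω : Type u} [Finite Ω] [MulAction G Ω]

theorem orb_stab {K : Subgroup G} {W : Set Ω} (hi : Inv K W) (ht : Tr K W) {v : Ω} (hv : v ∈ W) :
    Nat.card K = W.ncard * Nat.card (K ⊓ stabilizer G v : Subgroup G) := by
  have e : orbit K v = W := by
    ext w
    constructor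
    · rintro ⟨g, rfl⟩; exact hi g g.2 v hv
    · intro hw; obtain ⟨g, hg, e⟩ := ht v hv w hw; exact ⟨⟨g, hg⟩, e⟩
  have e2 : stabilizer K v = (K ⊓ stabilizer G v).subgroupOf K := by
    ext g; simp [Subgroup.mem_subgroupOf, Subgroup.smul_def]
  rw [← (stabilizer K v).index_mul_card, MulAction.index_stabilizer, e, e2,
    Nat.card_congr (Subgroup.subgroupOfEquivOfLe inf_le_left).toEquiv]

theorem top_le (ht : Tr (⊤ : Subgroup G) (Set.univ : Set Ω)) (a : Ω) :
    kk G * Nat.card (stabilizer G a) ≤ cp (stabilizer G a : Set G) Set.univ := by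
  have h1 := cp_self (⊤ : Subgroup G)
  have h2 := orb_stab (fun _ _ _ h => h) ht (Set.mem_univ a)
  rw [top_inf_eq] at h2
  have h3 := cp_fib (Set.univ : Set G) (fun g => g • a) (r := 1)
    (M := cp Set.univ (stabilizer G a : Set G)) Set.univ (Set.toFinite _) Set.univ
    (fun _ _ => trivial) fun v _ => by
      rw [one_mul]
      refine cp_agree _ _ _ fun x hx y hy => ?_
      show (x⁻¹ * y) • a = a
      rw [mul_smul, hy.2, ← hx.2, inv_smul_smul]
  rw [Subgroup.coe_top, h2, kk_congr Subgroup.topEquiv] at h1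
  rw [h1, cp_comm] at h3
  have p : 0 < (Set.univ : Set Ω).ncard := (Set.ncard_pos (Set.toFinite _)).2 ⟨a, trivial⟩
  refine Nat.le_of_mul_le_mul_left (le_trans (le_of_eq ?_) h3) p
  ring

/-- the elements of `X` agree on `T`, mapping it into `T ∪ {a}` -/
structure Path (T : Set Ω) (a : Ω) (X : Set G) : Prop where
  ha : a ∉ T
  ag : ∀ x ∈ X, ∀ y ∈ X, ∀ t ∈ T, x • t = y • t
  mp : ∀ x ∈ X, ∀ t ∈ T, x • t ∈ insert a T

theorem Path.fib {T : Set Ω} {a : Ω} {X : Set G} (h : Path T a X) (v : Ω) :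
    1 * cp (fixingSubgroup G (insert a T) : Set G) {x | x ∈ X ∧ x • a = v} ≤
      kk (fixingSubgroup G (insert a T)) * Nat.card (fixingSubgroup G (insert a T)) := by
  rw [one_mul, ← cp_self]
  refine cp_agree _ _ _ fun x hx y hy => (mem_fixingSubgroup_iff G).2 fun t ht => ?_
  rcases ht with rfl | ht
  · rw [mul_smul, hy.2, ← hx.2, inv_smul_smul]
  · rw [mul_smul, ← h.ag x hx.1 y hy.1 t ht, inv_smul_smul]

theorem Path.nm {T : Set Ω} {a : Ω} {X : Set G} (h : Path T a X) {x y : G} (hx : x ∈ X)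
    (hy : y ∈ X) : y • a ∉ x • T := by
  rintro ⟨t, ht, e⟩
  have e' : x • t = y • a := e
  rw [h.ag x hx y hy t ht] at e'
  exact h.ha (smul_left_cancel y e' ▸ ht)

theorem Path.b1 {T : Set Ω} {a : Ω} {X : Set G} (h : Path T a X) :
    cp (fixingSubgroup G (insert a T) : Set G) X ≤
      Tᶜ.ncard * (kk (fixingSubgroup G (insert a T)) * Nat.card (fixingSubgroup G (insert a T))) := by
  rcases X.eq_empty_or_nonempty with rfl | ⟨x, hx⟩
  · simp [cp]
  have := cp_fib (fixingSubgroup G (insert a T) : Set G) (fun g => g • a) (x • T)ᶜ (Set.toFinite _)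
    X (fun y hy => h.nm hx hy) fun v _ => h.fib v
  rwa [one_mul, ← Set.smul_set_compl, Set.ncard_smul_set] at this

theorem Path.next {T : Set Ω} {a : Ω} {X : Set G} (h : Path T a X) {v : Ω} (hv : v ∉ insert a T) :
    Path (insert a T) v {x | x ∈ X ∧ x • a = v} where
  ha := hv
  ag x hx y hy t ht := by
    rcases ht with rfl | ht
    · rw [hx.2, hy.2]
    · exact h.ag x hx.1 y hy.1 t ht
  mp x hx t ht := by
    rcases ht with rfl | ht
    · exact Or.inl hx.2
    · exact Or.inr (h.mp x hx.1 t ht)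

theorem Path.b2 {T : Set Ω} {a : Ω} {X : Set G} (h : Path T a X) {r c : ℕ}
    (ht : Tr (fixingSubgroup G (insert a T)) (insert a T)ᶜ) (h0 : (insert a T)ᶜ.Nonempty)
    (hc : ∀ v ∉ insert a T, ∀ Z : Set G, Path (insert a T) v Z →
      r * cp (fixingSubgroup G (insert v (insert a T)) : Set G) Z ≤
        c * Nat.card (fixingSubgroup G (insert v (insert a T)))) :
    r * cp (fixingSubgroup G (insert a T) : Set G) X ≤
      (r * kk (fixingSubgroup G (insert a T)) + c) * Nat.card (fixingSubgroup G (insert a T)) := by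
  rcases X.eq_empty_or_nonempty with rfl | ⟨x, hx⟩
  · simp [cp]
  set K := fixingSubgroup G (insert a T) with hK
  have hi : Inv K (insert a T)ᶜ := fun g hg y hy e => hy (by
    have := (mem_fixingSubgroup_iff G).1 hg _ e
    rwa [← smul_left_cancel g this])
  have u := cp_union (K : Set G) X {g | g • a ∈ insert a T}
  have c1 : (insert a T \ x • T).ncard = 1 := by
    have s : x • T ⊆ insert a T := by rintro _ ⟨t, ht, rfl⟩; exact h.mp x hx t ht
    have := Set.ncard_sdiff_add_ncard_of_subset s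
    rw [Set.ncard_smul_set, Set.ncard_insert_of_notMem h.ha] at this
    omega
  have v1 := cp_fib (K : Set G) (fun g => g • a) (r := 1) (M := kk K * Nat.card K)
    (insert a T \ x • T) (Set.toFinite _)
    (X ∩ {g | g • a ∈ insert a T}) (fun y hy => ⟨hy.2, h.nm hx hy.1⟩) fun v _ => by
      refine le_trans (Nat.mul_le_mul_left _ (cp_mono _ ?_)) (h.fib v)
      exact fun p hp => ⟨hp.1.1, hp.2⟩
  have v2 := cp_fib (K : Set G) (fun g => g • a) (r := (insert a T)ᶜ.ncard * r) (M := c * Nat.card K)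
    (insert a T)ᶜ (Set.toFinite _) (X \ {g | g • a ∈ insert a T}) (fun y hy => hy.2) fun v hv => by
      have e : K ⊓ stabilizer G v = fixingSubgroup G (insert v (insert a T)) := by
        ext g; simp only [hK, Subgroup.mem_inf, mem_fixingSubgroup_iff, mem_stabilizer_iff,
          Set.forall_mem_insert (a := v), and_comm]
      have := hc v hv _ (h.next hv)
      rw [orb_stab hi ht hv, e, mul_left_comm, mul_assoc]
      refine Nat.mul_le_mul_left _ (le_trans (Nat.mul_le_mul_left _ ?_) this)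
      refine Set.ncard_le_ncard (fun p hp => ⟨?_, ⟨hp.2.1.1.1, hp.2.1.2⟩, hp.2.2⟩) (Set.toFinite _)
      rw [← e]
      refine ⟨hp.1, ?_⟩
      have q : p.2 • a = v := hp.2.1.2
      show p.1 • v = v
      rw [← q, ← mul_smul, hp.2.2, mul_smul, (mem_fixingSubgroup_iff G).1 hp.1 a (Or.inl rfl)]
  have p : 0 < (insert a T)ᶜ.ncard := (Set.ncard_pos (Set.toFinite _)).2 h0
  rw [mul_assoc] at v2
  have v3 := Nat.le_of_mul_le_mul_left v2 p
  rw [c1, one_mul, one_mul] at v1
  calc r * cp (K : Set G) X ≤ r * (_ + _) := Nat.mul_le_mul_left _ u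
    _ ≤ r * (kk K * Nat.card K) + c * Nat.card K := by
      rw [mul_add]; exact add_le_add (Nat.mul_le_mul_left _ v1) v3
    _ = _ := by ring

end H9.Lp
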