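import Cfsg.Agent.H9.Lp2

/-! Maximal Jordan sets; simply primitive groups. -/

set_option autoImplicit false
set_option linter.unusedSectionVars false
open MulAction
open scoped Pointwise

namespace H9.Lp
universe u
variable {G Ω : Type u} [Group G] [Finite G] [Finite Ω] [MulAction G Ω] {n : ℕ}
  {H : Subgroup G} {W : Set Ω}

/-- primitive on a set -/
def Prim (H : Subgroup G) (W : Set Ω) : Prop :=
  ∀ B ⊆ W, (∀ g ∈ H, g • B = B ∨ Disjoint (g • B) B) → B.ncard ≤ 1 ∨ B = W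

theorem Inv.smul_eq (hi : Inv H W) {g : G} (hg : g ∈ H) : g • W = W := by
  ext x
  rw [Set.mem_smul_set_iff_inv_smul_mem]
  exact ⟨fun h => by simpa using hi g hg _ h, fun h => hi _ (H.inv_mem hg) _ h⟩

theorem Jor.smul (hi : Inv H W) {R : Set Ω} (h : Jor H W R) {g : G} (hg : g ∈ H) :
    Jor H W (g • R) := by
  rintro _ ⟨x, hx, rfl⟩ _ ⟨y, hy, rfl⟩
  obtain ⟨k, hk, e1, e2⟩ := h x hx y hy
  refine ⟨g * k * g⁻¹, H.mul_mem (H.mul_mem hg hk) (H.inv_mem hg), fun z hz hz' => ?_, ?_⟩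
  · rw [mul_smul, mul_smul, e1 _ (hi _ (H.inv_mem hg) _ hz)
      (fun e => hz' (Set.mem_smul_set_iff_inv_smul_mem.2 e)), smul_inv_smul]
  · simp only [mul_smul, inv_smul_smul, e2]

theorem Jor.union {R S : Set Ω} (h : Jor H W R) (h' : Jor H W S) (hd : ¬ Disjoint S R) :
    Jor H W (R ∪ S) := by
  obtain ⟨c, c1, c2⟩ := Set.not_disjoint_iff.1 hd
  have k : ∀ x ∈ R ∪ S, ∃ g ∈ H, (∀ z ∈ W, z ∉ R ∪ S → g • z = z) ∧ g • x = c := by
    rintro x (hx | hx)
    · obtain ⟨g, hg, e1, e2⟩ := h x hx c c2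
      exact ⟨g, hg, fun z hz hz' => e1 z hz fun e => hz' (Or.inl e), e2⟩
    · obtain ⟨g, hg, e1, e2⟩ := h' x hx c c1
      exact ⟨g, hg, fun z hz hz' => e1 z hz fun e => hz' (Or.inr e), e2⟩
  intro x hx y hy
  obtain ⟨g, hg, e1, e2⟩ := k x hx
  obtain ⟨g', hg', e1', e2'⟩ := k y hy
  refine ⟨g'⁻¹ * g, H.mul_mem (H.inv_mem hg') hg, fun z hz hz' => ?_, ?_⟩
  · rw [mul_smul, e1 z hz hz', inv_smul_eq_iff, e1' z hz hz']
  · rw [mul_smul, e2, inv_smul_eq_iff, e2']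

/-- proper Jordan sets with complement of size at least `s` -/
def JC (H : Subgroup G) (W : Set Ω) (s : ℕ) (R : Set Ω) : Prop :=
  R ⊆ W ∧ 2 ≤ R.ncard ∧ R.ncard + s ≤ W.ncard ∧ Jor H W R

theorem JC.smul (hi : Inv H W) {s : ℕ} {R : Set Ω} (h : JC H W s R) {g : G} (hg : g ∈ H) :
    JC H W s (g • R) :=
  ⟨by rw [← hi.smul_eq hg]; exact Set.smul_set_mono h.1, by rw [Set.ncard_smul_set]; exact h.2.1,
    by rw [Set.ncard_smul_set]; exact h.2.2.1, h.2.2.2.smul hi hg⟩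

theorem JC.max {s : ℕ} {R : Set Ω} (h : JC H W s R) :
    ∃ R, JC H W s R ∧ ∀ R', JC H W s R' → R'.ncard ≤ R.ncard := by
  obtain ⟨R, h1, h2⟩ := Set.exists_max_image {R | JC H W s R} Set.ncard (Set.toFinite _) ⟨R, h⟩
  exact ⟨R, h1, h2⟩

theorem JC.prop (hi : Inv H W) (hp : Prim H W) {s : ℕ} (hs : 1 ≤ s) {R : Set Ω} (h : JC H W s R)
    (hm : ∀ R', JC H W s R' → R'.ncard ≤ R.ncard) {g : G} (hg : g ∈ H) :
    g • (W \ R) = W \ R ∨ (g • (W \ R) ∩ (W \ R)).ncard < s := by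
  have A : ∀ g ∈ H, ¬ Disjoint (g • R) R → (R ∪ g • R).ncard + s ≤ W.ncard → g • R = R := by
    intro g hg hd hc
    have j := h.smul hi hg
    have := hm (R ∪ g • R) ⟨Set.union_subset h.1 j.1,
      h.2.1.trans (Set.ncard_le_ncard Set.subset_union_left), hc, h.2.2.2.union j.2.2.2 hd⟩
    have e := Set.eq_of_subset_of_ncard_le Set.subset_union_left this
    exact Set.eq_of_subset_of_ncard_le (Set.subset_union_right.trans e.symm.subset)
      (by rw [Set.ncard_smul_set])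
  have B : ¬ 2 * R.ncard + s ≤ W.ncard := fun hc => by
    rcases hp R h.1 (fun g hg => by
      by_cases hd : Disjoint (g • R) R
      · exact Or.inr hd
      · refine Or.inl (A g hg hd ?_)
        have := Set.ncard_union_le R (g • R)
        rw [Set.ncard_smul_set] at this
        omega) with e | e
    · have := h.2.1; omega
    · have := h.2.2.1; rw [e] at this; omega
  have e : g • (W \ R) ∩ (W \ R) = W \ (R ∪ g • R) := by
    rw [Set.smul_set_sdiff, hi.smul_eq hg]; ext; simp only [Set.mem_inter_iff, Set.mem_sdiff,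
      Set.mem_union]; tauto
  have c := Set.ncard_sdiff_add_ncard_of_subset (Set.union_subset h.1 (h.smul hi hg).1)
  by_cases hd : Disjoint (g • R) R
  · right
    rw [Set.ncard_union_eq hd.symm, Set.ncard_smul_set] at c
    rw [e]; omega
  · by_cases hc : (R ∪ g • R).ncard + s ≤ W.ncard
    · left; rw [Set.smul_set_sdiff, hi.smul_eq hg, A g hg hd hc]
    · right; rw [e]; omega

theorem Inv.stab (hi : Inv H W) (a : Ω) : Inv (H ⊓ stabilizer G a) (W \ {a}) :=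
  (hi.mono inf_le_left).diff fun g hg y hy => by rw [hy]; exact hg.2

theorem fix_stab (hb : H ⊓ fixingSubgroup G W = ⊥) (a : Ω) :
    H ⊓ stabilizer G a ⊓ fixingSubgroup G (W \ {a}) = ⊥ := by
  rw [eq_bot_iff, ← hb]
  refine fun g hg => ⟨hg.1.1, (mem_fixingSubgroup_iff G).2 fun y hy => ?_⟩
  by_cases e : y = a
  · rw [e]; exact hg.1.2
  · exact (mem_fixingSubgroup_iff G).1 hg.2 y ⟨hy, e⟩

theorem Jor.up {a : Ω} {R : Set Ω} (h : Jor (H ⊓ stabilizer G a) (W \ {a}) R) : Jor H W R := by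
  intro x hx y hy
  obtain ⟨g, hg, e1, e2⟩ := h x hx y hy
  refine ⟨g, hg.1, fun z hz hz' => ?_, e2⟩
  by_cases e : z = a
  · rw [e]; exact hg.2
  · exact e1 z ⟨hz, e⟩ hz'

theorem sp (ih : IH.{u} n) (hi : Inv H W) (hb : H ⊓ fixingSubgroup G W = ⊥) (ht : Tr H W)
    (hp : Prim H W) {a : Ω} (ha : a ∈ W) (h2 : ¬ Tr (H ⊓ stabilizer G a) (W \ {a}))
    (hn : W.ncard ≤ n) : 2 * W.ncard * kk (H ⊓ stabilizer G a : Subgroup G) ≤ 2 ^ W.ncard := by
  have c := Set.ncard_sdiff_singleton_add_one ha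
  have h0 : (W \ {a}).Nonempty := by
    by_contra e
    rw [Set.not_nonempty_iff_eq_empty] at e
    exact h2 (by rw [e]; exact fun x hx => hx.elim)
  have p0 := (Set.ncard_pos (Set.toFinite _)).2 h0
  have := jlem ih le_rfl _ (H ⊓ stabilizer G a) (W \ {a}) rfl (Set.toFinite _) (hi.stab a) h0
    (by omega) (fix_stab hb a) fun R hR h1 j => by
      obtain ⟨R, jc, hm⟩ := JC.max (s := 1) ⟨hR.trans Set.sdiff_subset, h1,
        by have := Set.ncard_le_ncard hR; omega, j.up⟩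
      have cc := Set.ncard_sdiff_add_ncard_of_subset jc.1
      have := jc.2.1
      have := jc.2.2.1
      rcases hp (W \ R) Set.sdiff_subset (fun g hg => (jc.prop hi hp le_rfl hm hg).imp_right fun h =>
        Set.disjoint_iff_inter_eq_empty.2 ((Set.ncard_eq_zero (Set.toFinite _)).1 (by omega)))
        with e | e
      · obtain ⟨b, hb⟩ := Set.ncard_eq_one.1 (show (W \ R).ncard = 1 by omega)
        have b1 : b ∈ W \ R := by rw [hb]; rfl
        obtain ⟨g, hg, e⟩ := ht b b1.1 a ha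
        have e2 : W \ g • R = {a} := by
          rw [← e, ← Set.smul_set_singleton, ← hb, Set.smul_set_sdiff, hi.smul_eq hg]
        have m : ∀ x ∈ W \ {a}, x ∈ g • R := fun x hx => by
          by_contra h; exact hx.2 (e2 ▸ ⟨hx.1, h⟩)
        refine h2 fun x hx y hy => ?_
        obtain ⟨k, hk, e3, e4⟩ := jc.2.2.2.smul hi hg x (m x hx) y (m y hy)
        exact ⟨k, ⟨hk, e3 a ha (e2 ▸ Set.mem_singleton a : a ∈ W \ g • R).2⟩, e4⟩
      · rw [e] at cc; omega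
  rw [← c]
  set x := (W \ {a}).ncard
  calc 2 * (x + 1) * _ ≤ 2 * (2 * x) * kk (H ⊓ stabilizer G a : Subgroup G) :=
        Nat.mul_le_mul_right _ (by omega)
    _ = 2 * (2 * x * _) := by ring
    _ ≤ 2 * (1 * 2 ^ x) := Nat.mul_le_mul_left _ this
    _ = _ := by ring

theorem two_tr (hi : Inv H W) (ht : Tr H W) {a v : Ω} (ha : a ∈ W)
    (h2 : Tr (H ⊓ stabilizer G a) (W \ {a})) (hv : v ∈ W \ {a}) {x y : Ω} (hx : x ∈ W)
    (hy : y ∈ W) (hxy : x ≠ y) : ∃ g ∈ H, g • x = a ∧ g • y = v := by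
  obtain ⟨g, hg, e⟩ := ht x hx a ha
  obtain ⟨k, hk, e'⟩ := h2 (g • y) ⟨hi g hg y hy, fun h => hxy (smul_left_cancel g
    (e.trans (Set.mem_singleton_iff.1 h).symm))⟩ v hv
  exact ⟨k * g, H.mul_mem hk.1 hg, by rw [mul_smul, e]; exact hk.2, by rw [mul_smul, e']⟩

theorem prim_of_two (hi : Inv H W) (ht : Tr H W) {a : Ω} (ha : a ∈ W)
    (h2 : Tr (H ⊓ stabilizer G a) (W \ {a})) : Prim H W := by
  intro B hB h
  by_contra hc
  rw [not_or, not_le, Set.one_lt_ncard_iff] at hc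
  obtain ⟨⟨x, y, hx, hy, hxy⟩, hc⟩ := hc
  obtain ⟨c, c1, c2⟩ := Set.exists_of_ssubset (hB.ssubset_of_ne hc)
  obtain ⟨g, hg, e⟩ := ht x (hB hx) a ha
  have m : ∀ z ∈ W, z ≠ x → g • z ∈ W \ {a} := fun z hz hz' =>
    ⟨hi g hg z hz, fun h => hz' (smul_left_cancel g ((Set.mem_singleton_iff.1 h).trans e.symm))⟩
  obtain ⟨k, hk, e'⟩ := h2 _ (m y (hB hy) hxy.symm) _ (m c c1 fun h => c2 (h ▸ hx))
  rcases h (g⁻¹ * k * g) (H.mul_mem (H.mul_mem (H.inv_mem hg) hk.1) hg) with q | q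
  · exact c2 (q ▸ ⟨y, hy, by simp only [mul_smul, e', inv_smul_smul]⟩)
  · refine Set.disjoint_left.1 q ⟨x, hx, ?_⟩ hx
    simp only [mul_smul, e, (mem_stabilizer_iff.1 hk.2), inv_smul_eq_iff]

end H9.Lp
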