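import Cfsg.Agent.H9.Lp3

/-! Doubly transitive groups acting on a linear space. -/

set_option autoImplicit false
set_option linter.unusedSectionVars false
open MulAction
open scoped Pointwise

namespace H9.Lp
universe u
variable {G Ω : Type u} [Group G] [Finite G] [Finite Ω] [MulAction G Ω] {n : ℕ}
  {H : Subgroup G} {W U : Set Ω} {a v : Ω}

/-- the images of `U` form a linear space on `W` -/
structure Ds (H : Subgroup G) (W U : Set Ω) (a v : Ω) : Prop where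
  hi : Inv H W
  ht : Tr H W
  h2 : Tr (H ⊓ stabilizer G a) (W \ {a})
  hU : U ⊆ W
  aU : a ∈ U
  vU : v ∈ U
  va : v ≠ a
  hl : ∀ g ∈ H, g • U = U ∨ (g • U ∩ U).ncard < 2

/-- lines -/
def Ln (H : Subgroup G) (U l : Set Ω) : Prop := ∃ g ∈ H, l = g • U

/-- lines through `z` other than `U` -/
def Pc (H : Subgroup G) (U : Set Ω) (z : Ω) : Set (Set Ω) := {l | Ln H U l ∧ z ∈ l ∧ l ≠ U}

theorem Ln.card {l : Set Ω} (h : Ln H U l) : l.ncard = U.ncard := by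
  obtain ⟨g, -, rfl⟩ := h; exact Set.ncard_smul_set _ _

theorem Ln.smul {l : Set Ω} (h : Ln H U l) {g : G} (hg : g ∈ H) : Ln H U (g • l) := by
  obtain ⟨k, hk, rfl⟩ := h; exact ⟨g * k, H.mul_mem hg hk, (mul_smul _ _ _).symm⟩

theorem ln_self : Ln H U U := ⟨1, H.one_mem, (one_smul _ _).symm⟩

namespace Ds
variable (d : Ds H W U a v)
include d

theorem sub {l : Set Ω} (h : Ln H U l) : l ⊆ W := by
  obtain ⟨g, hg, rfl⟩ := h
  rw [← d.hi.smul_eq hg]; exact Set.smul_set_mono d.hU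

theorem eq {l l' : Set Ω} (h : Ln H U l) (h' : Ln H U l') {p q : Ω} (hpq : p ≠ q) (p1 : p ∈ l)
    (q1 : q ∈ l) (p2 : p ∈ l') (q2 : q ∈ l') : l = l' := by
  obtain ⟨g, hg, rfl⟩ := h
  obtain ⟨k, hk, rfl⟩ := h'
  rcases d.hl (k⁻¹ * g) (H.mul_mem (H.inv_mem hk) hg) with e | e
  · rw [mul_smul, inv_smul_eq_iff] at e; exact e
  · refine absurd e (not_lt.2 ((Set.one_lt_ncard_iff (Set.toFinite _)).2
      ⟨k⁻¹ • p, k⁻¹ • q, ⟨?_, ?_⟩, ⟨?_, ?_⟩, fun h => hpq (smul_left_cancel _ h)⟩))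
    · rw [mul_smul]; exact Set.smul_mem_smul_set p1
    · exact Set.mem_smul_set_iff_inv_smul_mem.1 p2
    · rw [mul_smul]; exact Set.smul_mem_smul_set q1
    · exact Set.mem_smul_set_iff_inv_smul_mem.1 q2

theorem ex {z p : Ω} (hz : z ∈ U) (hp : p ∈ W \ U) : ∃ l ∈ Pc H U z, p ∈ l := by
  obtain ⟨g, hg, e1, e2⟩ := two_tr d.hi d.ht (d.hU d.aU) d.h2 ⟨d.hU d.vU, d.va⟩ (d.hU hz) hp.1
    fun h => hp.2 (h ▸ hz)
  have m : ∀ {x : Ω}, g • x ∈ U → x ∈ g⁻¹ • U := fun h => Set.mem_inv_smul_set_iff.2 h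
  exact ⟨g⁻¹ • U, ⟨⟨g⁻¹, H.inv_mem hg, rfl⟩, m (e1 ▸ d.aU), fun h => hp.2 (h ▸ m (e2 ▸ d.vU))⟩,
    m (e2 ▸ d.vU)⟩

theorem nm {z p : Ω} (hz : z ∈ U) {l : Set Ω} (hl : l ∈ Pc H U z) (hp : p ∈ l) (hpz : p ≠ z) :
    p ∉ U := fun h => hl.2.2 (d.eq hl.1 ln_self hpz hp hl.2.1 h hz)

theorem count {z : Ω} (hz : z ∈ U) : (W \ U).ncard = (Pc H U z).ncard * (U.ncard - 1) := by
  classical
  have := Finset.card_mul_eq_card_mul (s := (W \ U).toFinite.toFinset)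
    (t := (Pc H U z).toFinite.toFinset) (fun p l => p ∈ l) (m := 1) (n := U.ncard - 1)
    (fun p hp => by
      rw [Set.Finite.mem_toFinset] at hp
      obtain ⟨l, hl, pl⟩ := d.ex hz hp
      refine Finset.card_eq_one.2 ⟨l, Finset.eq_singleton_iff_unique_mem.2 ⟨by
        simp [Finset.mem_bipartiteAbove, hl, pl], fun l' h' => ?_⟩⟩
      simp only [Finset.mem_bipartiteAbove, Set.Finite.mem_toFinset] at h'
      exact d.eq h'.1.1 hl.1 (fun h : p = z => hp.2 (h ▸ hz)) h'.2 h'.1.2.1 pl hl.2.1)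
    (fun l hl => by
      rw [Set.Finite.mem_toFinset] at hl
      rw [← hl.1.card, ← Set.ncard_sdiff_singleton_of_mem hl.2.1, ← Set.ncard_coe_finset]
      congr 1
      ext p
      simp only [Finset.mem_coe, Finset.mem_bipartiteBelow, Set.Finite.mem_toFinset]
      exact ⟨fun h => ⟨h.2, fun e => h.1.2 (e ▸ hz)⟩,
        fun h => ⟨⟨d.sub hl.1 h.1, d.nm hz hl h.1 h.2⟩, h.1⟩⟩)
  rwa [mul_one, ← Set.ncard_eq_toFinset_card, ← Set.ncard_eq_toFinset_card] at this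

theorem fixU {g : G} (hg : g ∈ H ⊓ stabilizer G a ⊓ stabilizer G v) : g • U = U :=
  d.eq (ln_self.smul hg.1.1) ln_self d.va ⟨v, d.vU, hg.2⟩ ⟨a, d.aU, hg.1.2⟩ d.vU d.aU

theorem invP {z : Ω} {K : Subgroup G} (hK : K ≤ H ⊓ stabilizer G a ⊓ stabilizer G v)
    (hz : K ≤ stabilizer G z) : Inv K (Pc H U z) := fun g hg l hl =>
  ⟨hl.1.smul (hK hg).1.1, ⟨z, hl.2.1, hz hg⟩, fun e => hl.2.2
    (smul_left_cancel g (e.trans (d.fixU (hK hg)).symm))⟩

theorem bound (ih : IH.{u} n) (hb : H ⊓ fixingSubgroup G W = ⊥) (h3 : 3 ≤ U.ncard)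
    (hlt : U.ncard < W.ncard) (hn : W.ncard ≤ n) :
    4 * (W.ncard - 1) * kk (H ⊓ stabilizer G a ⊓ stabilizer G v : Subgroup G) ≤ 2 ^ W.ncard := by
  set L := H ⊓ stabilizer G a ⊓ stabilizer G v with hL
  have c0 := Set.ncard_sdiff_add_ncard_of_subset d.hU
  have c1 := Set.ncard_sdiff_singleton_add_one d.aU
  have c2 := Set.ncard_sdiff_singleton_add_one (show v ∈ U \ {a} from ⟨d.vU, d.va⟩)
  have ca := d.count d.aU
  have cv := d.count d.vU
  obtain ⟨j, hj⟩ : ∃ j, U.ncard = j + 3 := ⟨U.ncard - 3, by omega⟩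
  rw [hj, show j + 3 - 1 = j + 2 from rfl] at ca cv
  have ew : (Pc H U a).ncard = (Pc H U v).ncard :=
    Nat.eq_of_mul_eq_mul_right (by omega) (ca.symm.trans cv)
  set w := (Pc H U v).ncard
  have w0 : 0 < w := Nat.pos_of_ne_zero fun h => by rw [h] at cv; omega
  have wn : w < n := by nlinarith
  have iU : Inv L U := fun g hg y hy => d.fixU hg ▸ Set.smul_mem_smul_set hy
  have s1 := step ih (Set.toFinite _) ((iU.diff (B := {a}) fun g hg y hy => by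
    rw [hy]; exact hg.1.2).diff
    (B := {v}) fun g hg y hy => by rw [hy]; exact hg.2)
    ((Set.ncard_pos (Set.toFinite _)).1 (by omega)) (by omega)
  set M := L ⊓ fixingSubgroup G ((U \ {a}) \ {v})
  have s2 := step ih (Set.toFinite _) (d.invP (K := M) inf_le_left fun g hg => hg.1.1.2)
    ((Set.ncard_pos (Set.toFinite _)).1 (by omega)) (by omega)
  set K := M ⊓ fixingSubgroup G (Pc H U a)
  have iK : Inv K (Pc H U v) := d.invP (fun g hg => hg.1.1) fun g hg => hg.1.1.2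
  have n0 : (Pc H U v).Nonempty := (Set.ncard_pos (Set.toFinite _)).1 w0
  have fx : ∀ g ∈ K, ∀ l ∈ Pc H U a, ∀ p ∈ l, g • p ∈ l := fun g hg l hl p hp =>
    (mem_fixingSubgroup_iff G).1 hg.2 l hl ▸ Set.smul_mem_smul_set hp
  have bK : K ⊓ fixingSubgroup G (Pc H U v) = ⊥ := by
    rw [eq_bot_iff, ← hb]
    refine fun g hg => ⟨hg.1.1.1.1.1, (mem_fixingSubgroup_iff G).2 fun p hp => ?_⟩
    by_cases pU : p ∈ U
    · by_cases e : p = a
      · rw [e]; exact hg.1.1.1.1.2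
      by_cases e' : p = v
      · rw [e']; exact hg.1.1.1.2
      exact (mem_fixingSubgroup_iff G).1 hg.1.1.2 p ⟨⟨pU, e⟩, e'⟩
    obtain ⟨l, hl, pl⟩ := d.ex d.aU ⟨hp, pU⟩
    obtain ⟨l', hl', pl'⟩ := d.ex d.vU ⟨hp, pU⟩
    by_contra e
    have q := d.eq hl.1 hl'.1 e (fx g hg.1 l hl p pl) pl
      ((mem_fixingSubgroup_iff G).1 hg.2 l' hl' ▸ Set.smul_mem_smul_set pl') pl'
    exact d.nm d.aU hl (q ▸ hl'.2.1) d.va d.vU
  have s3 := step0 ih (Set.toFinite _) iK n0 wn bK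
  have s4 := jlem ih (c := j + 2) (by omega) w K (Pc H U v) rfl (Set.toFinite _) iK n0 wn bK
    fun R hR hc hJ => by
      obtain ⟨l0, h0⟩ := (Set.ncard_pos (Set.toFinite R)).1 (by omega)
      obtain ⟨p, p1, p2⟩ : (l0 \ {v}).Nonempty := by
        have := Set.ncard_sdiff_singleton_add_one (hR h0).2.1
        rw [(hR h0).1.card] at this
        exact (Set.ncard_pos (Set.toFinite _)).1 (by omega)
      have pU := d.nm d.vU (hR h0) p1 p2
      obtain ⟨l, hl, pl⟩ := d.ex d.aU ⟨d.sub (hR h0).1 p1, pU⟩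
      have : ∀ m : Set Ω, ∃ q, m ∈ R → q ∈ m ∧ q ∈ l ∧ q ∉ U := fun m => by
        by_cases hm : m ∈ R
        · obtain ⟨g, hg, -, e⟩ := hJ l0 h0 m hm
          refine ⟨g • p, fun _ => ⟨e ▸ Set.smul_mem_smul_set p1, fx g hg l hl p pl, fun h => pU ?_⟩⟩
          rwa [← d.fixU hg.1.1, Set.smul_mem_smul_set_iff] at h
        · exact ⟨a, fun h => absurd h hm⟩
      choose f hf using this
      have := Set.ncard_le_ncard_of_injOn (t := l \ {a}) f
        (fun m hm => ⟨(hf m hm).2.1, fun e => (hf m hm).2.2 (e ▸ d.aU)⟩)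
        (fun m hm m' hm' e => d.eq (hR hm).1 (hR hm').1
          (fun h : f m = v => (hf m hm).2.2 (h ▸ d.vU)) (hf m hm).1 (hR hm).2.1
          (e ▸ (hf m' hm').1) (hR hm').2.1) (Set.toFinite _)
      have c := Set.ncard_sdiff_singleton_add_one hl.2.1
      rw [hl.1.card] at c
      omega
  rw [ew] at s2
  rw [show ((U \ {a}) \ {v}).ncard = j + 1 by omega] at s1
  have e1 : W.ncard = (j + 1 + w) + (2 + w * j + w) := by rw [← c0, cv, hj]; ring
  have e2 : W.ncard - 1 = (w + 1) * (j + 2) := by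
    rw [← c0, cv, hj, add_mul]; omega
  have s5 : (w + 1) * (j + 2) * kk K ≤ 2 ^ (2 + w * j + w) := by
    rcases Nat.eq_zero_or_pos j with rfl | j0
    · calc (w + 1) * (0 + 2) * kk K ≤ (2 * (2 * w)) * kk K := Nat.mul_le_mul_right _ (by omega)
        _ = 2 * (2 * w * kk K) := by ring
        _ ≤ 2 * ((0 + 2) * 2 ^ w) := Nat.mul_le_mul_left _ s4
        _ = _ := by ring
    · have q : (w + 1) * (j + 2) ≤ 8 * 2 ^ (w * j) := by
        have := (Nat.lt_two_pow_self (n := w * j)).le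
        nlinarith
      refine Nat.le_of_mul_le_mul_left (?_ : 2 * _ ≤ 2 * _) two_pos
      calc 2 * ((w + 1) * (j + 2) * kk K) = (w + 1) * (j + 2) * (2 * kk K) := by ring
        _ ≤ (8 * 2 ^ (w * j)) * 2 ^ w := Nat.mul_le_mul q s3
        _ = _ := by ring
  rw [e2, e1]
  calc 4 * ((w + 1) * (j + 2)) * kk L = (w + 1) * (j + 2) * 2 * (2 * kk L) := by ring
    _ ≤ (w + 1) * (j + 2) * 2 * (2 ^ (j + 1) * kk M) := Nat.mul_le_mul_left _ s1
    _ = (w + 1) * (j + 2) * 2 ^ (j + 1) * (2 * kk M) := by ring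
    _ ≤ (w + 1) * (j + 2) * 2 ^ (j + 1) * (2 ^ w * kk K) := Nat.mul_le_mul_left _ s2
    _ = 2 ^ (j + 1 + w) * ((w + 1) * (j + 2) * kk K) := by ring
    _ ≤ 2 ^ (j + 1 + w) * 2 ^ (2 + w * j + w) := Nat.mul_le_mul_left _ s5
    _ = _ := by ring

end Ds
end H9.Lp
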