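import Cfsg.Agent.H9.Lp4

/-! A permutation group of degree `n` has at most `2 ^ (n - 1)` conjugacy classes. -/

set_option autoImplicit false
set_option linter.unusedSectionVars false
open MulAction
open scoped Pointwise

namespace H9.Lp
universe u
variable {G Ω : Type u} [Group G] [Finite G] [Finite Ω] [MulAction G Ω] {n : ℕ}
  {H : Subgroup G} {W : Set Ω}

theorem tt (ih : IH.{u} n) (hi : Inv H W) (hb : H ⊓ fixingSubgroup G W = ⊥) (ht : Tr H W)
    {a v : Ω} (ha : a ∈ W) (h2 : Tr (H ⊓ stabilizer G a) (W \ {a})) (hv : v ∈ W \ {a})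
    (hp : ¬ Prim (H ⊓ stabilizer G a) (W \ {a})) (hn : W.ncard ≤ n) :
    4 * (W.ncard - 1) * kk (H ⊓ stabilizer G a ⊓ stabilizer G v : Subgroup G) ≤ 2 ^ W.ncard := by
  have h3 : ¬ Tr (H ⊓ stabilizer G a ⊓ stabilizer G v) ((W \ {a}) \ {v}) := fun t =>
    hp (prim_of_two (hi.stab a) h2 hv t)
  have c1 := Set.ncard_sdiff_singleton_add_one ha
  have c2 := Set.ncard_sdiff_singleton_add_one hv
  by_cases hJ : ∀ R ⊆ (W \ {a}) \ {v}, 1 < R.ncard →
    ¬ Jor (H ⊓ stabilizer G a ⊓ stabilizer G v) ((W \ {a}) \ {v}) R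
  · have h0 : ((W \ {a}) \ {v}).Nonempty := by
      by_contra e
      rw [Set.not_nonempty_iff_eq_empty] at e
      exact h3 (by rw [e]; exact fun x hx => hx.elim)
    have p0 := (Set.ncard_pos (Set.toFinite _)).2 h0
    have := jlem ih le_rfl _ _ _ rfl (Set.toFinite _) ((hi.stab a).stab v) h0 (by omega)
      (fix_stab (fix_stab hb a) v) hJ
    rw [← c1, ← c2]
    set x := ((W \ {a}) \ {v}).ncard
    calc 4 * (x + 1 + 1 - 1) * _ ≤ 4 * (2 * x) * kk (H ⊓ stabilizer G a ⊓ stabilizer G v :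
          Subgroup G) := Nat.mul_le_mul_right _ (by omega)
      _ = 4 * (2 * x * _) := by ring
      _ ≤ 4 * (1 * 2 ^ x) := Nat.mul_le_mul_left _ this
      _ = _ := by ring
  simp only [not_forall, not_not] at hJ
  obtain ⟨R, hR, h1, j⟩ := hJ
  obtain ⟨R, jc, hm⟩ := JC.max (s := 2) ⟨hR.trans (Set.sdiff_subset.trans Set.sdiff_subset), h1,
    by have := Set.ncard_le_ncard hR; omega, j.up.up⟩
  have cc := Set.ncard_sdiff_add_ncard_of_subset jc.1
  obtain ⟨x, y, hx, hy, hxy⟩ := (Set.one_lt_ncard_iff (Set.toFinite (W \ R))).1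
    (by have := jc.2.2.1; omega)
  obtain ⟨g, hg, e1, e2⟩ := two_tr hi ht ha h2 hv hx.1 hy.1 hxy
  have jc' := jc.smul hi hg
  have m : ∀ z ∈ W \ R, g • z ∈ W \ g • R := fun z hz =>
    ⟨hi g hg z hz.1, fun h => hz.2 (Set.smul_mem_smul_set_iff.1 h)⟩
  have aU := e1 ▸ m x hx
  have vU := e2 ▸ m y hy
  have cc' := Set.ncard_sdiff_add_ncard_of_subset jc'.1
  have d : Ds H W (W \ g • R) a v := ⟨hi, ht, h2, Set.sdiff_subset, aU, vU, hv.2, fun k hk =>
    jc'.prop hi (prim_of_two hi ht ha h2) (by omega)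
      (fun R' h => by rw [Set.ncard_smul_set]; exact hm R' h) hk⟩
  refine d.bound ih hb ?_ (by have := jc'.2.1; omega) hn
  by_contra hc
  have e : {a, v} = W \ g • R := Set.eq_of_subset_of_ncard_le
    (Set.insert_subset aU (Set.singleton_subset_iff.2 vU))
    (by rw [Set.ncard_pair (Ne.symm hv.2)]; omega)
  have m' : ∀ z ∈ (W \ {a}) \ {v}, z ∈ g • R := fun z hz => by
    by_contra h
    rcases (e ▸ ⟨hz.1.1, h⟩ : z ∈ ({a, v} : Set Ω)) with q | q
    exacts [hz.1.2 q, hz.2 q]
  refine h3 fun p hp q hq => ?_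
  obtain ⟨k, hk, f1, f2⟩ := jc'.2.2.2 p (m' p hp) q (m' q hq)
  exact ⟨k, ⟨⟨hk, f1 a ha aU.2⟩, f1 v hv.1 vU.2⟩, f2⟩

theorem fix_ins (T : Set Ω) (a : Ω) :
    fixingSubgroup G (insert a T) = fixingSubgroup G T ⊓ stabilizer G a := by
  ext g; simp only [Subgroup.mem_inf, mem_fixingSubgroup_iff, mem_stabilizer_iff,
    Set.forall_mem_insert, and_comm]

theorem compl_ins (T : Set Ω) (a : Ω) : (insert a T)ᶜ = Tᶜ \ {a} := by
  ext; simp [and_comm]

theorem inv_fix (T : Set Ω) : Inv (fixingSubgroup G T) Tᶜ := fun g hg y hy e => hy (by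
  have := (mem_fixingSubgroup_iff G).1 hg _ e
  rwa [← smul_left_cancel g this])

theorem claim [FaithfulSMul G Ω] (ih : IH.{u} n) (m : ℕ) : ∀ (T : Set Ω) (a : Ω) (X : Set G),
    Tᶜ.ncard = m → m ≤ n → Path T a X → Tr (fixingSubgroup G T) Tᶜ →
    Prim (fixingSubgroup G T) Tᶜ → 2 * cp (fixingSubgroup G (insert a T) : Set G) X ≤
      2 ^ m * Nat.card (fixingSubgroup G (insert a T)) := by
  have fb : ∀ T : Set Ω, fixingSubgroup G T ⊓ fixingSubgroup G Tᶜ = ⊥ := fun T => by
    rw [← fixingSubgroup_union, Set.union_compl_self, eq_bot_iff]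
    exact fun g hg => eq_of_smul_eq_smul (α := Ω) fun x => by
      rw [one_smul]; exact (mem_fixingSubgroup_iff G).1 hg x trivial
  induction m with
  | zero =>
    intro T a X hm _ h _ _
    exact absurd ((Set.ncard_pos (Set.toFinite Tᶜ)).2 ⟨a, h.ha⟩) (by omega)
  | succ m ih' =>
  intro T a X hm hn h ht hp
  have b1 := Nat.mul_le_mul_left 2 h.b1
  have c1 := Set.ncard_sdiff_singleton_add_one (show a ∈ Tᶜ from h.ha)
  rw [← compl_ins] at c1
  by_cases h2 : Tr (fixingSubgroup G (insert a T)) (insert a T)ᶜ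
  swap
  · rw [fix_ins, compl_ins] at h2
    have := sp ih (inv_fix T) (fb T) ht hp h.ha h2 (by omega)
    rw [← fix_ins, hm] at this
    rw [hm] at b1
    refine b1.trans (le_trans (le_of_eq ?_) (Nat.mul_le_mul_right _ this))
    ring
  rcases (insert a T)ᶜ.eq_empty_or_nonempty with h0 | h0
  · have e := fb (insert a T)
    rw [h0, fixingSubgroup_empty, inf_top_eq] at e
    rw [h0, Set.ncard_empty] at c1
    rw [e] at b1 ⊢
    rw [kk_bot] at b1
    refine b1.trans (le_of_eq ?_)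
    rw [← hm, ← c1]; ring
  have k1 := step0 ih (Set.toFinite _) (inv_fix (insert a T)) h0 (by omega) (fb _)
  rw [show (insert a T)ᶜ.ncard = m by omega] at k1
  by_cases hp2 : Prim (fixingSubgroup G (insert a T)) (insert a T)ᶜ
  · refine (h.b2 h2 h0 fun v _ Z hZ => ih' _ v Z (by omega) (by omega) hZ h2 hp2).trans
      (Nat.mul_le_mul_right _ ?_)
    rw [pow_succ]; omega
  · refine (h.b2 (c := 2 ^ m) h2 h0 fun v hv Z hZ => ?_).trans (Nat.mul_le_mul_right _ ?_)
    · rw [fix_ins, compl_ins] at h2 hp2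
      have := tt ih (inv_fix T) (fb T) ht h.ha h2 (by rw [← compl_ins]; exact hv) hp2 (by omega)
      rw [← fix_ins, ← fix_ins, hm, pow_succ] at this
      have b := hZ.b1
      rw [show (insert a T)ᶜ.ncard = m by omega, ← mul_assoc] at b
      refine (Nat.mul_le_mul_left 2 b).trans ?_
      rw [← mul_assoc]
      refine Nat.mul_le_mul_right _ ?_
      rw [Nat.add_sub_cancel, mul_assoc] at this
      omega
    · rw [pow_succ]; omega

theorem main' [FaithfulSMul G Ω] (ih : IH.{u} (Nat.card Ω)) (h0 : 0 < Nat.card Ω) :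
    2 * kk G ≤ 2 ^ Nat.card Ω := by
  have fb : fixingSubgroup G (Set.univ : Set Ω) = ⊥ := by
    rw [eq_bot_iff]
    exact fun g hg => eq_of_smul_eq_smul (α := Ω) fun x => by
      rw [one_smul]; exact (mem_fixingSubgroup_iff G).1 hg x trivial
  have iu : Inv (⊤ : Subgroup G) (Set.univ : Set Ω) := fun _ _ _ _ => trivial
  by_cases ht : Tr (⊤ : Subgroup G) (Set.univ : Set Ω)
  swap
  · obtain ⟨P, -, p2, p3, p4⟩ := half (Set.toFinite _) iu ht
    have p0 := (Set.ncard_pos (Set.toFinite _)).2 p3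
    have cc := Set.ncard_sdiff_add_ncard_of_subset (Set.subset_univ P)
    rw [Set.ncard_univ] at p4 cc
    have s := step ih (Set.toFinite _) p2 p3 (by omega)
    have t := step0 ih (K := ⊤ ⊓ fixingSubgroup G P) (Set.toFinite _) ((iu.diff p2).mono inf_le_left)
      ((Set.ncard_pos (Set.toFinite _)).1 (by omega)) (by omega)
      (by rw [inf_assoc, ← fixingSubgroup_union, Set.union_sdiff_cancel (Set.subset_univ P), fb,
        inf_bot_eq])
    rw [kk_congr Subgroup.topEquiv] at s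
    rw [← cc, pow_add, mul_comm (2 ^ _)]
    exact s.trans (Nat.mul_le_mul_left _ (by omega))
  by_cases hp : Prim (⊤ : Subgroup G) (Set.univ : Set Ω)
  · obtain ⟨a⟩ := (Nat.card_pos_iff.1 h0).1
    have e : fixingSubgroup G (insert a (∅ : Set Ω)) = stabilizer G a := by
      rw [fix_ins, fixingSubgroup_empty, top_inf_eq]
    have := claim (G := G) ih _ ∅ a Set.univ (by rw [Set.compl_empty, Set.ncard_univ]) le_rfl
      ⟨fun h => h, fun _ _ _ _ _ h => h.elim, fun _ _ _ h => h.elim⟩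
      (by rwa [fixingSubgroup_empty, Set.compl_empty])
      (by rwa [fixingSubgroup_empty, Set.compl_empty])
    rw [e] at this
    refine Nat.le_of_mul_le_mul_right (le_trans ?_ this) Nat.card_pos
    rw [mul_assoc]
    exact Nat.mul_le_mul_left _ (top_le ht a)
  simp only [Prim, not_forall, not_or, not_le] at hp
  obtain ⟨B, -, hB, b1, b2⟩ := hp
  have : IsPretransitive G Ω := ⟨fun x y => by
    obtain ⟨g, -, e⟩ := ht x trivial y trivial; exact ⟨g, e⟩⟩
  have bn : B.Nonempty := (Set.ncard_pos (Set.toFinite _)).1 (by omega)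
  have c := (isBlock_iff_smul_eq_or_disjoint.2 fun g => hB g trivial).ncard_block_mul_ncard_orbit_eq bn
  have bl : B.ncard < Nat.card Ω := by
    rw [← Set.ncard_univ]; exact Set.ncard_lt_ncard ((Set.subset_univ B).ssubset_of_ne b2)
  have on : (orbit G B).Nonempty := ⟨B, mem_orbit_self B⟩
  have op := (Set.ncard_pos (Set.toFinite _)).2 on
  have s := step (K := ⊤) ih (Set.toFinite (orbit G B))
    (fun g _ l hl => mem_orbit_of_mem_orbit g hl) on (by nlinarith)
  have t := parts ih bl (by omega) (orbit G B) (⊤ ⊓ fixingSubgroup G (orbit G B)) fun A hA =>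
    ⟨fun g hg y hy => (mem_fixingSubgroup_iff G).1 hg.2 A hA ▸ Set.smul_mem_smul_set hy,
      by obtain ⟨g, rfl⟩ := hA; exact Set.ncard_smul_set _ _⟩
  have e : ⋃₀ orbit G B = Set.univ := Set.eq_univ_of_forall fun x => by
    obtain ⟨b, hb⟩ := bn
    obtain ⟨g, -, e⟩ := ht b trivial x trivial
    exact ⟨g • B, mem_orbit B g, e ▸ Set.smul_mem_smul_set hb⟩
  rw [e, fb, inf_bot_eq, kk_bot, mul_one, c] at t
  rw [kk_congr Subgroup.topEquiv] at s
  exact s.trans t

theorem ih_all (n : ℕ) : IH.{u} n := by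
  induction n with
  | zero => intro _ _ _ _ _ _ h; omega
  | succ n ih =>
    intro G X _ _ φ hφ h h0
    by_cases e : Nat.card X < n
    · exact ih G X φ hφ e h0
    have := Finite.of_injective φ hφ
    let _ := MulAction.compHom X φ
    have : FaithfulSMul G X := ⟨fun h => hφ (Equiv.ext h)⟩
    exact main' (by rwa [show Nat.card X = n by omega]) h0

theorem kk_perm {α : Type u} [Finite α] (S : Subgroup (Equiv.Perm α)) :
    kk S ≤ 2 ^ (Nat.card α - 1) := by
  rcases Nat.eq_zero_or_pos (Nat.card α) with h | h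
  · have : IsEmpty α := by
      rcases Nat.card_eq_zero.1 h with e | e
      exacts [e, absurd e (not_infinite_iff_finite.2 inferInstance)]
    rw [Subsingleton.elim S ⊥, kk_bot]
    exact Nat.one_le_two_pow
  · have := ih_all _ S α S.subtype S.subtype_injective (Nat.lt_succ_self _) h
    obtain ⟨m, hm⟩ : ∃ m, Nat.card α = m + 1 := ⟨_, (Nat.succ_pred_eq_of_pos h).symm⟩
    rw [hm, pow_succ] at this
    rw [hm, Nat.add_sub_cancel]
    omega

end H9.Lp
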