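import Cfsg.Agent.H7.ME0

/-! Maximal subgroups of `E₇(2)`: root involutions through the `BN`-pair. -/

set_option autoImplicit false
set_option maxRecDepth 100000

namespace H9.ME

open H18.E7 (G xr)
open H7.ME H14 H14.PreSt H14.St H14.RootSys Cfsg.Lie Subgroup

/-- the roots -/
abbrev I := Fin chevE7.nroots
/-- the root system -/
noncomputable abbrev R := goodE7.R
/-- the root elements -/
noncomputable def S : St goodE7.C (ZMod 2) G := goodE7.SG (ZMod 2)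
/-- the highest root -/
def θ : I := ⟨125, by decide⟩
/-- the first node -/
def o : Fin chevE7.rank := ⟨0, by decide⟩
/-- the degree -/
def f : (Fin chevE7.rank → ℤ) →+ ℤ := Pi.evalAddMonoidHom _ o
/-- the degree of a root -/
noncomputable def d (r : I) : ℤ := R.cf r o
/-- the root involutions -/
noncomputable def Y (r : I) : G := S.x r 1

theorem sep : S.Sep := goodE7.SG_sep _
theorem hmul : S.HMul := goodE7.SG_hmul _
theorem top (g : G) : g ∈ S.U Set.univ := (goodE7.SG_top _).ge (mem_top g)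
theorem X_eq {r : ℕ} (h : r < 126) : X r = Y ⟨r, h⟩ := dif_pos h
theorem z_eq : z = Y θ := X_eq (by omega)
theorem x0_eq : x0 = Y (R.neg θ) := X_eq (by omega)
theorem z01 (t : ZMod 2) : t = 0 ∨ t = 1 := by revert t; decide
theorem x_mem {M : Subgroup G} {r : I} (h : Y r ∈ M) (t : ZMod 2) : S.x r t ∈ M := by
  obtain rfl | rfl := z01 t
  · simp
  · exact h
attribute [local irreducible] X S
theorem Um {p q : I → Prop} (h : ∀ r, p r → q r) {g : G} (k : g ∈ S.U {r | p r}) : g ∈ S.U {r | q r} := U_mono h k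
theorem xm {p : I → Prop} {r : I} (h : p r) : Y r ∈ S.U {r | p r} := x_mem_U h 1
theorem cl_eq (p : ℤ → Prop) {g : G} : g ∈ closure {g | ∃ r < 126, p (dg r) ∧ g = X r} ↔ g ∈ S.U {r | p (d r)} := by
  refine ⟨fun h => (closure_le _).2 ?_ h, fun h => U_le.2 (fun r hr => x_mem (Subgroup.subset_closure ?_)) h⟩
  · rintro _ ⟨r, h, k, rfl⟩
    rw [X_eq h]; exact xm (p := fun r => p (d r)) k
  · exact ⟨r, r.2, hr, (X_eq r.2).symm⟩
theorem mQ {g : G} : g ∈ Q ↔ g ∈ S.U {r | 1 ≤ d r} := cl_eq (1 ≤ ·)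
theorem mL {g : G} : g ∈ L0 ↔ g ∈ S.U {r | d r = 0} := cl_eq (· = 0)
theorem H1 {k : G} (h : k ∈ S.H) : k = 1 := (H_le (M := ⊥)).2 (fun r t ht => by
  obtain rfl := (z01 t).resolve_left ht
  simp [h_one]) h
theorem tb1 : ∀ r : I, (2 ≤ d r → r = θ) ∧ (R.pos r → 0 ≤ d r) ∧ R.ht r ≤ R.ht θ ∧ d (R.neg r) = -d r := by decide +kernel
theorem tb2 : (∀ j, tabE7.wt 125 j.1 = if j = o then 1 else 0) ∧ d θ = 2 ∧ ∀ r : I, r = θ ∨ ∃ i, r < R.sref i r := by
  decide +kernel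
theorem tb3 : ∀ r : I, d r = 0 → ∃ s : I, d s = 1 ∧ ∑ j : Fin chevE7.rank, tabE7.co s j * tabE7.wt r j ≠ 0 := by decide +kernel
theorem tb4 : ∀ r : I, ∑ j : Fin chevE7.rank, tabE7.co θ j * tabE7.wt r j = d r := by decide +kernel
theorem pair_eq (s r : I) : R.pair s r = ∑ j : Fin chevE7.rank, tabE7.co s j * tabE7.wt r j :=
  Finset.sum_congr (s₁ := Finset.univ) rfl fun (j : Fin chevE7.rank) _ => congrArg (tabE7.co s j * ·) (okE7.wt_rootSys r j)
theorem d_refl (s r : I) : d (R.refl s r) = d r - R.pair s r * d s := congrFun (R.cf_refl s r) o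
theorem d_θ (r : I) : d (R.refl θ r) = -d r := by rw [d_refl, pair_eq, tb2.2.1, tb4]; ring
theorem inJ {r : I} : R.InJ {j | j ≠ o} r ↔ d r = 0 := ⟨fun h => h o (by simp), fun h j hj => (not_not.1 hj : j = o) ▸ h⟩
theorem d_pos {r : I} (h : 0 < d r) : R.pos r := R.pos_of_cf_pos h
theorem d_comb {r s k : I} {i j : ℤ} (e : R.cf k = i • R.cf r + j • R.cf s) : d k = i * d r + j * d s := congrFun e o
theorem d_add {r s k : I} (e : R.cf k = R.cf r + R.cf s) : d k = d r + d s := congrFun e o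
theorem f_cf (r : I) : f (R.cf r) = d r := rfl
theorem dg_eq {r : ℕ} (h : r < 126) : dg r = d ⟨r, h⟩ := rfl
attribute [local irreducible] Q L0 d dg
theorem rad : {r | R.pos r ∧ ¬ R.InJ {j | j ≠ o} r} = {r | 1 ≤ d r} := Set.ext fun r =>
  ⟨fun h => by have := (tb1 r).2.1 h.1; have := mt inJ.2 h.2; change 1 ≤ d r; omega,
    fun h => ⟨d_pos h, fun k => by have := inJ.1 k; change 1 ≤ d r at h; omega⟩⟩
theorem clQ : R.Closed {r | 1 ≤ d r} := fun r hr s hs k i j hi hj e => by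
  have := d_comb e
  change 1 ≤ d _ at hr hs ⊢
  nlinarith
theorem fQ : ∀ r ∈ {r | 1 ≤ d r}, 0 < f (R.cf r) := fun r h => by rw [f_cf]; exact h
theorem nw {n : G} {w : Equiv.Perm I} (h : (n, w) ∈ S.NW) (r : I) : n * Y r * n⁻¹ = Y (w r) := by
  obtain ⟨c, hc, e⟩ := NW.act h r
  rw [Y, Y, e, (z01 c).resolve_left hc, mul_one, mul_inv_cancel_right]
theorem nr (s r : I) : S.n s 1 * Y r * (S.n s 1)⁻¹ = Y (R.refl s r) := nw (n_mem_NW s one_ne_zero) r
theorem cz0 {r : I} (h : 0 ≤ d r) (t : ZMod 2) : Commute (S.x r t) (S.x θ 1) :=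
  S.commute_of_not (fun e => by have := (tb1 r).2.2.2; rw [← e, tb2.2.1] at this; omega) (fun k => by
    have e := k.cf_plus
    rw [(tb1 (R.plus r θ)).1 (by rw [d_add e, tb2.2.1]; omega)] at e
    exact R.cf_ne_zero r (by simpa using e)) _ _
theorem cz {p : G} : Commute p z ↔ p ∈ S.U {r | 0 ≤ d r} := by
  rw [← cent_root sep hmul (i := o) (B := {r | 0 ≤ d r}) (PreChev.idl_high fun k => (tb1 k).2.2.1)
    (fun j => (okE7.wt_rootSys θ j).trans (tb2.1 j)) (fun r => (tb1 r).2.1) (fun j hj => ?_) fun r => cz0, z_eq]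
  · simp [top, mem_centralizer_singleton_iff, commute_iff_eq, Y]
  · exact (inJ.1 (R.inJ_neg.2 (R.inJ_simple.2 hj))).ge
theorem cP {p : G} : Commute p z ↔ p ∈ S.P {j | j ≠ o} := by
  rw [cz, P_eq, (eq_bot_iff_forall _).2 fun _ => H1, bot_sup_eq]
  exact ⟨Um fun r h => h.eq_or_lt.elim (fun e => .inr (inJ.2 e.symm)) fun e => .inl (d_pos e),
    Um fun r h => h.elim (tb1 r).2.1 fun e => (inJ.1 e).ge⟩
theorem YQ {r : I} : Y r ∈ Q ↔ 1 ≤ d r :=
  mQ.trans ⟨sep.mem_of_x_mem clQ f fQ one_ne_zero, xm (p := fun r => 1 ≤ d r)⟩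

theorem inv (r : ℕ) : X r * X r = 1 := by
  by_cases h : r < 126
  · rw [X_eq h, Y, ← x_add]; exact S.x_zero _
  · rw [X, dif_neg h, one_mul]
theorem ne1 : ∀ r < 126, X r ≠ 1 := fun _ h e => one_ne_zero (sep.x_eq_one.1 ((X_eq h).symm.trans e))
theorem XD : ∀ r < 126, X r ∈ D := fun r h => by
  rw [X_eq h]
  generalize (⟨r, h⟩ : I) = r
  induction r using WellFoundedGT.induction with
  | ind r ih =>
    obtain rfl | ⟨i, hi⟩ := tb2.2.2 r
    · exact ⟨1, by simp [z_eq]⟩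
    obtain ⟨g, e⟩ := ih _ hi
    refine ⟨S.n (R.simple i) 1 * g, ?_⟩
    rw [← R.refl_refl (R.simple i) r, ← nr, refl_simple, e]; group
theorem inQ : ∀ r < 126, X r ∈ Q ↔ 1 ≤ dg r := fun r h => by rw [X_eq h, dg_eq h, YQ]
theorem zQ : z ∈ Q := by rw [z_eq, YQ, tb2.2.1]; omega
theorem Qz : ∀ q ∈ Q, Commute q z := fun _ h => cz.2 (Um (fun _ k => by omega) (mQ.1 h))
theorem cQ : ∀ q ∈ Q, ∀ q' ∈ Q, q * q' * q⁻¹ = q' ∨ q * q' * q⁻¹ = q' * z := fun q h q' h' => by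
  have a : R.Into {r | 1 ≤ d r} {r | 1 ≤ d r} {θ} := fun r hr s hs => ⟨ne_neg_of_pos f (fQ r hr) (fQ s hs), fun k i j hi hj e => by
    have := d_comb e
    change 1 ≤ d _ at hr hs
    exact (tb1 k).1 (by nlinarith)⟩
  have b := PreChev.intoK_of (C := goodE7.C.toPreChev) (K := ZMod 2) (a.mono subset_rfl (B1 := {θ})
    (by rintro _ rfl; change 1 ≤ d θ; rw [tb2.2.1]; omega) subset_rfl)
  obtain ⟨t, e⟩ := mem_U_singleton.1 (S.comm_memK (PreChev.intoK_of a) b b (inv_mem (mQ.1 h)) (mQ.1 h'))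
  rw [inv_inv, inv_mul_eq_iff_eq_mul] at e
  obtain rfl | rfl := z01 t
  · exact .inl (by simpa using e)
  · exact .inr (by rw [z_eq]; exact e)
theorem nQ : ∀ p, Commute p z → ∀ q ∈ Q, p * q * p⁻¹ ∈ Q := fun p h q hq => by
  have := P_le_normalizer _ (cP.1 h)
  rw [rad] at this
  exact mQ.2 ((mem_normalizer_iff.1 this q).1 (mQ.1 hq))
theorem dec : ∀ p, Commute p z → ∃ q ∈ Q, ∃ l ∈ L0, p = q * l := fun p h => by
  obtain ⟨u, hu, k, hk, l, hl, e⟩ := mem_P_iff'.1 (cP.1 h)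
  rw [rad] at hu
  exact ⟨u, mQ.2 hu, l, mL.2 (Um (fun _ => inJ.1) hl), by rw [e, H1 hk, mul_one]⟩
theorem c0 {p : G} : Commute p x0 ↔ p ∈ S.U {r | d r ≤ 0} := by
  have n := n_mem_NW (S := S.toPreSt) θ one_ne_zero
  have e : S.n θ 1 * x0 * (S.n θ 1)⁻¹ = z := by rw [x0_eq, nr, refl_neg_self, z_eq]
  have : Commute (S.n θ 1 * p * (S.n θ 1)⁻¹) z ↔ Commute p x0 := by rw [← e, Commute.conj_iff]
  rw [← this, cz]
  refine ⟨fun h => ?_, NW.conj_mem_U n fun r hr => ?_⟩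
  · have := NW.conj_mem_U' n (B := {r | d r ≤ 0}) (fun r hr => by
      rw [Set.mem_ofPred_eq] at hr ⊢; rw [refl_inv, d_θ]; omega) h
    rwa [mul_assoc _ p, inv_mul_cancel_left, inv_mul_cancel_right] at this
  · rw [Set.mem_ofPred_eq] at hr ⊢; rw [d_θ]; omega
theorem L0z : ∀ l ∈ L0, Commute l z ∧ Commute l x0 := fun _ h =>
  ⟨cz.2 (Um (fun _ k => k.ge) (mL.1 h)), c0.2 (Um (fun _ k => k.le) (mL.1 h))⟩
theorem semi : ∀ q ∈ Q, Commute q x0 → q = 1 := fun q h k =>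
  sep.tri f _ _ clQ fQ (fun r h => by rw [f_cf]; exact h) q (mQ.1 h) q (c0.1 k) 1 (one_mem _) (mul_one q).symm
theorem pair : ∀ d ∈ D, ∃ p, Commute p z ∧ ∃ r < 126, d = p * X r * p⁻¹ := by
  rintro _ ⟨g, rfl⟩
  obtain ⟨w, b, hb, n, hn, u, hu, rfl⟩ := exists_cell (top g)
  refine ⟨b, cP.2 (B_le_P _ hb), w θ, (w θ).2, ?_⟩
  have := (cz.2 (Um (fun r => (tb1 r).2.1) hu)).eq
  rw [X_eq (w θ).2, ← nw hn θ, show b * n * u * z * (b * n * u)⁻¹ = b * (n * (u * z * u⁻¹) * n⁻¹) * b⁻¹ by group, this,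
    mul_inv_cancel_right, z_eq]
theorem gen : ∀ H : Subgroup G, Q ≤ H → x0 ∈ H → H = ⊤ := fun H hQ h0 => by
  have k : ∀ s r : I, Y s ∈ H → Y (R.neg s) ∈ H → Y (R.refl s r) ∈ H → Y r ∈ H := fun s r a b c => by
    have : S.n s 1 ∈ H := mul_mem (mul_mem (x_mem a _) (x_mem b _)) (x_mem a _)
    rw [← R.refl_refl s r, ← nr]
    exact mul_mem (mul_mem this c) (inv_mem this)
  have a : ∀ r : I, d r ≠ 0 → Y r ∈ H := fun r h => by
    obtain h | h := h.lt_or_gt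
    · exact k θ r (z_eq ▸ hQ zQ) (x0_eq ▸ h0) (hQ (YQ.2 (by rw [d_θ]; omega)))
    · exact hQ (YQ.2 h)
  refine eq_top_iff.2 fun g _ => U_le.2 (fun r _ => x_mem ?_) (top g)
  by_cases h : d r = 0
  · obtain ⟨s, h1, h2⟩ := tb3 r h
    exact k s r (a s (by omega)) (a _ (by rw [(tb1 s).2.2.2]; omega)) (a _ (by rw [d_refl, pair_eq, h, h1]; omega))
  · exact a r h
theorem dgs : ∀ r < 126, r = 125 ∨ dg r = 1 ∨ dg r = 0 ∨ dg r = -1 ∨ r = 0 := by decide +kernel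

end H9.ME
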