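import Cfsg.Agent.H9.ME1

/-! Maximal subgroups of `E₇(2)`: pairs of root involutions. -/

set_option autoImplicit false
set_option maxRecDepth 100000

namespace H9.ME

open H18.E7 (G xr)
open H7.ME H14 H14.PreSt H14.St H14.RootSys Cfsg.Lie Subgroup

theorem cell_min {ι κ K Γ : Type*} [Fintype κ] [DecidableEq κ] [Fintype ι] [DecidableEq ι] {R : RootSys ι κ} {C : Chev R} [Field K]
    [Group Γ] {S : St C K Γ} (hS : S.Sep) {g : Γ} {w : Equiv.Perm ι} (hw : S.Cell w g) {B : Set ι} (hB : C.Idl K B) {a b : ι}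
    (ha : R.pos a) (hb : R.pos b) (h : ¬ R.cf b ≤ R.cf a) (e : g * (S.x a 1 * S.x b 1) * g⁻¹ ∈ S.U B) : w a ∈ B := by
  obtain ⟨A, m⟩ : ∃ A : Set ι, ∀ k, k ∈ A ↔ R.cf a ≤ R.cf k ∨ R.cf b ≤ R.cf k := ⟨Set.ofPred _, fun _ => Iff.rfl⟩
  have p : ∀ r ∈ A, R.pos r := fun r hr => ((m r).1 hr).elim (le_trans ha) (le_trans hb)
  have u : ∀ s ∈ A, ∀ k, R.cf s ≤ R.cf k → k ∈ A := fun s hs k q => (m k).2 (((m s).1 hs).imp (le_trans · q) (le_trans · q))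
  have i : C.Idl K A := PreChev.idl_of p fun s hs k q _ => u s hs k q
  have i' : C.Idl K (A \ {a}) := PreChev.idl_of (fun r hr => p r hr.1) fun s hs k q _ => ⟨u s hs.1 k q, by
    rintro rfl
    exact ((m s).1 hs.1).elim (fun u => hs.2 (R.cf_inj (le_antisymm q u))) fun u => h (u.trans q)⟩
  have ma := (m a).2 (.inl le_rfl)
  have mb := (m b).2 (.inr le_rfl)
  exact hw.map_mem hS i hB i' (mul_mem (x_mem_U ma 1) (x_mem_U mb 1))
    (i.not_mem hS i' ma (x_mem_U (Set.mem_sdiff_of_mem mb (by rintro rfl; exact h le_rfl)) 1) one_ne_zero) e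

attribute [local irreducible] X S Q L0 d dg
theorem X_Y (r : I) : X r = Y r := X_eq r.2
theorem dg_d (r : I) : dg r = d r := dg_eq r.2
theorem hd : ∀ r, R.d r = 1 := by decide +kernel
theorem tb5 : ∀ r : I, r ≠ θ → ∃ s : I, 1 ≤ d s ∧ ∑ j : Fin chevE7.rank, tabE7.co s j * tabE7.wt r j = -1 := by decide +kernel
theorem tb6 : ∀ r : I, d r = 0 → ∃ t : I, ∀ a b, a = R.cf r - (∑ j : Fin chevE7.rank, tabE7.co t j * tabE7.wt r j) • R.cf t →
    b = R.cf θ - (∑ j : Fin chevE7.rank, tabE7.co t j * tabE7.wt θ j) • R.cf t → 0 ≤ a ∧ 0 ≤ b ∧ ¬ a ≤ b ∧ ¬ b ≤ a := by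
  simp only [forall_eq_apply_imp_iff, forall_eq, Pi.le_def]
  decide +kernel
theorem Y2 (r : I) : Y r * Y r = 1 := by rw [Y, ← x_add]; exact S.x_zero _
theorem Y1 (r : I) : Y r ≠ 1 := fun e => one_ne_zero (sep.x_eq_one.1 e)
theorem sq {r s k : I} (e : R.cf k = R.cf r + R.cf s) : (Y s * Y r) ^ 2 = Y k := by
  have h : R.IsSum r s := ⟨k, e⟩
  have a := S.comm' h.ne_neg 1 1
  have b := goodE7.C.N_abs r s h
  rw [goodE7.C.terms_of_simple h (not_isSum_plus_of_d hd h) (h.plus_comm ▸ not_isSum_plus_of_d hd h.symm), plus_eq e] at a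
  rw [down_eq_zero_of_not fun c => not_isSum_plus_of_d hd (R.neg_neg r ▸ c.neg_plus) (by
    have := c.plus_neg_plus; rw [R.neg_neg] at this; rwa [this])] at b
  have c : PreChev.tval (1 : ZMod 2) 1 (k, goodE7.C.N r s, 1, 1) = 1 := by
    rcases Int.natAbs_eq_iff.1 b with h | h <;> simp only [PreChev.tval, h] <;> decide
  simp only [List.map_cons, List.map_nil, List.prod_cons, List.prod_nil, mul_one, c] at a
  rw [pow_two]
  nth_rw 2 [show Y s * Y r = Y r * Y s * Y k from a]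
  rw [← mul_assoc, ← mul_assoc, mul_assoc (Y s), Y2, mul_one, Y2, one_mul]
theorem pθ (r : I) : R.pair r θ = d r := by
  have := R.d_pair r θ
  rwa [hd, hd, one_mul, one_mul, pair_eq θ, tb4] at this
theorem m1 {r : I} (h : d r = -1) : R.cf (R.refl θ r) = R.cf r + R.cf θ ∧ R.refl r θ = R.refl θ r := by
  have a : R.cf (R.refl θ r) = R.cf r + R.cf θ := by rw [cf_refl, pair_eq, tb4, h]; simp
  exact ⟨a, R.cf_inj (by rw [a, cf_refl, pθ, h]; simp [add_comm])⟩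
theorem nD {a b : I} (ha : R.pos a) (hb : R.pos b) (h1 : ¬ R.cf a ≤ R.cf b) (h2 : ¬ R.cf b ≤ R.cf a) (c : Commute (Y a) (Y b)) :
    Y a * Y b ∉ D := fun ⟨g, e⟩ => by
  obtain ⟨w, hw⟩ := exists_cell (top g⁻¹)
  have k : g⁻¹ * (Y a * Y b) * g⁻¹⁻¹ ∈ S.U {θ} := by
    rw [e, inv_inv, mul_assoc g, inv_mul_cancel_left, inv_mul_cancel_right, z_eq]
    exact x_mem_U (Set.mem_singleton θ) 1
  have i : goodE7.C.Idl (ZMod 2) {θ} := PreChev.idl_high fun k => (tb1 k).2.2.1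
  have := w.injective ((cell_min sep hw i ha hb h2 k).trans (cell_min sep hw i hb ha h1 (by rwa [c.eq] at k)).symm)
  exact h1 (by rw [this])

theorem r1 : ∀ r < 126, dg r = 1 → X r ≠ z ∧ (x0 * X r) ^ 4 = 1 ∧
    (x0 * X r) ^ 2 * z * ((x0 * X r) ^ 2)⁻¹ = X r * z ∧ ∃ n, n * X r * n⁻¹ = z ∧ n * z * n⁻¹ = X r := fun r h e => by
  rw [dg_eq h] at e
  rw [X_eq h, x0_eq, z_eq]
  generalize (⟨r, h⟩ : I) = r at e
  obtain ⟨k, rfl⟩ : ∃ k, r = R.refl θ k := ⟨_, (R.refl_refl θ r).symm⟩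
  rw [d_θ, neg_eq_iff_eq_neg] at e
  obtain ⟨a, b⟩ := m1 e
  have c : (Y (R.neg θ) * Y (R.refl θ k)) ^ 2 = Y k := sq (by rw [a, R.cf_neg]; simp)
  have c' := sq (a.trans (add_comm _ _))
  refine ⟨fun q => ?_, by rw [show 4 = 2 * 2 from rfl, pow_mul, c, pow_two, Y2], ?_, S.n k 1, ?_, by rw [nr, b]⟩
  · have := sep.mem_of_x_mem (closed_singleton θ) f (by rintro _ rfl; rw [f_cf, tb2.2.1]; omega) one_ne_zero
      (show Y (R.refl θ k) ∈ S.U {θ} by rw [q]; exact x_mem_U (Set.mem_singleton θ) 1)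
    have := d_θ k
    rw [show R.refl θ k = θ from ‹_›, tb2.2.1] at this; omega
  · rw [c, ← c', pow_two, mul_assoc (Y k * Y θ), mul_assoc (Y k) _ (Y θ), Y2, mul_one, inv_eq_of_mul_eq_one_right (Y2 k)]
  · rw [nr, ← b, refl_refl]
theorem r0 : ∀ r < 126, dg r = 0 → Commute z (X r) ∧ X r * z ∉ D := fun r h e => by
  rw [dg_eq h] at e
  rw [X_eq h, z_eq]
  generalize (⟨r, h⟩ : I) = r at e
  have c : Commute (Y r) (Y θ) := cz0 e.ge 1
  obtain ⟨t, q⟩ := tb6 r e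
  obtain ⟨h1, h2, h3, h4⟩ := q _ _ (pair_eq t r ▸ R.cf_refl t r) (pair_eq t θ ▸ R.cf_refl t θ)
  refine ⟨c.symm, fun ⟨g, k⟩ => nD h1 h2 h3 h4 (by rw [← nr, ← nr]; exact c.conj _) ⟨S.n t 1 * g, ?_⟩⟩
  rw [← nr, ← nr, conj_mul, k]; group
theorem rm : ∀ r < 126, dg r = -1 → ∃ s < 126, dg s = 1 ∧ (z * X r) ^ 2 = X s ∧ Commute (X s) (X r) ∧
    ∃ n, ∃ t < 126, dg t = 1 ∧ n * X s * n⁻¹ = z ∧ n * X r * n⁻¹ = X t := fun r h e => by
  rw [dg_eq h] at e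
  rw [X_eq h]
  generalize (⟨r, h⟩ : I) = r at e
  obtain ⟨a, b⟩ := m1 e
  have c : d (R.refl θ r) = 1 := by rw [d_θ, e]; rfl
  refine ⟨R.refl θ r, (R.refl θ r).2, (dg_d _).trans c, ?_⟩
  rw [X_Y]
  have q : (z * Y r) ^ 2 = Y (R.refl θ r) := by rw [z_eq, sq a]
  refine ⟨q, ?_, S.n r 1, R.neg r, (R.neg r).2, by rw [dg_d, (tb1 r).2.2.2, e]; rfl, by rw [nr, ← b, refl_refl, z_eq],
    by rw [nr, refl_self, X_Y]⟩
  have := (Qz _ (YQ.2 c.ge)).inv_right.mul_right (show Commute _ (z * Y r) by rw [← q]; exact Commute.pow_self _ 2)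
  rwa [inv_mul_cancel_left] at this
theorem op : z * x0 * z = x0 * z * x0 ∧ ¬ Commute z x0 := ⟨by
  have := S.n_neg θ one_ne_zero
  rw [PreSt.n, PreSt.n, R.neg_neg, inv_one, show (-1 : ZMod 2) = 1 from rfl, inv_one, show (-1 : ZMod 2) = 1 from rfl] at this
  rw [z_eq, x0_eq, Y, Y, this], fun c => ne1 125 (by omega) (semi z zQ c)⟩
theorem nc : ∀ r < 125, ∃ s < 126, 1 ≤ dg s ∧ ¬ Commute (X r) (X s) := fun r h => by
  have h' : r < 126 := by omega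
  obtain ⟨s, a, b⟩ := tb5 ⟨r, h'⟩ fun e => h.ne (congrArg Fin.val e)
  refine ⟨s, s.2, by rwa [dg_d], fun c => Y1 (R.refl s ⟨r, h'⟩) ?_⟩
  rw [X_eq h', X_Y] at c
  rw [← sq (r := ⟨r, h'⟩) (s := s) (by rw [cf_refl, pair_eq, b]; simp), c.symm.mul_pow, pow_two, pow_two, Y2, Y2, mul_one]

theorem fs : Fs := ⟨inv, ne1, XD, zQ, cQ, Qz, nQ, dec, L0z, pair, semi, gen, dgs, inQ, r1, r0, rm, op, nc⟩

end H9.ME
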