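import Cfsg.Agent.H7.ME1
import Cfsg.Agent.H9.ME2

/-! Maximal subgroups of `E₇(2)`: coordinates on the extraspecial group. -/

set_option autoImplicit false
set_option maxRecDepth 100000
set_option exponentiation.threshold 10000

namespace H9.ME

open H18.E7 (G)
open H7.ME Matrix Subgroup

theorem k1 : ∀ r < 126, 1 ≤ dg r ↔ 93 ≤ r := by decide +kernel
theorem k2 : (List.range 32).all (fun j => (List.range 32).all fun i =>
    wcm [93 + j] [124 - i] == !(Nat.beq i j)) = true := by decide +kernel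
theorem k3 : ∀ i k : Fin 32, Jm.testBit (64 * k + i) = decide (k = i.rev) := by decide +kernel
theorem k4 : (List.range 60).all (fun s => wcm [33 + s] [125] && frc (apl 8 (Nat.shiftRight ATT (Nat.mul 96 (33 + s))) Id) fun A =>
    (List.range 32).all fun j => weq [33 + s, 93 + j, 33 + s] (uw (col A j))) = true := by decide +kernel
theorem k5 : ∀ r < 93, ∀ p < 8, d6 (Nat.shiftRight ATT (Nat.mul 96 r)) (2 * p) < 32 := by decide +kernel

theorem zX : z = X 125 := rfl

attribute [local irreducible] X Q L0 dg z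

theorem zz : z * z = 1 := by rw [zX]; exact X_sq _
theorem XQ {r : ℕ} (h : 93 ≤ r) (h' : r < 126) : X r ∈ Q := (inQ r h').2 ((k1 r h').2 h)

theorem cm0 {a b : G} (h : Commute a b) : cm a b = 0 := if_pos h
theorem cm1 {a b : G} (h : ¬ Commute a b) : cm a b = 1 := if_neg h
theorem cm_comm (a b : G) : cm a b = cm b a := by
  by_cases h : Commute a b
  · rw [cm0 h, cm0 h.symm]
  · rw [cm1 h, cm1 fun e => h e.symm]

theorem cm_mul {q q' x : G} (hq : q ∈ Q) (hq' : q' ∈ Q) (hx : x ∈ Q) : cm (q * q') x = cm q x + cm q' x := by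
  by_cases h : Commute q x
  · by_cases h' : Commute q' x
    · rw [cm0 h, cm0 h', cm0 (h.mul_left h'), add_zero]
    · rw [cm0 h, cm1 h', zero_add, cm1 fun e => h' (by simpa using h.inv_left.mul_left e)]
  · by_cases h' : Commute q' x
    · rw [cm1 h, cm0 h', add_zero, cm1 fun e => h (by simpa using e.mul_left h'.inv_left)]
    · have a := (cQ q hq x hx).resolve_left fun e => h (mul_inv_eq_iff_eq_mul.1 e)
      have b := (cQ q' hq' x hx).resolve_left fun e => h' (mul_inv_eq_iff_eq_mul.1 e)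
      rw [cm1 h, cm1 h', cm0 (mul_inv_eq_iff_eq_mul.1 ?_)]
      · decide
      calc q * q' * x * (q * q')⁻¹ = q * (q' * x * q'⁻¹) * q⁻¹ := by group
        _ = q * x * q⁻¹ * (q * z * q⁻¹) := by rw [b]; group
        _ = x := by rw [a, (Qz q hq).eq, mul_inv_cancel_right, mul_assoc, zz, mul_one]

theorem lmul (q : G) (hq : q ∈ Q) (q' : G) (hq' : q' ∈ Q) : lam (q * q') = lam q + lam q' :=
  funext fun i => cm_mul hq hq' (XQ (by omega) (by omega))
theorem l1 : lam 1 = 0 := funext fun _ => cm0 (Commute.one_left _)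
theorem lz : lam z = 0 := funext fun i => cm0 (Qz _ (XQ (by omega) (by omega))).symm
theorem lX (j : Fin 32) : lam (X (93 + j)) = Pi.single j 1 := by
  funext i
  have t := k2
  simp only [List.all_eq_true, List.mem_range, beq_iff_eq] at t
  have t := t j j.2 i i.2
  by_cases h : i = j
  · subst h
    rw [Pi.single_eq_same]
    refine cm1 fun e => ?_
    rw [← wd_one, ← wd_one (124 - _), ← wcm_iff, t] at e
    simp at e
  · rw [Pi.single_eq_of_ne h]
    refine cm0 ?_
    rw [← wd_one, ← wd_one (124 - _), ← wcm_iff, t]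
    simpa [← Bool.not_eq_true, Fin.ext_iff] using h

theorem Q_ind {p : G → Prop} (h1 : p 1) (hz : ∀ q ∈ Q, p q → p (z * q))
    (hx : ∀ j : Fin 32, ∀ q ∈ Q, p q → p (X (93 + j) * q)) : ∀ q ∈ Q, p q := fun q hq => by
  have e : Q = closure {g | ∃ r < 126, 1 ≤ dg r ∧ g = X r} := by unfold Q; rfl
  have k : ∀ r < 126, 1 ≤ dg r → ∀ y ∈ Q, p y → p (X r * y) := fun r hr h y hy py => by
    have := (k1 r hr).1 h
    by_cases c : r = 125
    · rw [c, ← zX]; exact hz y hy py
    · have := hx ⟨r - 93, by omega⟩ y hy py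
      rwa [show 93 + ((⟨r - 93, by omega⟩ : Fin 32) : ℕ) = r by simp only; omega] at this
  rw [e] at hq
  induction hq using closure_induction_left with
  | one => exact h1
  | mul_left x hx y hy ih => obtain ⟨r, hr, h, rfl⟩ := hx; exact k r hr h y (by rwa [e]) ih
  | inv_mul_cancel x hx y hy ih => obtain ⟨r, hr, h, rfl⟩ := hx; rw [X_inv]; exact k r hr h y (by rwa [e]) ih

theorem add_ext {A : Type*} [AddCommGroup A] {f g : G → A} (hf : ∀ q ∈ Q, ∀ q' ∈ Q, f (q * q') = f q + f q')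
    (hg : ∀ q ∈ Q, ∀ q' ∈ Q, g (q * q') = g q + g q') (hz : f z = g z) (hx : ∀ j : Fin 32, f (X (93 + j)) = g (X (93 + j))) :
    ∀ q ∈ Q, f q = g q := by
  have o : ∀ {f : G → A}, (∀ q ∈ Q, ∀ q' ∈ Q, f (q * q') = f q + f q') → f 1 = 0 := fun h => by
    simpa using h 1 (one_mem _) 1 (one_mem _)
  refine Q_ind (by rw [o hf, o hg]) (fun q hq e => ?_) fun j q hq e => ?_
  · rw [hf _ zQ _ hq, hg _ zQ _ hq, hz, e]
  · have := XQ (r := 93 + j) (by omega) (by omega)
    rw [hf _ this _ hq, hg _ this _ hq, hx, e]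

theorem u_aux (w n : ℕ) (hn : n ≤ 32) : wd (((List.range n).filter fun i => w.testBit i).map fun i => 93 + i) ∈ Q ∧
    ∀ i : Fin 32, lam (wd (((List.range n).filter fun i => w.testBit i).map fun i => 93 + i)) i = if i < n then bt w i else 0 := by
  induction n with
  | zero => exact ⟨one_mem _, fun i => by simp [l1]⟩
  | succ n ih =>
    obtain ⟨a, b⟩ := ih (by omega)
    rw [List.range_succ, List.filter_append, List.map_append, wd_append]
    have x := XQ (r := 93 + n) (by omega) (by omega)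
    cases c : w.testBit n
    · rw [List.filter_cons_of_neg (by simp [c]), List.filter_nil, List.map_nil, wd_nil, mul_one]
      refine ⟨a, fun i => ?_⟩
      rw [b]
      by_cases e : (i : ℕ) = n
      · simp [e, bt, c]
      · exact if_congr (by omega) rfl rfl
    · rw [List.filter_cons_of_pos (by simp [c]), List.filter_nil, List.map_singleton, wd_one]
      refine ⟨mul_mem a x, fun i => ?_⟩
      rw [lmul _ a _ x, Pi.add_apply, b, lX ⟨n, by omega⟩]
      by_cases e : (i : ℕ) = n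
      · rw [show i = ⟨n, by omega⟩ from Fin.ext e]; simp [bt, c]
      · rw [Pi.single_eq_of_ne fun h => e (congrArg Fin.val h), add_zero]; exact if_congr (by omega) rfl rfl

theorem uQ (w : ℕ) : wd (uw w) ∈ Q := (u_aux w 32 le_rfl).1
theorem lu (w : ℕ) : lam (wd (uw w)) = bv 32 w := funext fun i => ((u_aux w 32 le_rfl).2 i).trans (if_pos i.2)

/-- the chain of subgroups -/
noncomputable def K (n : ℕ) : Subgroup G := closure {g | g = z ∨ ∃ j : Fin 32, j < n ∧ g = X (93 + j)}

theorem K_ind {n : ℕ} {p : G → Prop} (h1 : p 1) (hz : ∀ q ∈ K n, p q → p (z * q))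
    (hx : ∀ j : Fin 32, j < n → ∀ q ∈ K n, p q → p (X (93 + j) * q)) : ∀ q ∈ K n, p q := fun q hq => by
  induction hq using closure_induction_left with
  | one => exact h1
  | mul_left x h y hy ih =>
    obtain rfl | ⟨j, h, rfl⟩ := h
    exacts [hz y hy ih, hx j h y hy ih]
  | inv_mul_cancel x h y hy ih =>
    obtain rfl | ⟨j, h, rfl⟩ := h
    · rw [inv_eq_of_mul_eq_one_right zz]; exact hz y hy ih
    · rw [X_inv]; exact hx j h y hy ih

theorem zK (n : ℕ) : z ∈ K n := subset_closure (.inl rfl)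
theorem XK {n : ℕ} {j : Fin 32} (h : j < n) : X (93 + j) ∈ K n := subset_closure (.inr ⟨j, h, rfl⟩)
theorem KQ {n : ℕ} : ∀ q ∈ K n, q ∈ Q :=
  K_ind (one_mem _) (fun _ _ => mul_mem zQ) fun j _ _ _ => mul_mem (XQ (by omega) (by omega))

theorem ker_aux (n : ℕ) (hn : n ≤ 32) : ∀ q ∈ K n, lam q = 0 → q = 1 ∨ q = z := by
  induction n with
  | zero =>
    refine fun q hq _ => K_ind (p := fun q => q = 1 ∨ q = z) (.inl rfl) ?_ (by simp) q hq
    rintro q - (rfl | rfl)
    exacts [.inr (mul_one _), .inl zz]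
  | succ n ih =>
    have x := XQ (r := 93 + n) (by omega) (by omega)
    have s : ∀ g ∈ K n, ∀ y, (y ∈ K n ∨ X (93 + n) * y ∈ K n) → g * y ∈ K n ∨ X (93 + n) * (g * y) ∈ K n := fun g hg y h => by
      refine h.imp (mul_mem hg) fun h => ?_
      rw [show X (93 + n) * (g * y) = X (93 + n) * g * (X (93 + n))⁻¹ * (X (93 + n) * y) by group]
      refine mul_mem ?_ h
      rcases cQ _ x g (KQ g hg) with e | e <;> rw [e]
      exacts [hg, mul_mem hg (zK n)]
    have t : ∀ q ∈ K (n + 1), q ∈ K n ∨ X (93 + n) * q ∈ K n := by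
      refine K_ind (.inl (one_mem _)) (fun q _ => s z (zK n) q) fun j hj q _ h => ?_
      by_cases e : (j : ℕ) = n
      · rw [e, ← mul_assoc, X_sq, one_mul]; exact h.symm
      · exact s _ (XK (by omega)) q h
    have v : ∀ q ∈ K n, lam q ⟨n, by omega⟩ = 0 := by
      refine K_ind (by rw [l1]; rfl) (fun q hq h => ?_) fun j hj q hq h => ?_
      · rw [lmul _ zQ _ (KQ q hq), lz, zero_add, h]
      · rw [lmul _ (XQ (by omega) (by omega)) _ (KQ q hq), lX, Pi.add_apply, h, add_zero]
        exact Pi.single_eq_of_ne (fun e => by rw [← e] at hj; simp at hj) _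
    intro q hq h
    refine ih (by omega) q ((t q hq).resolve_right fun e => ?_) h
    have := v _ e
    rw [lmul _ x _ (KQ q hq), h, add_zero, lX ⟨n, by omega⟩, Pi.single_eq_same] at this
    exact one_ne_zero this

theorem lker (q : G) (hq : q ∈ Q) : lam q = 0 → q = 1 ∨ q = z :=
  ker_aux 32 le_rfl q (Q_ind (one_mem _) (fun _ _ => mul_mem (zK _)) (fun j _ _ => mul_mem (XK j.2)) q hq)

theorem act1 {r : ℕ} (h : 33 ≤ r) (h' : r ≤ 92) : Commute (X r) z ∧ ∀ q ∈ Q, lam (X r * q * (X r)⁻¹) =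
    toM 32 32 (apl 8 (Nat.shiftRight ATT (Nat.mul 96 r)) Id) *ᵥ lam q := by
  have t := k4
  simp only [List.all_eq_true, List.mem_range, frc_eq, Bool.and_eq_true, wcm_iff, weq_iff] at t
  obtain ⟨c, t⟩ := t (r - 33) (by omega)
  rw [show 33 + (r - 33) = r by omega] at c t
  rw [wd_one, wd_one, ← zX] at c
  generalize apl 8 (Nat.shiftRight ATT (Nat.mul 96 r)) Id = A at t ⊢
  refine ⟨c, add_ext (fun q hq q' hq' => ?_) (fun q hq q' hq' => ?_) ?_ fun j => ?_⟩
  · rw [← lmul _ (nQ _ c q hq) _ (nQ _ c q' hq')]; exact congrArg H7.ME.lam (by group)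
  · rw [lmul _ hq _ hq', mulVec_add]
  · rw [c.eq, mul_inv_cancel_right, lz, mulVec_zero]
  · have := t j j.2
    rw [wd_cons, wd_cons, wd_one] at this
    rw [X_inv, mul_assoc, this, lu, lX, mulVec_single_one]
    funext i
    simp only [bv, bt, col_bit, Matrix.col, transpose_apply, toM, of_apply, decide_eq_true (show (i : ℕ) < 64 by omega),
      Bool.and_true]

theorem act (l : List ℕ) (h : Lv l = true) :
    Commute (wd l) z ∧ ∀ q ∈ Q, lam (wd l * q * (wd l)⁻¹) = toM 32 32 (w32 l) *ᵥ lam q := by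
  induction l with
  | nil => exact ⟨Commute.one_left _, fun q _ => by rw [show w32 [] = H7.ME.Id from rfl, toM_Id]; simp⟩
  | cons r l ih =>
    simp only [Lv, List.all_cons, Bool.and_eq_true, Nat.ble_eq] at h
    obtain ⟨c, a⟩ := act1 h.1.1 h.1.2
    obtain ⟨c', a'⟩ := ih h.2
    rw [wd_cons]
    refine ⟨c.mul_left c', fun q hq => ?_⟩
    rw [show w32 (r :: l) = apl 8 (Nat.shiftRight ATT (Nat.mul 96 r)) (w32 l) from rfl,
      toM_apl _ _ _ (k5 r (by omega)), ← mulVec_mulVec, ← a' q hq, ← a _ (nQ _ c' q hq)]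
    exact congrArg H7.ME.lam (by group)

theorem form (q : G) (hq : q ∈ Q) : ∀ q' ∈ Q, cm q q' = lam q' ⬝ᵥ (toM 32 32 Jm *ᵥ lam q) := by
  refine add_ext (fun a ha b hb => ?_) (fun a ha b hb => ?_) ?_ fun j => ?_
  · rw [cm_comm, cm_mul ha hb hq, cm_comm a, cm_comm b]
  · rw [lmul _ ha _ hb, add_dotProduct]
  · rw [cm0 (Qz q hq), lz, zero_dotProduct]
  · rw [lX, single_dotProduct, one_mul, mulVec, dotProduct, Finset.sum_eq_single j.rev]
    · rw [toM, of_apply, bt, k3, if_pos (by simp), one_mul, H7.ME.lam, show 124 - (j.rev : ℕ) = 93 + j by simp; omega]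
    · intro k _ hk
      rw [toM, of_apply, bt, k3, if_neg (by simpa using hk), zero_mul]
    · simp

theorem mem (W : List ℕ) (q : G) : q ∈ Nn W ↔ q ∈ Q ∧ ∃ c, lam q = toM 32 W.length (pk W) *ᵥ c := by
  have z' : z ∈ Nn W := by rw [zX, ← wd_one]; exact wd_mem (List.mem_cons_self ..)
  have cl : ∀ j : Fin W.length, toM 32 W.length (pk W) *ᵥ Pi.single j 1 = lam (wd (uw W[j])) := fun j => by
    rw [mulVec_single_one, lu]; funext i; exact toM_pk 32 (by decide) W i j
  have f : ∀ q ∈ Nn W, q ∈ Q ∧ ∃ c, lam q = toM 32 W.length (pk W) *ᵥ c := fun q hq => by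
    induction hq using closure_induction with
    | mem x h =>
      obtain ⟨l, h, rfl⟩ := h
      rcases List.mem_cons.1 h with rfl | h
      · rw [wd_one, ← zX]; exact ⟨zQ, 0, by rw [lz, mulVec_zero]⟩
      · obtain ⟨w, hw, rfl⟩ := List.mem_map.1 h
        obtain ⟨j, rfl⟩ := List.get_of_mem hw
        exact ⟨uQ _, _, (cl j).symm⟩
    | one => exact ⟨one_mem _, 0, by rw [l1, mulVec_zero]⟩
    | mul x y _ _ a b =>
      obtain ⟨a, c, e⟩ := a
      obtain ⟨b, c', e'⟩ := b
      exact ⟨mul_mem a b, c + c', by rw [lmul _ a _ b, e, e', mulVec_add]⟩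
    | inv x _ a =>
      obtain ⟨a, c, e⟩ := a
      refine ⟨inv_mem a, -c, ?_⟩
      rw [mulVec_neg, ← e, eq_neg_iff_add_eq_zero, ← lmul _ (inv_mem a) _ a, inv_mul_cancel, l1]
  refine ⟨f q, fun ⟨hq, c, e⟩ => ?_⟩
  obtain ⟨n, hn, e'⟩ : ∃ n ∈ Nn W, lam n = toM 32 W.length (pk W) *ᵥ c := by
    clear e
    induction c using Pi.single_induction with
    | zero => exact ⟨1, one_mem _, by rw [l1, mulVec_zero]⟩
    | add a b ha hb =>
      obtain ⟨a, ha, e⟩ := ha
      obtain ⟨b, hb, e'⟩ := hb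
      exact ⟨a * b, mul_mem ha hb, by rw [lmul _ (f a ha).1 _ (f b hb).1, e, e', mulVec_add]⟩
    | single j m =>
      rcases z01 m with rfl | rfl
      · exact ⟨1, one_mem _, by rw [l1, Pi.single_zero, mulVec_zero]⟩
      · exact ⟨_, wd_mem (List.mem_cons_of_mem _ (List.mem_map_of_mem (List.getElem_mem j.2))), (cl j).symm⟩
  have nq := (f n hn).1
  have := lmul _ nq _ (mul_mem (inv_mem nq) hq)
  rw [mul_inv_cancel_left, e, e', left_eq_add] at this
  rw [← mul_inv_cancel_left n q]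
  refine mul_mem hn ?_
  rcases lker _ (mul_mem (inv_mem nq) hq) this with h | h <;> rw [h]
  exacts [one_mem _, z']

theorem lam : Lam := ⟨lmul, uQ, lu, lker, act, form, fun W _ => mem W⟩

end H9.ME
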