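/-
S3860: kit.
-/
import Cfsg.Agent.H9.RL0

set_option autoImplicit false
set_option linter.unusedVariables false
set_option linter.unusedSectionVars false

namespace H9.RL
open Cfsg Subgroup H19 H17.GS
open scoped commutatorElement

universe u
variable {G : Type u} [Group G] {a b : ℕ} {L P Q S T U : Subgroup G} {g r r' s t v w x y : G}

/-- (T) -/
theorem tinv (h : r * r = r' * r') : r * (r⁻¹ * r') * r⁻¹ = (r⁻¹ * r')⁻¹ := by
  calc r * (r⁻¹ * r') * r⁻¹ = r'⁻¹ * (r' * r') * r⁻¹ := by group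
    _ = (r⁻¹ * r')⁻¹ := by rw [← h]; group

theorem cen (h : x ∈ center G) (g : G) : g * x * g⁻¹ = x := by rw [mem_center_iff.1 h g]; group

theorem mem_ext (hx : x ∈ N(S)) (xx : x * x ∈ S) : g ∈ S ⊔ zpowers x ↔ g ∈ S ∨ g * x⁻¹ ∈ S := by
  refine ⟨fun h => ?_, fun h => h.elim mem_sup_left fun h => inv_mul_cancel_right g x ▸ mul_mem_sup h (mem_zpowers x)⟩
  obtain ⟨a, ha, _, ⟨n, rfl⟩, rfl⟩ := (mem_sup_of_norm (zpowers_le.2 hx)).1 h
  rcases Int.even_or_odd' n with ⟨j, rfl | rfl⟩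
  · exact .inl (mul_mem ha (by simpa [_root_.zpow_mul, pow_two] using zpow_mem xx j))
  · exact .inr (by simpa [_root_.zpow_add, _root_.zpow_mul, pow_two, mul_assoc] using mul_mem ha (zpow_mem xx j))

/-- the extended centralizer -/
def Cs (x : G) : Subgroup G where
  carrier := {g | g * x * g⁻¹ = x ∨ g * x * g⁻¹ = x⁻¹}
  one_mem' := .inl (by group)
  mul_mem' := by
    intro g h hg hh
    have e : g * h * x * (g * h)⁻¹ = g * (h * x * h⁻¹) * g⁻¹ := by group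
    have e' : g * x⁻¹ * g⁻¹ = (g * x * g⁻¹)⁻¹ := by group
    rcases hg with hg | hg <;> rcases hh with hh | hh <;> simp only [Set.mem_ofPred_eq, e, hh, e', hg, inv_inv, true_or, or_true]
  inv_mem' := by
    rintro g (hg | hg)
    · exact .inl (by conv_lhs => rw [← hg]
                     group)
    · exact .inr (by conv_lhs => rw [← inv_inv x, ← hg]
                     group)

theorem mem_Cs : g ∈ Cs x ↔ g * x * g⁻¹ = x ∨ g * x * g⁻¹ = x⁻¹ := Iff.rfl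
theorem mem_c1 : g ∈ C[x] ↔ g * x * g⁻¹ = x := by rw [mem_cent1, mul_inv_eq_iff_eq_mul]
theorem c1_le_Cs : C[x] ≤ Cs x := fun _ h => .inl (mem_c1.1 h)
theorem inv_norm (h : t * x * t⁻¹ = x⁻¹) : t ∈ N(C[x]) := mem_norm_iff_cj.2 <| by
  rw [cj_cent1, h]; exact le_antisymm (cent1_le_cent1_of_mem_zpowers (by simp)) (cent1_le_cent1_of_mem_zpowers (by simp))
theorem inv_inv_mem (h : t * x * t⁻¹ = x⁻¹) (h' : s * x * s⁻¹ = x⁻¹) : t * s ∈ C[x] := mem_c1.2 <| by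
  calc t * s * x * (t * s)⁻¹ = t * (s * x * s⁻¹) * t⁻¹ := by group
    _ = (t * x * t⁻¹)⁻¹ := by rw [h']; group
    _ = x := by rw [h, inv_inv]
theorem inv_inv' (h : t * x * t⁻¹ = x⁻¹) : t⁻¹ * x * t⁻¹⁻¹ = x⁻¹ := by
  conv_lhs => rw [← inv_inv x, ← h]
  group
theorem mul_inv_c (h : t * x * t⁻¹ = x⁻¹) (hg : g ∈ C[x]) : t * g * x * (t * g)⁻¹ = x⁻¹ := by
  rw [← h, ← congrArg (t * · * t⁻¹) (mem_c1.1 hg)]; group
theorem c_mul_inv (h : t * x * t⁻¹ = x⁻¹) (hg : g ∈ C[x]) : g * t * x * (g * t)⁻¹ = x⁻¹ := by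
  calc g * t * x * (g * t)⁻¹ = g * (t * x * t⁻¹) * g⁻¹ := by group
    _ = (g * x * g⁻¹)⁻¹ := by rw [h]; group
    _ = x⁻¹ := by rw [mem_c1.1 hg]
theorem Cs_norm : Cs x ≤ N(C[x]) := fun _ h => h.elim (fun h => le_normalizer (mem_c1.2 h)) inv_norm

/-- elements fixing `r` modulo the centre -/
def Nz (r : G) : Subgroup G where
  carrier := {g | g * r * g⁻¹ * r⁻¹ ∈ center G}
  one_mem' := by simp
  mul_mem' := by
    intro g h hg hh
    have : g * h * r * (g * h)⁻¹ * r⁻¹ = (g * (h * r * h⁻¹ * r⁻¹) * g⁻¹) * (g * r * g⁻¹ * r⁻¹) := by group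
    simp only [Set.mem_ofPred_eq] at *
    rw [this, cen hh]; exact mul_mem hh hg
  inv_mem' := by
    intro g hg
    have : g⁻¹ * r * g⁻¹⁻¹ * r⁻¹ = g⁻¹ * (g * r * g⁻¹ * r⁻¹)⁻¹ * g⁻¹⁻¹ := by group
    simp only [Set.mem_ofPred_eq] at *
    rw [this, cen (inv_mem hg)]; exact inv_mem hg
theorem mem_Nz : g ∈ Nz r ↔ g * r * g⁻¹ * r⁻¹ ∈ center G := Iff.rfl
theorem c1_le_Nz : C[r] ≤ Nz r := fun _ h => by rw [mem_Nz, mem_c1.1 h]; simp

/-- `g ↦ [g, r]` on `Nz r` -/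
def psi (r : G) : Nz r →* center G := MonoidHom.mk' (fun g => ⟨g.1 * r * g.1⁻¹ * r⁻¹, g.2⟩) fun ⟨g, hg⟩ ⟨h, hh⟩ =>
  Subtype.ext <| by
  have : g * h * r * (g * h)⁻¹ * r⁻¹ = (g * (h * r * h⁻¹ * r⁻¹) * g⁻¹) * (g * r * g⁻¹ * r⁻¹) := by group
  show g * h * r * (g * h)⁻¹ * r⁻¹ = (g * r * g⁻¹ * r⁻¹) * (h * r * h⁻¹ * r⁻¹)
  rw [this, cen hh g]
  exact (mem_center_iff.1 hh _).symm
theorem psi_val (g : Nz r) : (psi r g : G) = g.1 * r * g.1⁻¹ * r⁻¹ := rfl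
theorem psi_one {g : Nz r} : psi r g = 1 ↔ (g : G) ∈ C[r] := by
  rw [mem_c1, Subtype.ext_iff]; exact mul_inv_eq_one
/-- commutators with an element of central square are involutions -/
theorem nz_sq (h : r * r ∈ center G) (hg : g ∈ Nz r) : g * r * g⁻¹ * r⁻¹ * (g * r * g⁻¹ * r⁻¹) = 1 := by
  calc _ = g * r * g⁻¹ * r⁻¹ * (r * (g * r * g⁻¹ * r⁻¹) * r⁻¹) := by rw [cen hg]
    _ = g * (r * r) * g⁻¹ * (r * r)⁻¹ := by group
    _ = 1 := by rw [cen h, mul_inv_cancel]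
theorem nz_sq_mem (h : r * r ∈ center G) (hg : g ∈ Nz r) : g * g ∈ C[r] :=
  (psi_one (g := ⟨g, hg⟩ * ⟨g, hg⟩)).1 (by rw [map_mul]; exact Subtype.ext (nz_sq h hg))
theorem nz_comm_mem (hg : g ∈ Nz r) (hs : s ∈ Nz r) : g * s * g⁻¹ * s⁻¹ ∈ C[r] :=
  (psi_one (g := ⟨g, hg⟩ * ⟨s, hs⟩ * ⟨g, hg⟩⁻¹ * ⟨s, hs⟩⁻¹)).1 (by simp only [map_mul, map_inv]; exact Subtype.ext (by simp only [coe_mul, coe_inv, cen (psi r ⟨s, hs⟩).2, mul_inv_cancel, coe_one]))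
theorem Nz_norm : Nz r ≤ N(C[r]) := fun g hg => mem_norm_iff_cj.2 <| by
  have : g * r * g⁻¹ = (g * r * g⁻¹ * r⁻¹) * r := by group
  rw [cj_cent1, this]; ext y
  rw [mem_cent1, mem_cent1, ← mul_assoc, mem_center_iff.1 hg y, mul_assoc, mul_assoc _ r y, mul_right_inj]

variable [Finite G]

theorem odd_iff : Odd (orderOf x) ↔ PiE ({2} : Set ℕ)ᶜ x := by
  rw [PiE, piN_compl_singleton Nat.prime_two, ← even_iff_two_dvd, Nat.not_even_iff_odd]
theorem e2_of_sq (h : PiE {2} (x * x)) : PiE {2} x := by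
  obtain ⟨k, e⟩ := h.exists_pow (orderOf_pos _).ne'
  refine (PiN.prime_pow Nat.prime_two (k + 1)).dvd (orderOf_dvd_of_pow_eq_one ?_)
  rw [pow_succ', pow_mul, sq, ← e, pow_orderOf_eq_one]
theorem pg_ext (hS : H19.PG 2 S) (hx : x ∈ N(S)) (xx : x * x ∈ S) : H19.PG 2 (S ⊔ zpowers x) :=
  hS.sup (piG_zpowers.2 (e2_of_sq (hS.elt xx))) (zpowers_le.2 hx)
theorem card_ext (hx : x ∈ N(S)) (xx : x * x ∈ S) (x1 : x ∉ S) : #(S ⊔ zpowers x) = 2 * #S := by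
  rw [← card_mul_relIndex (le_sup_left : S ≤ S ⊔ zpowers x), mul_comm]; congr 1
  refine (relIndex_eq_two_iff.2 ⟨x⁻¹, inv_mem (mem_sup_right (mem_zpowers x)), fun b hb => ?_⟩)
  rcases (mem_ext hx xx).1 hb with h | h
  · exact .inr ⟨h, fun k => x1 (by simpa using (mul_mem_cancel_left h).1 k)⟩
  · exact .inl ⟨h, fun k => x1 (by simpa using (mul_mem_cancel_left k).1 h)⟩
/-- climbing in a 2-group -/
theorem climb (hS : H19.PG 2 S) (h : T < S) : ∃ g ∈ S, g ∈ N(T) ∧ g ∉ T ∧ g * g ∈ T := by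
  obtain ⟨g, g1, g2⟩ := SetLike.exists_of_lt (hS.lt_norm h)
  obtain ⟨k, e⟩ := (hS.elt g1.1).exists_pow (orderOf_pos _).ne'
  have : g ^ 2 ^ k ∈ T := by rw [← e, pow_orderOf_eq_one]; exact one_mem _
  clear e
  induction k generalizing g with
  | zero => exact (g2 (by simpa using this)).elim
  | succ k ih =>
    by_cases c : g * g ∈ T
    · exact ⟨g, g1.1, g1.2, g2, c⟩
    · exact ih (g * g) (mul_mem g1 g1) c (by rwa [← sq, ← pow_mul, ← pow_succ'])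
/-- the 2-part and the odd part -/
theorem parts (w : G) : ∃ y ∈ zpowers w, ∃ x ∈ zpowers w, PiE {2} y ∧ Odd (orderOf x) ∧ w = y * x ∧ y * x = x * y :=
  ⟨_, constt_mem_zpowers {2} w, _, constt_mem_zpowers {2}ᶜ w, constt_pi _ _, odd_iff.2 (constt_pi _ _),
    (constt_mul_compl _ _).symm, constt_commute _ _ _⟩
theorem inv_zp (h : t * w * t⁻¹ = w⁻¹) (hx : x ∈ zpowers w) : t * x * t⁻¹ = x⁻¹ := by
  obtain ⟨n, rfl⟩ := hx
  simp only [← conj_zpow, h, inv_zpow]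
theorem odd_inv (h : Odd (orderOf x)) (e : x = x⁻¹) : x = 1 := by
  have : orderOf x ∣ 2 := orderOf_dvd_of_pow_eq_one (by rw [sq]; nth_rw 1 [e]; simp)
  exact orderOf_eq_one_iff.1 (Nat.Coprime.eq_one_of_dvd (Nat.coprime_two_right.2 h) this)
/-- a 2-element inverting `x` -/
theorem two_inv (h : t * x * t⁻¹ = x⁻¹) : ∃ s ∈ zpowers t, PiE {2} s ∧ s * x * s⁻¹ = x⁻¹ := by
  obtain ⟨y, y1, z, z1, y2, z2, e, c⟩ := parts t
  have hz : z ∈ C[x] := by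
    have : z * z ∈ C[x] := by
      obtain ⟨n, rfl⟩ := z1
      simpa only [(Commute.refl t).mul_zpow] using zpow_mem (inv_inv_mem h h) n
    obtain ⟨k, e⟩ := z2
    have := pow_mem this (k + 1)
    rwa [← sq, ← pow_mul, mul_add, mul_one, ← add_assoc (2 * k) 1 1, ← e, pow_succ, pow_orderOf_eq_one, one_mul] at this
  exact ⟨y, y1, y2, by simpa [e] using mul_inv_c h (inv_mem hz)⟩
/-- a Sylow 2-subgroup of `C(x)` over `U` normalized by the 2-element `t` -/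
theorem star (h : t * x * t⁻¹ = x⁻¹) (ht : PiE {2} t) (hU : H19.PG 2 U) (Ux : U ≤ C[x]) (tU : t ∈ N(U)) :
    ∃ Q, Syl 2 Q C[x] ∧ U ≤ Q ∧ t ∈ N(Q) ∧ t * t ∈ Q := by
  obtain ⟨S, hS, l⟩ := (hU.sup (piG_zpowers.2 ht) (zpowers_le.2 tU)).exists_syl
    (sup_le (Ux.trans c1_le_Cs) (zpowers_le.2 (.inr h)) : _ ≤ Cs x)
  have tS : t ∈ S := l (mem_sup_right (mem_zpowers t))
  exact ⟨S ⊓ C[x], hS.inf_normal ⟨c1_le_Cs, Cs_norm⟩, le_inf (le_sup_left.trans l) Ux,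
    norms_inf le_normalizer (hS.le.trans Cs_norm) tS, mul_mem tS tS, inv_inv_mem h h⟩

namespace St
variable (h : St G a b)
include h
theorem pz : H19.PG 2 (center G) := by
  have : center G ≤ Fit ⊤ := le_Fit normalIn_top (nil_of_ab inferInstance)
  rw [Fit_eq_Oc h.oo] at this
  exact (Oc_pi _ _).of_le this
theorem odd_nc (o : Odd (orderOf x)) (x1 : x ≠ 1) : x ∉ center G := fun c =>
  x1 ((h.pz.elt c).e_eq_one (odd_iff.1 o))
theorem le (hx : Re x) (nc : x ∉ center G) (l : P ≤ C[x]) (p : H19.PG 2 P) : #P ≤ 2 ^ b := by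
  obtain ⟨Q, hQ, k⟩ := p.exists_syl l
  exact h.hy x hx nc Q hQ ▸ card_le k
theorem syl (hx : Re x) (nc : x ∉ center G) (l : P ≤ C[x]) (p : H19.PG 2 P) (e : 2 ^ b ≤ #P) : Syl 2 P C[x] := by
  obtain ⟨Q, hQ⟩ := exists_syl 2 C[x]
  exact hQ.of_card_le l p (h.hy x hx nc Q hQ ▸ e)
/-- nothing in `C(x)` extends a 2-subgroup of order `2^b` -/
theorem big (hx : Re x) (nc : x ∉ center G) (l : P ≤ C[x]) (p : H19.PG 2 P) (e : 2 ^ b ≤ #P) (hg : g ∈ C[x])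
    (n : g ∈ N(P)) (g2 : PiE {2} g) : g ∈ P := (h.syl hx nc l p e).mem_of_norm hg g2 n
theorem zle (hQ : Syl 2 Q C[x]) : center G ≤ Q :=
  hQ.le_of_norm' (fun z hz => mem_cent1.2 (mem_center_iff.1 hz x).symm) h.pz (le_top.trans normalIn_top.norm)
/-- a Sylow 2-subgroup adapted to `r` -/
theorem nzs (r2 : R2.{u}) (hr : Rr r) (hP : Syl 2 P C[r]) : ∃ S, Syl 2 S ⊤ ∧ S ≤ Nz r ∧ S ⊓ C[r] = P := by
  obtain ⟨S, hS, l⟩ := hP.pi.exists_syl (le_top : P ≤ ⊤)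
  have e : S ⊓ C[r] = P := hP.max (le_inf l hP.le) inf_le_right (hS.pi.infl _)
  exact ⟨S, hS, r2 h hr hS (e ▸ hP), e⟩
/-- the commutators `[s, r]`, `s ∈ S`, form a group of order `2^a` -/
theorem card_psi (hr : Rr r) (hS : Syl 2 S ⊤) (l : S ≤ Nz r) (e : Syl 2 (S ⊓ C[r]) C[r]) :
    C[r].relIndex S = 2 ^ a := by
  have := card_inf_mul_relIndex C[r] S
  rw [inf_comm, h.hy r hr.re hr.nc _ e, h.sy S hS, pow_add, mul_comm] at this
  exact Nat.eq_of_mul_eq_mul_right (Nat.two_pow_pos b) this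
/-- a Sylow 2-subgroup of `G` inside `Nz r` meets `C(r)` in a Sylow subgroup -/
theorem syl_nz (hS : Syl 2 S ⊤) (l : S ≤ Nz r) : Syl 2 (S ⊓ C[r]) C[r] :=
  (hS.of_le l le_top).inf_normal ⟨c1_le_Nz, Nz_norm⟩
end St

theorem Ox.re (o : Ox x t) : Re x := ⟨t, o.inv⟩
theorem Ox.nc (o : Ox x t) (h : St G a b) : x ∉ center G := h.odd_nc o.odd o.ne
theorem Ox.nm (o : Ox x t) : t ∉ C[x] := fun c => o.ne (odd_inv o.odd ((mem_c1.1 c).symm.trans o.inv))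

theorem a0 : A0.{u} := fun {G} _ _ b x t h o => by
  obtain ⟨s, -, s2, e⟩ := two_inv o.inv
  obtain ⟨Q, hQ, -, n, q⟩ := star e s2 PiN.bot bot_le (le_top.trans normalIn_top.norm (mem_top s))
  obtain ⟨S, hS, l⟩ := (pg_ext hQ.pi n q).exists_syl le_top
  have := card_le l
  rw [card_ext n q fun c => Ox.nm ⟨o.ne, o.odd, e⟩ (hQ.le c), h.sy S hS, h.hy x o.re (o.nc h) Q hQ, zero_add] at this
  have := Nat.two_pow_pos b
  omega

theorem bar : BAR.{u} := fun {G} _ _ a b L h => by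
  have := h.nm
  have : Z(L).Normal := inferInstance
  have k : ∀ x, QuotientGroup.mk' Z(L) x = 1 ↔ x ∈ Z(L) := fun x => QuotientGroup.eq_one_iff x
  have nc := H1.Quasisimple.not_le_centralizer h.qs
  refine ⟨G ⧸ Z(L), inferInstance, inferInstance, QuotientGroup.mk' _, k, QuotientGroup.mk'_surjective _,
    simple_iff.2 ⟨fun e => nc fun x hx => ((k x).1 (mem_bot.1 (e.le (mem_map_of_mem _ hx)))).2, fun M h1 h2 => ?_⟩, fun c => ?_⟩
  · have l : M.comap (QuotientGroup.mk' Z(L)) ≤ L := fun x hx => by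
      obtain ⟨y, y1, y2⟩ := h1 hx
      have : y⁻¹ * x ∈ Z(L) := (k _).1 (by rw [map_mul, map_inv, y2, inv_mul_cancel])
      simpa using mul_mem y1 this.1
    have e := map_comap_eq_self_of_surjective (QuotientGroup.mk'_surjective Z(L)) M
    rcases H1.Quasisimple.eq_or_le_centralizer h.qs l (fun g hg => mem_norm_of_cj_le <| by
      rintro _ ⟨x, hx, rfl⟩
      show g * x * g⁻¹ ∈ _
      rw [mem_comap, map_mul, map_mul, map_inv]; exact conj_mem_of_norm (h2 (mem_map_of_mem _ hg)) hx) with j | j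
    · exact .inr (by rw [← e, j])
    · refine .inl (e ▸ eq_bot_iff.2 ?_)
      rintro _ ⟨x, hx, rfl⟩
      exact (k x).2 ⟨l hx, j hx⟩
  · refine nc ((qs_perfect h.qs).ge.trans (commutator_le.2 fun x hx y hy => ((k _).1 ?_).2))
    rw [map_commutatorElement, commutatorElement_eq_one_iff_mul_comm]
    exact congrArg Subtype.val (c.is_comm.comm ⟨_, mem_map_of_mem _ hx⟩ ⟨_, mem_map_of_mem _ hy⟩)

end H9.RL
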