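import Cfsg.Agent.H9.RU1

/-! S2196: chunks `PS`, `IRc`. -/

set_option autoImplicit false
set_option linter.unusedSectionVars false
set_option linter.unusedVariables false

open Module MulAction H13.R3 H12 H0.RU
open H11 (hermT frob)

namespace H9.RU

universe u

variable {F : Type u} [Field F] [Fintype F] {q : ℕ} {hF : Fintype.card F = q ^ 2}
  {V : Type u} [AddCommGroup V] [Module F V] [Fintype V] {C : CForm (hermT hF) V}
  {G : Type u} [Group G] [Fintype G] [DistribMulAction G V] [SMulCommClass G F V] {H : Subgroup G}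

theorem syc {r : ℕ} [Fact r.Prime] {K P Q : Subgroup G} (hP : IsPGroup r P) (PK : P ≤ K)
    (mx : ∀ Q ≤ K, IsPGroup r Q → P ≤ Q → Q ≤ P) (hQ : IsPGroup r Q) (QK : Q ≤ K) :
    ∃ k ∈ K, ∀ x ∈ Q, k * x * k⁻¹ ∈ P := by
  obtain ⟨S, hS⟩ := (hP.comap_subtype (K := K)).exists_le_sylow
  obtain ⟨T, hT⟩ := (hQ.comap_subtype (K := K)).exists_le_sylow
  obtain ⟨k, rfl⟩ := exists_smul_eq K T S
  refine ⟨k, k.2, fun x hx => mx (((k • T : Sylow r K) : Subgroup K).map K.subtype) (Subgroup.map_subtype_le _)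
    ((k • T).isPGroup'.map _) (fun z hz => ⟨⟨z, PK hz⟩, hS hz, rfl⟩)
    ⟨k * ⟨x, QK hx⟩ * k⁻¹, ?_, rfl⟩⟩
  exact Subgroup.smul_mem_pointwise_smul (⟨x, QK hx⟩ : K) (MulAut.conj k) _ (hT hx)

theorem grow {r : ℕ} [Fact r.Prime] {P Q : Subgroup G} (hQ : IsPGroup r Q) (PQ : P ≤ Q) (n : ¬ Q ≤ P) :
    ∃ g ∈ Q, g ∉ P ∧ ∀ x ∈ P, g⁻¹ * x * g ∈ P := by
  have := hQ.isNilpotent
  obtain ⟨g, h1, h2⟩ := SetLike.exists_of_lt (Group.normalizerCondition_of_isNilpotent (P.subgroupOf Q)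
    (lt_top_iff_ne_top.2 fun z => n (Subgroup.subgroupOf_eq_top.1 z)))
  exact ⟨g, g.2, h2, fun x hx => (Subgroup.mem_normalizer_iff''.1 h1 ⟨x, PQ hx⟩).1 hx⟩

theorem ps : PS C H := by
  intro un r e x od h1 h2 ix hd
  have hr := od.1
  have := Fact.mk hr
  have e3 : 3 ≤ e := by have := un.n6; omega
  obtain ⟨S⟩ : Nonempty (Sylow r ↥(H ⊓ St G (F ∙ x))) := inferInstance
  set R := S.1.map (H ⊓ St G (F ∙ x)).subtype with hR
  have pR : IsPGroup r R := S.isPGroup'.map _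
  have RH : R ≤ H ⊓ St G (F ∙ x) := Subgroup.map_subtype_le _
  have mx : ∀ Q ≤ H ⊓ St G (F ∙ x), IsPGroup r Q → R ≤ Q → Q ≤ R := fun Q k1 k2 k3 z hz =>
    ⟨⟨z, k1 hz⟩, (S.is_maximal' (k2.comap_subtype) (fun a ha => k3 ⟨a, ha, rfl⟩)).le hz, rfl⟩
  have ex : ∀ Q : Subgroup G, IsPGroup r Q → ∀ g ∈ Q, ∃ k, g ^ r ^ k = 1 := fun Q h g hg =>
    (h ⟨g, hg⟩).imp fun k z => congrArg Subtype.val z
  have Rx : ∀ g ∈ R, g • x = x := fun g hg => by
    obtain ⟨k, hk⟩ := ex R pR g hg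
    obtain ⟨c, hc⟩ := Submodule.mem_span_singleton.1 (((RH hg).2 x).2 (Submodule.mem_span_singleton_self x))
    exact (fix un r e od e3 g k hk).1 x c hc.symm
  have nt : Nontrivial R := by
    refine (Subgroup.nontrivial_iff_ne_bot R).2 fun z => S.not_dvd_index ?_
    rw [(Subgroup.map_eq_bot_iff_of_injective _ (Subgroup.subtype_injective _)).1 z, Subgroup.index_bot]
    exact hd
  obtain ⟨y, yR, oy, yc⟩ : ∃ y ∈ R, orderOf y = r ∧ ∀ g ∈ R, Commute g y := by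
    have := pR.center_nontrivial
    obtain ⟨z, hz⟩ := exists_prime_orderOf_dvd_card' (G := Subgroup.center R) r
      (((pR.to_subgroup _).card_eq_or_dvd).resolve_left Finite.one_lt_card.ne')
    exact ⟨z.1.1, z.1.2, by rw [Subgroup.orderOf_coe, Subgroup.orderOf_coe, hz], fun g hg =>
      congrArg Subtype.val (Subgroup.mem_center_iff.1 z.2 ⟨g, hg⟩)⟩
  have yr : y ^ r ^ 1 = 1 := by rw [pow_one, ← oy, pow_orderOf_eq_one]
  obtain ⟨nW, m, hm⟩ := ((fix un r e od e3 y 1 yr).2 ⊤ (fun _ _ => trivial)).2.2 (C.nondegOn_top.2 un.nd) (fx F V y)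
    fun w => by simp [mem_fx]
  set W := fx F V y
  have xW : x ∈ W := Rx y yR
  have dW : finrank F W + e = finrank F V := by
    rw [finrank_top] at hm
    have d2 : ¬ finrank F W ≤ 1 := fun z => ix.1 (nW x xW fun w hw => by
      obtain ⟨v, hv⟩ := finrank_le_one_iff.1 z
      obtain ⟨a, ha⟩ := hv ⟨x, xW⟩
      obtain ⟨b, hb⟩ := hv ⟨w, hw⟩
      have a0 : a ≠ 0 := by rintro rfl; exact ix.1 (by simpa using congrArg Subtype.val ha.symm)
      have : w = (b / a) • x := by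
        rw [← show a • v.1 = x from congrArg Subtype.val ha, smul_smul, div_mul_cancel₀ b a0]
        exact (congrArg Subtype.val hb).symm
      rw [this, map_smul, ix.2, smul_zero])
    have m0 : m ≠ 0 := by
      rintro rfl
      have : y = 1 := un.fa y fun v => (Submodule.eq_top_of_finrank_eq (S := W) (by omega)).ge Submodule.mem_top
      rw [this, orderOf_one] at oy
      exact hr.one_lt.ne oy
    have : m < 2 := by by_contra! z; nlinarith
    obtain rfl : m = 1 := by omega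
    omega
  have ye : Ye C r e y W := ⟨od, e3, oy, fun v => Iff.rfl, dW, nW⟩
  have A : ∀ (g : G) k, g ^ r ^ k = 1 → (∀ w ∈ W, g • w ∈ W) → ∀ v ∈ W, v ≠ 0 → g • v = v → ∀ w ∈ W, g • w = w :=
    fun g k hk hW v hv v0 h w hw => by
    obtain ⟨-, m, hm⟩ := ((fix un r e od e3 g k hk).2 W hW).2.2 nW (W ⊓ fx F V g) fun w => Iff.rfl
    have : finrank F ↥(W ⊓ fx F V g) ≠ 0 := fun z => v0 ((Submodule.finrank_eq_zero.1 z).le ⟨hv, h⟩)
    obtain rfl : m = 0 := by by_contra z; have := Nat.le_mul_of_pos_right e (Nat.pos_of_ne_zero z); omega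
    exact ((Submodule.eq_of_le_of_finrank_eq inf_le_left hm).ge hw).2
  have RW : ∀ g ∈ R, ∀ w ∈ W, g • w = w := fun g hg => by
    obtain ⟨k, hk⟩ := ex R pR g hg
    exact A g k hk (fun w hw => show y • g • w = _ by rw [← mul_smul, ← (yc g hg).eq, mul_smul, hw]) x xW ix.1 (Rx g hg)
  refine ⟨y, W, ye, (RH yR).1, xW, ix, fun h hh v hv v0 hw => ?_⟩
  obtain ⟨k, ⟨k1, k2⟩, k3⟩ := syc (K := H ⊓ stabilizer G (h • v)) (Q := R.map (MulAut.conj h).toMonoidHom) pR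
    (fun g hg => ⟨(RH hg).1, RW g hg _ hw⟩) (fun Q q1 q2 q3 => by
      by_contra n
      obtain ⟨g, g1, g2, g3⟩ := grow q2 q3 n
      obtain ⟨k, hk⟩ := ex Q q2 g g1
      have gx := A g k hk (fun w hw => show y • g • w = _ by
        have := RW _ (g3 y yR) w hw
        rwa [mul_smul, mul_smul, inv_smul_eq_iff] at this) _ hw (fun z => v0 (gsz.1 z)) (q1 g1).2 x xW
      exact g2 (mx (Q ⊓ St G (F ∙ x)) (inf_le_inf_right _ (q1.trans inf_le_left)) (q2.to_inf_left)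
        (le_inf q3 (RH.trans inf_le_right)) ⟨g1, mem_St_sp (by rw [gx]; exact Submodule.mem_span_singleton_self x)⟩))
    (pR.map _) (by
      rintro _ ⟨g, hg, rfl⟩
      exact ⟨H.mul_mem (H.mul_mem hh (RH hg).1) (H.inv_mem hh), by
        simp [mem_stabilizer_iff, mul_smul, RW g hg v hv]⟩)
  have cR : k * h * y * (k * h)⁻¹ ∈ R := by simpa [mul_assoc] using k3 _ ⟨y, yR, rfl⟩
  have cz := (cen un r e y W ye).root _ (yc _ cR) (by rw [conj_pow, pow_orderOf_eq_one]; simp) (RW _ cR)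
  refine ⟨k * h, H.mul_mem k1 hh, Subgroup.mem_normalizer_fintype ?_, by rw [mul_smul]; exact k2⟩
  rintro _ ⟨i, rfl⟩
  exact (conj_zpow (a := k * h) (b := y) (i := i)) ▸ (Subgroup.zpowers y).zpow_mem cz i

theorem irc : IRc C H := by
  intro un r e x y W pe h3 X xX xp hX sp nX
  have nd := un.nd
  have nW := pe.nd
  have ce := cen un r e y W pe.toYe
  have yX : ∀ v ∈ X, y • v ∈ X := hX y pe.yH ((pe.fix x).2 pe.xW)
  have dc : ∀ U : Submodule F V, (∀ v ∈ U, y • v ∈ U) → ∀ v ∈ U, ∃ w ∈ W, v - w ∈ U ⊓ C.perp W := fun U hU v hv => by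
    obtain ⟨w, h1, h2, h3⟩ := ((fix un r e pe.od pe.e3 y 1 (by rw [pow_one, ← pe.ord, pow_orderOf_eq_one])).2 U hU).2.1 v hv
    exact ⟨w, (pe.fix w).1 h2, sub_mem hv h1, C.mem_perp.2 fun z hz => h3 z ((pe.fix z).2 hz)⟩
  have K : ∀ w ∈ W, C.B w w = 0 → C.B x w = 0 → w ∈ F ∙ x := fun w hw h1 h2 => by
    by_contra n
    have fl : Fl C x w := ⟨pe.ix, h1, h2, n⟩
    have l : ln F x w ≤ W := ln_le.2 ⟨pe.xW, hw⟩
    have := (C.restrict_nondeg_iff.2 nW).two_mul_finrank_le (W := (ln F x w).comap W.subtype)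
      fun a ha => (C.restrict W).mem_perp.2 fun b hb => fl.iso hb ha
    rw [(Submodule.comapSubtypeEquivOfLe l).finrank_eq, fl.ind.finrank] at this
    have := pe.dim
    omega
  have K2 : ∀ v w, w ∈ W → v - w ∈ C.perp W → C.B v v = 0 → C.B (v - w) (v - w) = 0 → C.B x v = 0 → w ∈ F ∙ x :=
    fun v w hw hz h1 h2 h3 => by
    obtain ⟨z, rfl⟩ : ∃ z, v = w + z := ⟨v - w, by simp⟩
    rw [add_sub_cancel_left] at hz h2
    have a := C.mem_perp.1 hz
    refine K w hw ?_ (by simpa [a x pe.xW] using h3)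
    simpa [C.B_add_left, a w hw, Bsw (a w hw), h2] using h1
  have sx : (F ∙ x) ≤ X := (Submodule.span_singleton_le_iff_mem _ _).2 xX
  have pW : ∀ v ∈ C.perp W, y • v ∈ C.perp W := fun v hv => C.mem_perp.2 fun z hz => by
    rw [← (pe.fix z).2 hz, un.iso]; exact C.mem_perp.1 hv z hz
  rcases ce.inv (X ⊓ C.perp W) inf_le_right (fun v hv => ⟨yX v hv.1, pW v hv.2⟩) with k | k | ⟨k, k'⟩
  · refine absurd (le_antisymm (sp.trans (Submodule.span_le.2 fun v hv => ?_)) sx) nX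
    obtain ⟨w, h1, h2⟩ := dc X yX v hv.1
    rw [k, Submodule.mem_bot, sub_eq_zero] at h2
    exact K v (h2 ▸ h1) hv.2 (xp v hv.1)
  · exact .inr fun v hv h => K v (nd.perp_perp W ▸ C.perp_anti (inf_eq_right.1 k) hv) h (C.mem_perp.1 hv x xX)
  have l : X ≤ (F ∙ x) ⊔ X ⊓ C.perp W := sp.trans (Submodule.span_le.2 fun v hv => by
    obtain ⟨w, h1, h2⟩ := dc X yX v hv.1
    exact Submodule.mem_sup.2 ⟨w, K2 v w h1 h2.2 hv.2 (C.mem_perp.1 (k h2) _ h2) (xp v hv.1), _, h2, by simp⟩)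
  refine .inl ⟨?_, fun v hv h => ?_⟩
  · have t : X ≤ C.perp (F ∙ x) := fun v hv => mem_pp_sp.2 (xp v hv)
    refine le_trans ?_ (C.perp_anti l)
    rw [C.perp_sup]
    exact le_inf t (l.trans (sup_le (C.le_perp_comm.1 (inf_le_left.trans t)) k))
  obtain ⟨w, h1, h2⟩ := dc ⊤ (fun _ _ => trivial) v trivial
  have z : v - w ∈ X ⊓ C.perp W := by
    rw [← half nd nW inf_le_right k (by have := pe.dim; omega)]
    exact ⟨C.mem_perp.2 fun u hu => by rw [map_sub, C.mem_perp.1 hv u hu.1, C.mem_perp'.1 hu.2 w h1, sub_zero], h2.2⟩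
  simpa using add_mem (sx (K2 v w h1 h2.2 h (C.mem_perp.1 (k z) _ z) (C.mem_perp.1 hv x xX))) z.1

end H9.RU
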