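import Cfsg.Agent.H0.RU2

/-! S2196: chunks `SPH`, `IIE`, `IIB`, `IIM`, `IIA`, `II` (groups containing `-1` on a hyperbolic line). -/

set_option autoImplicit false
set_option linter.unusedSectionVars false
set_option linter.unusedVariables false

open Module MulAction H13.R3 H12 H0.RU
open H11 (hermT frob)
open H11.RS (PO)

attribute [-simp] H11.frob_apply

namespace H9.RU

universe u

variable {F : Type u} [Field F] [Fintype F] {q : ℕ} {hF : Fintype.card F = q ^ 2}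
  {V : Type u} [AddCommGroup V] [Module F V] [Fintype V] {C : CForm (hermT hF) V}
  {G : Type u} [Group G] [Fintype G] [DistribMulAction G V] [SMulCommClass G F V] {H : Subgroup G}

theorem sph : SPH C := by
  intro ge W h1 h2
  classical
  have n6 := ge.n6
  have sy : ∀ v w, Is C v → Is C w → w ∈ C.perp (W v) → v ∈ C.perp (W w) := fun v w hv hw h =>
    C.le_perp_comm.1 (h2 v w hv hw h) (h1 v hv).1
  have q0 : (q : F) = 0 := by
    have := FiniteField.cast_card_eq_zero F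
    rwa [hF, Nat.cast_pow, pow_eq_zero_iff two_ne_zero] at this
  have c0 : ∀ U : Submodule F V, 2 ≤ finrank F U → (({v | v ∈ U ∧ C.B v v = 0}.ncard : ℕ) : F) = 0 := fun U h => by
    obtain ⟨k, hk⟩ := iso_dvd (C := C) h
    rw [hk, Nat.cast_mul, q0, zero_mul]
  let N : Matrix V V F := Matrix.of fun v w => if Is C v ∧ Is C w ∧ w ∉ C.perp (W v) then 1 else 0
  have hN : N * N = 0 := by
    ext v w
    simp only [N, Matrix.mul_apply, Matrix.of_apply, ite_zero_mul_ite_zero, mul_one, Finset.sum_boole,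
      Matrix.zero_apply, ← Set.ncard_coe_finset, Finset.coe_filter, Finset.mem_univ, true_and]
    by_cases hv : Is C v
    swap
    · simp [hv]
    by_cases hw : Is C w
    swap
    · simp [hw]
    set A := {u | u ∈ C.perp (W v) ∧ C.B u u = 0}
    set B := {u | u ∈ C.perp (W w) ∧ C.B u u = 0}
    have e : {u | (Is C v ∧ Is C u ∧ u ∉ C.perp (W v)) ∧ Is C u ∧ Is C w ∧ w ∉ C.perp (W u)} =
        {u | u ∈ (⊤ : Submodule F V) ∧ C.B u u = 0} \ (A ∪ B) := Set.ext fun u =>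
      ⟨fun h => ⟨⟨trivial, h.2.1.2⟩, fun k => k.elim (fun k => h.1.2.2 k.1) fun k => h.2.2.2 (sy w u hw h.2.1 k.1)⟩, fun h =>
        have u0 : Is C u := ⟨fun e => h.2 (Or.inl ⟨e ▸ zero_mem _, h.1.2⟩), h.1.2⟩
        ⟨⟨hv, u0, fun k => h.2 (Or.inl ⟨k, u0.2⟩)⟩, u0, hw, fun k => h.2 (Or.inr ⟨sy u w u0 hw k, u0.2⟩)⟩⟩
    have e1 := congrArg (Nat.cast (R := F)) (Set.ncard_sdiff_add_ncard_of_subset
      (show A ∪ B ⊆ {u | u ∈ (⊤ : Submodule F V) ∧ C.B u u = 0} from fun u h => ⟨trivial, h.elim (·.2) (·.2)⟩))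
    have e2 := congrArg (Nat.cast (R := F)) (Set.ncard_union_add_ncard_inter A B)
    have d1 := fr_pp ge.nd (W v)
    have d2 := fr_pp ge.nd (W w)
    have d3 := finrank_inf_ge (C.perp (W v)) (C.perp (W w))
    rw [(h1 v hv).2.1] at d1
    rw [(h1 w hw).2.1] at d2
    rw [show A ∩ B = {u | u ∈ C.perp (W v) ⊓ C.perp (W w) ∧ C.B u u = 0} from
      Set.ext fun u => ⟨fun h => ⟨⟨h.1.1, h.2.1⟩, h.1.2⟩, fun h => ⟨⟨h.1.1, h.2⟩, h.1.2, h.2⟩⟩,
      Nat.cast_add, Nat.cast_add, c0 _ (by omega), c0 _ (by omega), c0 _ (by omega), add_zero, add_zero] at e2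
    rw [Nat.cast_add, e2, add_zero, c0 _ (by rw [finrank_top]; omega)] at e1
    rw [e, e1]
  have h3 := (Matrix.isNilpotent_trace_of_isNilpotent (M := N) ⟨2, by rw [sq, hN]⟩).eq_zero
  simp only [N, Matrix.trace, Matrix.diag, Matrix.of_apply, Finset.sum_boole,
    ← Set.ncard_coe_finset, Finset.coe_filter, Finset.mem_univ, true_and] at h3
  have h4 := c0 ⊤ (by rw [finrank_top]; omega)
  rw [show {v | v ∈ (⊤ : Submodule F V) ∧ C.B v v = 0} = insert 0 {v | Is C v ∧ Is C v ∧ v ∉ C.perp (W v)} from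
    Set.ext fun v => ⟨fun h => (eq_or_ne v 0).imp_right fun z => ⟨⟨z, h.2⟩, ⟨z, h.2⟩, (h1 v ⟨z, h.2⟩).2.2⟩,
      fun h => ⟨trivial, h.elim (fun z => by simp [z]) (·.1.2)⟩⟩,
    Set.ncard_insert_of_notMem (fun h => h.1.1 rfl), Nat.cast_add, h3] at h4
  simp at h4

variable {g : G} {a b x y s t : V}

theorem ivd (hg : Iv C g a b) (u : V) : u - g • u ∈ ln F a b := by
  rw [hg.apply, sub_sub, sub_sub_cancel]; exact mem_ln.2 ⟨_, _, rfl⟩

theorem ivp (un : Un C G) (hg : Iv C g a b) (u : V) : u + g • u ∈ C.perp (ln F a b) := by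
  have h1 := un.iso g a u
  have h2 := un.iso g b u
  rw [hg.2.2.2.1, C.B_neg_left] at h1
  rw [hg.2.2.2.2.1, C.B_neg_left] at h2
  exact mem_pp_ln.2 ⟨by rw [map_add, ← h1, neg_add_cancel], by rw [map_add, ← h2, neg_add_cancel]⟩

theorem ivf (un : Un C G) (h2 : (2 : F) ≠ 0) (hg : Iv C g a b) {u : V} (h : g • u = u) : u ∈ C.perp (ln F a b) := by
  have := ivp un hg u
  rwa [h, ← two_smul F, Submodule.smul_mem_iff _ h2] at this

theorem iv0 (hg : Iv C g a b) {u : V} (h1 : u ∈ ln F a b) (h2 : u ∈ C.perp (ln F a b)) : u = 0 :=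
  nd_ln hg.1 hg.2.1 hg.2.2.1 u h1 (C.mem_perp'.1 h2)

theorem iv_is (hg : Iv C g a b) : Is C a := ⟨fun z => hg.2.2.1 (by simp [z]), hg.1⟩

theorem trp {P : V → Prop} (pp : PP C H) (h1 : ∀ (c : F) v, c ≠ 0 → P (c • v) → P v)
    (h2 : ∀ h ∈ H, ∀ v, P v → P (h • v)) (hx : Is C x) (h : P x) (y : V) (hy : Is C y) : P y := by
  obtain ⟨k, hk, c, c0, e⟩ := (pp x y hx hy).ex hx.1
  exact h1 c y c0 (e ▸ h2 k hk x h)

theorem iie : IIE C H := by
  rintro un pp ⟨h2, g, hg, a, b, iv⟩ e1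
  have ex : ∀ v, Is C v → ∃ g ∈ H, ∃ b, Iv C g v b :=
    trp pp (fun c v c0 ⟨g, hg, b, h⟩ => by
      obtain ⟨b', h, -⟩ := h.at (v := v) (mem_ln.2 ⟨c⁻¹, 0, by simp [c0]⟩) ((is_sml c0).1 (iv_is h))
      exact ⟨g, hg, b', h⟩) (fun k hk v ⟨g, hg, b, h⟩ =>
        ⟨_, H.mul_mem (H.mul_mem hk hg) (H.inv_mem hk), _, un.iv_conj h k⟩) (iv_is iv) ⟨g, hg, b, iv⟩
  choose! i hi d hd using ex
  refine sph un.toGe (fun v => ln F v (d v)) (fun v hv => ⟨l_ln, (ind_of_ne hv.2 (hd v hv).2.2.1).finrank,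
    fun z => (hd v hv).2.2.1 (Bsw (mem_pp_ln.1 z).2)⟩) fun v y hv hy h => ln_le.2 ⟨h, ivf un h2 (hd v hv) ?_⟩
  have k := un.iv_conj (hd y hy) (i v)
  rw [(hd v hv).fix h] at k
  have := un.iv_uniq h2 (e1 y hy) (hi y hy) (H.mul_mem (H.mul_mem (hi v hv) (hi y hy)) (H.inv_mem (hi v hv))) (hd y hy) k
  obtain ⟨s, t, e⟩ := mem_ln.1 (sub_mem r_ln (this.le r_ln))
  have k1 := ivd (hd v hv) (d y)
  have k2 := C.mem_perp'.1 h _ k1
  rw [← e, map_add, map_smul, map_smul, hy.2, smul_zero, zero_add, smul_eq_zero, or_iff_left (hd y hy).2.2.1] at k2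
  rw [k2, zero_smul, add_zero] at e
  exact (sub_eq_zero.1 (iv0 (hd v hv) k1 (e ▸ Submodule.smul_mem _ _ h))).symm

theorem iib : IIB C H := by
  rintro un pp ⟨h2, i, hi, x, b, iv⟩ E N
  have st : ∀ x s z : V, Is C x → Is C z → s ∈ Sx C H x → s ∉ F ∙ x → C.B x z = 0 → C.B s z = 0 → z ∉ F ∙ x →
      ∀ t ∈ Sx C H z, C.B x t = 0 ∧ C.B s t = 0 := by
    rintro x s z hx hz ⟨xs, u, hu, c, uu⟩ n xz sz zx t ht
    have k : ∀ t ∈ Sx C H z, u • t - t ∈ Sx C H z := fun t ht =>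
      un.sx_sub hz (by simpa only [uu.fix xz sz] using un.sx_conj hu ht) ht
    have k0 : ∀ d : F, d • x ∈ Sx C H z → d = 0 := fun d hd => by_contra fun d0 => zx (by
      rw [sp_eq hx.1 ((Submodule.smul_mem_iff _ d0).1 (N z hz _ hd (by simp [hx.2])))]
      exact Submodule.mem_span_singleton_self z)
    have e1 : u • t - t = C.B x t • s - C.B s t • x - (c * C.B x t) • x := by rw [uu]; abel
    have a1 : C.B x t = 0 := by
      have := k0 (-(C.B x t * C.B s s)) (by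
        convert k _ (k t ht) using 1
        rw [uu (u • t - t), e1]
        simp [xs, hx.2, Bsw xs])
      simpa [show C.B s s ≠ 0 from fun z => n (N x hx s ⟨xs, u, hu, c, uu⟩ z)] using this
    exact ⟨a1, neg_eq_zero.1 (k0 _ (by simpa [e1, a1] using k t ht))⟩
  have hx := iv_is iv
  obtain ⟨s, hs, n⟩ := E x hx
  obtain ⟨y, h1, h3, h4⟩ := ex_is_off (C := C) (C.perp (ln F x s)) (F ∙ x) (by
    have := fr_pp_ln un.nd (x := x) (y := s) ⟨hx.1, n⟩
    have := un.n6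
    rw [finrank_span_singleton hx.1]; omega)
  rw [mem_pp_ln] at h1
  have bx : C.B b x ≠ 0 := C.B_swap_ne iv.2.2.1
  have fl : Fl C x y := ⟨hx, h4, h1.1, h3⟩
  have m : ∀ c : F, y + c • x ∈ ln F x y := fun c => mem_ln.2 ⟨c, 1, by simp [add_comm]⟩
  have k : ∀ c : F, ∀ t ∈ Sx C H (y + c • x), C.B x t = 0 := fun c t ht =>
    (st x s _ hx (fl.add c).isr hs n (fl.add c).2.2.1 (by simp [h1.2, Bsw hs.1]) (fl.add c).2.2.2 t ht).1
  set c := -(C.B b y / C.B b x)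
  obtain ⟨t, ht, n'⟩ := E _ (fl.add (c + 1)).isr
  have e : i • (y + (c + 1) • x) = y + (c - 1) • x := by
    have := iv.2.2.2.2.2 (y + c • x) (fl.add c).2.2.1 (by simp [c, bx])
    rw [add_smul, ← add_assoc, smul_add, this, one_smul, iv.2.2.2.1]; module
  have k2 := (st _ t _ (fl.add (c + 1)).isr (fl.add (c - 1)).isr ht n' (fl.iso (m _) (m _)) (by
    have := Bsw ht.1
    simp only [map_add, map_smul, Bsw (k _ t ht), smul_zero] at this ⊢
    exact this) (fun z => by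
      obtain ⟨d, z⟩ := Submodule.mem_span_singleton.1 z
      have := ind_iff.1 fl.ind (d * (c + 1) - (c - 1)) (d - 1) (by linear_combination (norm := module) z)
      exact h2 (by linear_combination this.1 - (c + 1) * this.2)) _ (e ▸ un.sx_conj hi ht)).2
  rw [iv.apply, k _ t ht] at k2
  exact n' (N _ (fl.add _).isr t ht (by simpa [Bsw (k _ t ht)] using k2))

theorem ti_le {W X : Submodule F V} (nW : C.NondegOn W) (l : X ≤ W) (h : X ≤ C.perp X) :
    2 * finrank F X ≤ finrank F W := by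
  have := (C.restrict_nondeg_iff.2 nW).two_mul_finrank_le (W := X.comap W.subtype)
    fun a ha => (C.restrict W).mem_perp.2 fun b hb => C.mem_perp.1 (h ha) _ hb
  rwa [(Submodule.comapSubtypeEquivOfLe l).finrank_eq] at this

theorem prj (un : Un C G) (h2 : (2 : F) ≠ 0) (hg : g ∈ H) (iv : Iv C g a b) (hy : Is C y) (h : y ∈ C.perp (ln F a b))
    (hs : s ∈ Sx C H y) : (2 : F)⁻¹ • (s - g • s) ∈ Sx C H y :=
  un.sx_half hy.2 h2 (by
    rw [smul_inv_smul₀ h2]; exact un.sx_sub hy hs (by simpa only [iv.fix h] using un.sx_conj hg hs))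

theorem iim : IIM C H := by
  rintro un nt ⟨h2, i, hi, a, b, iv⟩ M
  have n6 := un.n6
  have q3 := un.q3
  have nD := nd_ln (C := C) iv.1 iv.2.1 iv.2.2.1
  have nP := nd_pp_ln un.nd iv.1 iv.2.1 iv.2.2.1
  have id := ind_of_ne iv.1 iv.2.2.1
  have dP := fr_pp_ln un.nd id
  have := dcount_le {y | y ∈ C.perp (ln F a b) ∧ Is C y} {t | t ∈ ln F a b ∧ Is C t} (fun y t => y ∈ GX C H t)
    (m := q ^ 2 - 1) (n := q ^ (finrank F V - 2) - 1) (by
    rintro y ⟨h, hy⟩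
    obtain ⟨s, ⟨hs, s0⟩, n⟩ : ∃ s ∈ {s | s ∈ Sx C H y ∧ C.B s s = 0}, s ∉ C.perp (ln F a b) := by
      by_contra! z
      have l : GX C H y ≤ C.perp (ln F a b) := Submodule.span_le.2 z
      exact iv.2.2.1 (mem_pp_ln.1 (l ((M y hy).2 b (C.le_perp_comm.1 l r_ln) iv.2.1))).1
    have ht := prj un h2 hi iv hy h hs
    have tD : (2 : F)⁻¹ • (s - i • s) ∈ ln F a b := Submodule.smul_mem _ _ (ivd iv s)
    have tG : (2 : F)⁻¹ • (s - i • s) ∈ GX C H y := Submodule.smul_mem _ _ (sub_mem (Submodule.subset_span ⟨hs, s0⟩)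
      (by simpa only [iv.fix h] using un.gx_conj hi (Submodule.subset_span ⟨hs, s0⟩)))
    have t0 : (2 : F)⁻¹ • (s - i • s) ≠ 0 := fun z => n (ivf un h2 iv (by
      rw [smul_eq_zero, or_iff_right (inv_ne_zero h2), sub_eq_zero] at z; exact z.symm))
    generalize (2 : F)⁻¹ • (s - i • s) = t at *
    have it : Is C t := ⟨t0, C.mem_perp.1 ((M y hy).1 tG) t tG⟩
    obtain ⟨yt, u, hu, c, uu⟩ := ht
    have k := un.uu_conj uu i
    rw [iv.fix h, iv.neg tD] at k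
    have e1 := un.uu_c nt hy (by simp [yt]) (H.mul_mem (H.mul_mem hi hu) (H.inv_mem hi)) (H.inv_mem hu) k (un.uu_inv uu hy yt)
    have e2 := un.uu_trc uu hy yt
    obtain rfl : c = 0 := mul_left_cancel₀ h2 (by linear_combination e1 + e2 + it.2)
    have yG : y ∈ GX C H t := neg_mem_iff.1 (Submodule.subset_span ⟨⟨by simp [Bsw yt], u, hu, 0, uu.symm⟩, by simp [hy.2]⟩)
    refine le_of_eq_of_le (b := {u | u ∈ (F ∙ t) ∧ u ≠ 0}.ncard) (by rw [ncard_ne0, finrank_span_singleton t0, hF, pow_one])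
      (Set.ncard_le_ncard ?_)
    rintro v ⟨hv, v0⟩
    obtain ⟨d, rfl⟩ := Submodule.mem_span_singleton.1 hv
    have d0 : d ≠ 0 := by rintro rfl; simp at v0
    exact ⟨⟨Submodule.smul_mem _ _ tD, it.sml d0⟩, by rwa [un.gx_sml d0]⟩) (by
    rintro t ⟨h, ht⟩
    have := ti_le nP (X := GX C H t ⊓ C.perp (ln F a b)) inf_le_right
      (inf_le_left.trans ((M t ht).1.trans (C.perp_anti inf_le_left)))
    refine (Set.ncard_le_ncard (t := {u | u ∈ GX C H t ⊓ C.perp (ln F a b) ∧ u ≠ 0})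
      fun y hy => ⟨⟨hy.2, hy.1.1⟩, hy.1.2.1⟩).trans ?_
    rw [ncard_ne0, hF, ← pow_mul]
    exact Nat.sub_le_sub_right (Nat.pow_le_pow_right (by omega) (by omega)) 1)
  zify [Nat.one_le_pow _ q (by omega)] at this
  rw [ncard_is_on nP (by omega), ncard_is_on nD (by rw [id.finrank]; omega), id.finrank, aa_even even_two,
    aa_odd (i := 2 - 1) odd_one, show finrank F (C.perp (ln F a b)) = finrank F V - 2 by omega] at this
  have k1 := (le_aa q (finrank F V - 2)).1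
  have k2 := (le_aa q (finrank F V - 2 - 1)).1
  have k3 : (q : ℤ) ^ 3 ≤ q ^ (finrank F V - 2 - 1) := pow_le_pow_right₀ (by omega) (by omega)
  have k4 : (q : ℤ) ^ 1 ≤ q ^ (finrank F V - 2) := pow_le_pow_right₀ (by omega) (by omega)
  have k5 : (3 : ℤ) ≤ q := by omega
  have k6 : (0 : ℤ) < q ^ 2 - 1 := by nlinarith
  have k7 := mul_le_mul k1 k2 (by nlinarith) (by linarith)
  have k8 := le_of_mul_le_mul_right ((mul_le_mul_of_nonneg_right k7 k6.le).trans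
    (this.trans_eq (by ring : _ = ((q : ℤ) ^ (finrank F V - 2) - 1) * (q + 1) * (q ^ 2 - 1)))) k6
  have k9 := le_of_mul_le_mul_left k8 (by linarith)
  nlinarith

variable (C H) in
/-- adjacency of two collinear points -/
def Adj (x y : V) : Prop := ∃ β : F, β ≠ 0 ∧ ∃ g ∈ H, Uu C g x (β • y) 0

theorem deg (un : Un C G) (nt : NoT C H) (h2 : (2 : F) ≠ 0) (fl : Fl C x y) (hs : s ∈ Sx C H x) (n : C.B s y ≠ 0) :
    {c : F | Adj C H x (y + c • x)}.ncard * 2 ≤ (q - 1) * q := by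
  have k : ∀ (β c : F) (g : G), Uu C g x (β • (y + c • x)) 0 → Uu C g x (β • y) (frob hF (β * c) - β * c) := fun β c g h => by
    rw [smul_add, smul_smul, Uu.shift] at h
    convert h using 1; ring
  refine (dcount_le _ {β : F | β ≠ 0 ∧ frob hF (β * C.B s y) = β * C.B s y}
    (fun c β => ∃ g ∈ H, Uu C g x (β • (y + c • x)) 0) (n := q) ?_ ?_).trans (Nat.mul_le_mul_right _ ?_)
  · rintro c ⟨β, β0, g, hg, uu⟩
    have e := un.sx_sym nt fl.1 hs ⟨by simp [fl.2.2.1], g, hg, _, k β c g uu⟩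
    rw [← Bs s, map_smul, smul_eq_mul] at e
    rw [← Set.ncard_pair (a := β) (b := -β) fun z => β0 (mul_left_cancel₀ h2 (by linear_combination z))]
    refine Set.ncard_le_ncard ?_
    rintro _ (rfl | rfl)
    · exact ⟨⟨β0, e.symm⟩, g, hg, uu⟩
    · exact ⟨⟨neg_ne_zero.2 β0, by rw [neg_mul, map_neg, ← e]⟩, g⁻¹, H.inv_mem hg, by
        simpa only [map_zero, neg_smul] using un.uu_inv uu fl.1 (by simp [fl.2.2.1, fl.1.2])⟩
  · rintro β ⟨β0, -⟩
    rcases Set.eq_empty_or_nonempty {c | c ∈ {c : F | Adj C H x (y + c • x)} ∧ ∃ g ∈ H, Uu C g x (β • (y + c • x)) 0} with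
      z | ⟨d, -, g, hg, uu⟩
    · simp only [z, Set.ncard_empty, zero_le]
    refine le_of_le_of_eq (Set.ncard_le_ncard_of_injOn (fun c => β * c - β * d) ?_ fun c _ c' _ e => by
      simpa [β0] using e) (ncard_fix (hF := hF))
    rintro c ⟨-, g', hg', uu'⟩
    have := un.uu_c nt fl.1 (by simp [fl.2.2.1]) hg hg' (k _ _ _ uu) (k _ _ _ uu')
    simp only [Set.mem_ofPred_eq, map_sub]
    linear_combination -this
  · exact le_of_le_of_eq (Set.ncard_le_ncard_of_injOn (t := {a | frob hF a = a} \ {0}) (· * C.B s y)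
      (fun β h => ⟨h.2, mul_ne_zero h.1 n⟩) fun c _ c' _ e => mul_right_cancel₀ n e)
      (by rw [Set.ncard_sdiff_singleton_of_mem (by simp), ncard_fix])

theorem iia : IIA C H := by
  rintro un nt ⟨h2, i, hi, a, b, iv⟩ M
  have n6 := un.n6
  have q3 := un.q3
  have dP := fr_pp_ln un.nd (ind_of_ne iv.1 iv.2.2.1)
  have dg : ∀ x y, Fl C x y → {c : F | Adj C H x (y + c • x)}.ncard * 2 ≤ (q - 1) * q := fun x y fl => by
    obtain ⟨s, hs, n⟩ : ∃ s ∈ {s | s ∈ Sx C H x ∧ C.B s s = 0}, C.B s y ≠ 0 := by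
      by_contra! z
      exact fl.2.2.2 (M x fl.1 y (C.mem_perp_span.2 z) fl.2.1)
    exact deg un nt h2 fl hs.1 n
  have A : ∀ x ∈ C.perp (ln F a b), Is C x → ∀ v ∈ ln F a b, C.B v v = 0 →
      (∀ t ∈ Sx C H x, t ∈ ln F a b → C.B t v = 0) → v = 0 := fun x h hx v hv v0 k => by
    refine iv0 iv hv ((Submodule.span_singleton_le_iff_mem _ _).2 h (M x hx v (C.mem_perp_span.2 fun s hs => ?_) v0))
    have k1 := Bsw (k _ (prj un h2 hi iv hx h hs.1) (Submodule.smul_mem _ _ (ivd iv s)))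
    have k2 := C.mem_perp.1 (ivp un iv s) v hv
    rw [map_smul, smul_eq_zero, or_iff_right (inv_ne_zero h2), map_sub] at k1
    rw [map_add] at k2
    exact Bsw (mul_left_cancel₀ h2 (by linear_combination k1 + k2))
  have E : ∀ x ∈ C.perp (ln F a b), Is C x → ∃ t ∈ Sx C H x, t ∈ ln F a b ∧ t ≠ 0 := fun x h hx => by
    by_contra! z
    exact (iv_is iv).1 (A x h hx a l_ln iv.1 fun t h1 h3 => by simp [z t h1 h3])
  have O : ∀ x ∈ C.perp (ln F a b), ∀ y ∈ C.perp (ln F a b), Fl C x y → ¬ Adj C H x y → ∀ t ∈ Sx C H x, t ∈ ln F a b →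
      ∀ t' ∈ Sx C H y, t' ∈ ln F a b → C.B t' t = 0 := by
    rintro x hx y hy fl n t ⟨xt, u, hu, c, uu⟩ tD t' ⟨yt, u', hu', c', uu'⟩ tD'
    have yt' := C.mem_perp'.1 hy t tD
    have k := un.uu_conj uu u'
    rw [uu'.fix (Bsw fl.2.2.1) (C.mem_perp.1 hx t' tD'), uu' t] at k
    have k' := un.uu_mul k (un.uu_inv uu fl.1 xt) fl.1.2 (by simp [xt, yt', fl.2.2.1]) (by simp [xt])
    by_contra z
    refine n ⟨-C.B t' t, neg_ne_zero.2 z, _, H.mul_mem (H.mul_mem (H.mul_mem hu' hu) (H.inv_mem hu')) (H.inv_mem hu), ?_⟩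
    convert k' using 1
    · simp [yt']; abel
    · simp [yt', un.uu_trc uu fl.1 xt]
  obtain ⟨x, hx, ix⟩ := ex_is (C := C) (U := C.perp (ln F a b)) (by omega)
  obtain ⟨y0, ⟨h1, h3⟩, h4, h5⟩ := ex_is_off (C := C) (C.perp (ln F a b) ⊓ C.perp (F ∙ x)) (F ∙ x) (by
    have := finrank_inf_ge (C.perp (ln F a b)) (C.perp (F ∙ x))
    have := fr_pp_sp un.nd ix.1
    rw [finrank_span_singleton ix.1]; omega)
  have f0 : Fl C x y0 := ⟨ix, h5, mem_pp_sp.1 h3, h4⟩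
  have cF : (Set.univ : Set F).ncard = q ^ 2 := by rw [Set.ncard_univ, Nat.card_eq_fintype_card, hF]
  obtain ⟨r, rfl⟩ : ∃ r, q = r + 1 := ⟨q - 1, by omega⟩
  simp only [Nat.add_sub_cancel] at dg
  obtain ⟨c, -, hc⟩ := Set.exists_mem_notMem_of_ncard_lt_ncard (s := {c : F | Adj C H x (y0 + c • x)}) (t := Set.univ)
    (by have := dg _ _ f0; nlinarith)
  have fl := f0.add c
  have hy : y0 + c • x ∈ C.perp (ln F a b) := add_mem h1 (Submodule.smul_mem _ _ hx)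
  replace hc : ¬ Adj C H x (y0 + c • x) := hc
  generalize y0 + c • x = y at *
  obtain ⟨d, -, hd⟩ := Set.exists_mem_notMem_of_ncard_lt_ncard (t := Set.univ)
    (s := insert 0 ({c : F | Adj C H x (y + c • x)} ∪ (·⁻¹) '' {c : F | Adj C H y (x + c • y)})) (by
      have := dg _ _ fl
      have := dg _ _ fl.symm
      have := Set.ncard_image_le (f := (·⁻¹)) (s := {c : F | Adj C H y (x + c • y)})
      have := Set.ncard_union_le {c : F | Adj C H x (y + c • x)} ((·⁻¹) '' {c : F | Adj C H y (x + c • y)})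
      have := Set.ncard_insert_le 0 ({c : F | Adj C H x (y + c • x)} ∪ (·⁻¹) '' {c : F | Adj C H y (x + c • y)})
      nlinarith)
  simp only [Set.mem_insert_iff, Set.mem_union, not_or] at hd
  obtain ⟨d0, d1, d2⟩ := hd
  have hz : y + d • x ∈ C.perp (ln F a b) := add_mem hy (Submodule.smul_mem _ _ hx)
  have fz : Fl C y (y + d • x) := by simpa [add_comm] using fl.symm.tr 1 one_ne_zero d0
  have nz : ¬ Adj C H y (y + d • x) := fun ⟨β, β0, g, hg, uu⟩ => d2 ⟨d⁻¹, ⟨β * d, mul_ne_zero β0 d0, g, hg, by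
    convert uu using 1
    simp [mul_smul, d0, add_comm]⟩, inv_inv d⟩
  obtain ⟨t1, a1, b1, c1⟩ := E x hx ix
  obtain ⟨t2, a2, b2, c2⟩ := E y hy fl.isr
  obtain ⟨t3, a3, b3, c3⟩ := E _ hz fz.isr
  have n1 : C.B t1 t1 ≠ 0 := fun z => c1 (A y hy fl.isr t1 b1 z fun t h k => O x hx y hy fl hc t1 a1 b1 t h k)
  have o := O x hx y hy fl hc t1 a1 b1 t2 a2 b2
  refine c3 (iv0 iv b3 ?_)
  rw [← ln_eq (a := t1) (b := t2) ⟨c1, fun z => by
    obtain ⟨e, rfl⟩ := Submodule.mem_span_singleton.1 z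
    exact c2 (by rw [show e = 0 by simpa [n1] using Bsw o, zero_smul])⟩ b1 b2]
  exact mem_pp_ln.2 ⟨Bsw (O x hx _ hz (fl.add d) d1 t1 a1 b1 t3 a3 b3), Bsw (O y hy _ hz fz nz t2 a2 b2 t3 a3 b3)⟩

theorem ii : II C H := by
  intro un pp nt ir hi
  have tr : ∀ Q : V → Prop, (∀ (c : F) v, c ≠ 0 → Q (c • v) → Q v) → (∀ (h : G) v, Q v → Q (h • v)) →
      ∀ x, Is C x → ∀ s ∈ Sx C H x, s ∉ (F ∙ x) → Q s → ∀ y, Is C y → ∃ s ∈ Sx C H y, s ∉ (F ∙ y) ∧ Q s :=
    fun Q q1 q2 x hx s h1 h2 h3 => trp pp (P := fun y => ∃ s ∈ Sx C H y, s ∉ (F ∙ y) ∧ Q s)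
      (fun c v c0 ⟨s, h1, h2, h3⟩ => ⟨_, sx_sml.1 h1, by
        rwa [Submodule.smul_mem_iff _ (fr_ne c0), ← Submodule.span_singleton_smul_eq c0.isUnit],
        q1 _ _ (inv_ne_zero (fr_ne (hF := hF) c0)) (by rwa [inv_smul_smul₀ (fr_ne c0)])⟩)
      (fun h hh v ⟨s, h1, h2, h3⟩ => ⟨_, un.sx_conj hh h1, by rwa [smul_mem_sp_iff], q2 h s h3⟩) hx ⟨s, h1, h2, h3⟩
  by_cases k1 : ∀ x, Is C x → ∀ s ∈ Sx C H x, s ∈ F ∙ x
  · exact iie un pp hi k1
  push Not at k1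
  obtain ⟨x, hx, s, h1, h2⟩ := k1
  by_cases k2 : ∀ x, Is C x → ∀ s ∈ Sx C H x, C.B s s = 0 → s ∈ F ∙ x
  · exact iib un pp hi (fun y hy => (tr (fun _ => True) (by simp) (by simp) x hx s h1 h2 trivial y hy).imp
      fun s h => ⟨h.1, h.2.1⟩) k2
  push Not at k2
  obtain ⟨x, hx, s, h1, h3, h2⟩ := k2
  have k3 := fun y hy => ir y hy (GX C H y) (Submodule.subset_span ⟨sx_sp hy.2 (Submodule.mem_span_singleton_self y), hy.2⟩)
    (fun v hv => mem_pp_sp.1 (Submodule.span_le.2 (fun s hs => mem_pp_sp.2 hs.1.1) hv))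
    (fun h hh e v hv => by simpa only [e] using un.gx_conj hh hv)
    (Submodule.span_mono fun s hs => ⟨Submodule.subset_span hs, hs.2⟩) fun z => by
      obtain ⟨s, h1, h2, h3⟩ := tr (fun s => C.B s s = 0) (fun c v c0 h => by simpa [c0, fr_ne c0] using h)
        (fun h v k => by rw [un.iso, k]) x hx s h1 h2 h3 y hy
      exact h2 (z.le (Submodule.subset_span ⟨h1, h3⟩))
  by_cases k4 : ∀ x, Is C x → ∀ v ∈ C.perp (GX C H x), C.B v v = 0 → v ∈ F ∙ x
  · exact iia un nt hi k4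
  simp only [not_forall] at k4
  obtain ⟨x, hx, k4⟩ := k4
  refine iim un nt hi (trp pp (fun c v c0 h => by rwa [un.gx_sml c0] at h) (fun h hh v ⟨a1, a2⟩ => ?_) hx
    ((k3 x hx).resolve_right fun z => by obtain ⟨v, h1, h2, h3⟩ := k4; exact h3 (z v h1 h2)))
  have bk : ∀ u ∈ GX C H (h • v), h⁻¹ • u ∈ GX C H v := fun u hu => by simpa using un.gx_conj (H.inv_mem hh) hu
  refine ⟨fun u hu => C.mem_perp.2 fun w hw => ?_, fun u hu u0 => ?_⟩
  · rw [← un.iso h⁻¹]; exact C.mem_perp.1 (a1 (bk u hu)) _ (bk w hw)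
  · simpa using un.gx_conj hh (a2 (h⁻¹ • u) (C.mem_perp.2 fun w hw => by
      rw [← un.iso_l]; exact C.mem_perp.1 hu _ (un.gx_conj hh hw)) (by rw [un.iso, u0]))

end H9.RU
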