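import Cfsg.Agent.H9.RU2
import Cfsg.Agent.H9.RU3
import Cfsg.Agent.H20.FT
import Cfsg.Agent.H22.RU1

/-! S2196: chunks `SOL3`, `PER3`. -/

set_option autoImplicit false
set_option linter.unusedSectionVars false
set_option linter.unusedVariables false

open Module MulAction H13.R3 H12 H0.RU
open H11 (hermT frob)
open H11.RS (PO)

attribute [-simp] H11.frob_apply

namespace H9.RU

universe u

variable {F : Type u} [Field F] [Fintype F] {q : ℕ} {hF : Fintype.card F = q ^ 2}
  {V : Type u} [AddCommGroup V] [Module F V] [Fintype V] {C : CForm (hermT hF) V}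
  {G : Type u} [Group G] [Fintype G] [DistribMulAction G V] [SMulCommClass G F V] {H : Subgroup G}

theorem fpf0 {α : Type*} [Finite α] {S : Set α} {r : ℕ} (hr : r.Prime) (f : α → α) (h : ∀ s ∈ S, f s ∈ S)
    (e : ∀ s, f^[r] s = s) (n : ∀ s ∈ S, f s ≠ s) : r ∣ S.ncard := by
  classical
  have := Fact.mk hr
  have := Fintype.ofFinite α
  let g : Function.End S := fun s => ⟨f s.1, h _ s.2⟩
  have e' : ∀ i (s : S), ((g ^ i) s).1 = f^[i] s.1 := fun i => by
    induction i with
    | zero => exact fun s => rfl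
    | succ i ih => exact fun s => by rw [pow_succ', Function.iterate_succ_apply', ← ih]; rfl
  have := Equiv.Perm.card_fixedPoints_modEq (f := g) (p := r) (n := 1)
    (funext fun s => Subtype.ext (by rw [e', pow_one, e]; rfl))
  rw [(Fintype.card_eq_zero_iff (α := g.fixedPoints)).2 ⟨fun s => n _ s.1.2 (congrArg Subtype.val s.2)⟩] at this
  rwa [← Nat.card_coe_set_eq, Nat.card_eq_fintype_card, ← Nat.modEq_zero_iff_dvd]

variable (F V) in
/-- irreducible elements -/
def Ir (g : G) : Prop := ∀ U : Submodule F V, (∀ u ∈ U, g • u ∈ U) → U = ⊥ ∨ U = ⊤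

theorem irr (hF : Fintype.card F = q ^ 2) {s : ℕ} (od : Od q s 3) (d3 : finrank F V = 3) {g : G} (hg : g ^ s = 1)
    (g1 : ¬ ∀ v : V, g • v = v) : Ir F V g := by
  have k : ∀ U : Submodule F V, (∀ u ∈ U, g • u ∈ U) → 3 ∣ finrank F U - finrank F ↥(U ⊓ fx F V g) := fun U hU => by
    have := fpf od.1 (k := 1) (by rwa [pow_one]) (S := {u | u ∈ U ∧ u ∉ U ⊓ fx F V g})
      (fun u hu => ⟨hU u hu.1, fun z => hu.2 ⟨hu.1, (smul_left_cancel g z.2 :)⟩⟩) fun u hu z => hu.2 ⟨hu.1, z⟩
    obtain ⟨d, hd⟩ := Nat.exists_eq_add_of_le (Submodule.finrank_mono (inf_le_left : U ⊓ fx F V g ≤ U))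
    rw [ncard_diff inf_le_left, hd, pow_add, ← Nat.mul_sub_one, od.1.dvd_mul, hF, ← pow_mul, ← pow_mul] at this
    rw [hd, Nat.add_sub_cancel_left]
    have := this.resolve_left fun z => od.not_dvd (by omega) (od.1.dvd_of_dvd_pow z)
    rw [← Int.natCast_dvd_natCast, Nat.cast_sub (Nat.one_le_pow _ _ (by have := H11.two_le_of_card_sq hF; omega))] at this
    have := od.dvd_aa.1 (by rw [aa_even (even_two_mul d)]; exact_mod_cast this)
    omega
  have f0 : fx F V g = ⊥ := by
    have := k ⊤ fun _ _ => trivial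
    rw [top_inf_eq, finrank_top] at this
    have l := Submodule.finrank_lt (s := fx F V g) fun z => g1 fun v => z.ge Submodule.mem_top
    exact Submodule.finrank_eq_zero.1 (by omega)
  intro U hU
  have := k U hU
  have l := Submodule.finrank_le U
  rw [f0, inf_bot_eq, finrank_bot] at this
  exact (show finrank F U = 0 ∨ finrank F U = finrank F V by omega).imp Submodule.finrank_eq_zero.1
    Submodule.eq_top_of_finrank_eq

theorem Ir.ker {g : G} (ir : Ir F V g) {f : V →ₗ[F] V} (hf : ∀ v, f (g • v) = g • f v) {v : V} (v0 : v ≠ 0)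
    (h : f v = 0) : f = 0 :=
  LinearMap.ker_eq_top.1 ((ir _ fun u hu => by rw [LinearMap.mem_ker, hf, LinearMap.mem_ker.1 hu, smul_zero]).resolve_left
    fun z => v0 (z.le h))

theorem adc {g : G} {f : V →ₗ[F] V} (h : f ∈ Algebra.adjoin F {(lin F V g).toLinearMap}) (v : V) : f (g • v) = g • f v :=
  LinearMap.congr_fun (Algebra.commute_of_mem_adjoin_self h).symm.eq v

theorem Ir.adj {g : G} (ir : Ir F V g) {f : V →ₗ[F] V} (hf : ∀ v, f (g • v) = g • f v) :
    f ∈ Algebra.adjoin F {(lin F V g).toLinearMap} := by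
  rcases subsingleton_or_nontrivial V with z | z
  · rw [Subsingleton.elim f 0]; exact zero_mem _
  obtain ⟨u, u0⟩ := exists_ne (0 : V)
  set A := Algebra.adjoin F {(lin F V g).toLinearMap}
  rcases ir (A.toSubmodule.map (LinearMap.applyₗ u)) (by
    rintro _ ⟨a, ha, rfl⟩
    exact ⟨_, A.mul_mem (Algebra.self_mem_adjoin_singleton F _) ha, rfl⟩) with k | k
  · exact absurd (k.le ⟨1, one_mem A, rfl⟩) u0
  obtain ⟨a, ha, (e : a u = _)⟩ := k.ge (Submodule.mem_top (x := f u))
  rwa [sub_eq_zero.1 (ir.ker (f := f - a) (fun v => by simp [hf, adc ha, smul_sub]) u0 (by simp [e]))]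

theorem sc1 (hF : Fintype.card F = q ^ 2) {s : ℕ} (od : Od q s 3) {c : F} (h : c ^ s = 1) : c = 1 := by
  have c0 : c ≠ 0 := by rintro rfl; simp [od.1.ne_zero] at h
  have cp : s.Coprime (Fintype.card F - 1) := (Nat.Prime.coprime_iff_not_dvd od.1).2 fun z => od.not_dvd_sq le_rfl (by
    rw [hF, ← Int.natCast_dvd_natCast, Nat.cast_sub (Nat.one_le_pow _ _ (by have := H11.two_le_of_card_sq hF; omega))] at z
    exact_mod_cast z)
  have z : c ^ s.gcd (Fintype.card F - 1) = 1 := pow_gcd_eq_one.2 ⟨h, FiniteField.pow_card_sub_one_eq_one c c0⟩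
  rwa [cp, pow_one] at z

variable (F V G) in
/-- the scalars -/
def Zs : Subgroup G where
  carrier := {g | ∃ c : F, ∀ v : V, g • v = c • v}
  one_mem' := ⟨1, by simp⟩
  mul_mem' := by rintro a b ⟨c, h⟩ ⟨d, k⟩; exact ⟨c * d, fun v => by rw [mul_smul, k, h, mul_smul]⟩
  inv_mem' := by
    rintro a ⟨c, h⟩
    refine ⟨c⁻¹, fun v => ?_⟩
    by_cases c0 : c = 0
    · simp [gsz.1 (show a • v = 0 by simp [h, c0])]
    · rw [inv_smul_eq_iff, h, smul_inv_smul₀ c0]

theorem cl (a y : G) : (lin F V (y * a * y⁻¹)).toLinearMap = (lin F V y).conj (lin F V a).toLinearMap := by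
  ext v
  rw [LinearEquiv.conj_apply_apply, show (lin F V y).symm v = y⁻¹ • v from (LinearEquiv.symm_apply_eq _).2 (by simp)]
  simp [mul_smul]

section fa
variable (fa : ∀ g : G, (∀ v : V, g • v = v) → g = 1) (d3 : finrank F V = 3)
include fa

theorem gext {g h : G} (e : ∀ v : V, g • v = h • v) : g = h :=
  eq_of_inv_mul_eq_one (fa _ fun v => by rw [mul_smul, ← e, inv_smul_smul])

theorem zc {z : G} (h : z ∈ Zs F V G) (g : G) : Commute z g := by
  obtain ⟨c, h⟩ := h
  exact gext fa fun v => by rw [mul_smul, mul_smul, h, h, gsc]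

include d3

open scoped IsMulCommutative in
theorem fin (hF : Fintype.card F = q ^ 2) (q3 : 3 ≤ q) {I : Set V} (I0 : 0 ∉ I) (hI : ∀ g : G, ∀ v ∈ I, g • v ∈ I) {v : V}
    (hv : v ∈ I) (tr : ∀ w ∈ I, ∃ g : G, g • v = w) (cI : (I.ncard : ℤ) = (q ^ 3 + 1) * (q ^ 2 - 1)) {b : G} (ir : Ir F V b)
    (hc : ∀ g : G, Commute (g * b * g⁻¹) b) : False := by
  have cm : ∀ c : G, Commute c b → ∀ v : V, c • b • v = b • c • v := fun c h v => by rw [← mul_smul, h.eq, mul_smul]
  have dv : ∀ S : Set V, 0 ∉ S → (∀ g : G, ∀ v ∈ S, g • v ∈ S) → Nat.card (Subgroup.centralizer {b}) ∣ S.ncard :=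
    fun S h0 hS => by
    let T : SubMulAction (Subgroup.centralizer {b}) V := ⟨S, fun c x hx => hS c x hx⟩
    have e := Nat.card_congr (selfEquivOrbitsQuotientProd (G := Subgroup.centralizer {b}) (X := T) fun x =>
      eq_bot_iff.2 fun c hc => Subtype.ext (fa _ fun w => sub_eq_zero.1 (LinearMap.congr_fun (ir.ker
        (f := (lin F V c.1).toLinearMap - 1) (fun v => by
          simp [smul_sub, cm c.1 (Subgroup.mem_centralizer_singleton_iff.1 c.2)]) (v := x.1) (fun z => h0 (z ▸ x.2))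
        (sub_eq_zero.2 (congrArg Subtype.val hc))) w)))
    rw [Nat.card_prod] at e
    exact Dvd.intro_left _ e.symm
  have nt : Nontrivial V := Module.nontrivial_of_finrank_pos (R := F) (by omega)
  set A := Algebra.adjoin F {(lin F V b).toLinearMap}
  have : NoZeroDivisors A := ⟨fun {x y} h => or_iff_not_imp_right.2 fun n => by
    obtain ⟨w, hw⟩ : ∃ w, y.1 w ≠ 0 := by by_contra! z; exact n (Subtype.ext (LinearMap.ext z))
    exact Subtype.ext (ir.ker (adc x.2) hw (LinearMap.congr_fun (congrArg Subtype.val h) w))⟩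
  have : IsDomain A := NoZeroDivisors.to_isDomain A
  have k1 : (orbit (ConjAct G) b).ncard ≤ 3 := by
    refine (Set.ncard_le_ncard_of_injOn (t := Subtype.val '' (lin F V b).toLinearMap.charpoly.rootSet A)
      (fun x => (lin F V x).toLinearMap) ?_ fun x _ y _ e => gext fa fun v => LinearMap.congr_fun e v).trans
      ((Set.ncard_image_le (Set.toFinite _)).trans ((Polynomial.ncard_rootSet_le _ _).trans (by rw [LinearMap.charpoly_natDegree, d3])))
    rintro _ ⟨g, rfl⟩
    refine ⟨⟨_, ir.adj (cm _ (hc (ConjAct.ofConjAct g)))⟩, (Polynomial.mem_rootSet_of_ne (LinearMap.charpoly_monic _).ne_zero).2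
      (Subtype.ext ?_), rfl⟩
    rw [Polynomial.aeval_subalgebra_coe, ← LinearEquiv.charpoly_conj (lin F V (ConjAct.ofConjAct g)), ← cl]
    exact LinearMap.aeval_self_charpoly _
  have k2 := (stabilizer (ConjAct G) b).card_mul_index
  rw [index_stabilizer, ← Subgroup.nat_card_centralizer_nat_card_stabilizer] at k2
  have k3 := Nat.le_of_dvd Nat.card_pos (orb_dvd (J := ⊤) (H := (⊤ : Subgroup G)) le_rfl (fun g _ => hI g v hv)
    fun w hw => (tr w hw).imp fun g h => ⟨trivial, h⟩)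
  rw [Subgroup.card_top] at k3
  have k4 := dv {v | v ≠ 0 ∧ v ∉ I} (by simp) fun g v hv => ⟨fun z => hv.1 (gsz.1 z), fun z => hv.2 (by
    simpa using hI g⁻¹ _ z)⟩
  have k5 := Set.ncard_sdiff_add_ncard_of_subset (s := I) (t := {v | v ≠ 0}) fun v hv z => I0 (z ▸ hv)
  rw [ncard_ne0' (F := F), d3, hF] at k5
  have k6 := dv I I0 hI
  change Nat.card _ * _ = Nat.card G at k2
  change Set.ncard {v | v ≠ 0 ∧ v ∉ I} + _ = _ at k5
  zify [Nat.one_le_pow _ (q ^ 2) (by positivity)] at k1 k2 k3 k4 k5 k6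
  have q3' : (3 : ℤ) ≤ q := by omega
  have m0 : (0 : ℤ) < (q ^ 2 - 1) * (q ^ 2 - q + 1) := mul_pos (by nlinarith) (by nlinarith)
  have k7 := Int.le_of_dvd m0 ((dvd_add k4 (k6.mul_left (1 - q))).trans (dvd_of_eq (by
    rw [eq_sub_of_add_eq k5, cI]; ring)))
  have : (0 : ℤ) ≤ Nat.card (Subgroup.centralizer {b}) := by positivity
  nlinarith

theorem cA (hF : Fintype.card F = q ^ 2) {s : ℕ} (od : Od q s 3) {σ : G} (hσ : orderOf σ = s) {B : Subgroup G} [hB : B.Normal]
    (ab : ∀ a ∈ B, ∀ b ∈ B, Commute a b) {b : G} (hb : b ∈ B) (ns : b ∉ Zs F V G) : Ir F V b := by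
  have ir : ∀ d, 0 < d → d ≤ 3 → Ir F V (σ ^ d) := fun d h1 h2 => irr hF od d3
    (by rw [← pow_mul, mul_comm, pow_mul, ← hσ, pow_orderOf_eq_one, one_pow]) fun z =>
      pow_ne_one_of_lt_orderOf h1.ne' (by have := (od.lt (by omega)).2; omega) (fa _ z)
  have cj : ∀ (g : G) (a : B) (v : V), a.1 • g • v = g • (⟨_, hB.conj_mem' _ a.2 g⟩ : B).1 • v := fun g a v => by
    simp [mul_smul]
  have ev : ∀ (l : F) (v : V), b • v = l • v → v = 0 := fun l v h => by_contra fun v0 => by
    obtain ⟨X, x1, x2⟩ : ∃ X : Submodule F V, finrank F X = 1 ∧ ∀ a : B, ∀ u ∈ X, a.1 • u ∈ X := by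
      set U := LinearMap.ker ((lin F V b).toLinearMap - l • LinearMap.id)
      have hU : ∀ a : B, ∀ u ∈ U, a.1 • u ∈ U := fun a u hu => by
        have : b • u - l • u = 0 := hu
        show b • a.1 • u - l • a.1 • u = 0
        rw [← mul_smul, (ab b hb a a.2).eq, mul_smul, ← gsc, ← smul_sub, this, smul_zero]
      have u0 : U ≠ ⊥ := fun z => v0 (z.le (sub_eq_zero.2 h))
      have u1 : U ≠ ⊤ := fun z => ns ⟨l, fun w => sub_eq_zero.1 (z.ge Submodule.mem_top :)⟩
      have a1 := Submodule.finrank_lt u1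
      have a2 := Submodule.finrank_eq_zero.not.2 u0
      by_cases k : finrank F U = 1
      · exact ⟨U, k, hU⟩
      have a3 := finrank_inf_ge U (U.map (lin F V σ).toLinearMap)
      have a4 := (lin F V σ).finrank_map_eq U
      have a5 := Submodule.finrank_mono (inf_le_right : U ⊓ U.map (lin F V σ).toLinearMap ≤ _)
      refine ⟨U ⊓ U.map (lin F V σ).toLinearMap, by_contra fun n => ?_, fun a => ?_⟩
      · exact (ir 1 one_pos (by omega) U fun u hu => (pow_one σ).symm ▸
          ((Submodule.eq_of_le_of_finrank_eq (inf_le_right : U ⊓ U.map (lin F V σ).toLinearMap ≤ _) (by omega)).ge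
            ⟨u, hu, rfl⟩).1).elim u0 u1
      · rintro _ ⟨h1, u, hu, rfl⟩
        exact ⟨hU a _ h1, _, hU _ u hu, (cj σ a u).symm⟩
    obtain ⟨⟨w, hw⟩, w0, x3⟩ := finrank_eq_one_iff'.1 x1
    replace w0 : w ≠ 0 := fun z => w0 (Subtype.ext z)
    have n0 : ∀ i : ℕ, σ ^ i • w ≠ 0 := fun i z => w0 (gsz.1 z)
    have ex : ∀ i : ℕ, ∃ χ : B →* F, ∀ a : B, a.1 • σ ^ i • w = χ a • σ ^ i • w := fun i => by
      have : ∀ a : B, ∃ c : F, a.1 • σ ^ i • w = c • σ ^ i • w := fun a => by
        obtain ⟨c, hc⟩ := x3 ⟨_, x2 ⟨_, hB.conj_mem' _ a.2 (σ ^ i)⟩ w hw⟩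
        exact ⟨c, by rw [cj, ← gsc]; exact congrArg _ (congrArg Subtype.val hc).symm⟩
      choose χ hχ using this
      exact ⟨⟨⟨χ, smul_left_injective F (n0 i) (by simp [← hχ])⟩, fun x y => smul_left_injective F (n0 i) (by
        simp only [← hχ, Subgroup.coe_mul, mul_smul]; rw [hχ y, gsc, hχ x, smul_comm])⟩, hχ⟩
    choose χ hχ using ex
    have li : ¬ Function.Injective fun i : Fin 4 => χ i := fun inj => by
      have := LinearIndependent.fintype_card_le_finrank (R := F) (b := fun i : Fin 4 => σ ^ i.1 • w)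
        (Fintype.linearIndependent_iff.2 fun c hc i => by
          obtain ⟨f, hf⟩ := ex_dual1 (F := F) (n0 i)
          have := Fintype.linearIndependent_iff.1 ((linearIndependent_monoidHom B F).comp _ inj)
            (fun j => c j * f (σ ^ j.1 • w)) (funext fun a => by
              have := congrArg (fun v => f (a.1 • v)) hc
              simp only [Finset.smul_sum, gsc, hχ, map_sum, map_smul, smul_zero, map_zero, smul_eq_mul] at this
              simpa [mul_assoc, mul_comm (f _)] using this) i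
          rwa [hf, mul_one] at this)
      simp [d3] at this
    obtain ⟨i, j, e, ij⟩ : ∃ i j : Fin 4, χ i = χ j ∧ i < j := by
      obtain ⟨i, j, e, n⟩ := Function.not_injective_iff.1 li
      exact (lt_or_gt_of_ne n).elim (⟨i, j, e, ·⟩) (⟨j, i, e.symm, ·⟩)
    obtain ⟨d, hd⟩ := Nat.exists_eq_add_of_lt (Fin.lt_def.1 ij)
    let U : Submodule F V := ⨅ a : B, LinearMap.ker ((lin F V a.1).toLinearMap - χ i a • LinearMap.id)
    have mU : ∀ u, u ∈ U ↔ ∀ a : B, a.1 • u = χ i a • u := fun u => by simp [U, sub_eq_zero]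
    rcases ir (d + 1) d.succ_pos (by omega) U (fun u hu => (mU _).2 fun a => by
      have := hχ j a
      rw [← e, hd, add_assoc, add_comm, pow_add, mul_smul, cj, hχ i, gsc] at this
      rw [cj, (mU u).1 hu, gsc, smul_left_injective F (fun z => n0 i (gsz.1 z)) this]) with k | k
    · exact n0 i (k.le ((mU _).2 (hχ i)))
    · exact ns ⟨_, fun v => (mU v).1 (k.ge Submodule.mem_top) ⟨b, hb⟩⟩
  intro U hU
  by_contra! n
  have a1 := Submodule.finrank_lt n.2
  have a2 := Submodule.finrank_eq_zero.not.2 n.1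
  by_cases k : finrank F U = 1
  · obtain ⟨⟨w, hw⟩, w0, x3⟩ := finrank_eq_one_iff'.1 k
    obtain ⟨c, hc⟩ := x3 ⟨_, hU w hw⟩
    exact w0 (Subtype.ext (ev c w (congrArg Subtype.val hc).symm))
  obtain ⟨w, hw⟩ := ex_notMem' a1
  have t : U ⊔ (F ∙ w) = ⊤ := Submodule.eq_top_of_finrank_eq (by rw [finrank_sup_sp hw]; omega)
  have dc : ∀ v, ∃ u ∈ U, ∃ c : F, u + c • w = v := fun v => by
    obtain ⟨u, hu, _, hx, e⟩ := Submodule.mem_sup.1 (t.ge (Submodule.mem_top (x := v)))
    obtain ⟨c, rfl⟩ := Submodule.mem_span_singleton.1 hx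
    exact ⟨u, hu, c, e⟩
  obtain ⟨u, hu, l, e⟩ := dc (b • w)
  have r := LinearMap.finrank_range_add_finrank_ker ((lin F V b).toLinearMap - l • LinearMap.id)
  rw [LinearMap.ker_eq_bot'.2 fun v h => ev l v (sub_eq_zero.1 h), finrank_bot] at r
  have := Submodule.finrank_mono (show LinearMap.range ((lin F V b).toLinearMap - l • LinearMap.id) ≤ U by
    rintro _ ⟨v, rfl⟩
    obtain ⟨u', hu', c, rfl⟩ := dc v
    convert add_mem (sub_mem (hU u' hu') (U.smul_mem l hu')) (U.smul_mem c hu) using 1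
    show b • (u' + c • w) - l • (u' + c • w) = _
    rw [smul_add, gsc, ← e]; generalize b • u' = x; module)
  omega

theorem sol (hF : Fintype.card F = q ^ 2) (q3 : 3 ≤ q) [hs : Group.IsSolvable G] {I : Set V} (I0 : 0 ∉ I)
    (hI : ∀ g : G, ∀ v ∈ I, g • v ∈ I) {v : V} (hv : v ∈ I) (tr : ∀ w ∈ I, ∃ g : G, g • v = w)
    (cI : (I.ncard : ℤ) = (q ^ 3 + 1) * (q ^ 2 - 1)) : False := by
  classical
  obtain ⟨s, od⟩ := H22.RU.zs q 3 q3 le_rfl
  have := Fact.mk od.1
  have nt : Nontrivial V := Module.nontrivial_of_finrank_pos (R := F) (by omega)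
  obtain ⟨v0, n0⟩ := exists_ne (0 : V)
  obtain ⟨σ, hσ⟩ := exists_prime_orderOf_dvd_card' (G := G) s (by
    refine Dvd.dvd.trans ?_ (Subgroup.card_top (G := G) ▸ orb_dvd (J := ⊤) (H := (⊤ : Subgroup G)) le_rfl
      (fun g _ => hI g v hv) fun w hw => (tr w hw).imp fun g h => ⟨trivial, h⟩)
    rw [← Int.natCast_dvd_natCast, cI, ← aa_odd (by decide)]
    exact (od.dvd_aa.2 dvd_rfl).mul_right _)
  have σs : σ ^ s = 1 := hσ ▸ pow_orderOf_eq_one σ
  have σ1 : σ ≠ 1 := fun z => od.1.one_lt.ne' (by rw [← hσ, z, orderOf_one])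
  have pw : ∀ (z : G) (c : F), (∀ v : V, z • v = c • v) → ∀ i (v : V), z ^ i • v = c ^ i • v := fun z c h i => by
    induction i with
    | zero => simp
    | succ i ih => exact fun v => by rw [pow_succ, mul_smul, h, ih, smul_smul, pow_succ]
  have z1 : ∀ z ∈ Zs F V G, z ^ s = 1 → z = 1 := fun z ⟨c, h⟩ e => fa z fun v => by
    rw [h, sc1 hF od (smul_left_injective F n0 (by simp [← pw z c h, e]) : c ^ s = 1), one_smul]
  have nZ : (Zs F V G).Normal := ⟨fun z h g => by rwa [← (zc fa h g).eq, mul_inv_cancel_right]⟩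
  have ex : ∃ n, derivedSeries G n ≤ Zs F V G := hs.1.imp fun n h => h.le.trans bot_le
  obtain ⟨n, hn⟩ := Nat.exists_eq_succ_of_ne_zero (n := Nat.find ex) fun z => σ1 (z1 σ
    ((z ▸ Nat.find_spec ex : derivedSeries G 0 ≤ _) trivial) σs)
  have a1 : ¬ derivedSeries G n ≤ Zs F V G := Nat.find_min ex (by omega)
  have a2 : ⁅derivedSeries G n, derivedSeries G n⁆ ≤ Zs F V G := (hn ▸ Nat.find_spec ex :)
  have := derivedSeries_normal G n
  generalize derivedSeries G n = A at *
  have a3 : A ⊓ Subgroup.centralizer A ≤ Zs F V G := fun b hb => by_contra fun ns =>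
    have ab : ∀ a ∈ A ⊓ Subgroup.centralizer A, ∀ b ∈ A ⊓ Subgroup.centralizer A, Commute a b := fun a ha b hb => hb.2 a ha.1
    fin fa d3 hF q3 I0 hI hv tr cI (cA fa d3 hF od hσ ab hb ns) fun g => ab _ (Subgroup.Normal.conj_mem inferInstance _ hb g) _ hb
  have om : ∀ a ∈ A, ∀ y ∈ A, ∃ c : F, c ^ 3 = 1 ∧ ∀ v : V, (y * a * y⁻¹ * a⁻¹) • v = c • v := fun a ha y hy => by
    obtain ⟨c, h⟩ := a2 (Subgroup.commutator_mem_commutator hy ha)
    refine ⟨c, ?_, h⟩
    have e : (lin F V (y * a * y⁻¹)).toLinearMap = c • (lin F V a).toLinearMap := by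
      ext v; simpa [mul_smul, commutatorElement_def] using h (a • v)
    have := congrArg LinearMap.det e
    rw [cl, LinearEquiv.conj_apply, LinearMap.comp_assoc, LinearMap.det_conj, LinearMap.det_smul, d3] at this
    exact (mul_eq_right₀ (lin F V a).isUnit_det'.ne_zero).1 this.symm
  have t0 : ∀ a ∈ A, a ∉ Zs F V G → (3 : F) ≠ 0 ∧ LinearMap.trace F V (lin F V a).toLinearMap = 0 := fun a ha n => by
    obtain ⟨y, hy, k⟩ : ∃ y ∈ A, y * a ≠ a * y := by by_contra! z; exact n (a3 ⟨ha, z⟩)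
    obtain ⟨c, h1, h2⟩ := om a ha y hy
    have c1 : c ≠ 1 := by
      rintro rfl
      exact k (by simpa [mul_inv_eq_iff_eq_mul] using fa _ fun v => (h2 v).trans (one_smul F v))
    have e : (lin F V (y * a * y⁻¹)).toLinearMap = c • (lin F V a).toLinearMap := by
      ext v; simpa [mul_smul] using h2 (a • v)
    have := congrArg (LinearMap.trace F V) e
    rw [cl, LinearMap.trace_conj', map_smul, smul_eq_mul] at this
    exact ⟨fun z => c1 (sub_eq_zero.1 (pow_eq_zero_iff (n := 3) (by omega) |>.1 (by linear_combination h1 + (c - c ^ 2) * z))),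
      (mul_eq_zero.1 (by linear_combination -this)).resolve_left (sub_ne_zero.2 c1)⟩
  have c3 : ∀ a ∈ A, a ^ 3 ∈ Zs F V G := fun a ha => a3 ⟨pow_mem ha 3, fun y hy => by
    obtain ⟨c, h1, h2⟩ := om a ha y hy
    have := (zc fa ⟨c, h2⟩ a).mul_pow 3
    rw [inv_mul_cancel_right, conj_pow, fa ((y * a * y⁻¹ * a⁻¹) ^ 3) fun v => by rw [pw _ c h2, h1, one_smul], one_mul] at this
    exact mul_inv_eq_iff_eq_mul.1 this⟩
  obtain ⟨a0, a4, a5⟩ := SetLike.not_le_iff_exists.1 a1
  set π := QuotientGroup.mk' (Zs F V G)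
  have c9 : (A.map π : Set (G ⧸ Zs F V G)).ncard ≤ 9 := by
    have : ∀ x : A.map π, ∃ a ∈ A, π a = x := fun x => x.2
    choose r r1 r2 using this
    have := Fintype.ofFinite (A.map π)
    have := LinearIndependent.fintype_card_le_finrank (R := F) (b := fun x => (lin F V (r x)).toLinearMap)
      (Fintype.linearIndependent_iff.2 fun c hc x => by
        have := congrArg (fun f => LinearMap.trace F V ((lin F V (r x)⁻¹).toLinearMap * f)) hc
        simp only [Finset.mul_sum, map_sum, mul_smul_comm, map_smul, mul_zero, map_zero, smul_eq_mul] at this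
        rw [Finset.sum_eq_single x (fun y _ n => by
          rw [show (lin F V (r x)⁻¹).toLinearMap * (lin F V (r y)).toLinearMap = (lin F V ((r x)⁻¹ * r y)).toLinearMap by
            ext; simp [mul_smul], (t0 _ (mul_mem (inv_mem (r1 x)) (r1 y)) fun z => n (Subtype.ext (by
              rw [← r2, ← r2]; exact (QuotientGroup.eq.2 z).symm))).2, mul_zero]) (by simp),
          show (lin F V (r x)⁻¹).toLinearMap * (lin F V (r x)).toLinearMap = 1 by ext; simp, LinearMap.trace_one, d3] at this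
        exact (mul_eq_zero.1 this).resolve_right (t0 a0 a4 a5).1)
    rwa [finrank_linearMap, d3, ← Nat.card_eq_fintype_card] at this
  set M := {x | x ∈ A.map π ∧ π σ * x * (π σ)⁻¹ ≠ x}
  have m8 : M.ncard < 9 := (Set.ncard_lt_ncard (t := A.map π) ⟨fun x hx => hx.1, fun z => (z (one_mem _)).2 (by simp)⟩).trans_le c9
  have m1 := fpf0 (S := M) od.1 (fun x => π σ * x * (π σ)⁻¹) (by
      rintro _ ⟨⟨a, ha, rfl⟩, n⟩
      exact ⟨⟨_, this.conj_mem a ha σ, by simp⟩, fun z => n (by simpa using z)⟩) (fun x => by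
      have : ∀ i, (fun x => π σ * x * (π σ)⁻¹)^[i] x = π σ ^ i * x * (π σ ^ i)⁻¹ := fun i => by
        induction i with
        | zero => simp
        | succ i ih => rw [Function.iterate_succ_apply', ih, pow_succ']; group
      rw [this, ← map_pow, σs]; simp) fun x hx => hx.2
  have m2 := fpf0 (S := M) Nat.prime_two (·⁻¹) (fun x hx => ⟨inv_mem hx.1, fun z => hx.2 (inv_injective (by
      rw [← z]; group))⟩) (by simp) (by
      rintro _ ⟨⟨a, ha, rfl⟩, n⟩ z
      have : π a ^ 3 = 1 := by rw [← map_pow]; exact (QuotientGroup.eq_one_iff _).2 (c3 a ha)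
      rw [pow_succ, sq, mul_eq_one_iff_inv_eq.2 z, one_mul] at this
      simp [this] at n)
  have m0 : M = ∅ := by
    have s7 := od.lt (by omega)
    have := Nat.eq_zero_of_dvd_of_lt (Nat.Coprime.mul_dvd_of_dvd_of_dvd
      ((Nat.coprime_primes od.1 Nat.prime_two).2 (by omega)) m1 m2) (by
        have : s ≠ 4 := by rintro rfl; exact absurd od.1 (by decide)
        omega)
    exact (Set.ncard_eq_zero).1 this
  have cσ : ∀ a ∈ A, (lin F V a).toLinearMap ∈ Algebra.adjoin F {(lin F V σ).toLinearMap} := fun a ha => by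
    have e : π σ * π a * (π σ)⁻¹ = π a := by_contra fun n => (m0.le ⟨⟨a, ha, rfl⟩, n⟩ :)
    have hz : σ * a * σ⁻¹ * a⁻¹ ∈ Zs F V G := (QuotientGroup.eq_one_iff _).1 (by
      change π _ = 1; simp only [map_mul, map_inv, e, mul_inv_cancel])
    have := (zc fa hz (a * σ * a⁻¹)).mul_pow s
    rw [conj_pow, σs, show σ * a * σ⁻¹ * a⁻¹ * (a * σ * a⁻¹) = σ by group, σs, mul_one, mul_inv_cancel, mul_one] at this
    have := z1 _ hz this.symm
    rw [mul_inv_eq_one, mul_inv_eq_iff_eq_mul] at this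
    exact (irr hF od d3 σs fun z => σ1 (fa σ z)).adj fun v => by simp only [LinearEquiv.coe_coe, lin_apply, ← mul_smul, this]
  exact a5 (a3 ⟨a4, fun y hy => gext fa fun v => by
    simpa [mul_smul] using LinearMap.congr_fun (Algebra.commute_of_mem_adjoin_singleton_of_commute
      (a := (lin F V y).toLinearMap) (cσ a0 a4) (Algebra.commute_of_mem_adjoin_self (cσ y hy)).symm).eq v⟩)

end fa

theorem sol3 : SOL3 C H := by
  intro un hs W nW d3 hW tr
  have : Group.IsSolvable H := hs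
  let _ : DistribMulAction H W :=
    { smul h w := ⟨h.1 • w.1, (hW h.2 w).2 w.2⟩
      one_smul w := Subtype.ext (one_smul G w.1)
      mul_smul a b w := Subtype.ext (mul_smul a.1 b.1 w.1)
      smul_zero a := Subtype.ext (smul_zero a.1)
      smul_add a v w := Subtype.ext (smul_add a.1 v.1 w.1) }
  have : SMulCommClass H F W := ⟨fun h c w => Subtype.ext (gsc h.1 c w.1)⟩
  let ρ : Fˣ × H →* (W ≃ₗ[F] W) := (DistribMulAction.toModuleAut F W).noncommCoprod (DistribMulAction.toModuleAut F W)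
    fun c h => LinearEquiv.ext fun w => (smul_comm h c.1 w).symm
  have e : ∀ (x : Fˣ × H) (w : W), (ρ x w : V) = x.1.1 • x.2.1 • w.1 := fun _ _ => rfl
  have : Finite (W ≃ₗ[F] W) := Finite.of_injective _ DFunLike.coe_injective
  have := Fintype.ofFinite ρ.range
  have := Fintype.ofFinite W
  have : Group.IsSolvable Fˣ := Group.isSolvable_of_comm mul_comm
  have := Group.isSolvable_of_surjective ρ.rangeRestrict_surjective
  obtain ⟨v, h1, h2⟩ := ex_is (C := C) (U := W) (by omega)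
  refine sol (F := F) (V := W) (G := ρ.range) (fun g h => Subtype.ext (LinearEquiv.ext h)) d3 hF un.q3
    (I := {w | Is C w.1}) (fun h => h.1 rfl) ?_ (v := ⟨v, h1⟩) h2 (fun w hw => ?_) ?_
  · rintro ⟨_, x, rfl⟩ w hw
    exact (un.is_smul.2 hw).sml x.1.ne_zero
  · obtain ⟨k, hk, c, c0, h⟩ := (tr v h1 w w.2 h2 hw).ex h2.1
    exact ⟨⟨_, ((Units.mk0 c c0)⁻¹, ⟨k, hk⟩), rfl⟩, Subtype.ext ((e _ _).trans (by simp [h, c0]))⟩
  · rw [← Set.ncard_image_of_injective _ Subtype.val_injective, show Subtype.val '' {w : W | Is C w.1} =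
      {v | v ∈ W ∧ Is C v} from Set.ext fun v => ⟨by rintro ⟨w, h, rfl⟩; exact ⟨w.2, h⟩, fun h => ⟨⟨v, h.1⟩, h.2, rfl⟩⟩,
      ncard_is_on nW (by omega), d3, aa_odd (by decide), aa_even (by decide)]

theorem slv {N D : Subgroup G} [Group.IsSolvable D] (h : ⁅N, N⁆ ≤ D) : Group.IsSolvable N := by
  have : Group.IsSolvable (D.subgroupOf N) := Group.isSolvable_of_isSolvable_injective
    (f := (N.subtype.comp (D.subgroupOf N).subtype).codRestrict D fun x => x.2) fun x y e =>
      Subtype.ext (Subtype.ext (congrArg (Subtype.val : D → G) e))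
  refine Group.isSolvable_of_ker_le_range (D.subgroupOf N).subtype Abelianization.of ?_
  rw [Abelianization.ker_of, Subgroup.range_subtype]
  exact Subgroup.commutator_le.2 fun a _ b _ => h (Subgroup.commutator_mem_commutator a.2 b.2)

theorem det_inv {M N : Submodule F V} (h : IsCompl M N) (f : V →ₗ[F] V) (h1 : ∀ m ∈ M, f m = -m) (h2 : ∀ n ∈ N, f n = n) :
    LinearMap.det f = (-1) ^ finrank F M := by
  have : f = (M.prodEquivOfIsCompl N h).toLinearMap ∘ₗ (((-1 : F) • LinearMap.id).prodMap LinearMap.id) ∘ₗ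
      (M.prodEquivOfIsCompl N h).symm.toLinearMap := by
    ext v
    obtain ⟨⟨m, n⟩, rfl⟩ := (M.prodEquivOfIsCompl N h).surjective v
    simp only [LinearMap.comp_apply, LinearEquiv.coe_coe, LinearEquiv.symm_apply_apply]
    simp [h1, h2]
  rw [this, LinearMap.det_conj, LinearMap.det_prodMap, LinearMap.det_smul]
  simp

theorem per3 : PER3 C H := by
  intro un pp nt r e x y W pe h3
  by_contra ni
  have nd := un.nd
  have dW : finrank F W = 3 := by have := pe.dim; omega
  obtain ⟨U, h1, h0, ce⟩ := (cen un r e y W pe.toYe).ex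
  obtain ⟨u, hu, u0⟩ := (Submodule.ne_bot_iff U).1 h0
  have ok : Odd (Nat.card ↥(H ⊓ fixingSubgroup G (C.perp W : Set V))) := by
    by_contra z
    obtain ⟨⟨k, hk, k1⟩, o⟩ := exists_prime_orderOf_dvd_card' 2 (even_iff_two_dvd.1 (Nat.not_odd_iff_even.1 z))
    rw [← Subgroup.orderOf_coe] at o
    replace k1 := (mem_fixingSubgroup_iff G).1 k1
    have kk : ∀ v : V, k • k • v = v := fun v => by rw [← mul_smul, ← sq, ← o, pow_orderOf_eq_one, one_smul]
    have n1 : k ≠ 1 := fun z => by simp [z] at o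
    have il : ∀ u v, C.B (k • u) v = C.B u (k • v) := fun u v => by rw [← un.iso k u, kk]
    have mW : ∀ v, k • v - v ∈ W := fun v => nd.perp_perp W ▸ C.mem_perp.2 fun z hz => by
      rw [map_sub, ← il, k1 z hz, sub_self]
    by_cases h2 : (2 : F) = 0
    · set X := LinearMap.range ((lin F V k).toLinearMap - LinearMap.id)
      have t : X ≤ C.perp X := by
        rintro _ ⟨v, rfl⟩
        refine C.mem_perp.2 ?_
        rintro _ ⟨w, rfl⟩
        show C.B (k • w - w) (k • v - v) = 0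
        rw [C.B_sub_left, map_sub, map_sub, un.iso, il]
        linear_combination (C.B w v - C.B w (k • v)) * h2
      have := ti_le pe.nd (X := X) (by rintro _ ⟨v, rfl⟩; exact mW v) t
      obtain ⟨w, hw⟩ : ∃ w : V, k • w - w ≠ 0 := by by_contra! z; exact n1 (un.fa k fun v => sub_eq_zero.1 (z v))
      have e : (F ∙ (k • w - w)) = X := Submodule.eq_of_le_of_finrank_le
        ((Submodule.span_singleton_le_iff_mem _ _).2 ⟨w, rfl⟩) (by rw [finrank_span_singleton hw]; omega)
      have ix : Is C (k • w - w) := ⟨hw, C.mem_perp.1 (t ⟨w, rfl⟩) _ ⟨w, rfl⟩⟩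
      have fx : k • (k • w - w) = k • w - w := by
        rw [smul_sub, kk]; generalize k • w = z; linear_combination (norm := module) h2 • (w - z)
      have m : ∀ v, k • v - v ∈ F ∙ (k • w - w) := fun v => e ▸ ⟨v, rfl⟩
      generalize k • w - w = x at *
      obtain ⟨s, c, hs, uu⟩ := un.uu_of ix fx fun v _ => m v
      obtain ⟨z, -, hz⟩ := ex_par nd ix
      obtain ⟨d, rfl⟩ := Submodule.mem_span_singleton.1 (show s ∈ F ∙ x by
        convert add_mem (add_mem (m z) (Submodule.smul_mem _ (C.B s z) (Submodule.mem_span_singleton_self x)))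
          (Submodule.smul_mem _ c (Submodule.mem_span_singleton_self x)) using 1
        rw [uu z, Bone hz]; module)
      rw [← zero_add (d • x), Uu.shift, Uu.tr] at uu
      exact n1 ((un.tr_eq_one uu ix.1).2 (un.not_tr nt hk uu ix))
    set M := LinearMap.ker ((lin F V k).toLinearMap + LinearMap.id)
    have mM : ∀ v, v ∈ M ↔ k • v = -v := fun v => add_eq_zero_iff_eq_neg
    have dM : ∀ v, k • v - v ∈ M := fun v => (mM _).2 (by rw [smul_sub, kk, neg_sub])
    have o : ∀ m ∈ M, ∀ v, k • v = v → C.B m v = 0 := fun m hm v hv => mul_left_cancel₀ h2 (by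
      have := il m v
      rw [(mM m).1 hm, hv, C.B_neg_left] at this
      linear_combination -this)
    have nM : C.NondegOn M := fun m hm h => nd m fun v => mul_left_cancel₀ h2 (by
      have a := h _ (dM v)
      have b := o m hm (k • v + v) (by rw [smul_add, kk, add_comm])
      rw [map_sub] at a
      rw [map_add] at b
      linear_combination b - a)
    have pM : ∀ v ∈ C.perp M, k • v = v := fun v hv => sub_eq_zero.1 (nM _ (dM v) fun m hm => by
      rw [C.B_sub_left, il, (mM m).1 hm, map_neg, C.mem_perp'.1 hv m hm, neg_zero, sub_zero])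
    have dt := det_inv (nd.isCompl_perp nM) (lin F V k).toLinearMap (fun m => (mM m).1) pM
    rw [un.det, eq_comm, neg_one_pow_eq_one_iff_even fun z => h2 (by linear_combination -z)] at dt
    have l : finrank F M ≤ finrank F W := Submodule.finrank_mono fun m hm => nd.perp_perp W ▸ C.mem_perp'.2 fun z hz =>
      o m hm z (k1 z hz)
    have m0 : finrank F M ≠ 0 := fun z => n1 (un.fa k fun v => sub_eq_zero.1 ((Submodule.finrank_eq_zero.1 z).le (dM v)))
    have d2 : finrank F M = 2 := by obtain ⟨j, hj⟩ := dt; omega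
    obtain ⟨a, a1, a2⟩ := ex_is (C := C) d2.ge
    obtain ⟨b, b1, b2, b3⟩ : ∃ b ∈ M, Is C b ∧ C.B b a ≠ 0 := by
      by_contra! z
      exact a2.1 (perp_is nd nM d2.ge a1 z)
    have ab := C.B_swap_ne b3
    refine ni ⟨h2, k, hk, a, b, a2.2, b2.2, ab, (mM a).1 a1, (mM b).1 b1, fun w w1 w2 => pM w ?_⟩
    rw [← Submodule.eq_of_le_of_finrank_eq (ln_le.2 ⟨a1, b1⟩) ((ind_of_ne a2.2 ab).finrank.trans d2.symm)]
    exact mem_pp_ln.2 ⟨w1, w2⟩
  have := H20.odd_solvable _ ok
  have : Group.IsSolvable ↥(H ⊓ Subgroup.centralizer {y}) := slv (D := H ⊓ fixingSubgroup G (C.perp W : Set V))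
    (Subgroup.commutator_le.2 fun a ha b hb => by
      have ca : Commute a y := Subgroup.mem_centralizer_singleton_iff.1 ha.2
      have cb : Commute b y := Subgroup.mem_centralizer_singleton_iff.1 hb.2
      have cc : Commute (a * b * a⁻¹ * b⁻¹) y := ((ca.mul_left cb).mul_left ca.inv_left).mul_left cb.inv_left
      refine ⟨H.mul_mem (H.mul_mem (H.mul_mem ha.1 hb.1) (H.inv_mem ha.1)) (H.inv_mem hb.1),
        (mem_fixingSubgroup_iff G).2 fun z hz => ((ce _ cc).2.1 1 (by simp) u hu u0 ?_ z hz).trans (one_smul F z)⟩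
      rw [mul_smul, mul_smul, mul_smul, (ce a ca).2.2 b cb _
        ((ce _ ca.inv_left).1 _ ((ce _ cb.inv_left).1 u hu))]
      simp)
  have nz : ∀ a ∈ Subgroup.normalizer (Subgroup.zpowers y : Set G), ∃ i : ℤ, y ^ i = a * y * a⁻¹ := fun a ha =>
    (Subgroup.mem_normalizer_iff.1 ha y).1 (Subgroup.mem_zpowers y)
  have : Group.IsSolvable ↥(H ⊓ Subgroup.normalizer (Subgroup.zpowers y : Set G)) :=
    slv (D := H ⊓ Subgroup.centralizer {y}) (Subgroup.commutator_le.2 fun a ha b hb => by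
      refine ⟨H.mul_mem (H.mul_mem (H.mul_mem ha.1 hb.1) (H.inv_mem ha.1)) (H.inv_mem hb.1),
        Subgroup.mem_centralizer_singleton_iff.2 ?_⟩
      obtain ⟨i, hi⟩ := nz a ha.2
      obtain ⟨j, hj⟩ := nz b hb.2
      obtain ⟨k, hk⟩ := nz _ (inv_mem (mul_mem hb.2 ha.2))
      have e : a * b * y * (a * b)⁻¹ = b * a * y * (b * a)⁻¹ :=
        calc _ = a * (b * y * b⁻¹) * a⁻¹ := by group
          _ = b * (a * y * a⁻¹) * b⁻¹ := by rw [← hj, ← conj_zpow, ← hi, ← conj_zpow, ← hj, ← zpow_mul, ← zpow_mul, mul_comm i]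
          _ = _ := by group
      rw [← mul_inv_eq_iff_eq_mul]
      calc _ = a * b * ((b * a)⁻¹ * y * (b * a)⁻¹⁻¹) * (a * b)⁻¹ := by rw [commutatorElement_def]; group
        _ = y := by rw [← hk, ← conj_zpow, e, conj_zpow, hk]; group)
  refine sol3 un this W pe.nd dW (fun a ha => mem_St_of fun w hw => (pe.fix _).1 ?_) fun v hv w hw iv iw => ?_
  · obtain ⟨i, hi⟩ := nz _ (inv_mem ha.2)
    have : y ^ i • w = w := (stabilizer G w).zpow_mem ((pe.fix w).2 hw) i
    rwa [hi, inv_inv, mul_smul, mul_smul, inv_smul_eq_iff] at this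
  · obtain ⟨h, hh, c, c0, e⟩ := (pp v w iv iw).ex iv.1
    obtain ⟨ν, k1, k2, k3⟩ := pe.fus h hh v hv iv.1 (e ▸ W.smul_mem c hw)
    exact ⟨ν, ⟨k1, k2⟩, by rw [k3, e]; exact Submodule.smul_mem _ c (Submodule.mem_span_singleton_self w)⟩

end H9.RU
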