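/-
Standard subgroups of type `Sp₆(2)` whose centralizer has rank at least two: the local analysis.
-/
import Cfsg.Agent.H24.SQ0

set_option autoImplicit false
set_option linter.unusedSectionVars false

namespace H9.S6
open Subgroup Module H26.SP H26.SP.Geo
open H24.SQ (Tw)
open H12 (spanL mem_spanL)

variable {S : Geo} {D M Z : Subgroup S.Sp} {u v w x y z p q e f : S.V} {a b c : S.F} {d g i l : S.Sp} {U : Submodule S.F S.V}

theorem one_of (ex : Tw S) (h : c ≠ 0) : c = 1 := (ex.two c).resolve_left h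
theorem span3 (ex : Tw S) (H : Mx U) (k : Ind3 u v w) (hu : u ∈ U) (hv : v ∈ U) (hw : w ∈ U) (hx : x ∈ U) :
    ∃ a b c : S.F, x = a • u + b • v + c • w := by
  have h1 := H.dim
  have h2 := finrank_span_eq_card k.li
  have h3 : Submodule.span S.F (Set.range ![u, v, w]) = U := Submodule.eq_of_le_of_finrank_eq
    (Submodule.span_le.2 (by rintro _ ⟨j, rfl⟩; fin_cases j <;> assumption)) (by rw [h2, ex.six] at *; simp; omega)
  obtain ⟨c, rfl⟩ := Submodule.mem_span_range_iff_exists_fun S.F |>.1 (h3.ge hx)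
  exact ⟨c 0, c 1, c 2, by simp [Fin.sum_univ_three]⟩
/-- splitting off a short root element -/
theorem alt1 (H : Mx U) (hg : g ∈ E U) (al : ∀ x, S.B x (g.1 x) = 0) (g1 : g ≠ 1) : ∃ p ∈ U, ∃ q ∈ U, ∃ x y z z', p = g.1 z + z ∧
    q = g.1 z' + z' ∧ S.B p x = 0 ∧ S.B q x = 1 ∧ S.B p y = 1 ∧ S.B q y = 0 ∧ (g * S.rh p q 0).1 x = x ∧ (g * S.rh p q 0).1 y = y := by
  obtain ⟨x, hx⟩ : ∃ x, g.1 x + x ≠ 0 := by_contra fun n => g1 (gext fun x => ve.1 (by_contra fun k => n ⟨x, k⟩))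
  obtain ⟨y, hy⟩ := part1 hx
  have o := H.iso (E_sub hg x) (E_sub hg y)
  have k : ∀ x, g.1 (g.1 x) = x := fun x => congrArg (·.1 x) (H.sq hg)
  have h1 : S.B (g.1 x + x) x = 0 := by simp [sw (al x)]
  have h2 : S.B (g.1 y + y) y = 0 := by simp [sw (al y)]
  have h3 : S.B (g.1 y + y) x = 1 := by
    rw [← hy, B_al, B_al, ← gB g (g.1 y), k, Bc y, Bc y]
  refine ⟨_, E_sub hg x, _, E_sub hg y, x, y, x, y, rfl, rfl, h1, h3, hy, h2, ?_, ?_⟩
  · rw [mul_ap, s_ap o, h1, h3]; simp [k, add_comm x]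
  · rw [mul_ap, s_ap o, hy, h2]; simp [k, add_comm y]
theorem ind_xy (h1 : S.B p x = 0) (h2 : S.B q x = 1) (h3 : S.B p y = 1) (h4 : S.B q y = 0) : Ind p q := fun c d k =>
  ⟨by simpa [h3, h4] using congrArg (S.B · y) k, by simpa [h1, h2] using congrArg (S.B · x) k⟩
/-- alternating involutions are short root elements -/
theorem alt2 (ex : Tw S) (H : Mx U) (hg : g ∈ E U) (al : ∀ x, S.B x (g.1 x) = 0) (g1 : g ≠ 1) :
    ∃ p ∈ U, ∃ q ∈ U, Ln p q ∧ g = S.rh p q 0 := by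
  obtain ⟨p, hp, q, hq, x, y, -, -, -, -, h1, h2, h3, h4, h5, h6⟩ := alt1 H hg al g1
  have o := H.iso hp hq
  have k := ind_xy h1 h2 h3 h4
  refine ⟨p, hp, q, hq, ⟨k, o⟩, by_contra fun n => ?_⟩
  obtain ⟨p', hp', q', hq', x', y', z, z', e1, e2, h1', h2', h3', h4', -⟩ := alt1 H (mul_mem hg (rh_E hp hq 0)) (fun z => by
    rw [mul_ap, s_ap o]; simp [al, H.fix hg hp, H.fix hg hq, Bc z p, Bc z q, mul_comm]) fun k => n (by rw [eq_inv_of_mul_eq_one_left k, rh_inv])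
  have b1 : S.B x p' = 0 := e1 ▸ fixB h5 z
  have b2 : S.B y p' = 0 := e1 ▸ fixB h6 z
  have b3 : S.B x q' = 0 := e2 ▸ fixB h5 z'
  have b4 : S.B y q' = 0 := e2 ▸ fixB h6 z'
  have k' := ind_xy h1' h2' h3' h4'
  obtain ⟨a, b, c, e⟩ := span3 ex H (k.ind3 (w := p') fun m => by
    obtain ⟨a, b, e⟩ := sp2.1 m
    have a0 : a = 0 := by simpa [e, sw h3, sw h4] using b2
    have b0 : b = 0 := by simpa [e, sw h1, sw h2] using b1
    exact k'.ne (by simp [e, a0, b0])) hp hq hp' hq'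
  have a0 : a = 0 := by simpa [e, sw h3, sw h4, b2] using b4
  have b0 : b = 0 := by simpa [e, sw h1, sw h2, b1] using b3
  exact k'.nm (sp1.2 ⟨c, by simp [e, a0, b0]⟩)
/-- the characteristic vector of an involution -/
theorem chv (ex : Tw S) (H : Mx U) (hg : g ∈ E U) : ∃ u ∈ U, ∀ x, S.B x (g.1 x) = S.B u x := by
  have k : ∀ x, g.1 (g.1 x) = x := fun x => congrArg (·.1 x) (H.sq hg)
  have ad : ∀ x y, S.B (x + y) (g.1 (x + y)) = S.B x (g.1 x) + S.B y (g.1 y) := fun x y => by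
    have : S.B y (g.1 x) = S.B x (g.1 y) := by rw [← gB g y, k, Bc]
    rw [map_add, B_al, B_ar, B_ar, this]; linear_combination aa (S.B x (g.1 y))
  suffices ∃ u, ∀ x, S.B x (g.1 x) = S.B u x from
    let ⟨u, h⟩ := this; ⟨u, (H u).2 fun r hr => sw (by rw [← h, H.fix hg hr, BB]), h⟩
  by_cases al : ∀ x, S.B x (g.1 x) = 0
  · exact ⟨0, by simpa using al⟩
  obtain ⟨x0, h0⟩ := not_forall.1 al
  let K : Submodule S.F S.V := ⟨⟨⟨{x | S.B x (g.1 x) = 0}, fun {x y} (h : _ = _) (h' : _ = _) => show _ = _ by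
    rw [ad, h, h', add_zero]⟩, by simp⟩, fun c x (h : _ = _) => show _ = _ by simp [h]⟩
  obtain ⟨u, h1, h2⟩ := exPU K (x := x0) h0 1
  refine ⟨u, fun x => (ex.two (S.B x (g.1 x))).elim (fun k => k.trans (sw (h1 x k)).symm) fun k => ?_⟩
  have := h1 (x + x0) (show _ = _ by rw [ad, k, one_of ex h0, aa])
  rw [B_al, h2, ae] at this
  exact k.trans (sw this).symm
/-- the classes of involutions -/
theorem nf (ex : Tw S) (H : Mx U) (hg : g ∈ E U) : (∃ u y c, S.B u y = 0 ∧ g = S.rh u y c) ∨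
    ∃ u ∈ U, ∃ p ∈ U, ∃ q ∈ U, Pl u p q ∧ g = S.rh p q 0 * S.rh u 0 1 := by
  obtain ⟨u, hu, h⟩ := chv ex H hg
  have e : g = g * S.rh u 0 1 * S.rh u 0 1 := by rw [mul_assoc, rh_sq, mul_one]
  by_cases g1 : g * S.rh u 0 1 = 1
  · exact .inl ⟨u, 0, 1, by simp, by rw [e, g1, one_mul]⟩
  obtain ⟨p, hp, q, hq, k, e'⟩ := alt2 ex H (mul_mem hg (rh_E hu (zero_mem _) 1)) (fun x => by
    rw [mul_ap, tau_ap]
    rcases ex.two (S.B u x) with k | k <;> simp [h, k, H.fix hg hu, Bc x u]) g1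
  rw [e'] at e
  by_cases m : u ∈ spanL S.F [p, q]
  swap; · exact .inr ⟨u, hu, p, hp, q, hq, ⟨(k.i.ind3 m).sw23.sw12, H.iso hu hp, H.iso hu hq, k.b⟩, e⟩
  obtain ⟨a, b, rfl⟩ := sp2.1 m
  left
  rcases ex.two a with rfl | rfl <;> rcases ex.two b with rfl | rfl
  · exact ⟨p, q, 0, k.b, by simpa [rh_zl] using e⟩
  · exact ⟨q, p, 0 + 1, sw k.b, by rw [← rh_tau (sw k.b), s_symm q]; simpa using e⟩
  · exact ⟨p, q, 0 + 1, k.b, by rw [← rh_tau k.b]; simpa using e⟩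
  · have o : S.B (p + q) q = 0 := by simp [k.b]
    exact ⟨p + q, q, 0 + 1, o, by
      rw [← rh_tau o, s_symm (p + q), ← one_smul S.F q, one_smul, show p + q = p + (1 : S.F) • q by simp, rh_shift (sw k.b), s_symm q]
      simpa using e⟩

/-- the local data -/
structure Lo (D M Z : Subgroup S.Sp) : Prop where
  MD : ∀ g ∈ M, ∀ d ∈ D, g * d * g⁻¹ ∈ D
  DM : ∀ d ∈ D, ∀ g ∈ M, d * g * d⁻¹ ∈ M
  cen : ∀ i ∈ D, i * i = 1 → i ≠ 1 → ∀ g, g * i = i * g → g ∈ M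
  top : ∃ g, g ∉ M
  ex : ∀ l ∈ D, l * l = 1 → l ≠ 1 → ∀ P : Subgroup S.Sp, (∀ y ∈ P, y * y = 1) → (∀ y ∈ P, y * l = l * y) →
    ∃ a ∈ D, a ≠ 1 ∧ a ≠ l ∧ ∀ y ∈ P, a * y * a⁻¹ = y ∨ a * y * a⁻¹ = l * y ∧ l ∈ Z
/-- centres of transvections in `M` -/
def Wm (M : Subgroup S.Sp) (y : S.V) : Prop := S.rh y 0 1 ∈ M
/-- the vectors orthogonal to them -/
def Rm (M : Subgroup S.Sp) (v : S.V) : Prop := ∀ y, Wm M y → S.B y v = 0

theorem w1 (hy : Wm M y) (hz : Wm M z) (b : S.B y z = 1) : Wm M (y + z) := by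
  have := mul_mem (mul_mem hy hz) (inv_mem hy)
  rwa [conj_tau, tau_ap, b, mul_one, one_smul, add_comm] at this
theorem w2 (ex : Tw S) (H : Mx U) (hU : ∀ u ∈ U, Wm M u) (hy : Wm M y) (hu : u ∈ U) : Wm M (y + u) := by
  by_cases m : y ∈ U
  · exact hU _ (add_mem m hu)
  obtain ⟨r, hr, b⟩ : ∃ r ∈ U, S.B r y = 1 := by_contra fun n => m ((H y).2 fun r hr => (ex.two _).resolve_right fun k => n ⟨r, hr, k⟩)
  rcases ex.two (S.B y u) with k | k
  · have := w1 (w1 hy (hU r hr) (sw b)) (hU _ (add_mem hr hu)) (by simp [sw b, k, H.iso hr hu])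
    rwa [add_assoc, vvl] at this
  · exact w1 hy (hU u hu) k
theorem w3 (ex : Tw S) (H : Mx U) (hU : ∀ u ∈ U, Wm M u) (hy : Wm M y) (hz : Wm M z) : Wm M (y + z) := by
  by_cases m : y ∈ U
  · exact add_comm z y ▸ w2 ex H hU hz m
  obtain ⟨r, hr, b⟩ : ∃ r ∈ U, S.B r y = 1 := by_contra fun n => m ((H y).2 fun r hr => (ex.two _).resolve_right fun k => n ⟨r, hr, k⟩)
  rcases ex.two (S.B y z) with k | k
  · have := w2 ex H hU (w1 hy (w2 ex H hU hz hr) (by simp [sw b, k])) hr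
    rwa [← add_assoc, vvr] at this
  · exact w1 hy hz k
theorem Rm.add (h : Rm M v) (h' : Rm M w) : Rm M (v + w) := fun y hy => by simp [h y hy, h' y hy]
theorem Rm.smul (h : Rm M v) (c : S.F) : Rm M (c • v) := fun y hy => by simp [h y hy]
theorem Rm.mv (h : Rm M v) (hg : g ∈ M) : Rm M (g.1 v) := fun y hy => by
  have := mul_mem (mul_mem (inv_mem hg) hy) (inv_mem (inv_mem hg))
  rw [conj_tau] at this
  rw [← gB g⁻¹, inv_ap]; exact h _ this

namespace Lo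
variable (h : Lo D M Z)
include h
theorem br (hd : d ∈ D) (hg : g ∈ M) : d * g * d⁻¹ * g⁻¹ ∈ D := by
  simpa only [mul_assoc] using mul_mem hd (h.MD g hg _ (inv_mem hd))
theorem fixW (hi : i ∈ D) (ii : i * i = 1) (i1 : i ≠ 1) (k : i.1 y = y) : Wm M y := h.cen i hi ii i1 _ (cm_tau k 1).symm
theorem sup (hi : S.rh u y c ∈ D) (i1 : S.rh u y c ≠ 1) (hv : Rm M v) : ∃ a b : S.F, v = a • u + b • y :=
  pp2 fun z h1 h2 => sw (hv z (h.fixW hi (rh_sq ..) i1 (rh_fix h1 h2 c)))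
variable (ex : Tw S)
include ex
theorem exW (hi : i ∈ D) (ii : i * i = 1) (i1 : i ≠ 1) :
    (∃ v, v ≠ 0 ∧ Rm M v) ∧ (∀ x, (∀ v, Rm M v → S.B x v = 0) → Wm M x) ∧ ∀ v, Rm M v → Wm M v := by
  obtain ⟨U, H, hU⟩ := inv_E ii
  have k : ∀ u ∈ U, Wm M u := fun u hu => h.fixW hi ii i1 (H.fix hU hu)
  let W : Submodule S.F S.V := ⟨⟨⟨{y | Wm M y}, w3 ex H k⟩, k 0 (zero_mem _)⟩, fun c x hx => by
    rcases ex.two c with rfl | rfl
    exacts [by simpa using k 0 (zero_mem _), by simpa using hx]⟩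
  obtain ⟨g, hg⟩ := h.top
  obtain ⟨w, hw⟩ := not_forall.1 fun n => hg (gen_top M n g)
  obtain ⟨v, h1, h2⟩ := exPU W (x := w) hw 1
  exact ⟨⟨v, fun e => by simp [e] at h2, h1⟩, fun x hx => ppU W hx, fun v hv => k v ((H v).2 fun r hr => hv r (k r hr))⟩
theorem exQ (hl : S.rh u y c ∈ D) (l1 : S.rh u y c ≠ 1) (o : S.B u y = 0) : ∃ a ∈ D, a ≠ 1 ∧ a ≠ S.rh u y c ∧ a.1 u = u ∧
    ∀ x, S.B u x = 0 → (∃ e : S.F, a.1 x = x + e • u) ∨
      c + S.B y x = 0 ∧ S.rh u y c ∈ Z ∧ a * S.rh u x 0 * a⁻¹ = S.rh u y c * S.rh u x 0 := by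
  have u0 : u ≠ 0 := fun e => l1 (by rw [e, rh_zl])
  obtain ⟨a, ha, a1, a2, k⟩ := h.ex _ hl (rh_sq ..) l1 (Ql [u]) (fun g hg => by
    obtain ⟨x, b, -, rfl⟩ := (mem_Q1 u0).1 hg; exact rh_sq ..) fun g hg => by
    obtain ⟨x, b, o', rfl⟩ := (mem_Q1 u0).1 hg; exact rh_comm o' o _ _
  have n : ∀ c : S.F, u = c • a.1 u → a.1 u = u := fun c e => by
    rcases ex.two c with rfl | rfl
    exacts [(u0 (by simpa using e)).elim, by simpa using e.symm]
  have au : a.1 u = u := by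
    rcases k _ ((mem_Q1 u0).2 ⟨0, 1, by simp, rfl⟩) with e | ⟨e, -⟩ <;> rw [conj_tau] at e
    · obtain ⟨c, e, -⟩ := tau_eq (sne a u0) one_ne_zero e.symm; exact n c e
    · obtain ⟨c, -, e, -⟩ := rh_eq_tau (sne a u0) one_ne_zero o ((rh_tau o _ _).symm.trans e.symm); exact n c e
  refine ⟨a, ha, a1, a2, au, fun x hx => ?_⟩
  have o' : S.B u (a.1 x) = 0 := by rw [← au, gB, hx]
  refine (k _ ((mem_Q1 u0).2 ⟨x, 0, hx, rfl⟩)).imp (fun e => ?_) fun ⟨e, hZ⟩ => ⟨?_, hZ, e⟩ <;> rw [conj_rh, au] at e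
  · obtain ⟨c, e, -⟩ := rh_inj u0 hx o' e.symm; exact ⟨c, e⟩
  · rw [rh_mul o hx] at e
    obtain ⟨-, -, e⟩ := rh_inj u0 o' (by simp [o, hx]) e
    simpa using e.symm
theorem sR (k : Ln p q) (hs : S.rh p q 0 ∈ D) : Rm M p := by
  have mv : ∀ p' q', Ln p' q' → S.rh p' q' 0 = S.rh p q 0 → Rm M p' → Rm M p := fun p' q' k' e r => by
    obtain ⟨g, e1, e2⟩ := k'.witt k
    exact e1 ▸ r.mv (h.cen _ hs (rh_sq ..) (k.ne 0) g (mul_inv_eq_iff_eq_mul.1 (by rw [← e, conj_rh, e1, e2, e])))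
  obtain ⟨v, v0, r⟩ := (h.exW ex hs (rh_sq ..) (k.ne 0)).1
  obtain ⟨a, b, rfl⟩ := h.sup hs (k.ne 0) r
  rcases ex.two a with rfl | rfl <;> rcases ex.two b with rfl | rfl
  · exact (v0 (by simp)).elim
  · exact mv q p k.symm (s_symm ..) (by simpa using r)
  · simpa using r
  · exact mv _ q (k.symm.shift 1).symm (by rw [s_symm, rh_shift (sw k.b), s_symm]) (by simpa using r)
theorem noT (v0 : v ≠ 0) (hv : S.rh v 0 1 ∈ D) : False := by
  obtain ⟨a, ha, a1, a2, au, k⟩ := h.exQ ex hv (tau_ne v0 one_ne_zero) (by simp)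
  obtain ⟨y, c, o, rfl⟩ := eq_rh v0 au fun x hx => (k x hx).resolve_right fun e => by simpa using e.1
  have n : Ln v y := ⟨ind_of v0 fun m => by
    obtain ⟨e, rfl⟩ := sp1.1 m
    rw [rh_self] at a1 a2
    rcases ex.two c with rfl | rfl
    exacts [a1 (rh_one v), a2 rfl], o⟩
  have s : S.rh y v 0 ∈ D := by
    rw [s_symm]
    rcases ex.two c with rfl | rfl
    exacts [ha, by simpa [rh_tau o] using mul_mem ha hv]
  obtain ⟨a, b, e⟩ := h.sup hv (tau_ne v0 one_ne_zero) (h.sR ex n.symm s)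
  exact n.i.nm (sp1.2 ⟨a, by simpa using e⟩)
/-- an element of `Q_u` whose support contains `y` -/
theorem inQ (k : Ln u y) (r : Rm M y) (ha : S.rh u x c ∈ D) (a1 : S.rh u x c ≠ 1) (o : S.B u x = 0) : S.rh u x c = S.rh u y c := by
  obtain ⟨a, b, e⟩ := h.sup ha a1 r
  rcases ex.two b with rfl | rfl
  · exact (k.i.nm (sp1.2 ⟨a, by simpa using e⟩)).elim
  · rw [e, one_smul, add_comm, rh_shift o]
theorem noS (k : Ln p q) (hs : S.rh p q 0 ∈ D) : False := by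
  obtain ⟨a, ha, a1, a2, au, n⟩ := h.exQ ex hs (k.ne 0) k.b
  have n1 : ∀ x, S.B p x = 0 → S.B q x = 1 → ∃ e : S.F, a.1 x = x + e • p := fun x hx b =>
    (n x hx).resolve_right fun e => by simpa [b] using e.1
  obtain ⟨f, f1, f2⟩ := k.i.dual 0 1
  obtain ⟨y, c, o, rfl⟩ := eq_rh k.i.ne au fun x hx => (ex.two (S.B q x)).elim (fun b => by
    obtain ⟨e, h1⟩ := n1 f f1 f2
    obtain ⟨e', h2⟩ := n1 (x + f) (by simp [hx, f1]) (by simp [b, f2])
    rw [map_add, h1] at h2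
    exact ⟨e + e', by linear_combination (norm := module) h2 - vv (e • p)⟩) (n1 x hx)
  have e := h.inQ ex k (h.sR ex k.symm (s_symm p q ▸ hs)) ha a1 o
  rw [e] at ha a2
  obtain rfl := one_of ex (c := c) fun e => a2 (by rw [e])
  have := mul_mem ha hs
  rw [rh_mul k.b k.b] at this
  exact h.noT ex k.i.ne (by simpa using this)
theorem cls (ha : S.rh u y c ∈ D) (a1 : S.rh u y c ≠ 1) (o : S.B u y = 0) : Ln u y ∧ c = 1 := by
  have u0 : u ≠ 0 := fun e => a1 (by rw [e, rh_zl])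
  have k : Ln u y := ⟨ind_of u0 fun m => by
    obtain ⟨e, rfl⟩ := sp1.1 m
    rw [rh_self] at a1 ha
    rcases ex.two c with rfl | rfl
    exacts [a1 (rh_one u), h.noT ex u0 ha], o⟩
  exact ⟨k, one_of ex fun e => h.noS ex k (e ▸ ha)⟩
theorem rhM (r : Rm M v) (r' : Wm M v) (hx : Wm M x) (wa : Wm M (v + x)) : S.rh v x 0 ∈ M := by
  have o := sw (r x hx)
  have := mul_mem (mul_mem wa (inv_mem hx)) r'
  rw [tau_add o, mul_inv_cancel_right, one_smul, rh_tau o, aa] at this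
  exact this
theorem cR (k : Ln u y) (hl : S.rh u y 1 ∈ D) : Rm M u ∧ Rm M y := by
  obtain ⟨⟨v, v0, r⟩, w, -⟩ := h.exW ex hl (rh_sq ..) (k.ne 1)
  have ru : Rm M u := by
    obtain ⟨a, b, rfl⟩ := h.sup hl (k.ne 1) r
    rcases ex.two b with rfl | rfl
    · obtain rfl := one_of ex (c := a) fun e => v0 (by simp [e])
      simpa using r
    obtain ⟨f, f1, f2⟩ := k.i.dual 0 1
    have := r.add (r.mv (h.cen _ hl (rh_sq ..) (k.ne 1) _ (rh_comm f1 k.b 0 1)))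
    rw [rh_perp f1 (by simp [k.b]), vvl] at this
    simpa [sw f1, sw f2] using this
  refine ⟨ru, by_contra fun n => ?_⟩
  obtain ⟨e, p⟩ := k.exPl
  obtain ⟨f, f1, f2, f3⟩ := p.i.dual 0 1 0
  have m : S.rh e f 0 ∈ M := genX0 k.i.ne M (fun z hz => w z fun v r => by
    obtain ⟨a, b, rfl⟩ := h.sup hl (k.ne 1) r
    rcases ex.two b with rfl | rfl
    · simp [sw hz]
    · exact (n (by simpa [← add_assoc] using (ru.smul a).add r)).elim) (mem_Fx1.2 (rh_fix (sw p.uw) (sw f1) 0))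
  have := mul_mem hl (h.MD _ m _ hl)
  rw [conj_rh, rh_fix (sw p.uw) (sw f1), s_ap f3, sw p.vw, sw f2, rh_mul k.b (by simp [k.b, p.uw])] at this
  exact h.noS ex p.l13 (by simpa [p.vw] using this)
theorem cE (k : Ln u y) (hl : S.rh u y 1 ∈ D) (hd : d ∈ D) (h1 : S.B u z = 0) (h2 : S.B y z = 0) : d.1 z = z := by
  obtain ⟨ru, ry⟩ := h.cR ex k hl
  have w : ∀ z, S.B u z = 0 → S.B y z = 0 → Wm M z := fun z h1 h2 => h.fixW hl (rh_sq ..) (k.ne 1) (rh_fix h1 h2 1)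
  have main : ∀ z, S.B u z = 0 → S.B y z = 0 → z ∉ spanL S.F [u, y] → d.1 z = z := fun z h1 h2 n => by
    have wz := w z h1 h2
    have wd : Wm M (d.1 z) := by have := h.DM d hd _ wz; rwa [conj_tau] at this
    have m := h.br hd wz
    rw [conj_tau] at m
    rcases ex.two (S.B (d.1 z) z) with b | b
    · have o : S.B (d.1 z + z) z = 0 := by simp [b]
      have e := tau_add o 1
      rw [vvr, one_smul] at e
      rw [e, mul_inv_cancel_right] at m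
      refine ve.1 (by_contra fun n' => ?_)
      have n1 : S.rh (d.1 z + z) z 1 ≠ 1 := fun q => one_ne_zero (rh_eq_one n' o q).2
      obtain ⟨a, b, e1⟩ := h.sup m n1 ru
      obtain ⟨c, f, e2⟩ := h.sup m n1 ry
      have i3 := k.i.ind3 n
      have a0 := (i3 c a (c * b + a * f) (by rw [e1, e2]; linear_combination (norm := module) vv ((c * a) • (d.1 z + z)) + vv ((c * b + a * f) • z))).2.1
      exact one_ne_zero (i3 1 0 b (by rw [e1, a0]; simp)).1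
    · have fu : (S.rh (d.1 z) 0 1 * (S.rh z 0 1)⁻¹).1 u = u := by
        rw [rh_inv, mul_ap, rh_fix (ru z wz) (by simp), rh_fix (ru _ wd) (by simp)]
      have m' := h.br m (h.rhM ex ru (w u (by simp) (sw k.b)) wz (w _ (by simp [h1]) (by simp [h2, sw k.b])))
      rw [br_rh h1 fu, rh_inv, mul_ap, rh_fix (BB z) (by simp), tau_ap, b] at m'
      simp only [mul_one, one_smul, B_al, BB, b, add_zero, add_comm z, vvr] at m'
      obtain ⟨a, c, e⟩ := h.sup m' (fun q => one_ne_zero (rh_eq_one k.i.ne (sw (ru _ wd)) q).2) ry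
      have c0 : c = 0 := by simpa [e, h1, b] using h2
      exact (k.i.nm (sp1.2 ⟨a, by simpa [c0] using e⟩)).elim
  by_cases m : z ∈ spanL S.F [u, y]
  swap; · exact main z h1 h2 m
  obtain ⟨e, p⟩ := k.exPl
  have e1 := main e p.uw p.vw p.i.nm
  have e2 := main (z + e) (by simp [h1, p.uw]) (by simp [h2, p.vw]) fun q => p.i.nm (by simpa [← add_assoc] using add_mem m q)
  rwa [map_add, e1, add_left_inj] at e2
/-- the conclusion of the local analysis -/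
def Out (D M Z : Subgroup S.Sp) : Prop :=
  (∃ i ∈ Z, i * i = 1 ∧ i ≠ 1) ∧ (∀ d ∈ D, ∀ d' ∈ D, d * d' = d' * d) ∧ ∃ g ∈ M, ∃ a ∈ D, a * g * a⁻¹ ≠ g
theorem outC (k : Ln u y) (hl : S.rh u y 1 ∈ D) : Out D M Z := by
  obtain ⟨a, ha, a1, a2, au, n⟩ := h.exQ ex hl (k.ne 1) k.b
  obtain ⟨x, hx, -, hZ, e⟩ : ∃ x, S.B u x = 0 ∧ 1 + S.B y x = 0 ∧ S.rh u y 1 ∈ Z ∧ a * S.rh u x 0 * a⁻¹ = S.rh u y 1 * S.rh u x 0 :=
    by_contra fun q => by
      obtain ⟨x, c, o, rfl⟩ := eq_rh k.i.ne au fun x hx => (n x hx).resolve_right fun e => q ⟨x, hx, e⟩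
      exact a2 ((h.inQ ex k (h.cR ex k hl).2 ha a1 o).trans (by rw [(h.cls ex ha a1 o).2]))
  obtain ⟨U, H, hu, hy⟩ := k.exMx
  have m : ∀ d ∈ D, d ∈ E U := fun d hd => H.mem_E.2 fun z hz => h.cE ex k hl hd (H.iso hu hz) (H.iso hy hz)
  exact ⟨⟨_, hZ, rh_sq .., k.ne 1⟩, fun d hd d' hd' => H.comm (m d hd) (m d' hd'), _,
    h.cen _ hl (rh_sq ..) (k.ne 1) _ (rh_comm hx k.b 0 1), a, ha, fun q => k.ne 1 (mul_eq_right.1 (e.symm.trans q))⟩
theorem exr (hl : l ∈ D) (ll : l * l = 1) (l1 : l ≠ 1) : ∃ u y c, S.B u y = 0 ∧ S.rh u y c ∈ D ∧ S.rh u y c ≠ 1 := by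
  obtain ⟨U, H, hU⟩ := inv_E ll
  obtain ⟨u, y, c, o, rfl⟩ | ⟨u, hu, p, hp, q, hq, k, rfl⟩ := nf ex H hU
  · exact ⟨u, y, c, o, hl, l1⟩
  refine by_contra fun n => ?_
  have n1 : ∀ u y c, S.B u y = 0 → S.rh u y c ∈ D → S.rh u y c = 1 := fun u y c o m => by_contra fun q => n ⟨u, y, c, o, m, q⟩
  obtain ⟨a, ha, a1, a2, e⟩ := h.ex _ hl ll l1 (E U) (fun _ => H.sq) fun g hg => H.comm hg hU
  have aU : a ∈ E U := H.mem_E.2 fun y hy => by_contra fun m => by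
    have y0 : y ≠ 0 := fun e => m (by simp [e])
    rcases e _ (rh_E hy (zero_mem _) 1) with e | ⟨e, -⟩ <;> rw [conj_tau] at e
    · obtain ⟨c, e, -⟩ := tau_eq y0 one_ne_zero e
      rcases ex.two c with rfl | rfl
      exacts [sne a y0 (by simpa using e), m (by simpa using e)]
    have b : S.B (a.1 y) y = 0 := by
      have := congrArg (·.1 y) e
      simp only [mul_ap, rh_fix (BB y) (B_zl y), H.fix hU hy, tau_ap, one_mul, add_eq_left, smul_eq_zero] at this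
      exact this.resolve_right (sne a y0)
    have o : S.B (a.1 y + y) y = 0 := by simp [b]
    have e' := tau_add o 1
    rw [vvr, one_smul, e, mul_left_inj] at e'
    exact l1 (e'.trans (n1 _ _ _ o (e' ▸ hl)))
  have key : ∀ p ∈ U, ∀ q f, S.B p q = 0 → p ≠ 0 → S.B u f = 0 → S.B p f = 0 → S.B q f = 1 → S.rh p q 0 * S.rh u 0 1 ∈ D →
      S.rh p q 0 * S.rh u 0 1 ≠ 1 → S.rh p q 0 * S.rh u 0 1 * (S.rh p q 0 * S.rh u 0 1) = 1 → ∃ c : S.F, a.1 f + f = c • p :=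
    fun p hp q f o p0 f1 f2 f3 m m1 mm => by
      have := h.br ha (h.cen _ m mm m1 (S.rh p f 0) (by
        rw [← mul_assoc, rh_comm f2 o, mul_assoc, cm_tau (rh_fix (H.iso hp hu) (sw f1) 0), mul_assoc]))
      rw [br_rh f2 (H.fix aU hp)] at this
      have o' := fixB (H.fix aU hp) f
      exact (rh_eq_one p0 o' (n1 _ _ _ o' this)).1
  obtain ⟨f, f1, f2, f3⟩ := k.i.dual 0 0 1
  obtain ⟨f', g1, g2, g3⟩ := k.i.dual 0 1 0
  obtain ⟨c, e1⟩ := key p hp q f k.vw k.l23.i.ne f1 f2 f3 hl l1 ll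
  obtain ⟨c', e2⟩ := key q hq p f' (sw k.vw) k.l23.symm.i.ne g1 g3 g2 (s_symm p q ▸ hl) (s_symm p q ▸ l1) (s_symm p q ▸ ll)
  have aa' : ∀ x, a.1 (a.1 x) = x := fun x => congrArg (·.1 x) (H.sq aU)
  obtain rfl : c = c' := by
    have h1 := congrArg (S.B · f') e1
    have h2 := congrArg (S.B · f) e2
    simp only [B_al, B_sl, g2, f3, mul_one] at h1 h2
    rw [← h1, ← h2, ← gB a (a.1 f), aa', Bc f, Bc f]
  have o : S.B p (c • q) = 0 := by simp [k.vw]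
  have m : a * S.rh p (c • q) 0 ∈ E U := mul_mem aU (rh_E hp (U.smul_mem c hq) 0)
  have x1 : (a * S.rh p (c • q) 0).1 f = f := by
    rw [mul_ap, s_ap o, f2, B_sl, f3, zero_smul, add_zero, mul_one, ← e1]; simp [aa', add_comm f]
  have x2 : (a * S.rh p (c • q) 0).1 f' = f' := by
    rw [mul_ap, s_ap o, g2, B_sl, g3, mul_zero, zero_smul, add_zero, one_smul, ← e2]; simp [aa', add_comm f']
  generalize hb : a * S.rh p (c • q) 0 = b at m x1 x2
  have x3 : ∀ x, ∃ e : S.F, b.1 x = x + e • u := fun x => by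
    obtain ⟨α, β, γ, e⟩ := span3 ex H k.i hu hp hq (E_sub m x)
    have β0 : β = 0 := by simpa [e, sw g1, sw g2, sw g3] using fixB x2 x
    have γ0 : γ = 0 := by simpa [e, sw f1, sw f2, sw f3] using fixB x1 x
    exact ⟨α, by rw [← vvr (x := x) (y := b.1 x), e, β0, γ0, add_comm]; simp⟩
  obtain ⟨y, t, o', rfl⟩ := eq_rh k.ln.i.ne (H.fix m hu) fun x _ => x3 x
  obtain ⟨r, hr⟩ := part1 k.ln.i.ne
  obtain ⟨e, e3⟩ := x3 r
  rw [rh_ap o', hr, one_smul, add_assoc, add_right_inj] at e3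
  rw [show y = (e + (S.B y r + t * 1)) • u by rw [add_smul, ← e3, vvr], rh_self] at hb
  have ea : a = S.rh p (c • q) 0 * S.rh u 0 t := by
    rw [H.comm (rh_E hp (U.smul_mem c hq) 0) (rh_E hu (zero_mem _) t), ← hb, mul_assoc, rh_sq, mul_one]
  rcases ex.two c with rfl | rfl <;> rcases ex.two t with rfl | rfl <;> simp only [zero_smul, one_smul, rh_one, one_mul, mul_one] at ea
  exacts [a1 ea, a1 (ea.trans (n1 _ _ _ (by simp) (ea ▸ ha))), a1 (ea.trans (n1 _ _ _ k.vw (ea ▸ ha))), a2 ea]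
theorem out (hl : l ∈ D) (ll : l * l = 1) (l1 : l ≠ 1) : Out D M Z := by
  obtain ⟨u, y, c, o, m, n⟩ := h.exr ex hl ll l1
  obtain ⟨k, rfl⟩ := h.cls ex m n o
  exact h.outC ex k m
end Lo

end H9.S6
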