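import Cfsg.Agent.H1.SN0

/-! `PY`: values of principal block characters on the `p`-section. -/

open Cfsg
open H5 H7 H8 H21

namespace H9.SN

open Subgroup Finset H1.SN
open scoped ComplexConjugate MatrixGroups Pointwise

universe u

local notation "𝐍" x:max => normalizer (SetLike.coe (zpowers x))
local notation "𝐂" x:max => centralizer ({x} : Set _)

theorem py : PY.{u} := by
  intro G _ _ M p x y χ hM hx hi hχ hy hp u hu
  classical
  have := Fact.mk hM.1
  have hP : Nat.card (zpowers x) = p := by rw [Nat.card_zpowers, hx]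
  obtain ⟨V, H, D⟩ := exists_UC ((isPGroup_zpowers_of_orderOf hx).toSylow hi)
    (cent_of_card_prime hM.1 hP)
  change UC p (zpowers x) V H at D
  have := Fintype.ofFinite V
  obtain ⟨δ, ζ, a, Y, h, -⟩ := D.exists_data_principal hM hP
  have hyV : y ∈ V := (D.memV y).2 ⟨by rw [cent_zpowers]; exact hy, hp⟩
  rw [← (D.comm u.2 hyV).eq]
  rcases (h.memB χ).1 hχ with h1 | h1
  · obtain ⟨μ, hμ, rfl⟩ := (h.mem χ).1 h1
    have h2 := h.exc_one hM hμ hu V.one_mem
    rw [mul_one] at h2
    rw [h2, h.exc_one hM hμ hu hyV]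
  · have h2 := h.nonexc_one hM h1 u.2 (by simpa using hu) V.one_mem
    rw [mul_one] at h2
    rw [h2, h.nonexc_one hM h1 u.2 (by simpa using hu) hyV]

open MonoidAlgebra in
theorem sec : SEC.{u} := by
  intro G _ _ R p r x y χ hp hx hi hR hrp hy hyx hyN w hw
  classical
  have := Fact.mk hp
  have hP : Nat.card (zpowers x) = p := by rw [Nat.card_zpowers, hx]
  obtain ⟨V, H, D⟩ := exists_UC ((isPGroup_zpowers_of_orderOf hx).toSylow hi)
    (cent_of_card_prime hp hP)
  change UC p (zpowers x) V H at D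
  refine ⟨lam R χ.1 (classSum (kk R) (w : G)), fun ν hν => ?_⟩
  have hPC : zpowers x ≤ 𝐂 y := zpowers_le.2
    (mem_centralizer_singleton_iff.2 (mem_centralizer_singleton_iff.1 hyx).symm)
  let ι : zpowers x →* 𝐂 y := inclusion hPC
  let y' : 𝐂 y := ⟨y, self_mem_centralizer y⟩
  have hy' : ∀ g : 𝐂 y, g * y' = y' * g := fun g =>
    Subtype.ext (mem_centralizer_singleton_iff.1 g.2)
  have hyE : IsPElt r y := ⟨1, by rw [pow_one, hy]⟩
  have hreg : ∀ u : zpowers x, ¬ r ∣ orderOf (u : G) := fun u h => by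
    have h1 : orderOf (u : G) ∣ p := by rw [orderOf_coe, ← hP]; exact orderOf_dvd_natCard u
    exact hrp ((Nat.prime_dvd_prime_iff_eq hR.1 hp).1 (h.trans h1))
  obtain ⟨b, ξ, hb, hξ, h0⟩ : ∃ b ξ, IsInducedBlock R (𝐂 y) b (blockOf R χ.1) ∧ ξ ∈ b ∧
      ∑ u : zpowers x, ξ.1 (y' * ι u) * conj (ν u : ℂ) ≠ 0 := by
    by_contra! hc
    apply hν
    have := Fintype.ofFinite (𝐂 y)
    have h1 : ∀ u : zpowers x, χ.1 (y * u) =
        ∑ b ∈ blocks (𝐂 y) R, blockPart b (fun c : 𝐂 y => χ.1 c) (y' * ι u) := fun u =>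
      (sum_blockPart hR (χ.2.isClassFunction.restrict _) (y' * ι u)).symm
    simp only [h1, sum_mul]
    rw [sum_comm]
    refine sum_eq_zero fun b hb => ?_
    by_cases hi : IsInducedBlock R (𝐂 y) b (blockOf R χ.1)
    · simp only [blockPart_eq_sum, sum_mul]
      rw [sum_comm]
      refine sum_eq_zero fun ξ hξ => ?_
      simp only [mul_assoc, ← mul_sum]
      rw [hc b ξ hi (mem_filter.1 hξ).2, mul_zero]
    · refine sum_eq_zero fun u _ => ?_
      rw [blockPart_restrict_eq_zero hR (inducedBlockDefined_centralizer hR hyE (mem_blocks.1 hb))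
        (isPBlock_blockOf χ) hi (mem_blockOf_self hR χ) (x := y)
        (isPPart_mk (mem_centralizer_singleton_iff.1 (hPC u.2)).symm hyE (hreg u)) le_rfl, zero_mul]
  have hz : restr (𝐂 y) (classSum ℂ (w : G)) ∈ Zc ℂ (𝐂 y) := restr_mem_Zc' (classSum_mem_Zc _)
  have hz' : restr (𝐂 y) (classSum ℂ (w : G)) =
      ∑ k ∈ univ.filter fun k : zpowers x => IsConj (w : G) (k : G), single (ι k) (1 : ℂ) := by
    refine H7.ga_ext fun g => ?_
    rw [coeff_restr, coeff_classSum, coeff_sum_apply]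
    split_ifs with h
    · have h1 : (g : G) ∈ zpowers x := D.mem_P_of_isPElt (hyN g.2) (isPElt_iff.2 ⟨1, by
        have h2 := h.pow p
        rw [← Subgroup.coe_pow, ← hP, pow_card_eq_one', Subgroup.coe_one, isConj_one_right] at h2
        rw [pow_one, ← hP, h2]⟩)
      rw [sum_eq_single ⟨g, h1⟩ (fun k _ hk => by
        rw [coeff_single, Finsupp.single_apply, if_neg]
        rintro rfl
        exact hk rfl) (fun hk => (hk (by simpa using h)).elim)]
      exact (Finsupp.single_eq_same).symm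
    · refine (sum_eq_zero fun k hk => ?_).symm
      rw [coeff_single, Finsupp.single_apply, if_neg]
      rintro rfl
      exact h (mem_filter.1 hk).2
  have key : omega ξ.1 (restr (𝐂 y) (classSum ℂ (w : G))) = cs x ν w := by
    refine mul_right_cancel₀ h0 ?_
    have h1 : ∀ h : 𝐂 y, omega ξ.1 (restr (𝐂 y) (classSum ℂ (w : G))) * ξ.1 h =
        ∑ k ∈ univ.filter fun k : zpowers x => IsConj (w : G) (k : G), ξ.1 (ι k * h) := fun h => by
      have h2 := ev_mul_of_mem_Zc ξ hz (single h 1)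
      rw [ev_single, one_mul] at h2
      rw [← h2, hz', sum_mul, map_sum]
      simp only [single_mul_single, ev_single, one_mul]
    simp only [mul_sum, ← mul_assoc, h1, sum_mul, H1.SN.cs]
    rw [sum_comm, sum_comm (s := univ)]
    refine sum_congr (by congr) fun k _ => ?_
    refine Fintype.sum_equiv (Equiv.mulLeft k) _ _ fun u => ?_
    have h2 : (ν k : ℂ) * conj (ν k : ℂ) = 1 := by
      rw [conj_unitsHom, map_inv, Units.val_inv_eq_inv_val, mul_inv_cancel₀ (ν k).ne_zero]
    simp only [Equiv.coe_mulLeft, map_mul, Units.val_mul]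
    rw [hy' (ι k), mul_assoc y']
    linear_combination (-(ξ.1 (y' * (ι k * ι u)) * conj (ν u : ℂ))) * h2
  rw [← key, ← lam_redG ξ (restr_mem_VG _ (classSum_mem_VG _)) hz, redG_restr, redG_classSum,
    induced_lam hR hb hξ (mem_blockOf_self hR χ) (classSum_mem_Zc _)]

end H9.SN
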