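import Cfsg.Agent.H1.SN0

/-! `IKX`: the characters induced from the linear characters of the normalizer. -/

open Cfsg
open H5 H7 H8 H21

namespace H9.SN

open Subgroup Finset H1.SN
open scoped ComplexConjugate MatrixGroups Pointwise commutatorElement

universe u

local notation "𝐍" x:max => normalizer (SetLike.coe (zpowers x))
local notation "𝐂" x:max => centralizer ({x} : Set _)

section

variable {G : Type u} [Group G] [Finite G] {p : ℕ} {x : G}

theorem comm_norm (h : SCent p x) (he : 2 ≤ aq x) :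
    commutator (𝐍 x) = (zpowers x).subgroupOf (𝐍 x) := by
  refine le_antisymm (commutator_le.2 fun a _ b _ => mem_subgroupOf.2 ?_) ?_
  · exact h.commutator_mem a.2 b.2
  obtain ⟨y, hy, hy'⟩ : ∃ y ∈ 𝐍 x, y ∉ zpowers x := by
    by_contra! hc
    rw [h.aq_eq, relIndex_eq_one.2 hc] at he
    omega
  have hx : x ∈ 𝐍 x := le_normalizer (mem_zpowers x)
  have h1 : ⁅y, x⁆ ∈ zpowers x := h.commutator_mem hy hx
  have h2 : ⁅y, x⁆ ≠ 1 := fun e => hy' (h.mem_of_comm (commutatorElement_eq_one_iff_mul_comm.1 e))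
  have h3 : zpowers x ≤ zpowers ⁅y, x⁆ := by
    rw [← (h.of_mem h1 h2).cent, ← h.cent']
    exact centralizer_le (Set.singleton_subset_iff.2 h1)
  have h4 : (⟨⁅y, x⁆, le_normalizer h1⟩ : 𝐍 x) ∈ commutator (𝐍 x) :=
    commutator_mem_commutator (g₁ := (⟨y, hy⟩ : 𝐍 x)) (g₂ := ⟨x, hx⟩) (mem_top _) (mem_top _)
  intro z hz
  obtain ⟨k, hk⟩ := mem_zpowers_iff.1 (h3 (mem_subgroupOf.1 hz))
  have h5 := zpow_mem h4 k
  rwa [show (⟨⁅y, x⁆, le_normalizer h1⟩ : 𝐍 x) ^ k = z from Subtype.ext hk] at h5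

theorem lin_triv (h : SCent p x) (he : 2 ≤ aq x) (μ : 𝐍 x →* ℂˣ) (y : 𝐍 x)
    (hy : (y : G) ∈ zpowers x) : μ y = 1 :=
  Abelianization.commutator_subset_ker μ (by rw [comm_norm h he]; exact hy)

theorem lin_card (h : SCent p x) (he : 2 ≤ aq x) : Fintype.card (𝐍 x →* ℂˣ) = aq x := by
  rw [← Nat.card_eq_fintype_card, H5.card_unitsHom, comm_norm h he, h.aq_eq, relIndex]

open Classical in
theorem lin_sum (h : SCent p x) (he : 2 ≤ aq x) (z : 𝐍 x) :
    ∑ μ : 𝐍 x →* ℂˣ, (μ z : ℂ) = if (z : G) ∈ zpowers x then (aq x : ℂ) else 0 := by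
  split_ifs with hz
  · simp [lin_triv h he _ z hz, lin_card h he]
  have h0 : Abelianization.of z ≠ 1 := fun e => hz (by
    have := (QuotientGroup.eq_one_iff z).1 e
    rw [comm_norm h he] at this
    exact this)
  have : Finite (Abelianization (𝐍 x)) := inferInstanceAs (Finite (_ ⧸ _))
  obtain ⟨ν', hν⟩ := exists_unitsHom_ne_one h0
  let ν := ν'.comp Abelianization.of
  have h1 : ∑ μ : 𝐍 x →* ℂˣ, (μ z : ℂ) = ν z * ∑ μ : 𝐍 x →* ℂˣ, (μ z : ℂ) := by
    rw [mul_sum, ← Equiv.sum_comp (Equiv.mulLeft ν)]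
    simp
  have h2 : (1 - (ν z : ℂ)) * ∑ μ : 𝐍 x →* ℂˣ, (μ z : ℂ) = 0 := by linear_combination h1
  refine (mul_eq_zero.1 h2).resolve_left fun h3 => hν (Units.ext ?_)
  rw [Units.val_one]
  change (ν z : ℂ) = 1
  linear_combination -h3

theorem lin_fourier (h : SCent p x) (he : 2 ≤ aq x) (χ : G → ℂ) (y : 𝐍 x) :
    p * ∑ μ : 𝐍 x →* ℂˣ, classInner (fun z : 𝐍 x => χ z) (fun z => (μ z : ℂ)) * μ y =
      ∑ u : zpowers x, χ (y * u) := by
  classical
  have he0 : (aq x : ℂ) ≠ 0 := Nat.cast_ne_zero.2 (aq_pos x).ne'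
  refine mul_left_cancel₀ he0 ?_
  rw [← mul_assoc, mul_comm (aq x : ℂ), ← Nat.cast_mul, ← h.card_normalizer', mul_sum]
  simp only [← mul_assoc, card_mul_classInner, sum_mul]
  rw [sum_comm, ← Equiv.sum_comp (Equiv.mulLeft y)]
  have h1 : ∀ w : 𝐍 x, ∑ μ : 𝐍 x →* ℂˣ, χ (y * w : 𝐍 x) * conj (μ (y * w) : ℂ) * μ y =
      if (w : G) ∈ zpowers x then aq x * χ (y * w) else 0 := fun w => by
    have h2 : ∀ μ : 𝐍 x →* ℂˣ, χ (y * w : 𝐍 x) * conj (μ (y * w) : ℂ) * μ y =
        χ (y * w) * μ w⁻¹ := fun μ => by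
      rw [conj_unitsHom, mul_assoc, ← Units.val_mul, ← map_mul, mul_inv_rev, inv_mul_cancel_right,
        Subgroup.coe_mul]
    simp only [h2, ← mul_sum, lin_sum h he, Subgroup.coe_inv, inv_mem_iff]
    split_ifs <;> simp [mul_comm]
  simp only [Equiv.coe_mulLeft, h1, mul_sum]
  refine (sum_of_injOn (inclusion (le_normalizer (H := zpowers x)))
    (inclusion_injective _).injOn (fun _ _ => mem_univ _) (fun w _ hw => if_neg fun e => hw ?_)
    fun u _ => ?_).symm
  · exact ⟨⟨w, e⟩, mem_univ _, rfl⟩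
  · rw [if_pos (by simp)]; rfl

end

theorem ikx : IKX.{u} := by
  intro G _ _ _ D h
  classical
  have := Fintype.ofFinite G
  have pd := D.pd
  have he : 2 ≤ aq D.x := pd.two_le_aq D.perf
  have hp : (D.p : ℂ) ≠ 0 := Nat.cast_ne_zero.2 pd.prime.ne_zero
  choose l hl using fun (χ : IrrCharacter G) (μ : 𝐍 D.x →* ℂˣ) =>
    (χ.2.isCharacter.restrict (𝐍 D.x)).exists_classInner_nat (isCharacter_unitsHom μ)
  have hsum : ∀ χ, (D.p * ∑ μ, l χ μ : ℂ) = sP D.x χ.1 := fun χ => by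
    have h1 := lin_fourier h he χ.1 1
    simp only [hl, map_one, Units.val_one, mul_one, Subgroup.coe_one, one_mul] at h1
    rw [Nat.cast_sum, h1, sP]
  have hind : ∀ (μ : 𝐍 D.x →* ℂˣ) g, ∑ χ, l χ μ * χ.1 g = indFun (𝐍 D.x) (fun z => (μ z : ℂ)) g :=
    fun μ g => by
      rw [(isClassFunction_indFun _ _).apply_eq_sum_irr g]
      refine sum_congr rfl fun χ _ => ?_
      rw [classInner_indFun_left _ _ χ.2.isClassFunction, ← conj_classInner, hl, map_natCast]
  refine ⟨l, lin_card h he, lin_triv h he, fun χ μ => ?_, hsum, fun χ k ha hk => ?_,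
    fun χ k ha hk => ?_, fun η hη => ?_, fun μ => ?_, fun μ η hη => ?_, fun μ => ?_,
    fun χ y hy => ?_, fun μ g => ?_, fun χ hχ ha => ?_⟩
  · rw [← hl, card_mul_classInner]
  · have h1 := hsum χ
    rw [pd.sP_nonexc (by omega), hk, ha] at h1
    have h2 : ((∑ μ, l χ μ : ℕ) : ℂ) = (k + 1 : ℕ) :=
      mul_left_cancel₀ hp (by rw [h1]; push_cast; ring)
    exact_mod_cast h2
  · have h1 := hsum χ
    have h3 : (charDegree χ.1 : ℂ) + 1 = (k + 1) * D.p := by exact_mod_cast hk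
    rw [pd.sP_nonexc (by omega), ha] at h1
    have h2 : ((∑ μ, l χ μ : ℕ) : ℂ) = k :=
      mul_left_cancel₀ hp (by rw [h1]; push_cast; linear_combination h3)
    exact_mod_cast h2
  · have h1 := hsum η
    rw [(D.exc η hη).2] at h1
    exact_mod_cast mul_left_cancel₀ hp h1
  · have h1 := hind μ 1
    simp only [indFun_apply_one, D.hN, irr_apply_one, map_one, Units.val_one, mul_one] at h1
    exact_mod_cast h1
  · have h1 := pd.rel h.cent (fun χ => l χ μ - if χ = irrOne G then 1 else 0) (fun u hu => by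
      have h2 := (hind μ u).trans (indFun_apply_eq_of_TI _
        (isCharacter_unitsHom μ).isClassFunction ⟨u, le_normalizer u.2⟩ (fun g hg hx => (hg
          (h.mem_normalizer_of_conj u.2 (by simpa using hu) hx)).elim))
      rw [lin_triv h he μ _ u.2] at h2
      simp only [mul_sub, sum_sub_distrib, mul_ite, mul_one, mul_zero, sum_ite_eq', mem_univ,
        if_true, mul_comm _ (l _ μ : ℂ)]
      rw [h2]; simp [irrOne]) η hη
    simp only [if_neg (pd.ne_irrOne hη), sub_zero, mul_sub, sum_sub_distrib, mul_ite, mul_one,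
      mul_zero, sum_ite_eq', mem_univ, if_true, pd.one] at h1
    have h2 : (((∑ χ, D.a χ * l χ μ) - D.δ * l η μ : ℤ) : ℂ) = (1 : ℤ) := by
      push_cast at h1 ⊢
      linear_combination -h1
    exact_mod_cast h2
  · have h1 := card_mul_classInner (fun z : 𝐍 D.x => (irrOne G).1 z) (fun z => (μ z : ℂ))
    have h2 := sum_unitsHom_mul_conj 1 μ
    rw [hl] at h1
    have h3 : (l (irrOne G) μ : ℂ) = ((if μ = 1 then 1 else 0 : ℕ) : ℂ) := by
      refine mul_left_cancel₀ (card_ne_zero_complex (𝐍 D.x)) (h1.trans (h2.trans ?_))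
      by_cases e : μ = 1
      · simp [e]
      · simp [e, Ne.symm e]
    exact_mod_cast h3
  · have h1 := lin_fourier h he χ.1 y
    simp only [hl, ← χ.2.isClassFunction.eq_of_isConj (h.isConj_mul y.2 hy _), sum_const, card_univ,
      ← Nat.card_eq_fintype_card, h.card, nsmul_eq_mul] at h1
    exact (mul_left_cancel₀ hp h1).symm
  · rw [hind, indFun_apply, ← mul_assoc, mul_inv_cancel₀ (card_ne_zero_complex _), one_mul,
      finsum_eq_sum_of_fintype]
    exact sum_congr rfl fun k _ => by rw [extendByZero_apply]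
  · obtain ⟨r, hr⟩ := exists_sP_nat χ.2.isCharacter pd.ord
    rw [pd.sP_van h.cent hχ, ha, Int.cast_zero, mul_zero, add_zero] at hr
    exact ⟨r, by exact_mod_cast hr⟩

end H9.SN
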