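import Cfsg.Agent.H9.StrCtl

/-! The Glauberman-Thompson normal `p`-complement theorem for strongly closed subgroups. -/

set_option autoImplicit false

namespace H9

open Cfsg Subgroup H28 H3
open scoped Pointwise commutatorElement

universe u

variable {p : ℕ} [hp : Fact p.Prime] {W : ∀ (Q : Type u) [Group Q], Subgroup Q}

theorem ZJType.hasNPC (hW' : ZJType.{u} p W) (hp2 : p ≠ 2) (G : Type u) [Group G] [Finite G]
    (P : Sylow p G) (D : Subgroup G) (hD : StrCl D P ⊤)
    (h1 : HasNormalPComplement p (𝐍 (inducedFunctor W D))) : HasNormalPComplement p G := by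
  have hW := hW'.1
  revert P D
  refine H1.induction_subgroup_quotient (P := fun G _ _ => ∀ (P : Sylow p G) (D : Subgroup G),
    StrCl D P ⊤ → HasNormalPComplement p (𝐍 (inducedFunctor W D)) →
    HasNormalPComplement p G) ?_ G
  intro G _ _ ihs ihq P D hD h1
  by_contra hn
  have hDp : IsPGroup p D := P.isPGroup'.to_le hD.1
  have hDn : ¬ D.Normal := fun h => hn (hasNPC_of_eq_top h1 (top_le_iff.1
    ((normal_iff_top_le.1 h).trans (normalizer_le_normalizer_ind hW hDp))))
  have hD0 : D ≠ ⊥ := fun h => hDn (h ▸ inferInstance)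
  have step1 : ∀ H T E : Subgroup G, H ≠ ⊤ → IsSylowIn p T H → StrCl E T H →
      HasNormalPComplement p (𝐍 (inducedFunctor W E)) → HasNormalPComplement p H := by
    intro H T E hH hT hE g1
    refine ihs H hH hT.toSylow (E.subgroupOf H) (by rw [hT.coe_toSylow]; exact hE.subgroupOf) ?_
    rw [← ind_subgroupOf hW (hT.isPGroup.to_le hE.1) (hE.1.trans hT.le),
      ← subgroupOf_normalizer_eq ((ind_le _ _).trans (hE.1.trans hT.le))]
    exact hasNPC_subgroupOf g1 H
  have step1' : ∀ H : Subgroup G, H ≠ ⊤ → (P : Subgroup G) ≤ H → HasNormalPComplement p H :=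
    fun H hH hPH => step1 H P D hH (isSylowIn_of_sylow_le P hPH) (hD.mono le_top) h1
  have step2 : pPrimeCore p G = ⊥ := by
    by_contra hO
    have hk : (Nat.card (QuotientGroup.mk' (pPrimeCore p G)).ker).Coprime p := by
      rw [QuotientGroup.ker_mk']; exact H1.pPrimeCore_coprime
    have hs := QuotientGroup.mk'_surjective (pPrimeCore p G)
    refine hn (hasNPC_of_quotient_coprime _ H1.pPrimeCore_coprime
      (ihq _ hO (P.mapSurjective hs) _ (hD.map (isSylowIn_top P) hs) ?_))
    rw [← map_ind hW hDp (inf_ker_eq_bot_of_coprime hk hDp),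
      normalizer_map_of_coprime hs hk (isPGroup_ind hDp)]
    exact hasNPC_map h1 _
  let B : Set (Subgroup G) :=
    {U | U ≤ P ∧ U ≠ ⊥ ∧ ¬ HasNormalPComplement p (𝐍 U)}
  have hB : B.Nonempty := by
    by_contra hB
    refine hn (frobenius_npc_local P fun T hT hT1 _ => ?_)
    by_contra h
    exact hB ⟨T, hT, hT1, h⟩
  obtain ⟨U, ⟨hUP, hU1, hUn⟩, hUmax⟩ := Set.exists_max_image B
    (fun U => Nat.card ((P : Subgroup G) ⊓ 𝐍 U : Subgroup G)) (Set.toFinite B) hB
  have hPU : (P : Subgroup G) ≤ 𝐍 U := by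
    by_contra hPU
    obtain ⟨h, hh1, hh2, hh3⟩ := exists_conj_fullyNormalized P (P.isPGroup'.to_le hUP)
      (P.isPGroup'.to_le (inf_le_left : (P : Subgroup G) ⊓ 𝐍 U ≤ P)) inf_le_right
    set V := cj h U with hV
    have hVn : ¬ HasNormalPComplement p (𝐍 V) := by
      intro hh
      rw [hV, ← cj_normalizer] at hh
      exact hUn (hasNPC_of_equiv hh (cjEquiv h _).symm)
    have hV1 : V ≠ ⊥ := fun hh => hU1 (cj_eq_bot.1 hh)
    have hVmax : ∀ Y ∈ B, Nat.card ((P : Subgroup G) ⊓ 𝐍 Y : Subgroup G) ≤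
        Nat.card ((P : Subgroup G) ⊓ 𝐍 V : Subgroup G) := by
      intro Y hY
      refine (hUmax Y hY).trans ?_
      rw [← card_cj h]
      refine card_le_of_le' (le_inf hh2 ?_)
      rw [hV, ← cj_normalizer]
      exact cj_mono h inf_le_right
    have hS1 : D ⊓ ((P : Subgroup G) ⊓ 𝐍 V) ≠ ⊥ :=
      hD.inf_normalizer_ne_bot P.isPGroup' hD0 hh1
    set S := (P : Subgroup G) ⊓ 𝐍 V with hS
    have hSP : S < P := by
      refine lt_of_le_of_ne inf_le_left fun hh => hPU ?_
      have h3 := hUmax V ⟨hh1, hV1, hVn⟩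
      rw [← hS, hh] at h3
      have := eq_of_le_of_card_le (inf_le_left : (P : Subgroup G) ⊓ 𝐍 U ≤ P) h3
      rw [← this]; exact inf_le_right
    have hSp : IsPGroup p (D ⊓ S : Subgroup G) := hDp.to_le inf_le_left
    have key : HasNormalPComplement p (𝐍 (inducedFunctor W (D ⊓ S))) := by
      by_contra hh
      have h3 := hVmax _ ⟨(ind_le _ _).trans (inf_le_left.trans hD.1), ind_ne_bot hW hSp hS1, hh⟩
      have h4 : S < (P : Subgroup G) ⊓ 𝐍 (inducedFunctor W (D ⊓ S)) :=
        (lt_inf_normalizer P.isPGroup' hSP).trans_le (le_inf inf_le_left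
          ((le_normalizer_inf (inf_le_left.trans (hD.le_normalizer le_top)) inf_le_right).trans
            (normalizer_le_normalizer_ind hW hSp)))
      exact absurd (H28.card_lt_of_lt h4) (not_lt.2 h3)
    refine hVn (step1 _ S _ ?_ hh3 ((hD.inf hSP.le).mono le_top) key)
    intro hh
    rw [hS, hh, inf_top_eq] at hSP
    exact lt_irrefl _ hSP
  have hUnorm : U.Normal := by
    rw [normal_iff_top_le, top_le_iff]
    by_contra hh
    exact hUn (step1' _ hh hPU)
  have hO1 : pCore p G ≠ ⊥ := fun hh =>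
    hU1 (eq_bot_iff.2 (hh ▸ H1.le_pCore hUnorm (P.isPGroup'.to_le hUP)))
  have hOP : pCore p G ≤ P := H1.pCore_isPGroup.le_sylow_of_normal P
  have step3 : HasNormalPComplement p (G ⧸ pCore p G) := by
    have hs := QuotientGroup.mk'_surjective (pCore p G)
    have hD' := hD.map (isSylowIn_top P) hs
    refine ihq _ hO1 (P.mapSurjective hs) _ hD' ?_
    have hPp := hDp.map (QuotientGroup.mk' (pCore p G))
    set Y := inducedFunctor W (D.map (QuotientGroup.mk' (pCore p G))) with hY
    have hYn : ¬ Y.Normal := by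
      intro hh
      have := H1.le_pCore hh (isPGroup_ind hPp)
      rw [H1.pCore_quotient_pCore, le_bot_iff] at this
      refine ind_ne_bot hW hPp ?_ this
      rw [Ne, Subgroup.map_eq_bot_iff, QuotientGroup.ker_mk']
      exact fun h => hDn (hD.normal_of_le h hOP)
    have h3 : HasNormalPComplement p ((𝐍 Y).comap (QuotientGroup.mk' (pCore p G))) := by
      refine step1' _ ?_ ?_
      · intro hh
        apply hYn
        rw [normal_iff_top_le, ← map_top_of_surjective _ hs, map_le_iff_le_comap, hh]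
      · rw [← map_le_iff_le_comap]
        exact (hD'.le_normalizer le_top).trans (normalizer_le_normalizer_ind hW hPp)
    have := hasNPC_map h3 (QuotientGroup.mk' (pCore p G))
    rwa [map_comap_eq_self_of_surjective hs] at this
  have step4 := centralizer_pCore_le_of_hasNPC step2 step3
  have step5 : IsCoatom (P : Subgroup G) := by
    refine ⟨fun hh => hn (hasNPC_of_isPGroup (isPGroup_top_iff.1 (hh ▸ P.isPGroup'))), ?_⟩
    intro H hH
    by_contra hh
    have hHn := step1' H hh hH.le
    have hHp : IsPGroup p H := by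
      refine isPGroup_of_forall_coprime fun x hx hc => ?_
      have := mem_centralizer_of_hasNPC_subgroup hHn (hOP.trans hH.le) H1.pCore_isPGroup hx
        (mem_normalizer_of_normal _ x) hc
      exact H3.eq_one_of_coprime_of_mem H1.pCore_isPGroup (step4 this) hc
    exact hH.ne (P.is_maximal' hHp hH.le).symm
  exact hn (hasNPC_of_eq_top h1 (top_le_iff.1 (hW'.2 G P D (isSylowIn_top P) hD
    (pStab_of_not_involves_qd hp2 (not_involves_top_of_abSyl hp2
      (abSyl_two_of_coatom hp2 step3 P step5))) (isCharP_top.2 step4))))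

end H9
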