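import Cfsg.Agent.H9.Wr2
import Cfsg.Agent.H9.Ct
import Cfsg.Agent.H19.D8
import Cfsg.Agent.H28.ExtTr
import Cfsg.Agent.H10.Model

/-! # Groups with a 2-local subgroup `S₄ ≀ 2`: weak closure and centralizers -/

set_option autoImplicit false
set_option maxRecDepth 100000
set_option linter.dupNamespace false
set_option linter.unusedSectionVars false

open Equiv DihedralGroup
open Subgroup hiding map

namespace H9.WW

open H19 Cfsg H9.Wr

variable {G : Type*} [Group G] [Finite G] (φ : Wr S4 →* G)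

/-- the Sylow subgroup -/
def ps : W →* G := φ.comp (map dl)
/-- images of subgroups -/
def S (Y : Subgroup W) : Subgroup G := Y.map (ps φ)
/-- conjugation -/
def Cj (g : G) (x y : W) : Prop := g * ps φ x * g⁻¹ = ps φ y
/-- fusion -/
def Fu (x y : W) : Prop := ∃ g, Cj φ g x y

/-- the hypotheses -/
structure St : Prop where
  inj : Function.Injective φ
  nA : N(S φ (Q 0 0)) ≤ φ.range
  syl : Syl 2 (ps φ).range ⊤
  ev : C[ps φ zz] ⊓ C(Oc {2} C[ps φ zz]) ≤ Oc {2} C[ps φ zz]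
  sim : ∀ H : Subgroup G, H.index ≠ 2
  qt : ∀ A ≤ N(S φ (Q 4 0)), IsMulCommutative A → (∀ a ∈ A, a ^ 3 = 1) → Nat.card A ≤ 9

variable {φ} {g h : G} {x y x' y' w : W} {X Y : Subgroup W}

theorem S_le : S φ Y ≤ (ps φ).range := map_le_range _ _
theorem mem_S (hw : w ∈ Y) : ps φ w ∈ S φ Y := ⟨w, hw, rfl⟩
theorem Cj.mul (a : Cj φ g x y) (b : Cj φ g x' y') : Cj φ g (x * x') (y * y') := by
  unfold Cj at *; rw [map_mul, map_mul, ← a, ← b]; group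
theorem Cj.one : Cj φ g 1 1 := by simp [Cj]
theorem Cj.pow (a : Cj φ g x y) (n : ℕ) : Cj φ g (x ^ n) (y ^ n) := by
  unfold Cj at *; rw [map_pow, map_pow, ← a, conj_pow]
theorem Cj.symm (a : Cj φ g x y) : Cj φ g⁻¹ y x := by unfold Cj at *; rw [← a]; group
theorem Cj.trans (a : Cj φ g x y) (b : Cj φ h y w) : Cj φ (h * g) x w := by unfold Cj at *; rw [← b, ← a]; group
theorem Cj.t (t x : W) : Cj φ (ps φ t) x (t * x * t⁻¹) := by simp [Cj]
theorem Cj.m {m : Wr S4} (e : m * map dl x * m⁻¹ = map dl y) : Cj φ (φ m) x y := by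
  simp only [Cj, ps, MonoidHom.comp_apply, ← e, map_mul, map_inv]
theorem Fu.symm (a : Fu φ x y) : Fu φ y x := let ⟨_, a⟩ := a; ⟨_, a.symm⟩
theorem Fu.trans (a : Fu φ x y) (b : Fu φ y w) : Fu φ x w := let ⟨_, a⟩ := a; let ⟨_, b⟩ := b; ⟨_, a.trans b⟩
theorem Fu.t (t : W) (e : t * x * t⁻¹ = y) : Fu φ x y := ⟨_, e ▸ Cj.t t x⟩
theorem Fu.refl (x : W) : Fu φ x x := ⟨1, by simp [Cj]⟩
theorem Fu.el {a b a' b' : D} (k k' : S4) (e : k * dl a * k⁻¹ = dl a') (e' : k' * dl b * k'⁻¹ = dl b') :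
    Fu φ (el a b) (el a' b') := ⟨_, Cj.m (m := ⟨k, k', false⟩) (Wr.ext e e' rfl)⟩
theorem Fu.sw (a b : D) : Fu φ (H9.Wr.el a b) (H9.Wr.el b a) := .t tau (tau_el a b)
theorem cj_le (H : ∀ w ∈ X, ∃ w' ∈ Y, Cj φ g w w') : H19.cj g (S φ X) ≤ S φ Y := fun _ a => by
  obtain ⟨_, ⟨w, hw, rfl⟩, rfl⟩ := mem_cj'.1 a
  obtain ⟨w', h', e⟩ := H w hw
  exact ⟨w', h', Eq.symm e⟩
theorem cj_le' (H : ∀ w ∈ X, ∃ w', Cj φ g w w') : H19.cj g (S φ X) ≤ (ps φ).range :=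
  (cj_le (Y := ⊤) fun w hw => let ⟨w', e⟩ := H w hw; ⟨w', trivial, e⟩).trans S_le
theorem norm_S (H : ∀ w ∈ X, ∃ w' ∈ X, Cj φ g w w') : g ∈ N(S φ X) := mem_norm_of_cj_le (cj_le H)
theorem norm_t {t : W} (H : ∀ w ∈ X, t * w * t⁻¹ ∈ X) : ps φ t ∈ N(S φ X) := norm_S fun w hw => ⟨_, H w hw, .t t w⟩
theorem ex_Cj (H : g ∈ N(S φ X)) (hw : w ∈ X) : ∃ w' ∈ X, Cj φ g w w' :=
  let ⟨w', h', e⟩ := conj_mem_of_norm H (mem_S hw); ⟨w', h', e.symm⟩
theorem cent_S : g ∈ C(S φ X) ↔ ∀ w ∈ X, ps φ w * g = g * ps φ w :=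
  ⟨fun H w hw => mem_cent.1 H _ (mem_S hw), fun H => mem_cent.2 (by rintro _ ⟨w, hw, rfl⟩; exact H w hw)⟩
theorem cent_t {t : W} (H : ∀ w ∈ X, w * t = t * w) : ps φ t ∈ C(S φ X) :=
  cent_S.2 fun w hw => by rw [← map_mul, H w hw, map_mul]
theorem J_norm (i j : Fin 5) : S φ (Q 3 3) ≤ N(S φ (Q i j)) := by
  rintro _ ⟨t, ht, rfl⟩; exact norm_t fun _ => Q_cj ht
theorem T_norm (i : Fin 5) : (ps φ).range ≤ N(S φ (Q i i)) := by
  rintro _ ⟨t, rfl⟩; exact norm_t fun _ => Q_cj' t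

namespace St

variable (H : St φ)
include H

theorem pinj : Function.Injective (ps φ) := H.inj.comp (map_inj dl_inj)
theorem mem_S_iff : ps φ w ∈ S φ Y ↔ w ∈ Y := ⟨fun ⟨_, a, e⟩ => H.pinj e ▸ a, mem_S⟩
theorem uniq (a : Cj φ g x y) (b : Cj φ g x y') : y = y' := H.pinj ((show _ = _ from a).symm.trans b)
theorem uniq' (a : Cj φ g x y) (b : Cj φ g x' y) : x = x' := H.uniq a.symm b.symm
theorem cj_mem (a : Cj φ g x y) (n : g ∈ N(S φ X)) : x ∈ X ↔ y ∈ X :=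
  ⟨fun hx => let ⟨_, h', e⟩ := ex_Cj n hx; H.uniq e a ▸ h',
    fun hy => let ⟨_, h', e⟩ := ex_Cj (inv_mem n) hy; H.uniq e a.symm ▸ h'⟩
theorem comm_iff : ps φ x * ps φ y = ps φ y * ps φ x ↔ x * y = y * x := by
  rw [← map_mul, ← map_mul, H.pinj.eq_iff]
theorem S_inj {p q : Bool × Bool} (e : S φ (E p) = S φ (E q)) : p = q := E_inj (map_injective H.pinj e).le

theorem cjE (p : Bool × Bool) (l : H19.cj g (S φ (E p)) ≤ (ps φ).range) : ∃ q, H19.cj g (S φ (E p)) = S φ (E q) := by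
  have e := map_comap_eq_self l
  obtain ⟨q, hq⟩ := e16 (Y := (H19.cj g (S φ (E p))).comap (ps φ)) (fun x hx => H.pinj (by
    obtain ⟨_, ⟨w, hw, rfl⟩, e⟩ := mem_cj'.1 (mem_comap.1 hx)
    rw [map_mul, ← e, conj_mul, ← map_mul, E_sq p w hw]; simp)) (by
      rw [← card_map_of_injective H.pinj, e, card_cj, S, card_map_of_injective H.pinj, card_E])
  exact ⟨q, by rw [← e, hq, S]⟩

theorem NJ : N(S φ (Q 3 3)) = (ps φ).range := by
  refine H.syl.max (T_norm 3) le_top (PiN.of_elt fun h hh => ?_)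
  have n := mem_norm_iff_cj.1 hh
  choose f hf using fun p => H.cjE (g := h) p ((cj_le_of_mem_norm hh (map_mono (E_le p))).trans S_le)
  have e := f4 f (fun p q e => H.S_inj (cj_inj.1 ((hf p).trans (e ▸ (hf q).symm)))) fun p => pair1 _ _ fun w a b => by
    have : H19.cj h (S φ (E p) ⊓ S φ (E (bar p))) ≤ C(S φ (Q 3 3)) := by
      rw [← n, ← cj_cent, S, S, ← map_inf _ _ _ H.pinj]
      refine cj_mono _ ?_
      rintro _ ⟨w, ⟨a, b⟩, rfl⟩
      exact cent_t fun j hj => pair2 a b hj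
    rw [cj_inf, hf, hf] at this
    exact H.comm_iff.1 (cent_S.1 (this ⟨mem_S a, mem_S b⟩) _ ⟨rfl, rfl, rfl⟩)
  obtain ⟨m, hm⟩ := H.nA (x := h ^ 4) (mem_norm_iff_cj.2 (by
    rw [show h ^ 4 = h * (h * (h * h)) by simp [pow_succ, mul_assoc], cj_mul, cj_mul, cj_mul]
    exact (by rw [hf, hf, hf, hf, e] : H19.cj h (H19.cj h (H19.cj h (H19.cj h (S φ (E (false, false)))))) = S φ (E (false, false)))))
  have k : ∀ w ∈ Q 3 3, m * map dl w * m⁻¹ ∈ (map dl).range := fun w hw => by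
    obtain ⟨w', -, e⟩ := ex_Cj (pow_mem hh 4) hw
    exact ⟨w', H.inj (by simpa only [Cj, ← hm, ps, MonoidHom.comp_apply, map_mul, map_inv] using Eq.symm e)⟩
  obtain ⟨w, rfl⟩ := nJ (k u1 ⟨rfl, rfl, rfl⟩) (k u2 ⟨rfl, rfl, rfl⟩)
  refine (PiN.prime_pow Nat.prime_two 5).dvd (orderOf_dvd_of_pow_eq_one ?_)
  rw [show 2 ^ 5 = 4 * 8 from rfl, pow_mul, ← hm, ← map_pow, ← map_pow, pow8, map_one, map_one]

theorem wcJ (l : H19.cj g (S φ (Q 3 3)) ≤ (ps φ).range) : g ∈ (ps φ).range := by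
  obtain ⟨p, hp⟩ := H.cjE (g := g) (false, false) ((cj_mono _ (map_mono (E_le _))).trans l)
  obtain ⟨q, hq⟩ := H.cjE (g := g) (true, true) ((cj_mono _ (map_mono (E_le _))).trans l)
  refine H.NJ.le (mem_norm_of_cj_le ((cj_mono _ (map_mono J_le)).trans ?_))
  rw [Subgroup.map_sup, cj_sup]
  exact sup_le (hp.le.trans (map_mono (E_le _))) (hq.le.trans (map_mono (E_le _)))

theorem pgT {X : Subgroup G} (l : X ≤ (ps φ).range) : H19.PG 2 X := H.syl.pi.of_le l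

theorem two_le {P : Subgroup G} (hP : H19.PG 2 P) (n : S φ (Q 3 3) ≤ N(P)) : P ≤ (ps φ).range := by
  obtain ⟨g, -, l⟩ := H.syl.scj_le le_top (hP.sup (H.pgT S_le) n)
  have := H.wcJ ((cj_mono _ le_sup_right).trans l)
  exact le_sup_left.trans ((cj_le_iff.1 l).trans (cj_of_mem (inv_mem this)).le)

theorem wc {X Y : Subgroup G} (hY : (ps φ).range ≤ N(Y)) (hX : S φ (Q 3 3) ≤ N(X)) (e : H19.cj g X = Y) : X = Y := by
  obtain ⟨n, hn, l⟩ := (H.syl.of_le hY le_top).scj_le (K := H19.cj g (S φ (Q 3 3)))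
    (by rw [← e, ← cj_norm]; exact cj_mono _ hX) ((H.pgT S_le).J g)
  rw [cj_cj] at l
  have e' : H19.cj (n * g) X = Y := by rw [cj_mul, e, cj_of_mem_norm hn]
  rw [cj_eq_iff.1 e', cj_of_mem_norm (hY (inv_mem (H.wcJ l)))]

theorem nz (a : Fu φ z1 zz) : False := by
  obtain ⟨g, a⟩ := a
  have k : ∀ x t : W, t * x = x * t → ps φ t ∈ N(zpowers (ps φ x)) := fun x t e =>
    cent1_le_norm_zpowers _ (mem_cent1.2 (H.comm_iff.2 e))
  have e := H.wc (X := zpowers (ps φ z1)) (Y := zpowers (ps φ zz)) (g := g)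
    (by rintro _ ⟨t, rfl⟩; exact k _ _ (by revert t; decide +kernel))
    (by rintro _ ⟨t, ht, rfl⟩; exact k _ _ ((by decide +kernel : ∀ t ∈ Q 3 3, t * z1 = z1 * t) t ht)) (by rw [cj_zpowers, a])
  rcases mem_zpowers_of_sq (by rw [← map_mul, ← map_one (ps φ)]; rfl) (e.le (mem_zpowers _)) with e | e
  · exact absurd (H.pinj (e.trans (map_one _).symm)) (by decide)
  · exact absurd (H.pinj e) (by decide)

theorem wE (b : Bool) (l : H19.cj g (S φ (E (b, b))) ≤ (ps φ).range) : g ∈ N(S φ (E (b, b))) := by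
  obtain ⟨q, hq⟩ := H.cjE _ l
  exact mem_norm_iff_cj.2 (hq.trans (H.wc (T_norm _) (J_norm _ _) (cj_eq_iff.1 hq).symm))

theorem wC (l : H19.cj g (S φ (Q 1 0)) ≤ (ps φ).range) : g ∈ N(S φ (Q 1 0)) ∨ ps φ tau * g ∈ N(S φ (Q 1 0)) := by
  obtain ⟨⟨_ | _, _ | _⟩, hq⟩ := H.cjE (true, false) l
  · exact absurd (H.S_inj (p := (true, false)) (q := (false, false)) (H.wc (T_norm 0) (J_norm 1 0) hq)) (by decide)
  · exact .inr (mem_norm_of_cj_le (by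
      rw [cj_mul]; exact (cj_mono _ hq.le).trans (cj_le fun w hw => ⟨_, Q_tau hw, .t _ _⟩)))
  · exact .inl (mem_norm_iff_cj.2 hq)
  · exact absurd (H.S_inj (p := (true, false)) (q := (true, true)) (H.wc (T_norm 1) (J_norm 1 0) hq)) (by decide)

theorem CE : C(S φ (Q 2 0)) ≤ S φ (Q 3 0) := by
  have k : ∀ x ∈ (ps φ).range ⊓ C(S φ (Q 2 0)), x ∈ S φ (Q 3 0) := by
    rintro _ ⟨⟨w, rfl⟩, c⟩
    exact mem_S (centE w (H.comm_iff.1 (cent_S.1 c _ (by decide))) (H.comm_iff.1 (cent_S.1 c _ (by decide))))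
  refine fun x hx => k x ⟨H.two_le ?_ (norms_cent (J_norm 2 0)) hx, hx⟩
  have cz : C(S φ (Q 2 0)) ≤ C[ps φ zz] := cent_le_cent1 (mem_S (by decide))
  have tz : (ps φ).range ≤ C[ps φ zz] := by
    rintro _ ⟨t, rfl⟩; exact mem_cent1.2 (H.comm_iff.2 (by revert t; decide +kernel))
  have rT := Oc_le_hall (H.syl.of_le tz le_top)
  have nR := Oc_norm {2} C[ps φ zz]
  have pR := Oc_pi {2} C[ps φ zz]
  have ev := H.ev
  generalize Oc {2} C[ps φ zz] = R at rT nR pR ev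
  refine fun p hp hd => by_contra fun p2 => ?_
  obtain ⟨y, hy, o⟩ := exists_orderOf_eq_prime hp hd
  have py : PiE {2}ᶜ y := by rw [PiE, o]; exact (piN_prime hp).2 p2
  have c := PxQ (P := S φ (Q 2 0)) (Q := zpowers y) pR (H.pgT S_le) (piG_zpowers.2 py)
    (cents_symm (zpowers_le.2 hy)) ((S_le.trans tz).trans nR) (zpowers_le.2 (nR (cz hy))) (fun a ha => ?_)
  · exact hp.ne_one (o ▸ orderOf_eq_one_iff.2 ((pR.elt (ev ⟨cz hy, c (mem_zpowers y)⟩)).e_eq_one py))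
  have st : ∀ a ∈ R ⊓ C(S φ (Q 2 0)), y * a * y⁻¹ ∈ R ⊓ C(S φ (Q 2 0)) := fun a ha =>
    ⟨conj_mem_of_norm (nR (cz hy)) ha.1, Subgroup.mul_mem _ (Subgroup.mul_mem _ hy ha.2) (Subgroup.inv_mem _ hy)⟩
  obtain ⟨a, h0, rfl⟩ := k a ⟨rT ha.1, ha.2⟩
  have ha1 := st _ ha
  obtain ⟨b, h1, e1⟩ := k _ ⟨rT ha1.1, ha1.2⟩
  have ha2 := st _ (e1 ▸ ha1)
  obtain ⟨c, h2, e2⟩ := k _ ⟨rT ha2.1, ha2.2⟩
  replace e1 : Cj φ y a b := e1.symm
  replace e2 : Cj φ y b c := e2.symm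
  have n := cent_le_norm _ hy
  have sq : ∀ {a b : W}, Cj φ y a b → (a * a = 1 ↔ b * b = 1) := fun e =>
    ⟨fun a => H.uniq (e.mul e) (by rw [a]; exact .one), fun a => H.uniq' (e.mul e) (by rw [a]; exact .one)⟩
  have iv : ∀ {a b : W}, Cj φ y a b → Cj φ y a⁻¹ b⁻¹ := fun e => by unfold Cj at *; rw [map_inv, map_inv, ← e]; group
  have m := cos3 h0 h1 h2 (sq e1) (sq e2) (H.cj_mem e1 n) (H.cj_mem e2 n) (H.cj_mem ((iv e1).mul e2) n)
  have e3 : Cj φ (y * y) a (a * (a⁻¹ * c)) := by simpa using e1.trans e2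
  have s : a⁻¹ * c * (a⁻¹ * c) = 1 := (by decide +kernel : ∀ w ∈ Q 2 0, w * w = 1) _ m
  generalize a⁻¹ * c = e at e3 m s
  have e4 : Cj φ (y * y) e e := by
    have := cent_S.1 (mul_mem hy hy) e m
    rw [Cj, ← this, mul_inv_cancel_right]
  have e5 := e3.trans (e3.mul e4)
  rw [mul_assoc a, s, mul_one] at e5
  rw [cent_zpowers, mem_cent1_symm]
  have : y ∈ zpowers (y ^ 4) := mem_zpowers_pow_iff.2 (by
    rw [o]; exact ((Nat.coprime_primes Nat.prime_two hp).2 (Ne.symm p2)).pow_left 2)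
  refine zpowers_le.2 (mem_cent1.2 ?_) this
  rw [show y ^ 4 = y * y * (y * y) by simp [pow_succ, mul_assoc]]
  exact mul_inv_eq_iff_eq_mul.1 e5

theorem CC : C(S φ (Q 1 0)) ≤ S φ (Q 1 0) := fun x hx => by
  obtain ⟨w, hw, rfl⟩ := H.CE (cent_mono (map_mono (by decide +kernel : ∀ w ∈ Q 2 0, w ∈ Q 1 0)) hx)
  exact mem_S (centC w hw (H.comm_iff.1 (cent_S.1 hx _ (by decide))))

theorem th {K : Subgroup W} (hK : K.index = 2) (hy : y * y = 1) :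
    ∃ g, (∀ w, w * y = y * w → ∃ w', Cj φ g w w') ∧ ∃ y' ∈ K, Cj φ g y y' := by
  obtain ⟨g, l, y', h', e⟩ := H28.extremal_thompson_two (T := S φ K) (y := ps φ y) (C := S φ (centralizer {y}))
    ⟨le_top, H.syl.pi.isPGroup, fun _ hR h1 h2 => H.syl.max h1 h2 (PiN.of_isPGroup Nat.prime_two hR)⟩
    (by rw [MonoidHom.range_eq_map, S, relIndex_map_map_of_injective _ _ H.pinj, relIndex_top_right, hK])
    (by rw [sq, ← map_mul, hy, map_one]) (by rw [H10.pResidual_eq_top_of_index H.sim]; trivial)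
    (H.pgT S_le).isPGroup
    (by rintro _ ⟨w, hw, rfl⟩; exact mem_cent1.2 (H.comm_iff.2 (mem_centralizer_singleton_iff.1 hw)))
    (mem_S (mem_centralizer_singleton_iff.2 rfl))
  refine ⟨g, fun w hw => ?_, y', h', e.symm⟩
  obtain ⟨w', e⟩ := l (conj_mem_cj.2 (mem_S (mem_centralizer_singleton_iff.2 hw)))
  exact ⟨w', e.symm⟩

end St

end H9.WW
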