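import Cfsg.Agent.H9.Wr3

/-! # Groups with a 2-local subgroup `S₄ ≀ 2`: fusion -/

set_option autoImplicit false
set_option maxRecDepth 100000
set_option linter.unusedSectionVars false
set_option synthInstance.maxSize 4000
set_option synthInstance.maxHeartbeats 400000

open Equiv DihedralGroup
open Subgroup hiding map

namespace H9.WW

open H19 Cfsg H9.Wr

variable {G : Type*} [Group G] [Finite G] {φ : Wr S4 →* G} {g h : G} {x y w : W}

/-- the kernel of the sign -/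
def par : D → Bool
  | r a => a = 1 || a = 3
  | sr a => a = 1 || a = 3
/-- a subgroup of index two -/
def K2 : Subgroup W where
  carrier := {w | par w.a = par w.b}
  mul_mem' := by
    have k : ∀ a b c d : D, par a = par b → par c = par d → par (a * c) = par (b * d) := by decide +kernel
    rintro ⟨a, b, _ | _⟩ ⟨c, d, _⟩ h h'
    exacts [k _ _ _ _ h h', k _ _ _ _ h h'.symm]
  one_mem' := rfl
  inv_mem' := by
    have k : ∀ a b : D, par a = par b → par a⁻¹ = par b⁻¹ := by decide +kernel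
    rintro ⟨a, b, _ | _⟩ h
    exacts [k _ _ h, k _ _ h.symm]
instance : DecidablePred (· ∈ K2) := fun w => inferInstanceAs (Decidable (par w.a = par w.b))

/-- a three-cycle -/
def rho : S4 := swap 0 1 * swap 1 3
/-- its action on the four-group -/
def rh (x : D) : D := if x = r 2 then sr 2 else if x = sr 2 then sr 0 else if x = sr 0 then r 2 else x
/-- the three-cycle in the second factor -/
abbrev rho2 : Wr S4 := ⟨1, rho, false⟩

theorem fuV (a : D) {b : D} (hb : mb 0 b) (b1 : b ≠ 1) : Fu φ (el a b) (el a (r 2)) :=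
  let ⟨k, e⟩ := (by decide +kernel : ∀ b, mb 0 b → b ≠ 1 → ∃ k : S4, k * dl b * k⁻¹ = dl (r 2)) b hb b1
  .el 1 k (by simp) e

/-- action on the elementary abelian group `U₁ V₂` -/
def Act (φ : Wr S4 →* G) (g : G) (f : W → W) : Prop := ∀ w ∈ Q 1 0, f w ∈ Q 1 0 ∧ Cj φ g w (f w)
theorem Act.mul {f f' : W → W} (a : Act φ g f) (b : Act φ h f') : Act φ (g * h) (f ∘ f') := fun w hw =>
  ⟨(a _ (b w hw).1).1, (b w hw).2.trans (a _ (b w hw).1).2⟩
theorem Act.t {t : W} (ht : t ∈ Q 3 3) : Act φ (ps φ t) fun w => t * w * t⁻¹ := fun w hw => ⟨Q_cj ht hw, .t t w⟩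
theorem Act.rho : Act φ (φ rho2) fun w => el w.a (rh w.b) := fun w hw =>
  have := (by decide +kernel : ∀ w ∈ Q 1 0, el w.a (rh w.b) ∈ Q 1 0 ∧
    rho2 * map dl w * rho2⁻¹ = map dl (el w.a (rh w.b))) w hw
  ⟨this.1, .m this.2⟩
theorem Act.cent {f f' : W → W} (a : Act φ g f) (b : Act φ h f') (e : ∀ w ∈ Q 1 0, f w = f' w) :
    h⁻¹ * g ∈ C(S φ (Q 1 0)) := cent_S.2 fun w hw =>
  (mul_inv_eq_iff_eq_mul.1 ((a w hw).2.trans (e w hw ▸ (b w hw).2.symm))).symm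
/-- a linear combination -/
def lc (a b c d w : W) : W :=
  a ^ (par w.a).toNat * b ^ (decide (w.a = r 2 ∨ w.a = sr 3)).toNat * c ^ (decide (w.b = r 2 ∨ w.b = sr 2)).toNat *
    d ^ (decide (w.b = sr 0 ∨ w.b = sr 2)).toNat

namespace St

variable (H : St φ)
include H

theorem step1 : ∃ g ∈ N(S φ (Q 1 1)) ⊓ N(S φ (Q 1 0)), Cj φ g z2 z2 ∧ (Cj φ g u1 z1 ∨ Cj φ g u1 zz) := by
  have k : ∀ g ∈ N(S φ (Q 1 1)), g ∈ N(S φ (Q 1 0)) → ∀ y ∈ K2, Cj φ g u1 y →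
      ∃ g ∈ N(S φ (Q 1 1)) ⊓ N(S φ (Q 1 0)), Cj φ g z2 z2 ∧ (Cj φ g u1 z1 ∨ Cj φ g u1 zz) := fun g n1 n2 y hy e => by
    obtain ⟨a, ha, ea⟩ := ex_Cj (w := v2) n2 (by decide)
    obtain ⟨b, hb, eb⟩ := ex_Cj (w := u2) n1 (by decide)
    have e2 : Cj φ g z2 (a * b * (a * b)) := (ea.mul eb).mul (ea.mul eb)
    rcases (by decide +kernel : ∀ a ∈ Q 1 0, ∀ b ∈ Q 1 1, a * b * (a * b) = 1 ∨ a * b * (a * b) = z2) a ha b hb with e3 | e3 <;>
      rw [e3] at e2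
    · exact absurd (H.uniq' e2 .one) (by decide)
    refine ⟨g, ⟨n1, n2⟩, e2, ?_⟩
    rcases (by decide +kernel : ∀ y ∈ K2, y ∈ Q 1 1 → y ∈ Q 1 0 → y = 1 ∨ y = z2 ∨ y = z1 ∨ y = zz) y hy
      ((H.cj_mem e n1).1 (by decide)) ((H.cj_mem e n2).1 (by decide)) with rfl | rfl | rfl | rfl
    · exact absurd (H.uniq' e .one) (by decide)
    · exact absurd (H.uniq' e e2) (by decide)
    exacts [.inl e, .inr e]
  obtain ⟨g, l, y, hy, e⟩ := H.th (K := K2) (y := u1) (index_eq_two_iff.2 ⟨u1, by decide +kernel⟩) (by decide)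
  have n := H.wE true (cj_le' fun w hw => l w ((by decide +kernel : ∀ w ∈ E (true, true), w * u1 = u1 * w) w hw))
  rcases H.wC (cj_le' fun w hw => l w ((by decide +kernel : ∀ w ∈ Q 1 0, w * u1 = u1 * w) w hw)) with n2 | n2
  · exact k g n n2 y hy e
  · exact k _ (mul_mem (T_norm 1 ⟨_, rfl⟩) n) n2 _
      ((by decide +kernel : ∀ y ∈ K2, tau * y * tau⁻¹ ∈ K2) y hy) (e.trans (.t _ _))

theorem caseA0 (e1 : Cj φ g u1 zz) (e2 : Cj φ g z1 (u1 * z2)) (e3 : Cj φ g z2 z2) (e4 : Cj φ g v2 (u1 * zz * v2)) :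
    False := by
  have a : Act φ g (lc zz (u1 * z2) z2 (u1 * zz * v2)) := fun w hw => by
    obtain ⟨m, e⟩ := (by decide +kernel : ∀ w ∈ Q 1 0, lc zz (u1 * z2) z2 (u1 * zz * v2) w ∈ Q 1 0 ∧
      lc u1 z1 z2 v2 w = w) w hw
    refine ⟨m, ?_⟩
    conv_lhs => rw [← e]
    exact (((e1.pow _).mul (e2.pow _)).mul (e3.pow _)).mul (e4.pow _)
  have v := Act.t (φ := φ) (t := v1) (by decide)
  have b := Act.rho.mul (a.mul (v.mul (Act.rho.mul a)))
  generalize φ rho2 * _ = h at b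
  have n : h ∈ N(S φ (Q 1 0)) := norm_S fun w hw => ⟨_, b w hw⟩
  obtain ⟨c, hc, e⟩ := H.CC ((b.mul v).cent ((Act.t (φ := φ) (t := u2) (by decide)).mul b) (by decide +kernel))
  have e' : Cj φ h⁻¹ u2⁻¹ (c * v1⁻¹) := by rw [Cj, map_mul, e, map_inv, map_inv]; group
  have n' := H.wE true (g := h⁻¹) (cj_le' fun w hw => by
    rcases (by decide +kernel : ∀ w ∈ E (true, true), w ∈ Q 1 0 ∨ w * u2 ∈ Q 1 0) w hw with m | m
    · exact let ⟨_, _, e⟩ := ex_Cj (inv_mem n) m; ⟨_, e⟩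
    · obtain ⟨_, _, e⟩ := ex_Cj (inv_mem n) m
      exact ⟨_, by simpa using e.mul e'⟩)
  exact (by decide +kernel : ∀ c ∈ Q 1 0, c * v1⁻¹ ∉ E (true, true)) c hc ((H.cj_mem e' n').1 (by decide))

theorem caseA (n1 : g ∈ N(S φ (Q 1 1))) (n2 : g ∈ N(S φ (Q 1 0))) (e3 : Cj φ g z2 z2) (e1 : Cj φ g u1 zz) : False := by
  have f1 : Fu φ (el (sr 1) (r 2)) z1 := ⟨g, e1.mul e3⟩
  obtain ⟨a, ha, ea⟩ := ex_Cj (w := z1) n2 (by decide)
  obtain ⟨b, hb, eb⟩ := ex_Cj (w := v2) n2 (by decide)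
  have hb' : b ∉ Q 1 1 := fun m => absurd ((H.cj_mem eb n1).2 m) (by decide)
  have ha' : a = u1 * z2 ∨ a = u1 * zz := by
    rcases (by decide +kernel : ∀ a ∈ Q 1 0, a ∈ Q 1 1 → a = 1 ∨ a = z2 ∨ a = z1 ∨ a = zz ∨ a = u1 ∨ a = v1 * u1 * v1⁻¹ ∨
      a = u1 * z2 ∨ a = u1 * zz) a ha ((H.cj_mem ea n1).1 (by decide)) with rfl | rfl | rfl | rfl | rfl | rfl | e
    · exact absurd (H.uniq' ea .one) (by decide)
    · exact absurd (H.uniq' ea e3) (by decide)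
    · exact absurd (H.uniq' ea (e1.mul e3)) (by decide)
    · exact (H.nz ⟨g, ea⟩).elim
    · exact (H.nz ⟨_, ea.trans e1⟩).elim
    · exact (H.nz ⟨_, (ea.trans (Cj.t v1 u1).symm).trans e1⟩).elim
    · exact e
  have f2 : Fu φ (b * a) zz := .trans ⟨_, (eb.mul ea).symm⟩ (fuV (r 2) (b := sr 0) rfl (by decide))
  obtain ⟨x, y, e, hx, hy, y1⟩ := (by decide +kernel : ∀ b ∈ Q 1 0, b ∉ Q 1 1 → ∀ a, a = u1 * z2 ∨ a = u1 * zz →
    ∃ x y, b * a = el x y ∧ (x = 1 ∨ x = sr 1 ∨ x = sr 3 ∨ ∃ t ∈ Q 3 3, t * zz * t⁻¹ = zz ∧ t * a * t⁻¹ = u1 * z2 ∧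
      t * z2 * t⁻¹ = z2 ∧ t * b * t⁻¹ = u1 * zz * v2) ∧ mb 0 y ∧ y ≠ 1) b hb hb' a ha'
  have f3 := (fuV x hy y1).symm.trans (e ▸ f2)
  rcases hx with rfl | rfl | rfl | ⟨t, -, t1, t2, t3, t4⟩
  · exact H.nz ((Fu.sw _ _).trans f3)
  · exact H.nz (f1.symm.trans f3)
  · exact H.nz ((f1.symm.trans (.t v1 (by decide))).trans f3)
  · exact H.caseA0 (t1 ▸ e1.trans (.t t _)) (t2 ▸ ea.trans (.t t _)) (by simpa only [t3] using e3.trans (.t t _)) (t4 ▸ eb.trans (.t t _))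

theorem tstep (f1 : Fu φ u1 z1) (f2 : Fu φ (el (sr 1) (r 2)) zz) (f3 : Fu φ (el (sr 1) (sr 1)) zz) : False := by
  have kJ : ∀ a b : D, a * a = 1 → b * b = 1 → el a b ≠ 1 → Fu φ (el a b) (if a = 1 ∨ b = 1 then z1 else zz) := by
    have k : ∀ a : D, a * a = 1 → ∃ k : S4, a = 1 ∨ a ≠ 1 ∧ (k * dl a * k⁻¹ = dl (r 2) ∨ k * dl a * k⁻¹ = dl (sr 1)) := by
      decide +kernel
    intro a b ha hb n
    obtain ⟨k1, rfl | ⟨a1, e | e⟩⟩ := k a ha <;> obtain ⟨k2, rfl | ⟨b1, e' | e'⟩⟩ := k b hb <;>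
      simp only [true_or, or_true, if_true, or_self, if_false, *]
    · exact absurd rfl n
    · exact (Fu.el 1 k2 (by simp) e').trans (.sw _ _)
    · exact ((Fu.el 1 k2 (by simp) e').trans (.sw _ _)).trans f1
    · exact Fu.el k1 1 e (by simp)
    · exact Fu.el k1 k2 e e'
    · exact ((Fu.el k1 k2 e e').trans (.sw _ _)).trans f2
    · exact (Fu.el k1 1 e (by simp)).trans f1
    · exact (Fu.el k1 k2 e e').trans f2
    · exact (Fu.el k1 k2 e e').trans f3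
  have kT : ∀ w : W, w.s = true → w * w = 1 → Fu φ w tau := fun w s e =>
    (Fu.t (el w.a 1) ((by decide +kernel : ∀ w : W, w.s = true → w * w = 1 → el w.a 1 * tau * (el w.a 1)⁻¹ = w) w s e)).symm
  obtain ⟨g, l, t, ht, e⟩ := H.th (K := Q 3 3) (y := tau) (index_eq_two_iff.2 ⟨tau, by decide +kernel⟩) (by decide)
  let κ (t w : W) : Bool := bif w.s then decide (t.a = 1 ∨ t.b = 1) else decide (w.a = 1 ∨ w.b = 1)
  have sq : ∀ {x y}, Cj φ g x y → x * x = 1 → y * y = 1 := fun e a => H.uniq (e.mul e) (by rw [a]; exact .one)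
  have n1 : ∀ {x y}, Cj φ g x y → x ≠ 1 → y ≠ 1 := fun e a b => a (H.uniq' e (by rw [b]; exact .one))
  have k0 : ∀ w : W, w.s = false → w * w = 1 → w ≠ 1 → Fu φ w (if w.a = 1 ∨ w.b = 1 then z1 else zz) := by
    rintro ⟨a, b, _⟩ rfl e n; exact kJ a b (congrArg Wr.a e) (congrArg Wr.b e) n
  have ft := k0 t ht.1 (sq e (by decide)) (n1 e (by decide))
  have k : ∀ w, w * w = 1 → w ≠ 1 → Fu φ w (if κ t w then z1 else zz) := fun w a b => by
    cases s : w.s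
    · simpa only [κ, s, cond_false, decide_eq_true_eq] using k0 w s a b
    · simpa only [κ, s, cond_true, decide_eq_true_eq] using ((kT w s a).trans ⟨g, e⟩).trans ft
  let good (t w : W) : Prop := w * w = 1 ∧ w ≠ 1 ∧ t * w = w * t ∧ κ t w = false ∧ t * w ≠ 1 ∧
    κ t (t * w) = decide (t.a = 1 ∨ t.b = 1)
  have gd : ∀ {x y}, Cj φ g x y → x * x = 1 → x ≠ 1 → tau * x = x * tau → x.s = false → Fu φ x zz → good t y :=
    fun {x y} a h1 h2 h3 h4 f => by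
      obtain ⟨h5, h6, h7⟩ := (by decide +kernel : ∀ x : W, x * x = 1 → tau * x = x * tau → x.s = false →
        tau * x * (tau * x) = 1 ∧ tau * x ≠ 1 ∧ (tau * x).s = true) x h1 h3 h4
      refine ⟨sq a h1, n1 a h2, H.uniq (e.mul a) (h3 ▸ a.mul e), Bool.eq_false_iff.2 fun c => ?_, n1 (e.mul a) h6, ?_⟩
      · have := k y (sq a h1) (n1 a h2)
        rw [if_pos c] at this
        exact H.nz ((this.symm.trans ⟨_, a.symm⟩).trans f)
      · have := ((k _ (sq (e.mul a) h5) (n1 (e.mul a) h6)).symm.trans ⟨_, (e.mul a).symm⟩).trans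
          (((kT _ h7 h5).trans ⟨g, e⟩).trans ft)
        by_cases c : t.a = 1 ∨ t.b = 1 <;> cases c' : κ t (t * y) <;> simp only [c, c', if_true, if_false] at this ⊢
        · exact (H.nz this.symm).elim
        · rfl
        · rfl
        · exact (H.nz this).elim
  obtain ⟨p, ep⟩ := l (el (sr 0) (sr 0)) (by decide)
  obtain ⟨q, eq⟩ := l (el (sr 1) (sr 1)) (by decide)
  have := (by decide +kernel : ∀ t ∈ Q 3 3, t * t = 1 → ∀ p ∈ Finset.univ.filter (good t), ∀ q ∈ Finset.univ.filter (good t),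
    ¬ good t (p * q * (p * q))) t ht (sq e (by decide)) p ?_ q ?_
  · exact this (gd ((ep.mul eq).mul (ep.mul eq)) (by decide) (by decide) (by decide) rfl (.refl _))
  · exact Finset.mem_filter.2 ⟨Finset.mem_univ _, gd ep (by decide) (by decide) (by decide) rfl
      (((fuV _ rfl (by decide)).trans (.sw _ _)).trans (fuV _ rfl (by decide)))⟩
  · exact Finset.mem_filter.2 ⟨Finset.mem_univ _, gd eq (by decide) (by decide) (by decide) rfl f3⟩

end St

end H9.WW
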