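import Cfsg.Agent.H9.Wr4

/-! # Groups with a 2-local subgroup `S₄ ≀ 2`: the end -/

set_option autoImplicit false
set_option maxRecDepth 100000
set_option linter.unusedSectionVars false
set_option synthInstance.maxSize 4000
set_option synthInstance.maxHeartbeats 400000

open Equiv DihedralGroup
open Subgroup hiding map

namespace H9.WW

open H19 Cfsg H9.Wr

variable {G : Type*} [Group G] [Finite G] {φ : Wr S4 →* G} {g h : G} {x y w : W}

theorem ext3 {A : Subgroup G} {r : G} (h : IsMulCommutative A ∧ ∀ a ∈ A, a ^ 3 = 1) (hr : r ^ 3 = 1) (c : A ≤ C[r])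
    (n : r ∉ A) : (IsMulCommutative ↥(A ⊔ zpowers r) ∧ ∀ a ∈ A ⊔ zpowers r, a ^ 3 = 1) ∧
      Nat.card ↥(A ⊔ zpowers r) = Nat.card A * 3 := by
  have c' : A ≤ C(zpowers r) := by rwa [cent_zpowers]
  have nm := norms_of_cents (cents_symm c')
  have o : Nat.card (zpowers r) = 3 := by
    rw [Nat.card_zpowers]; exact orderOf_eq_prime hr fun e => n (e ▸ one_mem _)
  refine ⟨⟨comm_sup h.1 (comm_zpowers r) c', fun a ha => ?_⟩, ?_⟩
  · obtain ⟨b, hb, _, ⟨k, rfl⟩, rfl⟩ := (mem_sup_of_norm nm).1 ha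
    rw [Commute.mul_pow (Commute.zpow_right (mem_cent1.1 (c hb)) k), h.2 b hb, one_mul, ← zpow_natCast, ← zpow_mul,
      mul_comm, zpow_mul, zpow_natCast, hr, one_zpow]
  · rw [card_sup_of_disjoint nm, o]
    rw [inf_comm]; exact inf_eq_bot_of_prime (by rw [o]; norm_num) fun l => n (l (mem_zpowers r))

theorem e9 : ∃ A : Subgroup (alternatingGroup (Fin 6)), (IsMulCommutative A ∧ ∀ a ∈ A, a ^ 3 = 1) ∧ Nat.card A = 9 := by
  let a : alternatingGroup (Fin 6) := ⟨swap 0 1 * swap 1 2, Perm.mem_alternatingGroup.2 (by decide)⟩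
  let b : alternatingGroup (Fin 6) := ⟨swap 3 4 * swap 4 5, Perm.mem_alternatingGroup.2 (by decide)⟩
  obtain ⟨h, c⟩ := ext3 (A := ⊥) (r := a) ⟨comm_bot, fun _ h => by simp [mem_bot.1 h]⟩ (by decide) bot_le
    (by rw [mem_bot]; decide)
  obtain ⟨h', c'⟩ := ext3 (r := b) h (by decide) (sup_le bot_le (zpowers_le.2 (mem_cent1.2 (by decide)))) fun m =>
    absurd (sup_le bot_le (zpowers_le.2 (by decide : a • (3 : Fin 6) = 3)) m : b ∈ MulAction.stabilizer _ (3 : Fin 6))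
      (by rw [MulAction.mem_stabilizer_iff]; decide)
  exact ⟨_, h', by rw [c', c, card_bot]⟩

theorem C_le : S φ (Q 1 0) ≤ S φ (Q 1 4) ⊔ S φ (Q 4 0) := by
  rintro _ ⟨⟨a, b, _⟩, ⟨rfl, h1, h2⟩, rfl⟩
  rw [show (⟨a, b, false⟩ : W) = el a 1 * el 1 b by simp [mul_f], map_mul]
  exact mul_mem_sup (mem_S ⟨rfl, h1, rfl⟩) (mem_S ⟨rfl, rfl, h2⟩)

/-- the centralizer of the second `A₄` -/
def H0 (φ : Wr S4 →* G) : Subgroup G := C(S φ (Q 4 0)) ⊓ C[φ rho2]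

theorem comm12 (k k' : S4) : φ (inl k) * φ ⟨1, k', false⟩ = φ ⟨1, k', false⟩ * φ (inl k) := by
  rw [← map_mul, ← map_mul]; simp [inl, mul_f]

theorem inl_H0 (k : S4) : φ (inl k) ∈ H0 φ := by
  refine ⟨cent_S.2 ?_, mem_cent1.2 (comm12 _ _)⟩
  rintro ⟨a, b, _⟩ ⟨rfl, h, -⟩
  obtain rfl : a = 1 := by simpa [mb] using h
  simpa [ps, map] using (comm12 k (dl b)).symm

namespace St

variable (H : St φ)
include H

theorem CUV {x : G} (a : x ∈ C(S φ (Q 1 4))) (b : x ∈ C(S φ (Q 4 0))) : x ∈ S φ (Q 1 0) :=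
  H.CC (cent_mono C_le (by rw [cent_sup]; exact ⟨a, b⟩))

theorem rcent (hw : w ∈ Q 3 0) (c : ps φ w ∈ C[φ rho2]) : w.b = 1 :=
  (by decide +kernel : ∀ w ∈ Q 3 0, map dl w * rho2 = rho2 * map dl w → w.b = 1) w hw
    (H.inj (by rw [map_mul, map_mul]; exact mem_cent1.1 c))

theorem sig (n1 : g ∈ N(S φ (Q 1 1))) (n2 : g ∈ N(S φ (Q 1 0))) (e3 : Cj φ g z2 z2) (e1 : Cj φ g u1 z1) :
    ∃ σ ∈ H0 φ, σ ∈ N(S φ (Q 1 4)) ∧ ∃ a, (a = sr 1 ∨ a = sr 3) ∧ Cj φ σ z1 (el a 1) := by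
  have f1 : Fu φ (el (sr 1) (r 2)) zz := ⟨g, e1.mul e3⟩
  have f2 : Fu φ (el (sr 3) (r 2)) zz := .trans (.t v1 (by decide)) f1
  obtain ⟨a, ha, ea⟩ := ex_Cj (w := z1) n2 (by decide)
  obtain ⟨b, hb, eb⟩ := ex_Cj (w := v2) n2 (by decide)
  have hb' : b ∉ Q 1 1 := fun m => absurd ((H.cj_mem eb n1).2 m) (by decide)
  have ha' : a = u1 ∨ a = u1 * z1 := by
    rcases (by decide +kernel : ∀ a ∈ Q 1 0, a ∈ Q 1 1 → a = 1 ∨ a = z2 ∨ a = z1 ∨ a = zz ∨ a = el (sr 1) (r 2) ∨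
      a = el (sr 3) (r 2) ∨ a = u1 ∨ a = u1 * z1) a ha ((H.cj_mem ea n1).1 (by decide)) with
      rfl | rfl | rfl | rfl | rfl | rfl | e
    · exact absurd (H.uniq' ea .one) (by decide)
    · exact absurd (H.uniq' ea e3) (by decide)
    · exact absurd (H.uniq' ea e1) (by decide)
    · exact (H.nz ⟨g, ea⟩).elim
    · exact (H.nz (.trans ⟨g, ea⟩ f1)).elim
    · exact (H.nz (.trans ⟨g, ea⟩ f2)).elim
    · exact e
  obtain ⟨x, y, rfl, hx, hy, y1⟩ := (by decide +kernel : ∀ b ∈ Q 1 0, b ∉ Q 1 1 →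
    ∃ x y, b = el x y ∧ (x = r 2 ∨ x = sr 1 ∨ x = sr 3 ∨ x = 1) ∧ mb 0 y ∧ y ≠ 1) b hb hb'
  have f3 := (((Fu.sw _ _).trans (fuV 1 (b := sr 0) rfl (by decide)).symm).trans ⟨g, eb⟩).trans (fuV x hy y1)
  rcases hx with rfl | rfl | rfl | rfl
  · exact (H.nz f3).elim
  · exact (H.nz (f3.trans f1)).elim
  · exact (H.nz (f3.trans f2)).elim
  have nU : g ∈ N(S φ (Q 1 4)) := norm_S fun w hw => by
    obtain ⟨m1, m2⟩ : a ∈ Q 1 4 ∧ z1 * a ∈ Q 1 4 := by rcases ha' with rfl | rfl <;> decide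
    rcases (by decide +kernel : ∀ w ∈ Q 1 4, w = 1 ∨ w = z1 ∨ w = u1 ∨ w = u1 * z1) w hw with rfl | rfl | rfl | rfl
    exacts [⟨_, one_mem _, .one⟩, ⟨_, m1, ea⟩, ⟨_, by decide, e1⟩, ⟨_, m2, e1.mul ea⟩]
  have nV : g ∈ N(S φ (Q 4 0)) := norm_S fun w hw => by
    have m : el 1 y ∈ Q 4 0 := ⟨rfl, rfl, hy⟩
    rcases (by decide +kernel : ∀ w ∈ Q 4 0, w = 1 ∨ w = z2 ∨ w = v2 ∨ w = v2 * z2) w hw with rfl | rfl | rfl | rfl
    exacts [⟨_, one_mem _, .one⟩, ⟨_, by decide, e3⟩, ⟨_, m, eb⟩, ⟨_, mul_mem m (by decide), eb.mul e3⟩]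
  have s1 : g * ps φ v1 * g⁻¹ ∈ C(S φ (Q 4 0)) :=
    conj_mem_of_norm (norm_le_norm_cent _ nV) (cent_t (by decide +kernel))
  have s2 : g * ps φ v1 * g⁻¹ ∈ N(S φ (Q 1 4)) :=
    mul_mem (mul_mem nU (J_norm 1 4 (mem_S (by decide)))) (inv_mem nU)
  have s3 : Cj φ (g * ps φ v1 * g⁻¹) z1 (z1 * a) := by
    rw [mul_assoc]; exact (e1.symm.trans (.t v1 u1)).trans (e1.mul ea)
  generalize g * ps φ v1 * g⁻¹ = s at s1 s2 s3
  have rU : φ rho2 ∈ C(S φ (Q 1 4)) := cent_S.2 (by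
    rintro ⟨a, b, _⟩ ⟨rfl, -, h⟩
    obtain rfl : b = 1 := by simpa [mb] using h
    simpa [ps, map, inl] using comm12 (φ := φ) (dl a) rho)
  have rV : φ rho2 ∈ N(S φ (Q 4 0)) := norm_S fun w hw =>
    have := Act.rho (φ := φ) w ((by decide +kernel : ∀ w ∈ Q 4 0, w ∈ Q 1 0) w hw)
    ⟨el w.a (rh w.b), ⟨rfl, hw.2.1, this.1.2.2⟩, this.2⟩
  obtain ⟨c, hc, e⟩ := H.CUV (x := s * φ rho2 * s⁻¹ * (φ rho2)⁻¹)
    (mul_mem (conj_mem_of_norm (norm_le_norm_cent _ s2) rU) (inv_mem rU))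
    (by simpa only [mul_assoc] using mul_mem s1 (conj_mem_of_norm (norm_le_norm_cent _ rV) (inv_mem s1)))
  replace e : φ (map dl c * rho2) = s * φ rho2 * s⁻¹ := by rw [map_mul]; exact (eq_mul_inv_iff_mul_eq.1 e)
  obtain ⟨d, hd, e'⟩ := (by decide +kernel : ∀ c ∈ Q 1 0, (map dl c * rho2) ^ 3 = 1 →
    ∃ d ∈ Q 4 0, map dl d * (map dl c * rho2) = rho2 * map dl d) c hc (H.inj (by
      rw [map_pow, e, conj_pow, ← map_pow, show rho2 ^ 3 = 1 by decide +kernel]; simp))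
  obtain ⟨a', h1, h2⟩ := (by decide +kernel : ∀ d ∈ Q 4 0, ∀ a, a = u1 ∨ a = u1 * z1 →
    ∃ a', (a' = sr 1 ∨ a' = sr 3) ∧ d * (z1 * a) * d⁻¹ = el a' 1) d hd a ha'
  refine ⟨ps φ d * s, ⟨mul_mem (cent_t ((by decide +kernel : ∀ d ∈ Q 4 0, ∀ w ∈ Q 4 0, w * d = d * w) d hd)) s1,
    mem_cent1.2 ?_⟩, mul_mem (J_norm 1 4 (mem_S ⟨hd.1, rfl, rfl⟩)) s2, a', h1, h2 ▸ s3.trans (.t _ _)⟩
  have := congrArg φ e'
  rw [map_mul, e, map_mul] at this
  rw [← mul_assoc, ps, MonoidHom.comp_apply, ← this]; group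

theorem card_H0 {σ : G} (hσ : σ ∈ H0 φ) {a : D} (ha : a = sr 1 ∨ a = sr 3) (e : Cj φ σ z1 (el a 1)) :
    Nat.card (H0 φ) = 168 := by
  let κ : S4 →* H0 φ := (φ.comp inl).codRestrict _ inl_H0
  let δ : D →* H0 φ := κ.comp dl
  have dd : ∀ x, (δ x : G) = ps φ (el x 1) := fun x => by simp [δ, κ, ps, map, inl]
  have di : Function.Injective δ := fun x y e =>
    congrArg Wr.a (H.pinj ((dd x).symm.trans ((congrArg Subtype.val e).trans (dd y))))
  have rg : δ.range = C[δ (r 2)] := le_antisymm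
    (by rintro _ ⟨x, rfl⟩; rw [mem_cent1, ← map_mul, ← map_mul]; exact congrArg δ (by revert x; decide)) fun x hx => by
      have c : x.1 * ps φ z1 = ps φ z1 * x := by rw [← dd]; exact congrArg Subtype.val (mem_cent1.1 hx)
      obtain ⟨⟨a, b, _⟩, ⟨rfl, hw⟩, e⟩ := H.CE (x := x.1) (cent_S.2 fun w hw => by
        rcases (by decide +kernel : ∀ w ∈ Q 2 0, w ∈ Q 4 0 ∨ ∃ w' ∈ Q 4 0, w = z1 * w') w hw with m | ⟨w, m, rfl⟩
        · exact cent_S.1 x.2.1 w m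
        · rw [map_mul, mul_assoc, cent_S.1 x.2.1 w m, ← mul_assoc, ← c, mul_assoc])
      obtain rfl : b = 1 := H.rcent (w := el a b) ⟨rfl, hw⟩ (e ▸ x.2.2)
      exact ⟨a, Subtype.ext ((dd a).trans e)⟩
  obtain ⟨c8, a', s, hd⟩ := dh_of_d8 (t := δ (r 2)) (by rw [orderOf_injective δ di]; exact orderOf_eq_prime rfl (by decide))
    ((MulEquiv.subgroupCongr rg).symm.trans (MonoidHom.ofInjective di).symm)
  have ni : ∀ N : Subgroup (H0 φ), N.index ≠ 2 := fun N hN => by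
    have nN := normal_of_index_eq_two hN
    have m1 : δ (r 2) ∈ N := by rw [show r 2 = (r 1 * r 1 : D) from rfl, map_mul]; exact mul_self_mem_of_index_two hN _
    have m2 : δ (sr 0) ∈ N := by
      have := nN.conj_mem _ m1 (κ rho⁻¹)
      rwa [← map_inv, show δ (r 2) = κ (dl (r 2)) from rfl, ← map_mul, ← map_mul,
        show rho⁻¹ * dl (r 2) * rho⁻¹⁻¹ = dl (sr 0) by decide] at this
    have m3 : δ a ∈ N := by
      have := nN.conj_mem _ m1 ⟨σ, hσ⟩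
      rwa [show ⟨σ, hσ⟩ * δ (r 2) * (⟨σ, hσ⟩ : H0 φ)⁻¹ = δ a from Subtype.ext (by simpa [dd, Cj] using e)] at this
    have := card_inf_index_two hd.syl hN
    rw [inf_eq_left.2, c8] at this
    · omega
    rw [← rg]
    rintro _ ⟨x, rfl⟩
    obtain ⟨i, j, k, rfl⟩ := (by decide +kernel : ∀ a : D, a = sr 1 ∨ a = sr 3 → ∀ x : D,
      ∃ i j k : Fin 2, x = sr 0 ^ i.1 * a ^ j.1 * r 2 ^ k.1) a ha x
    simp only [map_mul, map_pow]
    exact mul_mem (mul_mem (pow_mem m2 _) (pow_mem m3 _)) (pow_mem m1 _)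
  rcases hd.psl_d8 c8 ni with ⟨⟨f⟩⟩ | ⟨F, _, _, hF, ⟨f⟩⟩
  · obtain ⟨A, ⟨h1, h2⟩, c⟩ := e9
    let j := (H0 φ).subtype.comp f.symm.toMonoidHom
    have ji : Function.Injective j := (H0 φ).subtype_injective.comp f.symm.injective
    have l : A.map j ≤ H0 φ := by rintro _ ⟨x, -, rfl⟩; exact (f.symm x).2
    have rV : φ rho2 ∈ N(S φ (Q 4 0)) := norm_S fun w hw =>
      have := Act.rho (φ := φ) w ((by decide +kernel : ∀ w ∈ Q 4 0, w ∈ Q 1 0) w hw)
      ⟨el w.a (rh w.b), ⟨rfl, hw.2.1, this.1.2.2⟩, this.2⟩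
    obtain ⟨⟨h3, h4⟩, c'⟩ := ext3 (A := A.map j) (r := φ rho2) ⟨inferInstance, by
      rintro _ ⟨x, hx, rfl⟩; rw [← map_pow, h2 x hx, map_one]⟩
      (by rw [← map_pow, show rho2 ^ 3 = 1 by decide +kernel, map_one]) (l.trans inf_le_right) fun m =>
        absurd (H.inj (by rw [map_mul, map_mul]; exact cent_S.1 (l m).1 v2 (by decide)) :
          map dl v2 * rho2 = rho2 * map dl v2) (by decide +kernel)
    have := H.qt _ (sup_le (l.trans (inf_le_left.trans (cent_le_norm _))) (zpowers_le.2 rV)) h3 h4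
    rw [c', card_map_of_injective ji, c] at this
    omega
  · have := H27.card_PS_odd (F := F) (by rw [hF]; decide)
    rw [← Nat.card_congr (f.trans (H27.pslEquiv F)).toEquiv, hF] at this
    omega

theorem caseB (n1 : g ∈ N(S φ (Q 1 1))) (n2 : g ∈ N(S φ (Q 1 0))) (e3 : Cj φ g z2 z2) (e1 : Cj φ g u1 z1) : False := by
  have f1 : Fu φ (el (sr 1) (r 2)) zz := ⟨g, e1.mul e3⟩
  have f2 := (Fu.sw _ _).trans f1
  obtain ⟨σ, hσ, nU, a, ha, e⟩ := H.sig n1 n2 e3 e1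
  have c168 := H.card_H0 hσ ha e
  have aU : ps φ u2 ∈ C(S φ (Q 1 4)) := cent_t (by decide +kernel)
  have aH : ps φ u2 ∈ N(H0 φ) := zpowers_le.1 (norms_inf (norms_cent (zpowers_le.2 (J_norm 4 0 (mem_S (by decide)))))
    (zpowers_le.2 (mem_norm_iff_cj.2 (by
      rw [cj_cent1, ps, MonoidHom.comp_apply, ← map_inv, ← map_mul, ← map_mul,
        show map dl u2 * rho2 * (map dl u2)⁻¹ = rho2⁻¹ by decide +kernel, map_inv, ← cent_zpowers, zpowers_inv,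
        cent_zpowers]))))
  have m : σ * ps φ u2 * σ⁻¹ * (ps φ u2)⁻¹ ∈ H0 φ := by
    simpa only [mul_assoc] using mul_mem hσ (conj_mem_of_norm aH (inv_mem hσ))
  obtain ⟨⟨c, b, _⟩, ⟨rfl, hc, hb⟩, ec⟩ :=
    H.CUV (mul_mem (conj_mem_of_norm (norm_le_norm_cent _ nU) aU) (inv_mem aU)) m.1
  obtain rfl : b = 1 := H.rcent (w := el c b) ⟨rfl, rfl, hb⟩ (ec ▸ m.2)
  replace ec : Cj φ σ u2 (el c 1 * u2) := by rw [Cj, map_mul, ec, inv_mul_cancel_right]
  rcases (by decide +kernel : ∀ c, mb 1 c → c = 1 ∨ c = r 2 ∨ ∃ k : S4, k * dl c * k⁻¹ = dl (sr 1) ∧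
    dl c * (rho * dl (sr 1) * rho⁻¹) ≠ rho * dl (sr 1) * rho⁻¹ * dl c) c hc with rfl | rfl | ⟨k0, h0, h1⟩
  · refine H.tstep ⟨g, e1⟩ f1 (.trans ?_ (.trans ⟨_, (e.mul ec).symm⟩ f2))
    rcases ha with rfl | rfl
    exacts [.refl _, .t v1 (by decide)]
  · exact H.nz (((Fu.symm ⟨g, e1⟩).trans (.sw _ _)).trans (.trans ⟨_, ec⟩ f2))
  have ca : ∀ k, φ (inl k) * ps φ u2 = ps φ u2 * φ (inl k) := fun k => by simpa [ps, map] using comm12 (φ := φ) k (dl (sr 1))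
  have ec' : σ * ps φ u2 * σ⁻¹ = φ (inl (dl c)) * ps φ u2 := by rw [ec, map_mul]; simp [ps, map, inl]
  generalize ps φ u2 = α at ca ec'
  let O : Set G := {y | ∃ g ∈ H0 φ, g * α * g⁻¹ = y}
  have o := H9.card_orb (H0 φ) α (Y := O) fun _ => Iff.rfl
  have ki : Function.Injective (φ.comp inl) := H.inj.comp inl_inj
  have l24 := card_le (H := (φ.comp inl).range) (K := H0 φ ⊓ C[α]) (by
    rintro _ ⟨k, rfl⟩; exact ⟨inl_H0 k, mem_cent1.2 (ca k)⟩)
  rw [← Nat.card_congr (MonoidHom.ofInjective ki).toEquiv, Nat.card_perm, Nat.card_fin] at l24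
  let L : Finset S4 := Finset.univ.filter fun t => t = 1 ∨ ∃ k, k * dl (sr 1) * k⁻¹ = t
  have mO : ∀ k, φ (inl (k * dl (sr 1) * k⁻¹)) * α ∈ O := fun k =>
    ⟨φ (inl (k * k0)) * σ, mul_mem (inl_H0 _) hσ, by
      rw [← h0, show ∀ x, x * σ * α * (x * σ)⁻¹ = x * (σ * α * σ⁻¹) * x⁻¹ from fun x => by group, ec', ← map_inv,
        ← map_inv, mul_assoc, mul_assoc, ← ca]
      simp only [map_mul, mul_inv_rev, mul_assoc]⟩
  have eO : (fun t => φ (inl t) * α) '' L = O := Set.eq_of_subset_of_ncard_le (by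
    rintro _ ⟨t, ht, rfl⟩
    rcases (Finset.mem_filter.1 ht).2 with rfl | ⟨k, rfl⟩
    exacts [⟨1, one_mem _, by simp⟩, mO k]) (by
      rw [Set.ncard_image_of_injective (f := fun t => φ (inl t) * α) _ fun x y e => ki (mul_right_cancel e), Set.ncard_coe_finset,
        show L.card = 7 by decide +kernel]
      refine Nat.le_of_mul_le_mul_right (c := 24) ?_ (by norm_num)
      exact (Nat.mul_le_mul_left _ l24).trans (by rw [← o, c168]))
  obtain ⟨x, hx, ex⟩ := mO rho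
  obtain ⟨t, -, et⟩ := eO.ge (⟨σ⁻¹ * x, mul_mem (inv_mem hσ) hx, rfl⟩ : _ ∈ O)
  have c1 : Commute (σ * α * σ⁻¹) (x * α * x⁻¹) := by
    have := (Commute.mul_right (ca t).symm (Commute.refl α)).map (MulAut.conj σ)
    simpa only [MulAut.conj_apply, et, mul_assoc, mul_inv_rev, inv_inv, mul_inv_cancel_left, mul_inv_cancel, mul_one] using this
  rw [ec', ex] at c1
  refine h1 (ki ?_)
  generalize rho * dl (sr 1) * rho⁻¹ = t' at c1
  have := c1.eq
  rw [mul_assoc, ← mul_assoc α, ← ca, mul_assoc, mul_assoc, ← mul_assoc α, ← ca] at this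
  simp only [← mul_assoc, mul_left_inj] at this
  simpa only [MonoidHom.comp_apply, map_mul] using this

theorem final : False := by
  obtain ⟨g, n, e, e' | e'⟩ := H.step1
  exacts [H.caseB n.1 n.2 e e', H.caseA n.1 n.2 e e']

end St

theorem main [IsSimpleGroup G] (hG : ¬ IsMulCommutative G) (hQ : IsQTKE G) (T : Sylow 2 G) (M : Subgroup G)
    (hM : M ∈ maxTwoLocalsContaining (T : Subgroup G)) (hW : Nonempty (M ≃* blockStabilizerS4wr2)) : False := by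
  obtain ⟨f⟩ := hW
  let e : Wr S4 ≃* M := ((MonoidHom.ofInjective toP_inj).trans (MulEquiv.subgroupCongr toP_range)).trans f.symm
  let φ := M.subtype.comp e.toMonoidHom
  have inj : Function.Injective φ := M.subtype_injective.comp e.injective
  have rg : φ.range = M := by
    rw [MonoidHom.range_comp, MonoidHom.range_eq_top.2 e.surjective, ← MonoidHom.range_eq_map, range_subtype]
  have pi : Function.Injective (ps φ) := inj.comp (map_inj dl_inj)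
  have cT : Nat.card (ps φ).range = 2 ^ 7 := by
    rw [← Nat.card_congr (MonoidHom.ofInjective pi).toEquiv, card_Wr, DihedralGroup.nat_card]; rfl
  have pT := PiN.of_card_pow Nat.prime_two cT
  have lM : (ps φ).range ≤ M := by rintro _ ⟨w, rfl⟩; exact rg.le ⟨_, rfl⟩
  have sM : Syl 2 (ps φ).range M := syl_mk lM pT (by
    have := card_mul_relIndex lM
    rw [cT, ← Nat.card_congr e.toEquiv, card_Wr, Nat.card_perm, Nat.card_fin] at this
    norm_num [Nat.factorial] at this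
    omega)
  have syl : Syl 2 (ps φ).range ⊤ :=
    (syl_sylow_top T).of_card le_top (sM.card_eq ((syl_sylow_top T).of_le hM.2 le_top))
  have tl : ∀ {Y : Subgroup W} {w}, w ∈ Y → w ≠ 1 → IsTwoLocal N(S φ Y) := fun {Y w} hw n =>
    ⟨_, (pT.of_le S_le).isPGroup, ne_bot_of_mem (mem_S hw) fun e => n (pi (e.trans (map_one _).symm)), rfl⟩
  refine St.final (φ := φ) ⟨inj, ?_, syl, ?_, H10.no_index_two_of_simple hG, fun A l h1 h2 => ?_⟩
  · rw [rg]
    refine (hM.1.2 _ (tl (w := z1) (by decide) (by decide)) ?_).le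
    rw [← rg]; rintro _ ⟨m, rfl⟩
    exact norm_S fun w hw => let ⟨w', h, e⟩ := nA m hw; ⟨w', h, .m e⟩
  · have o : orderOf (ps φ zz) = 2 := by rw [orderOf_injective _ pi]; exact orderOf_eq_prime rfl (by decide)
    have e : N(zpowers (ps φ zz)) = C[ps φ zz] := le_antisymm (fun g hg => by
      rcases mem_zpowers_of_sq (by rw [← sq, ← o, pow_orderOf_eq_one]) (conj_mem_of_norm hg (mem_zpowers _)) with e | e
      · simp [conj_eq_one_iff.1 e] at o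
      · exact mem_cent1.2 (mul_inv_eq_iff_eq_mul.1 e)) (cent1_le_norm_zpowers _)
    obtain ⟨S, hS⟩ := syl.exists_sylow_top
    have := hQ.2.2 _ ⟨zpowers (ps φ zz), (PiN.of_card Nat.prime_two (by rw [Nat.card_zpowers, o])).isPGroup,
      by rw [Ne, zpowers_eq_bot]; exact fun e => by simp [e] at o, e.symm⟩ ⟨S, by
        rw [hS]; rintro _ ⟨t, rfl⟩
        exact mem_cent1.2 (by rw [← map_mul, ← map_mul]; exact congrArg _ (by revert t; decide +kernel))⟩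
    rw [← pCore_map_eq Nat.prime_two]
    rintro x ⟨hx, c⟩
    exact ⟨⟨x, hx⟩, this (mem_centralizer_iff.2 fun y hy => Subtype.ext (mem_cent.1 c _ ⟨y, hy, rfl⟩)), rfl⟩
  · have := hQ.1 3 (by norm_num) (by norm_num) _ (tl (Y := Q 4 0) (w := z2) (by decide) (by decide)) (A.subgroupOf _)
      inferInstance fun a ha => Subtype.ext (h2 _ ha)
    rwa [card_subgroupOf' l] at this

end H9.WW
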